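/-
P12: basic facts on `C(P) = P × V` and on the `p`-singular elements.
-/
import Cfsg.Agent.P12.Defs
import Cfsg.Agent.FT.P.CH2_2

set_option autoImplicit false

namespace Cfsg.Agent.P12

open Subgroup Cfsg Cfsg.Agent Cfsg.Agent.FT Cfsg.Agent.P1 Cfsg.Agent.H7.PCl
open scoped ComplexConjugate

universe u

variable {G : Type u} [Group G] [Finite G]

theorem sum_ti {A : Set G} {L : Subgroup G} (h : NormedTI A ⊤ L) {f : G → ℂ} (hf : f ∈ CF ⊤) :
    ∑ g ∈ fs (classSupp A ⊤), f g = L.index * ∑ a ∈ fs A, f a := by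
  classical
  have hφ : A.indicator (1 : G → ℂ) ∈ CFon L A := by
    refine ⟨mem_CF_of (fun x hx => Set.indicator_of_notMem (fun e => hx (h.subset e)) _)
      fun g hg x _ => ?_, fun x hx => Set.indicator_of_notMem hx _⟩
    by_cases hx : x ∈ A
    · rw [Set.indicator_of_mem hx, Set.indicator_of_mem (h.norm g hg x hx)]; rfl
    · rw [Set.indicator_of_notMem hx, Set.indicator_of_notMem fun e => hx ?_]
      simpa [mul_assoc] using h.norm g⁻¹ (inv_mem hg) _ e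
  have h1 := ip_ind_right h.le hf (A.indicator 1)
  rw [ip_def, ip_def, ← sum_fs_subset (A := classSupp A ⊤) (fun x _ => mem_top x) fun x _ hx => by
      rw [CFon_off (ind_mem_CFon ⊤ fun x _ hx => hφ.2 x hx) hx]; simp,
    ← sum_fs_subset h.subset fun x _ hx => by rw [hφ.2 x hx]; simp,
    sum_fs_congr (A := classSupp A ⊤) (g := f), sum_fs_congr (A := A) (g := f), card_top] at h1
  · have h2 : (Nat.card G : ℂ) = L.index * 𝐨(L) := by rw [← L.index_mul_card]; push_cast; rfl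
    have h3 := card_ne_zero_C L
    have h4 : (L.index : ℂ) ≠ 0 := Nat.cast_ne_zero.2 index_ne_zero_of_finite
    rw [h2] at h1
    field_simp at h1
    exact h1
  · intro x hx
    rw [Set.indicator_of_mem hx]; simp
  · rintro _ ⟨a, ha, g, -, rfl⟩
    rw [CF_conj (ind_mem_CF _ _ _) (mem_top g), h.ind_apply hφ ha, Set.indicator_of_mem ha]; simp

/-- The hypothesis together with the complement `V` of `P` in `C(P)`. -/
structure HV (P V : Subgroup G) (p r e t : ℕ) : Prop extends Hyp P p r e t where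
  nV : V ⊲ 𝐂(P)
  cV : (𝐨(V)).Coprime p
  iV : V.relIndex 𝐂(P) = p

theorem Hyp.exists_hv {P : Subgroup G} {p r e t : ℕ} (h : Hyp P p r e t) :
    ∃ V, HV P V p r e t := by
  obtain ⟨V, a, b, c⟩ := exists_compl h.hp h.hP h.syl
  exact ⟨V, h, a, b, c⟩

namespace Hyp

variable {P : Subgroup G} {p r e t : ℕ} (h : Hyp P p r e t)
include h

theorem comm : IsMulCommutative P :=
  isMulComm_of_isCyclic (isCyclic_of_card_prime (h.hP ▸ h.hp))

theorem le_cent : P ≤ 𝐂(P) := isMulComm_iff_le_cent.1 h.comm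

theorem ord {y : G} (hy : y ∈ P) (h1 : y ≠ 1) : orderOf y = p := orderOf_eq_of_mem h.hp h.hP hy h1

theorem pow_p {y : G} (hy : y ∈ P) : y ^ p = 1 := by
  rw [← h.hP]; exact congrArg Subtype.val (pow_card_eq_one' (x := (⟨y, hy⟩ : P)))

theorem cent {y : G} (hy : y ∈ P) (h1 : y ≠ 1) : 𝐂[y] = 𝐂(P) := cent_eq_of_mem h.hp h.hP hy h1

theorem exists_gen : ∃ x ∈ P, x ≠ 1 := by
  obtain ⟨x, hx, ho⟩ := exists_mem_orderOf_eq_prime h.hp (H := P) (h.hP ▸ dvd_rfl)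
  exact ⟨x, hx, fun e => h.hp.one_lt.ne' (by rw [← ho, e, orderOf_one])⟩

theorem isSyl : IsSyl p P ⊤ :=
  (isSyl_iff_hall h.hp).2 ⟨le_top, isPi_of_card_prime h.hp h.hP rfl, fun q _ hq => by
    rw [Set.mem_singleton_iff.1 hq, relIndex_top_right]; exact h.syl⟩

theorem three_le : 3 ≤ p := by
  have := h.ht
  have := h.e2
  have := h.hp.two_le
  rcases Nat.eq_zero_or_pos t with rfl | ht
  · omega
  · nlinarith

theorem t_pos : 1 ≤ t := by
  have := h.ht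
  have := h.hp.two_le
  rcases Nat.eq_zero_or_pos t with rfl | ht
  · omega
  · exact ht

theorem odd : Odd p := h.hp.odd_of_ne_two (by have := h.three_le; omega)

theorem e_lt : e < p := by
  have := h.ht
  have := h.t_pos
  nlinarith

/-- An element of order `p` in `N(P)` lies in `P`. -/
theorem mem_of_pow {y : G} (hy : y ∈ 𝐍(P)) (hp : y ^ p = 1) : y ∈ P := by
  have hz : IsPGroup p (zpowers y) := by
    rcases (Nat.dvd_prime h.hp).1 (orderOf_dvd_of_pow_eq_one hp) with e | e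
    · exact isPGroup_of_card_eq (n := 0) (by rw [Nat.card_zpowers, e, pow_zero])
    · exact isPGroup_of_card_prime (by rw [Nat.card_zpowers, e])
  exact h.isSyl.le_of_norm h.hp hz le_top (zpowers_le.2 hy) (mem_zpowers y)

theorem exists_conj_mem {y : G} (hp : y ^ p = 1) : ∃ g : G, g * y * g⁻¹ ∈ P := by
  have hz : IsPGroup p (zpowers y) := by
    rcases (Nat.dvd_prime h.hp).1 (orderOf_dvd_of_pow_eq_one hp) with e | e
    · exact isPGroup_of_card_eq (n := 0) (by rw [Nat.card_zpowers, e, pow_zero])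
    · exact isPGroup_of_card_prime (by rw [Nat.card_zpowers, e])
  obtain ⟨g, -, hg⟩ := h.isSyl.exists_conj_le h.hp hz le_top
  exact ⟨g, hg (conj_mem_conj (mem_zpowers y) g)⟩

theorem ti {y g : G} (hy : y ∈ P) (h1 : y ≠ 1) (hg : g * y * g⁻¹ ∈ 𝐍(P)) : g ∈ 𝐍(P) :=
  mem_norm_of_conj h.hp h.hP (h.mem_of_pow hg (by rw [conj_pow, h.pow_p hy]; simp)) hy
    (by simpa using h1) rfl

theorem ker_eq {φ : G → ℂ} (hφ : φ ∈ CF ⊤) : cfKer φ = ⊥ ∨ cfKer φ = ⊤ :=
  h.simple.eq_bot_or_eq_top_of_normal _ (normal_iff_top_le.2 (le_norm_cfKer hφ))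

theorem faithful {χ : G → ℂ} (hχ : χ ∈ Irr ⊤) (h1 : χ ≠ cf1 ⊤) {g : G} (hg : χ g = χ 1) : g = 1 := by
  rcases h.ker_eq (irr_mem_CF hχ) with e | e
  · exact mem_bot.1 (e ▸ (irr_isChar hχ).mem_cfKer_iff.2 hg)
  · exact (h1 ((irr_eq_cf1_iff hχ).2 e.ge)).elim

theorem sum_sharp_const (c : ℂ) : ∑ _y ∈ fs (sharp P), c = t * e * c := by
  have := sum_fs_sharp P fun _ => c
  rw [sum_fs_const, h.hP, ← h.ht, nsmul_eq_mul] at this
  push_cast at this
  linear_combination -this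

end Hyp

/-- Constant on the cosets `y V`, `y ∈ P^#`. -/
def VInv (P V : Subgroup G) (f : G → ℂ) : Prop := ∀ y ∈ P, y ≠ 1 → ∀ v ∈ V, f (y * v) = f y

namespace HV

variable {P V : Subgroup G} {p r e t : ℕ} (h : HV P V p r e t)
include h

theorem cardC : 𝐨(𝐂(P)) = 𝐨(V) * p := by rw [← H1.card_mul_relIndex h.nV.1, h.iV]

theorem cardN : 𝐨(𝐍(P)) = 𝐨(V) * p * e := by
  rw [← H1.card_mul_relIndex (cent_le_norm P), h.cardC, h.he]

theorem cardG : Nat.card G = 𝐨(V) * p * e * (1 + r * p) := by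
  rw [← (𝐍(P)).card_mul_index, h.cardN, h.hn]

theorem indexC : (𝐂(P)).index = e * (1 + r * p) := by
  rw [← relIndex_mul_index (cent_le_norm P), h.he, h.hn]

theorem disj : P ⊓ V = ⊥ := inf_eq_bot_of_coprime (by rw [h.hP]; exact h.cV.symm)

theorem dprod : DProd P V 𝐂(P) := by
  refine ⟨eq_of_le_of_card_ge (sup_le h.le_cent h.nV.1) ?_, h.nV.1, h.disj⟩
  rw [H1.card_sup_of_inf_eq_bot (h.le_cent.trans h.nV.2) h.disj, h.cardC, h.hP, mul_comm]

theorem dec {c : G} (hc : c ∈ 𝐂(P)) : ∃ y ∈ P, ∃ v ∈ V, y * v = c := by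
  rw [← h.dprod.sup] at hc
  exact (mem_sup_of_norm (h.nV.1.trans (cent_le_norm P))).1 hc

theorem comm' {y v : G} (hy : y ∈ P) (hv : v ∈ V) : Commute y v := mem_cent.1 (h.nV.1 hv) y hy

theorem cop {v : G} (hv : v ∈ V) : (orderOf v).Coprime p :=
  h.cV.coprime_dvd_left (orderOf_dvd_card_of_mem hv)

theorem not_dvd {v : G} (hv : v ∈ V) : ¬ p ∣ orderOf v :=
  (h.hp.coprime_iff_not_dvd).1 (h.cop hv).symm

theorem pow_mul {y v : G} (hy : y ∈ P) (hv : v ∈ V) : ∃ k, (y * v) ^ k = y := by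
  obtain ⟨k, -, hk⟩ := Nat.exists_mul_mod_eq_one_of_coprime (h.cop hv) h.hp.one_lt
  refine ⟨orderOf v * k, ?_⟩
  rw [(h.comm' hy hv).mul_pow, _root_.pow_mul v, pow_orderOf_eq_one, one_pow, mul_one,
    ← Nat.div_add_mod (orderOf v * k) p, hk, pow_add, _root_.pow_mul, h.pow_p hy, one_pow,
    one_mul, pow_one]

theorem dvd_order {y v : G} (hy : y ∈ P) (h1 : y ≠ 1) (hv : v ∈ V) : p ∣ orderOf (y * v) := by
  obtain ⟨k, hk⟩ := h.pow_mul hy hv
  rw [← h.ord hy h1]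
  nth_rw 1 [← hk]
  exact orderOf_pow_dvd k

theorem mem_V {c : G} (hc : c ∈ 𝐂(P)) (ho : ¬ p ∣ orderOf c) : c ∈ V := by
  obtain ⟨y, hy, v, hv, rfl⟩ := h.dec hc
  by_cases h1 : y = 1
  · rwa [h1, one_mul]
  · exact (ho (h.dvd_order hy h1 hv)).elim

theorem normV : 𝐍(P) ≤ 𝐍(V) := fun g hg => mem_norm_of_conj_le (by
  rintro _ ⟨v, hv, rfl⟩
  refine h.mem_V ((mem_normalizer_iff.1 (H1.normalizer_le_normalizer_centralizer P hg) v).1
    (h.nV.1 hv)) ?_
  have := h.not_dvd hv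
  rwa [← (MulAut.conj g).orderOf_eq v] at this)

theorem mem_A {c : G} : c ∈ (𝐂(P) : Set G) \ V ↔ ∃ y ∈ P, y ≠ 1 ∧ ∃ v ∈ V, y * v = c := by
  constructor
  · rintro ⟨hc, hV⟩
    obtain ⟨y, hy, v, hv, rfl⟩ := h.dec hc
    exact ⟨y, hy, fun e => hV (by rw [e, one_mul]; exact hv), v, hv, rfl⟩
  · rintro ⟨y, hy, h1, v, hv, rfl⟩
    exact ⟨mul_mem (h.le_cent hy) (h.nV.1 hv), fun e => h.not_dvd e (h.dvd_order hy h1 hv)⟩

theorem tiA : NormedTI ((𝐂(P) : Set G) \ V) ⊤ 𝐍(P) where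
  nonempty := by
    obtain ⟨x, hx, h1⟩ := h.exists_gen
    exact ⟨x * 1, h.mem_A.2 ⟨x, hx, h1, 1, one_mem _, rfl⟩⟩
  one_notMem := fun e => e.2 (one_mem V)
  subset := fun _ e => cent_le_norm P e.1
  le := le_top
  norm := fun g hg a ha => ⟨(mem_normalizer_iff.1 (H1.normalizer_le_normalizer_centralizer P hg) a).1
    ha.1, fun e => ha.2 ((mem_normalizer_iff.1 (h.normV hg) a).2 e)⟩
  ti := fun g _ a ha hg => by
    obtain ⟨y, hy, h1, v, hv, rfl⟩ := h.mem_A.1 ha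
    obtain ⟨k, hk⟩ := h.pow_mul hy hv
    refine h.ti hy h1 ?_
    rw [← hk, ← conj_pow]
    exact pow_mem (cent_le_norm P hg.1) k

theorem sing {g : G} : g ∈ classSupp ((𝐂(P) : Set G) \ V) ⊤ ↔ p ∣ orderOf g := by
  constructor
  · rintro ⟨a, ha, x, -, rfl⟩
    obtain ⟨y, hy, h1, v, hv, rfl⟩ := h.mem_A.1 ha
    have := h.dvd_order hy h1 hv
    rwa [← (MulAut.conj x).orderOf_eq] at this
  · intro hg
    have ho := orderOf_pow_orderOf_div (orderOf_pos g).ne' hg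
    obtain ⟨x, hx⟩ := h.exists_conj_mem (y := g ^ (orderOf g / p))
      (orderOf_dvd_iff_pow_eq_one.1 ho.dvd)
    have h1 : x * g ^ (orderOf g / p) * x⁻¹ ≠ 1 := fun e => h.hp.one_lt.ne' (by
      rw [← ho, conj_eq_one_iff.1 e, orderOf_one])
    refine ⟨x * g * x⁻¹, ⟨?_, fun e => h.not_dvd e ?_⟩, x⁻¹, mem_top _, by group⟩
    · rw [← h.cent hx h1, ← conj_pow]
      exact cent1_le_cent1_pow _ _ (self_mem_cent1 _)
    · rwa [← (MulAut.conj x).orderOf_eq] at hg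

theorem sum_sing {f : G → ℂ} (hf : f ∈ CF ⊤) (hV : VInv P V f) :
    ∑ g ∈ fs ((⊤ : Subgroup G) : Set G), f g = ∑ g ∈ fs (regSet p ⊤), f g +
      (1 + r * p) * 𝐨(V) * ∑ y ∈ fs (sharp P), f y := by
  have h1 : ((⊤ : Subgroup G) : Set G) \ regSet p ⊤ = classSupp ((𝐂(P) : Set G) \ V) ⊤ := by
    ext g
    rw [h.sing, Set.mem_diff, mem_regSet, Nat.coprime_comm, h.hp.coprime_iff_not_dvd]
    simp
  have h2 := h.dprod.sum_eq f
  rw [sum_fs_diff (A := V) h.nV.1, sum_fs_sharp P, sum_fs_congr (A := sharp P)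
    (g := fun y => 𝐨(V) * f y) fun y hy => by
      rw [sum_fs_congr (g := fun _ => f y) (hV y hy.1 hy.2), sum_fs_const, nsmul_eq_mul],
    ← Finset.mul_sum] at h2
  simp only [one_mul, add_right_inj] at h2
  rw [sum_fs_diff (regSet_subset p ⊤), h1, sum_ti h.tiA hf, h2, h.hn, mul_assoc]
  push_cast; rfl

theorem vinv {χ : G → ℂ} (hχ : χ ∈ B0 p ⊤) : VInv P V χ := fun y hy h1 v hv => by
  have := B0_apply_mul h.hp (K := ⊤) (N := V) (u := y) (y := 1) (k := 1) (mem_top y)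
    (by rw [pow_one, h.pow_p hy]) (one_mem_regSet _ _) (by rw [top_inf_eq, h.cent hy h1]; exact h.nV)
    h.cV hv hχ
  simpa using this

open Classical in
theorem avg {χ : G → ℂ} (hχ : χ ∈ Irr ⊤) {y : G} (hy : y ∈ P) (h1 : y ≠ 1) :
    ∑ v ∈ fs (V : Set G), χ (v * y) = if χ ∈ B0 p ⊤ then 𝐨(V) * χ y else 0 :=
  sum_coset_B0 h.hp (h.pow_p hy) (k := 1) (by rw [h.cent hy h1]; exact h.nV) h.cV
    (by rw [h.cent hy h1, h.iV, pow_one]) hχ

/-- A nontrivial member of the principal block has nonzero sum on `P^#`. -/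
theorem sum_sharp_ne_zero {χ : G → ℂ} (hχ : χ ∈ B0 p ⊤) : ∑ y ∈ fs (sharp P), χ y ≠ 0 := by
  intro e
  have hi := B0_subset _ _ hχ
  by_cases h1 : χ = cf1 ⊤
  · rw [sum_fs_congr (g := fun _ => 1) fun y _ => by rw [h1, cf1_of_mem (mem_top y)],
      h.sum_sharp_const] at e
    have := h.t_pos
    have := h.e2
    norm_cast at e
    nlinarith
  · have h2 := ip_irr_of_ne hi (cf1_mem_Irr ⊤) h1
    rw [ip_cf1_right, h.sum_sing (irr_mem_CF hi) (h.vinv hχ), e, mul_zero, add_zero,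
      mul_eq_zero] at h2
    exact h2.elim (inv_ne_zero (card_ne_zero_C _)) (mem_B0.1 hχ).2

/-- Characters which agree on the `p`-regular elements have the same sums on `P^#`. -/
theorem sum_sharp_eq {f f' : G → ℂ} (hf : f ∈ CF ⊤) (hf' : f' ∈ CF ⊤) (hV : VInv P V f)
    (hV' : VInv P V f') (hr : ∀ g, ¬ p ∣ orderOf g → f g = f' g)
    (hs : ∑ g ∈ fs ((⊤ : Subgroup G) : Set G), f g = ∑ g ∈ fs ((⊤ : Subgroup G) : Set G), f' g) :
    ∑ y ∈ fs (sharp P), f y = ∑ y ∈ fs (sharp P), f' y := by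
  rw [h.sum_sing hf hV, h.sum_sing hf' hV', sum_fs_congr (g := f') fun g hg =>
    hr g (h.hp.coprime_iff_not_dvd.1 hg.2.symm), add_right_inj] at hs
  refine mul_left_cancel₀ (mul_ne_zero ?_ (card_ne_zero_C V)) hs
  exact_mod_cast (by omega : 1 + r * p ≠ 0)

end HV

end Cfsg.Agent.P12
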