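/-
P12: the structure of the principal block.
-/
import Cfsg.Agent.P12.B1
import Cfsg.Agent.FT.P.CH1_2

set_option autoImplicit false

namespace Cfsg.Agent.P12

open Subgroup Cfsg Cfsg.Agent Cfsg.Agent.FT Cfsg.Agent.P1 Cfsg.Agent.H7.PCl
open scoped ComplexConjugate

universe u

variable {G : Type u} [Group G] [Finite G]

/-- The principal block: `e` non-exceptional and `t` exceptional characters. -/
structure Blk (P : Subgroup G) (p e t : ℕ) (NE EX : Finset (G → ℂ)) (δ : (G → ℂ) → ℤ) (δ0 : ℤ) :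
    Prop where
  mem : ∀ χ, χ ∈ B0 p ⊤ ↔ χ ∈ NE ∨ χ ∈ EX
  disj : Disjoint NE EX
  cN : NE.card = e
  cE : EX.card = t
  one : cf1 ⊤ ∈ NE
  sg : ∀ χ ∈ NE, δ χ = 1 ∨ δ χ = -1
  val : ∀ χ ∈ NE, ∀ y ∈ P, y ≠ 1 → χ y = δ χ
  sg0 : δ0 = 1 ∨ δ0 = -1
  val0 : ∀ y ∈ P, y ≠ 1 → ∑ θ ∈ EX, θ y = δ0
  reg : ∀ θ ∈ EX, ∀ θ' ∈ EX, ∀ g, ¬ p ∣ orderOf g → θ g = θ' g

theorem int_of_stable {S : Finset (G → ℂ)} (hS : S ⊆ Irr ⊤)
    (h : ∀ u : ℂ →+* ℂ, ∀ χ ∈ S, cfAut u χ ∈ S) (g : G) : ∃ z : ℤ, ∑ χ ∈ S, χ 1 * χ g = z := by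
  classical
  refine int_of_aut_fixed (IsIntegral.sum _ fun χ hχ => ((irr_isChar (hS hχ)).isIntegral 1).mul
    ((irr_isChar (hS hχ)).isIntegral g)) fun u => ?_
  have h1 : S.image (cfAut u) = S := Finset.eq_of_subset_of_card_le
    (Finset.image_subset_iff.2 (h u)) (Finset.card_image_of_injective _ (cfAut_injective u)).ge
  conv_rhs => rw [← h1]
  rw [Finset.sum_image fun _ _ _ _ e => cfAut_injective u e, map_sum]
  exact Finset.sum_congr rfl fun χ _ => map_mul u _ _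

theorem ip_const {P : Subgroup G} {χ α : G → ℂ} {c : ℂ} (h : ∀ y ∈ P, y ≠ 1 → χ y = c)
    (hα : α 1 = 0) : ip P χ α = c * ip P (cf1 P) α := by
  rw [ip_def, ip_def, mul_left_comm, Finset.mul_sum (a := c)]
  congr 1
  refine sum_fs_congr fun y hy => ?_
  by_cases h1 : y = 1
  · simp [h1, hα]
  · rw [h y hy h1, cf1_of_mem hy, one_mul]

theorem pm_of_mul {m : ℕ} {d c : ℤ} (hm : m ≠ 0) (hd : d ≠ 0) (h : m * d = c)
    (hc : c = 0 ∨ c = 1 ∨ c = -1) : d = 1 ∨ d = -1 := by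
  rcases hc with rfl | rfl | rfl
  · exact (mul_ne_zero (Nat.cast_ne_zero.2 hm) hd h).elim
  · exact Int.eq_one_or_neg_one_of_mul_eq_one (mul_comm d m ▸ h)
  · exact Int.eq_one_or_neg_one_of_mul_eq_neg_one (mul_comm d m ▸ h)

namespace HV

variable {P V : Subgroup G} {p r e t : ℕ} (h : HV P V p r e t)
include h

theorem aut_val (u : ℂ →+* ℂ) : ∃ k, ∀ y ∈ P, y ≠ 1 → (y ^ k ∈ P ∧ y ^ k ≠ 1) ∧
    ∀ φ ∈ VChar (⊤ : Subgroup G), u (φ y) = φ (y ^ k) := by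
  obtain ⟨k, -, hk, hu⟩ := exists_pow_of_aut u h.hp.pos
  refine ⟨k, fun y hy h1 => ⟨⟨pow_mem hy k, fun e => ?_⟩, fun φ hφ =>
    vchar_aut_apply hφ h.hp.pos hu (mem_top y) (h.pow_p hy)⟩⟩
  have := orderOf_dvd_of_pow_eq_one e
  rw [h.ord hy h1] at this
  exact h.hp.one_lt.ne' (Nat.eq_one_of_dvd_coprimes hk this dvd_rfl)

theorem const_pm (hL : LatStmt.{u}) {χ : G → ℂ} (hχ : χ ∈ B0 p ⊤) {c : ℂ}
    (hc : ∀ y ∈ P, y ≠ 1 → χ y = c) :
    ∃ d : ℤ, (d = 1 ∨ d = -1) ∧ ∀ y ∈ P, y ≠ 1 → χ y = d := by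
  classical
  obtain ⟨x, hx, x1⟩ := h.exists_gen
  have hi := B0_subset _ _ hχ
  obtain ⟨d, hd⟩ := int_of_aut_fixed ((irr_isChar hi).isIntegral x) fun u => by
    obtain ⟨k, hk⟩ := h.aut_val u
    rw [(hk x hx x1).2 χ (irr_mem_VChar hi), hc _ (hk x hx x1).1.1 (hk x hx x1).1.2, hc x hx x1]
  obtain rfl : c = d := (hc x hx x1).symm.trans hd
  refine ⟨d, ?_, hc⟩
  obtain ⟨m, c, ⟨ψ, hψ, hm⟩, hc', hv⟩ := hL G p P h.hp h.hP h.syl
    ((B0 p ⊤).filter fun ψ => ∀ y ∈ P, y ≠ 1 → ψ y = d) (Finset.filter_subset _ _)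
    ⟨χ, Finset.mem_filter.2 ⟨hχ, hc⟩⟩ (int_of_stable
      ((Finset.filter_subset _ _).trans (B0_subset _ _)) fun u ψ hψ => Finset.mem_filter.2
        ⟨cfAut_mem_B0 u (Finset.mem_filter.1 hψ).1, fun y hy h1 => by
          rw [cfAut, (Finset.mem_filter.1 hψ).2 y hy h1, map_intCast]⟩)
  have h1 := hv x hx x1
  rw [Finset.sum_congr rfl fun ψ hψ => by rw [(Finset.mem_filter.1 hψ).2 x hx x1],
    ← Finset.sum_mul, ← Nat.cast_sum] at h1
  refine pm_of_mul (fun e => hm (Finset.sum_eq_zero_iff.1 e ψ hψ)) (fun e => ?_)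
    (by exact_mod_cast h1) hc'
  refine h.sum_sharp_ne_zero hχ (Finset.sum_eq_zero fun y hy => ?_)
  rw [hc y (mem_fs.1 hy).1 (mem_fs.1 hy).2, e, Int.cast_zero]

theorem lin {l : G → ℂ} (hl : l ∈ Irr P) : l 1 = 1 := (isLin_of_comm h.comm hl).2.1

theorem sum_lin {y : G} (h1 : y ≠ 1) : ∑ l ∈ Irr P, l y = 0 := by
  have := sum_irr_one_mul P y
  rwa [if_neg h1, Finset.sum_congr rfl fun l hl => by rw [h.lin hl, one_mul]] at this

theorem sub_one {l : G → ℂ} (hl : l ∈ Irr P) : (l - cf1 P) 1 = 0 := by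
  rw [Pi.sub_apply, h.lin hl, cf1_of_mem (one_mem P), sub_self]

omit h in
theorem ip_class {χ : G → ℂ} (hχ : χ ∈ CF ⊤) {l l' : G → ℂ} (hl : l' ∈ cfClass 𝐍(P) l) :
    ip P χ l' = ip P χ l := by
  obtain ⟨g, hg, rfl⟩ := mem_cfClass.1 hl
  rw [← ip_cfConj_of_norm hg χ l, cfConj_eq_self hχ (mem_top g)]

open Classical in
theorem const_of {χ : G → ℂ} (hχ : χ ∈ CF ⊤) {m : ℂ}
    (hm : ∀ l ∈ (Irr P).erase (cf1 P), ip P χ l = m) {y : G} (hy : y ∈ P) (h1 : y ≠ 1) :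
    χ y = ip P χ (cf1 P) - m := by
  have h2 := apply_eq_sum_irr (res_mem_CF le_top hχ : res P χ ∈ _) y
  have h3 := h.sum_lin h1
  rw [← Finset.add_sum_erase _ _ (cf1_mem_Irr P), cf1_of_mem hy] at h2 h3
  rw [res_of_mem _ hy, ip_res_left, Finset.sum_congr rfl fun l hl => by rw [ip_res_left, hm l hl],
    ← Finset.mul_sum] at h2
  linear_combination h2 + m * h3

open Classical in
theorem sum_x (χ : G → ℂ) : ∑ l ∈ (Irr P).erase (cf1 P), ip P χ (l - cf1 P) =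
    -∑ y ∈ fs (sharp P), χ y := by
  have hp0 : (p : ℂ) ≠ 0 := Nat.cast_ne_zero.2 h.hp.ne_zero
  rw [Finset.sum_erase _ (by simp), ← ip_sum_right, ip_def, sum_fs_sharp, Finset.sum_apply,
    Finset.sum_eq_zero fun l hl => h.sub_one hl, sum_fs_congr (g := fun y => χ y * -p), h.hP,
    ← Finset.sum_mul]
  · field_simp; simp
  · intro y hy
    rw [Finset.sum_apply]
    simp only [Pi.sub_apply, Finset.sum_sub_distrib, h.sum_lin hy.2, cf1_of_mem hy.1,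
      Finset.sum_const, card_Irr_of_comm h.comm, h.hP]
    simp

open Classical in
theorem class_sub {l : G → ℂ} (hl : l ∈ (Irr P).erase (cf1 P)) :
    cfClass 𝐍(P) l ⊆ (Irr P).erase (cf1 P) ∧ (cfClass 𝐍(P) l).card = e := by
  refine ⟨fun ψ hψ => Finset.mem_erase.2 ⟨fun e => (Finset.mem_erase.1 hl).1 ?_,
    cfClass_subset_Irr le_rfl (Finset.mem_of_mem_erase hl) hψ⟩, ?_⟩
  · obtain ⟨g, hg, rfl⟩ := mem_cfClass.mp (mem_cfClass_comm.mp hψ)
    rw [e, cfConj_cf1_of_norm hg]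
  · rw [card_cfClass, ← inf_relIndex_left, inf_inertia_eq h.hp h.hP (Finset.mem_of_mem_erase hl)
      (Finset.mem_erase.mp hl).1, h.he]

open Classical in
theorem exists_reps : ∃ X ⊆ (Irr P).erase (cf1 P), X.card = t ∧
    (∀ l ∈ X, ∀ l' ∈ X, l' ∈ cfClass 𝐍(P) l → l = l') ∧
    (∀ l ∈ (Irr P).erase (cf1 P), ∃ l' ∈ X, l ∈ cfClass 𝐍(P) l') ∧
    ∀ F : (G → ℂ) → ℂ, (∀ l l', l' ∈ cfClass 𝐍(P) l → F l' = F l) →
      ∑ l ∈ (Irr P).erase (cf1 P), F l = e * ∑ l ∈ X, F l := by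
  obtain ⟨X, hX, hi, him⟩ := Finset.exists_subset_injOn_image_eq_of_surjOn
    (f := cfClass 𝐍(P)) (((Irr P).erase (cf1 P) : Finset _) : Set (G → ℂ))
    (((Irr P).erase (cf1 P)).image (cfClass 𝐍(P))) (by rw [Finset.coe_image]; exact le_rfl)
  have h1 : ∀ l ∈ X, ∀ l' ∈ X, l' ∈ cfClass 𝐍(P) l → l = l' := fun l hl l' hl' e =>
    hi hl hl' (cfClass_eq_of_mem e).symm
  have h2 : ∀ l ∈ (Irr P).erase (cf1 P), ∃ l' ∈ X, l ∈ cfClass 𝐍(P) l' := fun l hl => by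
    obtain ⟨l', a, b⟩ := Finset.mem_image.1 (him ▸ Finset.mem_image_of_mem (cfClass 𝐍(P)) hl)
    exact ⟨l', a, b ▸ self_mem_cfClass _ _⟩
  have h3 : ∀ F : (G → ℂ) → ℂ, (∀ l l', l' ∈ cfClass 𝐍(P) l → F l' = F l) →
      ∑ l ∈ (Irr P).erase (cf1 P), F l = e * ∑ l ∈ X, F l := fun F hF => by
    have : (Irr P).erase (cf1 P) = X.biUnion (cfClass 𝐍(P)) := by
      ext l
      rw [Finset.mem_biUnion]
      exact ⟨h2 l, fun ⟨l', a, b⟩ => (h.class_sub (hX a)).1 b⟩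
    rw [this, Finset.sum_biUnion, Finset.mul_sum]
    · exact Finset.sum_congr rfl fun l hl => by
        rw [Finset.sum_congr rfl (hF l), Finset.sum_const, (h.class_sub (hX hl)).2, nsmul_eq_mul]
    · exact fun l hl l' hl' hne => Finset.disjoint_left.2 fun ψ a b => hne (h1 l hl l' hl'
        (cfClass_eq_of_mem a ▸ mem_cfClass_comm.1 b))
  refine ⟨X, hX, ?_, h1, h2, h3⟩
  have h4 := h3 (fun _ => 1) fun _ _ _ => rfl
  simp only [Finset.sum_const, nsmul_eq_mul, mul_one] at h4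
  have h5 := Finset.card_erase_add_one (cf1_mem_Irr P)
  rw [card_Irr_of_comm h.comm, h.hP, ← h.ht] at h5
  have h6 : ((Irr P).erase (cf1 P)).card = e * X.card := by exact_mod_cast h4
  have := h.e2
  exact Nat.eq_of_mul_eq_mul_left (n := e) (by omega) (by rw [← h6, mul_comm]; omega)

open Classical in
theorem sum_conj {l : G → ℂ} (hl : l ∈ (Irr P).erase (cf1 P)) (F : (G → ℂ) → ℂ) :
    ∑ g ∈ fs (𝐍(P) : Set G), F (cfConj g l) = 𝐨(𝐂(P)) * ∑ ψ ∈ cfClass 𝐍(P) l, F ψ := by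
  rw [sum_fs_cfConj, inf_inertia_eq h.hp h.hP (Finset.mem_of_mem_erase hl)
    (Finset.mem_erase.mp hl).1, nsmul_eq_mul]

open Classical in
theorem gram_one {l : G → ℂ} (hl : l ∈ (Irr P).erase (cf1 P)) :
    ∑ χ ∈ B0 p ⊤, ip P χ (l - cf1 P) * ip P (l - cf1 P) χ = e + 1 := by
  have hi := Finset.mem_of_mem_erase hl
  have h1 := gram_B0 h.hp h.hP h.nV h.cV h.iV (h.sub_one hi) (h.sub_one hi)
  rw [sum_fs_congr (g := fun g => ip P (cfConj g l - cf1 P) (l - cf1 P)) fun g hg => by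
      rw [map_sub, cfConj_cf1_of_norm hg],
    h.sum_conj hl fun ψ => ip P (ψ - cf1 P) (l - cf1 P), mul_right_inj' (card_ne_zero_C _),
    Finset.sum_congr (s₁ := cfClass 𝐍(P) l) rfl (g := fun ψ => 1 + if ψ = l then 1 else 0)
      fun ψ hψ => by
      have hψ' := (h.class_sub hl).1 hψ
      rw [ip_sub_left, ip_sub_right, ip_sub_right, ip_irr (Finset.mem_of_mem_erase hψ') hi,
        ip_irr_of_ne (Finset.mem_of_mem_erase hψ') (cf1_mem_Irr P) (Finset.mem_erase.mp hψ').1,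
        ip_irr_of_ne (cf1_mem_Irr P) hi (Finset.mem_erase.mp hl).1.symm,
        ip_irr_self (cf1_mem_Irr P)]
      ring,
    Finset.sum_add_distrib, Finset.sum_const, (h.class_sub hl).2, Finset.sum_ite_eq',
    if_pos (self_mem_cfClass _ _)] at h1
  rw [h1]; simp

open Classical in
theorem x_const {l χ : G → ℂ} (hl : l ∈ (Irr P).erase (cf1 P)) {d : ℤ} (hd : d = 1 ∨ d = -1)
    (hc : ∀ y ∈ P, y ≠ 1 → χ y = d) : ip P χ (l - cf1 P) * ip P (l - cf1 P) χ = 1 := by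
  have hi := Finset.mem_of_mem_erase hl
  have h1 : ip P χ (l - cf1 P) = (-d : ℤ) := by
    rw [ip_const hc (h.sub_one hi), ip_sub_right, ip_irr_self (cf1_mem_Irr P),
      ip_irr_of_ne (cf1_mem_Irr P) hi (Finset.mem_erase.mp hl).1.symm]
    simp
  rw [ip_comm_of_int h1, h1]
  rcases hd with rfl | rfl <;> simp

end HV

/-- The projection onto the principal block. -/
noncomputable def tau (p : ℕ) (P : Subgroup G) : (G → ℂ) →ₗ[ℂ] (G → ℂ) where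
  toFun β := ∑ χ ∈ B0 p ⊤, ip P β χ • χ
  map_add' a b := by simp only [ip_add_left, add_smul, Finset.sum_add_distrib]
  map_smul' c a := by simp only [ip_smul_left, mul_smul, Finset.smul_sum, RingHom.id_apply]

theorem tau_apply (p : ℕ) (P : Subgroup G) (β : G → ℂ) :
    tau p P β = ∑ χ ∈ B0 p ⊤, ip P β χ • χ := rfl

open Classical in
theorem ip_tau (p : ℕ) (P : Subgroup G) (β : G → ℂ) {χ : G → ℂ} (hχ : χ ∈ Irr ⊤) :
    ip ⊤ (tau p P β) χ = if χ ∈ B0 p ⊤ then ip P β χ else 0 := by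
  split_ifs with h
  · exact ((on_Irr ⊤).mono (B0_subset _ _)).ip_sum_smul _ h
  · rw [tau_apply, ip_sum_left]
    exact Finset.sum_eq_zero fun ψ hψ => by
      rw [ip_smul_left, ip_irr_of_ne (B0_subset _ _ hψ) hχ fun e => h (e ▸ hψ), mul_zero]

namespace HV

variable {P V : Subgroup G} {p r e t : ℕ} (h : HV P V p r e t)
include h

theorem tau_reg {β : G → ℂ} (hβ : β 1 = 0) {g : G} (hg : ¬ p ∣ orderOf g) : tau p P β g = 0 := by
  rw [tau_apply, Finset.sum_apply]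
  simp only [Pi.smul_apply, smul_eq_mul, ip_def, mul_assoc, ← Finset.mul_sum, Finset.sum_mul]
  rw [Finset.sum_comm, Finset.sum_eq_zero, mul_zero]
  intro u hu
  by_cases h1 : u = 1
  · simp [h1, hβ]
  · rw [← Finset.mul_sum, Finset.sum_congr rfl fun χ _ => mul_comm _ _, sum_B0_reg_sing h.hp ⊤
      (h.hp.coprime_iff_not_dvd.2 hg).symm (h.ord (mem_fs.mp hu) h1).symm.dvd, mul_zero]

open Classical in
theorem tau_iso {X : Finset (G → ℂ)} (hX : X ⊆ (Irr P).erase (cf1 P))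
    (hi : ∀ l ∈ X, ∀ l' ∈ X, l' ∈ cfClass 𝐍(P) l → l = l') {φ ψ : G → ℂ} (hφ : φ ∈ Zs0 X)
    (hψ : ψ ∈ Zs0 X) : ip ⊤ (tau p P φ) (tau p P ψ) = ip P φ ψ := by
  have h1 := gram_B0 h.hp h.hP h.nV h.cV h.iV hψ.2 hφ.2
  have h2 : ∑ g ∈ fs (𝐍(P) : Set G), ip P (cfConj g φ) ψ = 𝐨(𝐂(P)) * ip P φ ψ := by
    obtain ⟨a, rfl⟩ := mem_Zs_iff'.1 hφ.1
    obtain ⟨b, rfl⟩ := mem_Zs_iff'.1 hψ.1
    simp only [map_sum, map_smul, ip_sum_left, ip_sum_right, ip_smul_left, ip_smul_right]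
    rw [Finset.sum_comm, Finset.mul_sum]
    refine Finset.sum_congr rfl fun l' hl' => ?_
    rw [← Finset.mul_sum, mul_left_comm, Finset.sum_comm, Finset.mul_sum (a := (𝐨(𝐂(P)) : ℂ))]
    congr 1
    refine Finset.sum_congr rfl fun l hl => ?_
    rw [← Finset.mul_sum, h.sum_conj (hX hl) fun ψ => ip P ψ l', ← ip_sum_left,
      CH1.ip_sum_cfClass le_rfl (Finset.mem_of_mem_erase (hX hl)) (Finset.mem_of_mem_erase (hX hl')),
      ip_irr (Finset.mem_of_mem_erase (hX hl)) (Finset.mem_of_mem_erase (hX hl')), mul_left_comm]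
    congr 2
    exact if_congr ⟨hi l hl l' hl', fun e => e ▸ self_mem_cfClass _ _⟩ rfl rfl
  rw [h2, mul_right_inj' (card_ne_zero_C _)] at h1
  rw [← h1, tau_apply p P ψ, ip_sum_right]
  exact Finset.sum_congr rfl fun χ hχ => by
    rw [ip_smul_right, ip_tau p P φ (B0_subset _ _ hχ), if_pos hχ, conj_ip]

theorem exists_blk (hL : LatStmt.{u}) : ∃ NE EX δ δ0, Blk P p e t NE EX δ δ0 := by
  classical
  obtain ⟨X, hX, cX, hi, hcov, hsum⟩ := h.exists_reps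
  obtain ⟨x, hx, x1⟩ := h.exists_gen
  have hXi : ∀ l ∈ X, l ∈ Irr P := fun l hl => Finset.mem_of_mem_erase (hX hl)
  obtain ⟨l0, hl0⟩ : X.Nonempty := Finset.card_pos.1 (cX ▸ h.t_pos)
  set δ : (G → ℂ) → ℤ := fun χ => ⌊(χ x).re⌋ with hδdef
  have hδ : ∀ χ ∈ B0 p ⊤, (∀ l ∈ X, ip P χ l = ip P χ l0) →
      (δ χ = 1 ∨ δ χ = -1) ∧ ∀ y ∈ P, y ≠ 1 → χ y = δ χ := fun χ hχ hc => by
    have hf := irr_mem_CF (B0_subset _ _ hχ)
    obtain ⟨d, h1, h2⟩ := h.const_pm hL hχ fun y hy y1 => h.const_of hf (m := ip P χ l0)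
      (fun l hl => by obtain ⟨l', a, b⟩ := hcov l hl; rw [ip_class hf b, hc l' a]) hy y1
    obtain rfl : δ χ = d := by simp [hδdef, h2 x hx x1]
    exact ⟨h1, h2⟩
  have hg := h.gram_one (hX hl0)
  rcases h.t_pos.eq_or_lt with ht | ht
  · have h1 : ∀ χ ∈ B0 p ⊤, (δ χ = 1 ∨ δ χ = -1) ∧ ∀ y ∈ P, y ≠ 1 → χ y = δ χ := fun χ hχ =>
      hδ χ hχ fun l hl => by rw [Finset.card_le_one.1 (cX.trans ht.symm).le l hl l0 hl0]
    rw [Finset.sum_congr rfl fun χ hχ => h.x_const (hX hl0) (h1 χ hχ).1 (h1 χ hχ).2,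
      Finset.sum_const, nsmul_eq_mul, mul_one] at hg
    have h2 : (B0 p (⊤ : Subgroup G)).card = e + 1 := by exact_mod_cast hg
    obtain ⟨θ, hθ, θ1⟩ := Finset.exists_mem_ne (s := B0 p (⊤ : Subgroup G))
      (by have := h.e2; omega) (cf1 ⊤)
    exact ⟨(B0 p ⊤).erase θ, {θ}, δ, δ θ, fun χ => by
        by_cases e : χ = θ <;> simp [e, hθ], by simp, by rw [Finset.card_erase_of_mem hθ, h2]; rfl,
      by simp [← ht], Finset.mem_erase.2 ⟨θ1.symm, cf1_mem_B0 _ _⟩,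
      fun χ hχ => (h1 χ (Finset.mem_of_mem_erase hχ)).1,
      fun χ hχ => (h1 χ (Finset.mem_of_mem_erase hχ)).2, (h1 θ hθ).1,
      fun y hy y1 => by rw [Finset.sum_singleton, (h1 θ hθ).2 y hy y1],
      fun a ha b hb g _ => by rw [Finset.mem_singleton.1 ha, Finset.mem_singleton.1 hb]⟩
  obtain ⟨ε, hε, μ, hμ, inj, hτ⟩ := vchar_isometry_base (Y := ⊤) (τ := tau p P) hXi (cX ▸ ht)
    (fun l hl l' hl' => by rw [h.lin (hXi l hl), h.lin (hXi l' hl')])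
    (fun φ hφ ψ hψ => h.tau_iso hX hi hφ hψ) fun φ hφ => ⟨Submodule.sum_mem _ fun χ hχ => by
      obtain ⟨n, hn⟩ := vchar_ip_int (Zs_le_VChar (fun l hl => irr_mem_VChar (hXi l hl)) hφ.1)
        (vchar_res le_top (irr_mem_VChar (B0_subset _ _ hχ)))
      rw [← ip_res_right, hn]
      exact vchar_int_smul (irr_mem_VChar (B0_subset _ _ hχ)) n,
      h.tau_reg hφ.2 (by simpa using h.hp.one_lt.ne')⟩
  have e0 : (ε : ℂ) ≠ 0 := by rcases hε with rfl | rfl <;> simp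
  have hd : ∀ l ∈ X, ∀ l' ∈ X, (l - l') 1 = 0 := fun l hl l' hl' => by
    rw [Pi.sub_apply, h.lin (hXi l hl), h.lin (hXi l' hl'), sub_self]
  have k1 : ∀ χ ∈ Irr (⊤ : Subgroup G), ∀ l ∈ X, ∀ l' ∈ X, (if χ ∈ B0 p ⊤ then ip P (l - l') χ else 0) =
      ((ε * ((if μ l = χ then 1 else 0) - if μ l' = χ then 1 else 0) : ℤ) : ℂ) :=
    fun χ hχ l hl l' hl' => by
      rw [← ip_tau p P _ hχ, hτ l hl l' hl', ip_smul_left, ip_sub_left, ip_irr (hμ l hl) hχ,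
        ip_irr (hμ l' hl') hχ]
      push_cast; rfl
  have k2 : ∀ χ ∈ B0 p ⊤, ∀ l ∈ X, ∀ l' ∈ X, ip P χ (l - l') =
      ε * ((if μ l = χ then 1 else 0) - if μ l' = χ then 1 else 0) := fun χ hχ l hl l' hl' => by
    have := k1 χ (B0_subset _ _ hχ) l hl l' hl'
    rw [if_pos hχ] at this
    rw [ip_comm_of_int this]; push_cast; rfl
  have k0 : ∀ l ∈ X, ∃ l' ∈ X, μ l' ≠ μ l := fun l hl => by
    obtain ⟨l', a, b⟩ := Finset.exists_mem_ne (cX ▸ ht : 1 < X.card) l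
    exact ⟨l', a, fun e => b (inj a hl e)⟩
  have k3 : ∀ θ ∈ X.image μ, θ ∈ B0 p ⊤ := fun θ hθ => by
    obtain ⟨l, hl, rfl⟩ := Finset.mem_image.1 hθ
    obtain ⟨l', a, b⟩ := k0 l hl
    by_contra hn
    have := k1 _ (hμ l hl) l hl l' a
    rw [if_neg hn, if_pos rfl, if_neg b] at this
    exact e0 (by simpa using this.symm)
  have k4 : ∀ χ ∈ B0 p ⊤ \ X.image μ, (δ χ = 1 ∨ δ χ = -1) ∧ ∀ y ∈ P, y ≠ 1 → χ y = δ χ :=
    fun χ hχ => hδ χ (Finset.mem_sdiff.1 hχ).1 fun l hl => by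
      have hn : ∀ l ∈ X, μ l ≠ χ := fun l hl e =>
        (Finset.mem_sdiff.1 hχ).2 (e ▸ Finset.mem_image_of_mem μ hl)
      rw [← sub_eq_zero, ← ip_sub_right, k2 χ (Finset.mem_sdiff.1 hχ).1 l hl l0 hl0,
        if_neg (hn l hl), if_neg (hn l0 hl0)]
      simp
  have k5 : ∀ l ∈ X, ∀ l' ∈ X, ∀ {χ : G → ℂ} {c : ℂ}, (∀ y ∈ P, y ≠ 1 → χ y = c) →
      ip P χ (l - l') = 0 := fun l hl l' hl' χ c hc => by
    rw [ip_const hc (hd l hl l' hl'), ip_sub_right,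
      ip_irr_of_ne (cf1_mem_Irr P) (hXi l hl) (Finset.mem_erase.mp (hX hl)).1.symm,
      ip_irr_of_ne (cf1_mem_Irr P) (hXi l' hl') (Finset.mem_erase.mp (hX hl')).1.symm]
    simp
  have k6 : ∀ θ ∈ X.image μ, ∀ c : ℂ, ¬ ∀ y ∈ P, y ≠ 1 → θ y = c := fun θ hθ c hc => by
    obtain ⟨l, hl, rfl⟩ := Finset.mem_image.1 hθ
    obtain ⟨l', a, b⟩ := k0 l hl
    have := k2 _ (k3 _ hθ) l hl l' a
    rw [k5 l hl l' a hc, if_pos rfl, if_neg b] at this
    exact e0 (by simpa using this.symm)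
  have k7 : ∀ θ ∈ X.image μ, ∀ θ' ∈ X.image μ, ∀ g, ¬ p ∣ orderOf g → θ g = θ' g :=
    fun θ hθ θ' hθ' g hg => by
      obtain ⟨l, hl, rfl⟩ := Finset.mem_image.1 hθ
      obtain ⟨l', hl', rfl⟩ := Finset.mem_image.1 hθ'
      have := h.tau_reg (hd l hl l' hl') hg
      rw [hτ l hl l' hl'] at this
      exact sub_eq_zero.1 ((mul_eq_zero.1 this).resolve_left e0)
  have cE : (X.image μ).card = t := by rw [Finset.card_image_of_injOn inj, cX]
  obtain ⟨m, c, ⟨θ0, hθ0, hm⟩, hc, hv⟩ := hL G p P h.hp h.hP h.syl (X.image μ) k3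
    ⟨_, Finset.mem_image_of_mem μ hl0⟩ (int_of_stable (fun θ hθ => B0_subset _ _ (k3 θ hθ))
      fun u θ hθ => by
        by_contra hn
        refine k6 θ hθ (δ (cfAut u θ)) fun y hy y1 => u.injective ?_
        rw [map_intCast]
        exact (k4 _ (Finset.mem_sdiff.2 ⟨cfAut_mem_B0 u (k3 θ hθ), hn⟩)).2 y hy y1)
  have k8 : ∀ θ ∈ X.image μ, m θ = m θ0 := fun θ hθ => by
    obtain ⟨l, hl, rfl⟩ := Finset.mem_image.1 hθ
    obtain ⟨l', hl', rfl⟩ := Finset.mem_image.1 hθ0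
    have := k5 l hl l' hl' (χ := ∑ θ ∈ X.image μ, (m θ : ℂ) • θ) (c := c) fun y hy y1 => by
      rw [← hv y hy y1, Finset.sum_apply]; rfl
    rw [ip_sum_left, Finset.sum_congr rfl fun θ hθ => by
      rw [ip_smul_left, k2 θ (k3 θ hθ) l hl l' hl', mul_left_comm], ← Finset.mul_sum] at this
    simp only [mul_sub, mul_ite, mul_one, mul_zero, Finset.sum_sub_distrib, Finset.sum_ite_eq,
      if_pos hθ, if_pos hθ0] at this
    rw [← mul_sub, mul_eq_zero, sub_eq_zero] at this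
    exact_mod_cast this.resolve_left e0
  have m0 : (m θ0 : ℂ) ≠ 0 := Nat.cast_ne_zero.2 hm
  have k9 : ∀ y ∈ P, y ≠ 1 → (m θ0 : ℂ) * ∑ θ ∈ X.image μ, θ y = c := fun y hy y1 => by
    rw [← hv y hy y1, Finset.mul_sum]
    exact Finset.sum_congr rfl fun θ hθ => by rw [k8 θ hθ]
  obtain ⟨δ0, hδ0⟩ := int_of_aut_fixed (z := ∑ θ ∈ X.image μ, θ x) (IsIntegral.sum _ fun θ hθ =>
    (irr_isChar (B0_subset _ _ (k3 θ hθ))).isIntegral x) fun u => by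
      obtain ⟨k, hk⟩ := h.aut_val u
      rw [map_sum, Finset.sum_congr rfl fun θ hθ =>
        (hk x hx x1).2 θ (irr_mem_VChar (B0_subset _ _ (k3 θ hθ)))]
      exact mul_left_cancel₀ m0 ((k9 _ (hk x hx x1).1.1 (hk x hx x1).1.2).trans (k9 x hx x1).symm)
  have k10 : ∀ y ∈ P, y ≠ 1 → ∑ θ ∈ X.image μ, θ y = δ0 := fun y hy y1 =>
    hδ0 ▸ mul_left_cancel₀ m0 ((k9 y hy y1).trans (k9 x hx x1).symm)
  have k11 : cf1 ⊤ ∉ X.image μ := fun e => k6 _ e 1 fun y _ _ => cf1_of_mem (mem_top y)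
  have t0 : (t : ℂ) ≠ 0 := Nat.cast_ne_zero.2 (by omega)
  have k12 : ∀ θ ∈ X.image μ, ∑ y ∈ fs (sharp P), θ y = e * δ0 := fun θ hθ => by
    have h0 : ∀ θ ∈ X.image μ, ∑ g ∈ fs ((⊤ : Subgroup G) : Set G), θ g = 0 := fun θ hθ => by
      have := ip_irr_of_ne (B0_subset _ _ (k3 θ hθ)) (cf1_mem_Irr ⊤) fun e => k11 (e ▸ hθ)
      rw [ip_cf1_right, mul_eq_zero] at this
      exact this.resolve_left (inv_ne_zero (card_ne_zero_C _))
    have h1 : ∑ θ' ∈ X.image μ, ∑ y ∈ fs (sharp P), θ' y = t * ∑ y ∈ fs (sharp P), θ y := by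
      rw [Finset.sum_congr rfl fun θ' hθ' => h.sum_sharp_eq (irr_mem_CF (B0_subset _ _ (k3 _ hθ')))
        (irr_mem_CF (B0_subset _ _ (k3 _ hθ))) (h.vinv (k3 _ hθ')) (h.vinv (k3 _ hθ))
        (k7 _ hθ' _ hθ) (by rw [h0 _ hθ', h0 _ hθ]), Finset.sum_const, cE, nsmul_eq_mul]
    rw [Finset.sum_comm, sum_fs_congr fun y hy => k10 y hy.1 hy.2, h.sum_sharp_const,
      mul_assoc] at h1
    exact (mul_left_cancel₀ t0 h1).symm
  have hs0 : δ0 = 1 ∨ δ0 = -1 := pm_of_mul hm (fun e => h.sum_sharp_ne_zero (k3 _ hθ0)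
    (by rw [k12 _ hθ0, e]; simp)) (by have := k9 x hx x1; rw [hδ0] at this; exact_mod_cast this) hc
  refine ⟨B0 p ⊤ \ X.image μ, X.image μ, δ, δ0, fun χ => ?_, Finset.sdiff_disjoint, ?_, cE,
    Finset.mem_sdiff.2 ⟨cf1_mem_B0 _ _, k11⟩, fun χ hχ => (k4 χ hχ).1, fun χ hχ => (k4 χ hχ).2,
    hs0, k10, k7⟩
  · rw [Finset.mem_sdiff]
    have := k3 χ
    tauto
  have e1 : (e : ℂ) ≠ 0 := Nat.cast_ne_zero.2 (by have := h.e2; omega)
  have k13 : ∀ l ∈ X, ip P (μ l) (l0 - cf1 P) = -(δ0 + ε) / t + if l = l0 then (ε : ℂ) else 0 :=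
    fun l hl => by
      have hθ := Finset.mem_image_of_mem μ hl
      have h1 := h.sum_x (μ l)
      rw [k12 _ hθ, hsum _ fun a b hb => by
        rw [ip_sub_right, ip_sub_right, ip_class (irr_mem_CF (hμ l hl)) hb],
        Finset.sum_congr rfl (g := fun l' => ip P (μ l) (l0 - cf1 P) - (if l = l0 then (ε : ℂ) else 0)
          + if l' = l then (ε : ℂ) else 0) fun l' hl' => by
          have := k2 _ (k3 _ hθ) l' hl' l0 hl0
          rw [if_congr (inj.eq_iff hl' hl) rfl rfl, if_congr ((inj.eq_iff hl0 hl).trans eq_comm)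
            rfl rfl, ip_sub_right] at this
          rw [ip_sub_right, ip_sub_right]
          split_ifs at this ⊢ <;> linear_combination this,
        Finset.sum_add_distrib, Finset.sum_const, Finset.sum_ite_eq', if_pos hl, cX,
        nsmul_eq_mul, ← mul_neg, mul_right_inj' e1] at h1
      field_simp
      linear_combination h1
  rw [← Finset.sum_sdiff (s₁ := X.image μ) k3, Finset.sum_congr rfl fun χ hχ =>
    h.x_const (hX hl0) (k4 χ hχ).1 (k4 χ hχ).2, Finset.sum_image fun a ha b hb => inj ha hb,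
    Finset.sum_congr (s₁ := X) rfl (g := fun l => (((δ0 : ℂ) + ε) / t) ^ 2 +
      if l = l0 then (ε : ℂ) ^ 2 - 2 * ε * (((δ0 : ℂ) + ε) / t) else 0) fun l hl => by
      rw [← conj_ip P (μ l), k13 l hl]
      split_ifs <;> simp <;> ring,
    Finset.sum_add_distrib, Finset.sum_ite_eq', if_pos hl0, Finset.sum_const, Finset.sum_const,
    cX, nsmul_eq_mul, nsmul_eq_mul, mul_one] at hg
  have k14 : (t : ℂ) * ((δ0 + ε) / t) ^ 2 + ((ε : ℂ) ^ 2 - 2 * ε * ((δ0 + ε) / t)) = 1 := by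
    field_simp
    rcases hε with rfl | rfl <;> rcases hs0 with rfl | rfl <;> push_cast <;> ring
  rw [k14, add_left_inj] at hg
  exact_mod_cast hg

end HV

end Cfsg.Agent.P12
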