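/-
P12: congruences between character values, and determinants.
-/
import Cfsg.Agent.P12.Defs
import Cfsg.Agent.H8.PComplement

set_option autoImplicit false

namespace Cfsg.Agent.P12

open Subgroup Cfsg Cfsg.Agent Cfsg.Agent.FT Cfsg.Agent.P1
open scoped ComplexConjugate

universe u

theorem val_pow_root {Γ : Type} [LinearOrderedCommGroupWithZero Γ] {v : Valuation ℂ Γ} {q : ℕ}
    (hq : q.Prime) (hv : v q < 1) (k : ℕ) {z : ℂ} (hz : z ^ q ^ k = 1) : v (z - 1) < 1 := by
  induction k generalizing z with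
  | zero => simp [show z = 1 by simpa using hz]
  | succ k ih =>
    have h0 := ih (z := z ^ q) (by rw [← pow_mul, ← pow_succ', hz])
    have h1 : z - 1 ∈ v.integer :=
      sub_mem (val_root_le (pow_ne_zero _ hq.ne_zero) hz) (one_mem _)
    obtain ⟨r, hr⟩ := exists_add_pow_prime_eq hq (⟨_, h1⟩ : v.integer) 1
    have h2 : (z - 1) ^ q = (z ^ q - 1) - q * ((z - 1) * r) := by
      have := congrArg Subtype.val hr
      push_cast at this
      rw [sub_add_cancel] at this
      linear_combination -this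
    rw [← pow_lt_one_iff hq.ne_zero, ← map_pow, h2]
    exact v.map_sub_lt h0 (val_mul_lt hv (val_mul_le h1 r.2))

variable {G : Type u} [Group G] [Finite G]

/-- `φ (x y) ≡ φ y` modulo `q` for a `q`-element `x` commuting with `y`. -/
theorem dvd_of_val {q k : ℕ} (hq : q.Prime) {H : Subgroup G} {φ : G → ℂ} (hφ : φ ∈ VChar H)
    {x y : G} (hx : x ∈ H) (hy : y ∈ H) (hxq : x ^ q ^ k = 1) (hxy : Commute x y) {a b : ℤ}
    (ha : φ (x * y) = a) (hb : φ y = b) : (q : ℤ) ∣ a - b := by
  obtain ⟨B, hv⟩ := exists_val hq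
  let K := closure ({x, y} : Set G)
  have hK : K ≤ H := (closure_le _).mpr (by rintro z (rfl | rfl) <;> assumption)
  have hxK : x ∈ K := subset_closure (by simp)
  have hyK : y ∈ K := subset_closure (by simp)
  have hc : IsMulCommutative K := isMulCommutative_closure (by
    rintro z (rfl | rfl) w (rfl | rfl)
    exacts [rfl, hxy.eq, hxy.eq.symm, rfl])
  have h1 : B.valuation (res K φ (x * y) - res K φ y) < 1 := by
    refine vchar_induction (P := fun ψ => B.valuation (ψ (x * y) - ψ y) < 1) (by simp) ?_ ?_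
      (vchar_res hK hφ)
    · intro χ hχ
      have hl := isLin_of_comm hc hχ
      rw [hl.2.2 x hxK y hyK, ← sub_one_mul]
      exact val_mul_lt (val_pow_root hq hv k (by rw [← hl.pow_apply hxK, hxq, hl.2.1]))
        (val_root_le (orderOf_pos y).ne' (hl.pow_card hyK))
    · intro ψ ψ' e e'
      rw [show (ψ - ψ') (x * y) - (ψ - ψ') y = (ψ (x * y) - ψ y) - (ψ' (x * y) - ψ' y) by
        simp only [Pi.sub_apply]; ring]
      exact B.valuation.map_sub_lt e e'
  rw [res_of_mem φ (K.mul_mem hxK hyK), res_of_mem φ hyK, ha, hb, ← Int.cast_sub] at h1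
  by_contra c
  have h2 := val_nat_eq_one hv (n := (a - b).natAbs)
    (hq.coprime_iff_not_dvd.2 fun e => c (Int.natCast_dvd.2 e)).symm
  rcases Int.natAbs_eq (a - b) with e | e
  · rw [e, Int.cast_natCast, h2] at h1; exact lt_irrefl _ h1
  · rw [e, Int.cast_neg, Valuation.map_neg, Int.cast_natCast, h2] at h1; exact lt_irrefl _ h1

/-- A virtual character with values `0, 1` off the identity does not vanish on elements whose order
is prime to the degree. -/
theorem ne_zero_of_val {φ : G → ℂ} (hφ : φ ∈ VChar (⊤ : Subgroup G)) {f m : ℕ} (h1 : φ 1 = f)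
    (f0 : f ≠ 0) (hm : m.Coprime f) (h : ∀ g, g ≠ 1 → orderOf g ∣ m → φ g = 0 ∨ φ g = 1) (g : G)
    (hg : orderOf g ∣ m) : φ g ≠ 0 := by
  induction hn : orderOf g using Nat.strong_induction_on generalizing g with
  | _ n ih =>
  by_cases g1 : g = 1
  · rw [g1, h1]; exact Nat.cast_ne_zero.2 f0
  intro c
  obtain ⟨q, hq, hd⟩ := Nat.exists_prime_and_dvd (mt orderOf_eq_one_iff.1 g1)
  obtain ⟨x, y, -, hy, e, hxy, ⟨k, hk⟩, hc⟩ := H8.exists_pPart_pPrimePart hq g
  have d := orderOf_dvd_of_mem_zpowers hy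
  have h2 := ih _ (hn ▸ lt_of_le_of_ne (Nat.le_of_dvd (orderOf_pos g) d) fun e' =>
    hq.coprime_iff_not_dvd.1 hc.symm (e' ▸ hd)) y (d.trans hg) rfl
  have h3 : ∀ b : ℕ, φ y = b → q ∣ b := fun b hb => by
    have := dvd_of_val hq hφ (mem_top x) (mem_top y) (hk ▸ pow_orderOf_eq_one x) hxy (a := 0)
      (b := b) (by rw [← e, c, Int.cast_zero]) (by rw [hb, Int.cast_natCast])
    exact Int.natCast_dvd_natCast.1 (by simpa using this)
  by_cases y1 : y = 1
  · exact hq.one_lt.ne' (Nat.eq_one_of_dvd_coprimes hm (hd.trans hg) (h3 f (y1 ▸ h1)))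
  · exact hq.one_lt.ne' (Nat.dvd_one.1 (h3 1 (by
      rw [(h y y1 (d.trans hg)).resolve_left h2, Nat.cast_one])))

theorem sum_root {m : ℕ} {z : ℂ} (hz : z ^ m = 1) :
    ∑ k ∈ Finset.range m, z ^ k = if z = 1 then (m : ℂ) else 0 := by
  split_ifs with h
  · simp [h]
  · rw [geom_sum_eq h, hz, sub_self, zero_div]

theorem prod_roots {m : ℕ} (hm : 0 < m) :
    ∏ a ∈ Polynomial.nthRootsFinset m (1 : ℂ), a = (-1) ^ (m + 1) := by
  have h := Complex.isPrimitiveRoot_exp m hm.ne'
  have h1 := congrArg (Polynomial.eval 0) (Polynomial.X_pow_sub_one_eq_prod hm h)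
  simp only [Polynomial.eval_sub, Polynomial.eval_pow, Polynomial.eval_X, zero_pow hm.ne',
    Polynomial.eval_one, Polynomial.eval_prod, Polynomial.eval_C, zero_sub] at h1
  rw [Finset.prod_neg, h.card_nthRootsFinset] at h1
  have h2 : ((-1 : ℂ) ^ m) * (-1) ^ m = 1 := by rw [← mul_pow]; simp
  rw [pow_succ]
  linear_combination (-(-1 : ℂ) ^ m) * h1 - (∏ a ∈ Polynomial.nthRootsFinset m (1 : ℂ), a) * h2

/-- The determinant of a character of a perfect group is trivial. -/
theorem det_eq (hG : ∀ x : G, x ∈ commutator G) {χ : G → ℂ} (hχ : IsChar ⊤ χ) {g : G} {ζ : ℂ}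
    {v A : ℕ} (hζ : ζ ^ orderOf g = 1) (h1 : χ 1 = v + A * orderOf g)
    (h : ∀ i, g ^ i ≠ 1 → χ (g ^ i) = v * ζ ^ i) :
    ζ ^ v * ((-1) ^ (orderOf g + 1)) ^ A = 1 := by
  classical
  obtain ⟨n, ρ, hρ⟩ := hχ.2.comp (Subgroup.topEquiv (G := G)).symm.toMonoidHom
  obtain ⟨b, l, h2, h3, h4, -⟩ := H6.exists_eigenvalues ρ g
  have hm := orderOf_pos g
  have h5 : ∏ i, l i = 1 := by
    have : LinearMap.toMatrix b b (ρ g) = Matrix.diagonal l := by
      ext i j
      rw [LinearMap.toMatrix_apply, h2, map_smul, b.repr_self, Matrix.diagonal_apply]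
      split_ifs with e
      · simp [e]
      · simp [Finsupp.single_apply, Ne.symm e]
    rw [← Matrix.det_diagonal, ← this, LinearMap.det_toMatrix]
    exact congrArg Units.val (Abelianization.commutator_subset_ker
      (LinearMap.det.comp ρ).toHomUnits (hG g))
  have h6 : ∀ a ∈ Polynomial.nthRootsFinset (orderOf g) (1 : ℂ),
      (Finset.univ.filter fun i => l i = a).card = (if a = ζ then v else 0) + A := fun a ha => by
    rw [Polynomial.mem_nthRootsFinset hm] at ha
    have a0 : a ≠ 0 := ne_zero_pow hm.ne' (ha ▸ one_ne_zero)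
    have e1 : ∀ z : ℂ, z ^ orderOf g = 1 → ∑ k ∈ Finset.range (orderOf g), z ^ k * a⁻¹ ^ k =
        if z = a then (orderOf g : ℂ) else 0 := fun z hz => by
      simp only [← mul_pow]
      rw [sum_root (by rw [mul_pow, hz, inv_pow, ha, inv_one, mul_one])]
      simp only [mul_inv_eq_one₀ a0]
    have e2 : ∑ k ∈ Finset.range (orderOf g), χ (g ^ k) * a⁻¹ ^ k =
        (Finset.univ.filter fun i => l i = a).card * orderOf g := by
      have : ∀ k, χ (g ^ k) = ∑ i, l i ^ k := fun k => by rw [← h4, hρ]; rfl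
      simp only [this, Finset.sum_mul]
      rw [Finset.sum_comm, Finset.sum_congr rfl fun i _ => e1 _ (h3 i), ← Finset.sum_filter]
      simp
    have e3 : ∑ k ∈ Finset.range (orderOf g), χ (g ^ k) * a⁻¹ ^ k =
        v * ∑ k ∈ Finset.range (orderOf g), ζ ^ k * a⁻¹ ^ k + A * orderOf g := by
      obtain ⟨m, hm'⟩ : ∃ m, orderOf g = m + 1 := ⟨_, (Nat.succ_pred_eq_of_pos hm).symm⟩
      rw [hm', Finset.sum_range_succ', Finset.sum_range_succ', mul_add, Finset.mul_sum,
        Finset.sum_congr rfl fun k hk => by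
          rw [h _ (pow_ne_one_of_lt_orderOf k.succ_ne_zero (by
            have := Finset.mem_range.1 hk; omega)), mul_assoc]]
      rw [pow_zero, h1, hm']
      simp [add_assoc]
    rw [e2, e1 _ hζ] at e3
    have : ((Finset.univ.filter fun i => l i = a).card : ℂ) = (if a = ζ then v else 0 : ℕ) + A := by
      refine mul_right_cancel₀ (Nat.cast_ne_zero.2 hm.ne') (e3.trans ?_)
      by_cases e : a = ζ
      · simp [e, add_mul]
      · simp [e, Ne.symm e]
    exact_mod_cast this
  rw [← Finset.prod_fiberwise_of_maps_to (g := l) (t := Polynomial.nthRootsFinset (orderOf g) 1)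
    fun i _ => (Polynomial.mem_nthRootsFinset hm _).2 (h3 i), Finset.prod_congr rfl fun a ha => by
      rw [Finset.prod_congr rfl fun i hi => (Finset.mem_filter.1 hi).2, Finset.prod_const, h6 a ha,
        pow_add, pow_ite, pow_zero], Finset.prod_mul_distrib, Finset.prod_pow, prod_roots hm,
    Finset.prod_ite_eq', if_pos ((Polynomial.mem_nthRootsFinset hm _).2 hζ)] at h5
  exact h5

end Cfsg.Agent.P12
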