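/-
P12: arithmetic.
-/
import Mathlib

set_option autoImplicit false

namespace Cfsg.Agent.P12

/-- The parameters of the degrees `a = v (p - v')` and `b = v' (p + v)`. -/
structure AB (p r v v' : ℕ) : Prop where
  v2 : 2 ≤ v
  le : v ≤ v'
  hp : v * v' + 1 = p
  hr : r + v' = v * v' + v

theorem AB.unique {p r v v' w w' : ℕ} (h : AB p r v v') (h' : AB p r w w') : v = w ∧ v' = w' := by
  obtain ⟨a1, a2, a3, a4⟩ := h
  obtain ⟨b1, b2, b3, b4⟩ := h'
  have e : v * v' = w * w' := by omega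
  rcases lt_trichotomy v w with c | c | c
  · nlinarith [show v' < w' by omega]
  · omega
  · nlinarith [show w' < v' by omega]

theorem type_core {p r α β : ℤ} (hp : 2 ≤ p) (rp : r < p) (hα : 0 ≤ α) (hβ : 1 ≤ β)
    (h : (α * p + 1) * (β * p - 1) = (p - 1) * (1 + r * p)) :
    (β = 1 ∧ α = r) ∨ (α = 0 ∧ β = r * (p - 1) + 1) ∨
      (1 ≤ α ∧ (α + 1) * (β - 1) + 1 = p ∧ r = α * β + 1) := by
  have h1 : (r - α * β) * (p - 1) = (α + 1) * (β - 1) :=
    mul_left_cancel₀ (show p ≠ 0 by omega) (by linear_combination -h)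
  have h2 : 0 ≤ r - α * β := by
    by_contra c
    nlinarith [mul_nonneg (show 0 ≤ α + 1 by omega) (show 0 ≤ β - 1 by omega)]
  rcases h2.eq_or_lt with c | c
  · rw [← c, zero_mul, eq_comm, mul_eq_zero] at h1
    obtain rfl : β = 1 := by omega
    exact .inl ⟨rfl, by omega⟩
  rcases hα.eq_or_lt with rfl | d
  · exact .inr (.inl ⟨rfl, by linear_combination -h1⟩)
  have h3 : r - α * β = 1 := by
    by_contra c'
    have c2 : 2 ≤ r - α * β := by omega
    nlinarith [mul_nonneg (show 0 ≤ r - α * β - 2 by omega) (show 0 ≤ p - 1 by omega),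
      mul_nonneg (show 0 ≤ α - 1 by omega) (show 0 ≤ β - 1 by omega)]
  rw [h3] at h1
  exact .inr (.inr ⟨d, by omega, by omega⟩)

theorem ab_of {p r : ℕ} (rp : r < p) {α β : ℕ} (h1 : (1 : ℤ) ≤ α) (hβ : (1 : ℤ) ≤ β)
    (h2 : ((α : ℤ) + 1) * (β - 1) + 1 = p) (h3 : (r : ℤ) = α * β + 1) :
    AB p r (α + 1) (β - 1) := by
  obtain ⟨b, rfl⟩ : ∃ b, β = b + 1 := ⟨β - 1, by omega⟩
  simp only [Nat.add_sub_cancel]
  push_cast at h2 h3
  refine ⟨by omega, ?_, by zify; linear_combination h2, by zify; linear_combination h3⟩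
  zify at rp ⊢
  nlinarith

theorem type_plus {p r u F : ℕ} (hp : 2 ≤ p) (rp : r < p) (hF : (F : ℤ) = u * p + 1)
    (h : (F : ℤ) ∣ (p - 1) * (1 + r * p)) : u = 0 ∨ u = r ∨ ∃ v v', AB p r v v' ∧ u + 1 = v := by
  obtain ⟨F', h⟩ := h
  have h0 : 0 < F' := by
    have : (0 : ℤ) < F * F' := by rw [← h]; exact mul_pos (by omega) (by positivity)
    by_contra c
    nlinarith [mul_nonneg (Int.natCast_nonneg F) (show 0 ≤ -F' by omega)]
  have h1 : F' = (1 + r * p - r - u * F') * p - 1 := by rw [hF] at h; linear_combination -h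
  obtain ⟨β, hβ⟩ := Int.eq_ofNat_of_zero_le (a := 1 + r * p - r - u * F') (by
    by_contra c
    nlinarith)
  rw [hβ] at h1
  have h2 : (1 : ℤ) ≤ β := by
    by_contra c
    obtain rfl : β = 0 := by omega
    simp at h1; omega
  rcases type_core (p := p) (r := r) (α := u) (by omega) (by omega) (by omega) h2
    (by rw [← hF, ← h1, h]) with a | a | a
  · exact .inr (.inl (by omega))
  · exact .inl (by omega)
  · exact .inr (.inr ⟨_, _, ab_of rp a.1 h2 a.2.1 a.2.2, rfl⟩)

theorem type_minus {p r u F : ℕ} (hp : 2 ≤ p) (rp : r < p) (hF : (F : ℤ) = u * p - 1)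
    (h : (F : ℤ) ∣ (p - 1) * (1 + r * p)) :
    u = 1 ∨ (F : ℤ) = (p - 1) * (1 + r * p) ∨ ∃ v v', AB p r v v' ∧ u = v' + 1 := by
  obtain ⟨F', h⟩ := h
  have h0 : 0 < F' := by
    have : (0 : ℤ) < F * F' := by rw [← h]; exact mul_pos (by omega) (by positivity)
    by_contra c
    nlinarith [mul_nonneg (Int.natCast_nonneg F) (show 0 ≤ -F' by omega)]
  have h1 : F' = (u * F' + r - r * p - 1) * p + 1 := by rw [hF] at h; linear_combination h
  obtain ⟨α, hα⟩ := Int.eq_ofNat_of_zero_le (a := u * F' + r - r * p - 1) (by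
    by_contra c
    nlinarith)
  rw [hα] at h1
  have h2 : (1 : ℤ) ≤ u := by
    by_contra c
    obtain rfl : u = 0 := by omega
    simp at hF
  rcases type_core (p := p) (r := r) (α := α) (by omega) (by omega) (by omega) h2
    (by rw [← hF, ← h1, h, mul_comm]) with a | a | a
  · exact .inl (by omega)
  · exact .inr (.inl (by rw [hF, a.2]; ring))
  · exact .inr (.inr ⟨_, _, ab_of rp a.1 h2 a.2.1 a.2.2, by omega⟩)

end Cfsg.Agent.P12
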