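/-
P12: degrees in the principal block.
-/
import Cfsg.Agent.P12.B2
import Cfsg.Agent.P12.Num
import Cfsg.Agent.P12.Fin1
import Cfsg.Agent.P12.Cong

set_option autoImplicit false

namespace Cfsg.Agent.P12

open Subgroup Cfsg Cfsg.Agent Cfsg.Agent.FT Cfsg.Agent.P1 Cfsg.Agent.H7.PCl
open scoped ComplexConjugate

universe u

/-- The types `n`, `p - 1`, `a`, `b` of a vertex of degree `F`, value `d` on `P#` and with
`l` the multiplicity of `1_P`. -/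
def Ty (p r F : ℕ) (d : ℤ) (l : ℕ) : Prop :=
  (d = 1 ∧ F = 1 + r * p ∧ l = r + 1) ∨ (d = -1 ∧ F + 1 = p ∧ l = 0) ∨
    ∃ v v', AB p r v v' ∧
      ((d = 1 ∧ F + v * v' = v * p ∧ l = v) ∨ (d = -1 ∧ F = v' * (p + v) ∧ l = v'))

theorem ty_of {p r F l : ℕ} {d : ℤ} (hp : 2 ≤ p) (rp : r < p) (hd : d = 1 ∨ d = -1)
    (hl : (F : ℤ) + (p - 1) * d = l * p) (h : (F : ℤ) ∣ (p - 1) * (1 + r * p)) (h1 : F ≠ 1)
    (h2 : (F : ℤ) ≠ (p - 1) * (1 + r * p)) : Ty p r F d l := by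
  rcases hd with rfl | rfl
  · obtain ⟨u, rfl⟩ : ∃ u, l = u + 1 := ⟨l - 1, by
      rcases l with _ | l
      · omega
      · rfl⟩
    have hF : (F : ℤ) = u * p + 1 := by push_cast at hl; linear_combination hl
    rcases type_plus hp rp hF h with rfl | rfl | ⟨v, v', h3, rfl⟩
    · exact (h1 (by omega)).elim
    · exact .inl ⟨rfl, by zify; linear_combination hF, rfl⟩
    · refine .inr (.inr ⟨_, v', h3, .inl ⟨rfl, ?_, rfl⟩⟩)
      have := h3.hp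
      zify at this ⊢
      linear_combination hF + this
  · have hF : (F : ℤ) = (l + 1 : ℕ) * p - 1 := by push_cast; linear_combination hl
    rcases type_minus hp rp hF h with e | e | ⟨v, v', h3, e⟩
    · obtain rfl : l = 0 := by omega
      exact .inr (.inl ⟨rfl, by omega, rfl⟩)
    · exact (h2 e).elim
    · obtain rfl : l = v' := by omega
      refine .inr (.inr ⟨v, _, h3, .inr ⟨rfl, ?_, rfl⟩⟩)
      have := h3.hp
      zify at this ⊢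
      push_cast at hF
      linear_combination hF - this

variable {G : Type u} [Group G] [Finite G]

/-- The multiplicity of `1_P` in a character. -/
noncomputable def ell (P : Subgroup G) (χ : G → ℂ) : ℕ := ⌊(ip P χ (cf1 P)).re⌋₊

theorem ell_eq (P : Subgroup G) {χ : G → ℂ} (hχ : IsChar ⊤ χ) : ip P χ (cf1 P) = ell P χ := by
  obtain ⟨n, hn⟩ := (hχ.res le_top).ip_nat (isChar_cf1 P)
  rw [ip_res_left] at hn
  simp [ell, hn]

theorem ell_mul (P : Subgroup G) {χ : G → ℂ} (hχ : IsChar ⊤ χ) :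
    (dg χ : ℂ) + ∑ y ∈ fs (sharp P), χ y = ell P χ * 𝐨(P) := by
  rw [← ell_eq P hχ, ip_cf1_right, sum_fs_sharp, hχ.one_eq, mul_comm,
    mul_inv_cancel_left₀ (card_ne_zero_C P)]

theorem sum_top_eq_zero {χ : G → ℂ} (hχ : χ ∈ Irr (⊤ : Subgroup G)) (h1 : χ ≠ cf1 ⊤) :
    ∑ g ∈ fs ((⊤ : Subgroup G) : Set G), χ g = 0 := by
  simpa [ip_cf1_right, Nat.card_pos.ne'] using ip_irr_of_ne hχ (cf1_mem_Irr ⊤) h1

theorem sum_top_norm {χ : G → ℂ} (hχ : χ ∈ Irr (⊤ : Subgroup G)) :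
    ∑ g ∈ fs ((⊤ : Subgroup G) : Set G), χ g * conj (χ g) = Nat.card G := by
  have := ip_irr_self hχ
  rw [ip_def, inv_mul_eq_one₀ (card_ne_zero_C _), card_top] at this
  exact this.symm

variable {P V : Subgroup G} {p r e t : ℕ} {NE EX : Finset (G → ℂ)} {δ : (G → ℂ) → ℤ} {δ0 : ℤ}

namespace Blk

variable (b : Blk P p e t NE EX δ δ0)
include b

theorem memN {χ : G → ℂ} (hχ : χ ∈ NE) : χ ∈ B0 p ⊤ := (b.mem χ).2 (.inl hχ)
theorem memE {χ : G → ℂ} (hχ : χ ∈ EX) : χ ∈ B0 p ⊤ := (b.mem χ).2 (.inr hχ)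
theorem irrN {χ : G → ℂ} (hχ : χ ∈ NE) : χ ∈ Irr ⊤ := B0_subset _ _ (b.memN hχ)
theorem irrE {χ : G → ℂ} (hχ : χ ∈ EX) : χ ∈ Irr ⊤ := B0_subset _ _ (b.memE hχ)
theorem ne_one {χ : G → ℂ} (hχ : χ ∈ EX) : χ ≠ cf1 ⊤ := fun e =>
  Finset.disjoint_left.1 b.disj b.one (e ▸ hχ)

theorem sum_B0 {M : Type*} [AddCommMonoid M] (F : (G → ℂ) → M) :
    ∑ χ ∈ B0 p ⊤, F χ = ∑ χ ∈ NE, F χ + ∑ χ ∈ EX, F χ := by
  classical
  rw [← Finset.sum_union b.disj]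
  exact Finset.sum_congr (Finset.ext fun χ => by rw [b.mem, Finset.mem_union]) fun _ _ => rfl

theorem sq {χ : G → ℂ} (hχ : χ ∈ NE) : (δ χ : ℂ) * δ χ = 1 := by
  rcases b.sg χ hχ with e | e <;> simp [e]

theorem sq0 : (δ0 : ℂ) * δ0 = 1 := by rcases b.sg0 with e | e <;> simp [e]

theorem sum_reg {θ : G → ℂ} (hθ : θ ∈ EX) {g : G} (hg : ¬ p ∣ orderOf g) (F : ℂ → ℂ) :
    ∑ θ' ∈ EX, F (θ' g) = t * F (θ g) := by
  rw [Finset.sum_congr rfl fun θ' h' => by rw [b.reg _ h' _ hθ g hg]]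
  simp [b.cE]

theorem charX : IsChar ⊤ (∑ θ ∈ EX, θ) :=
  IsChar.sum fun _ hθ => irr_isChar (b.irrE hθ)

end Blk

namespace HV

variable (h : HV P V p r e t) (b : Blk P p e t NE EX δ δ0)
include h b

theorem reg_one : ¬ p ∣ orderOf (1 : G) := by simpa using h.hp.one_lt.ne'

theorem δ_one : δ (cf1 ⊤) = 1 := by
  obtain ⟨x, hx, x1⟩ := h.exists_gen
  have := b.val _ b.one x hx x1
  rw [cf1_of_mem (mem_top x)] at this
  exact_mod_cast this.symm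

theorem exists_ex : ∃ θ, θ ∈ EX := Finset.card_pos.1 (b.cE ▸ h.t_pos)

theorem dg_ex {θ θ' : G → ℂ} (hθ : θ ∈ EX) (hθ' : θ' ∈ EX) : dg θ = dg θ' :=
  dg_congr (b.reg _ hθ _ hθ' 1 (h.reg_one b))

theorem sum_sharp_ex {θ : G → ℂ} (hθ : θ ∈ EX) : ∑ y ∈ fs (sharp P), θ y = e * δ0 := by
  have h1 : ∑ θ' ∈ EX, ∑ y ∈ fs (sharp P), θ' y = ∑ _θ' ∈ EX, ∑ y ∈ fs (sharp P), θ y :=
    Finset.sum_congr rfl fun θ' h' => h.sum_sharp_eq (irr_mem_CF (b.irrE h'))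
      (irr_mem_CF (b.irrE hθ)) (h.vinv (b.memE h')) (h.vinv (b.memE hθ)) (b.reg _ h' _ hθ)
      (by rw [sum_top_eq_zero (b.irrE h') (b.ne_one h'), sum_top_eq_zero (b.irrE hθ) (b.ne_one hθ)])
  rw [Finset.sum_comm, sum_fs_congr fun y hy => b.val0 y hy.1 hy.2, h.sum_sharp_const,
    Finset.sum_const, b.cE, nsmul_eq_mul, mul_assoc] at h1
  exact (mul_left_cancel₀ (Nat.cast_ne_zero.2 (Nat.ne_of_gt h.t_pos)) h1).symm

theorem sum_ex_sq {y : G} (hy : y ∈ P) (h1 : y ≠ 1) : ∑ θ ∈ EX, θ y * conj (θ y) = p - e := by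
  classical
  have := sum_B0_mul_conj h.hp h.hP h.nV h.cV h.iV hy hy h1 h1
  rw [if_pos ⟨1, by simp⟩, b.sum_B0, Finset.sum_congr rfl fun χ hχ => by
    rw [b.val χ hχ y hy h1, map_intCast, b.sq hχ], Finset.sum_const, b.cN] at this
  rw [← this]
  simp

theorem sum_sharp_sq {θ : G → ℂ} (hθ : θ ∈ EX) :
    ∑ y ∈ fs (sharp P), θ y * conj (θ y) = e * (p - e) := by
  have h0 : ∀ θ ∈ EX, θ * star θ ∈ CF ⊤ ∧ VInv P V (θ * star θ) := fun θ hθ =>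
    ⟨mul_mem_CF (irr_mem_CF (b.irrE hθ)) (star_mem_CF (irr_mem_CF (b.irrE hθ))),
      fun y hy h1 v hv => by simp only [Pi.mul_apply, star_apply', h.vinv (b.memE hθ) y hy h1 v hv]⟩
  have h1 : ∑ θ' ∈ EX, ∑ y ∈ fs (sharp P), θ' y * conj (θ' y) =
      ∑ _θ' ∈ EX, ∑ y ∈ fs (sharp P), θ y * conj (θ y) :=
    Finset.sum_congr rfl fun θ' h' => h.sum_sharp_eq (h0 _ h').1 (h0 _ hθ).1 (h0 _ h').2 (h0 _ hθ).2
      (fun g hg => by simp only [Pi.mul_apply, star_apply', b.reg _ h' _ hθ g hg])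
      ((sum_top_norm (b.irrE h')).trans (sum_top_norm (b.irrE hθ)).symm)
  rw [Finset.sum_comm, sum_fs_congr fun y hy => h.sum_ex_sq b hy.1 hy.2, h.sum_sharp_const,
    Finset.sum_const, b.cE, nsmul_eq_mul, mul_assoc] at h1
  exact (mul_left_cancel₀ (Nat.cast_ne_zero.2 (Nat.ne_of_gt h.t_pos)) h1).symm

theorem orth {θ : G → ℂ} (hθ : θ ∈ EX) {g : G} (hg : ¬ p ∣ orderOf g) :
    ∑ χ ∈ NE, δ χ * χ g + δ0 * θ g = 0 := by
  obtain ⟨x, hx, x1⟩ := h.exists_gen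
  have := sum_B0_reg_sing h.hp ⊤ (h.hp.coprime_iff_not_dvd.2 hg).symm (h.ord hx x1).symm.dvd
  rw [b.sum_B0, Finset.sum_congr rfl fun χ hχ => by
    rw [b.val χ hχ x hx x1, map_intCast, mul_comm], Finset.sum_congr (s₁ := EX) rfl fun θ' h' => by
    rw [b.reg _ h' _ hθ g hg], ← Finset.mul_sum, ← map_sum, b.val0 x hx x1, map_intCast,
    mul_comm (θ g)] at this
  exact this

theorem deg_eq {θ : G → ℂ} (hθ : θ ∈ EX) : ∑ χ ∈ NE, δ χ * dg χ + δ0 * dg θ = 0 := by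
  have := h.orth b hθ (h.reg_one b)
  rw [irr_one_eq (b.irrE hθ), Finset.sum_congr rfl fun χ hχ => by
    rw [irr_one_eq (b.irrN hχ)]] at this
  exact_mod_cast this

omit b in
theorem central {χ : G → ℂ} (hχ : χ ∈ Irr ⊤) {x : G} (hx : x ∈ P) (x1 : x ≠ 1) :
    IsIntegral ℤ ((e * (1 + r * p) : ℕ) * χ x / dg χ) := by
  have := irr_central_isIntegral hχ (mem_top x)
  rwa [relIndex_top_right, h.cent hx x1, h.indexC, irr_one_eq hχ] at this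

omit b in
theorem dvd_of_pm {f : ℕ} (f0 : f ≠ 0) {d : ℤ} (hd : d = 1 ∨ d = -1)
    (hi : IsIntegral ℤ (((e * (1 + r * p) : ℕ) * d : ℂ) / f)) : f ∣ e * (1 + r * p) := by
  have := H6.dvd_of_isIntegral_div (a := (e * (1 + r * p) : ℕ) * d) f0 (by exact_mod_cast hi)
  rcases hd with rfl | rfl
  · exact_mod_cast mul_one (_ : ℤ) ▸ this
  · rw [mul_neg, mul_one, dvd_neg] at this; exact_mod_cast this

theorem dvdN {χ : G → ℂ} (hχ : χ ∈ NE) : dg χ ∣ e * (1 + r * p) := by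
  obtain ⟨x, hx, x1⟩ := h.exists_gen
  exact h.dvd_of_pm (irr_dg_pos (b.irrN hχ)).ne' (b.sg χ hχ)
    (b.val χ hχ x hx x1 ▸ h.central (b.irrN hχ) hx x1)

theorem dvdE {θ : G → ℂ} (hθ : θ ∈ EX) : dg θ ∣ e * (1 + r * p) := by
  obtain ⟨x, hx, x1⟩ := h.exists_gen
  refine h.dvd_of_pm (irr_dg_pos (b.irrE hθ)).ne' b.sg0 ?_
  rw [← b.val0 x hx x1, Finset.mul_sum, Finset.sum_div]
  exact IsIntegral.sum _ fun θ' h' => h.dg_ex b h' hθ ▸ h.central (b.irrE h') hx x1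

theorem ellN {χ : G → ℂ} (hχ : χ ∈ NE) : (dg χ : ℤ) + (p - 1) * δ χ = ell P χ * p := by
  have := ell_mul P (irr_isChar (b.irrN hχ))
  rw [sum_fs_congr fun y hy => b.val χ hχ y hy.1 hy.2, h.sum_sharp_const, h.hP] at this
  have h1 : (dg χ : ℤ) + t * e * δ χ = ell P χ * p := by exact_mod_cast this
  rw [← h1, ← h.ht]
  push_cast
  ring

theorem ellE {θ : G → ℂ} (hθ : θ ∈ EX) : (dg θ : ℤ) + e * δ0 = ell P θ * p := by
  have := ell_mul P (irr_isChar (b.irrE hθ))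
  rw [h.sum_sharp_ex b hθ, h.hP] at this
  exact_mod_cast this

omit b in
theorem dg_ne_one {χ : G → ℂ} (hχ : χ ∈ Irr ⊤) (h1 : χ ≠ cf1 ⊤) : dg χ ≠ 1 := fun c => by
  have hl := (irr_isChar hχ).isLin_of_dg c
  refine h.not_comm ⟨⟨fun x y => ?_⟩⟩
  rw [← mul_inv_eq_one]
  refine h.faithful hχ h1 ?_
  rw [hl.2.2 _ (mem_top _) _ (mem_top _), hl.2.2 _ (mem_top _) _ (mem_top _), mul_comm (χ x),
    ← hl.2.2 _ (mem_top _) _ (mem_top _), hl.mul_inv (mem_top _), hl.2.1]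

omit b in
theorem dg_lt (hV : 𝐨(V) ≤ r) {χ : G → ℂ} (hχ : χ ∈ Irr (⊤ : Subgroup G)) :
    dg χ < e * (1 + r * p) := by
  have h1 := Finset.single_le_sum (f := fun χ : G → ℂ => dg χ ^ 2) (fun _ _ => Nat.zero_le _) hχ
  rw [sum_irr_dg_sq, card_top, h.cardG] at h1
  by_contra c
  have h2 := h.e2
  have h3 : 𝐨(V) * p < e * (1 + r * p) :=
    (Nat.mul_le_mul_right p hV).trans_lt (by nlinarith [Nat.zero_le (r * p)])
  have h4 := Nat.pow_le_pow_left (not_lt.1 c) 2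
  nlinarith [Nat.mul_lt_mul_of_pos_right h3 (show 0 < e * (1 + r * p) by positivity)]

omit b in
theorem pred_eq : (p : ℤ) - 1 = t * e := by rw [← h.ht]; push_cast; ring

theorem tyN (hV : 𝐨(V) ≤ r) {χ : G → ℂ} (hχ : χ ∈ NE) (h1 : χ ≠ cf1 ⊤) :
    Ty p r (dg χ) (δ χ) (ell P χ) := by
  refine ty_of h.hp.two_le h.rp (b.sg χ hχ) (h.ellN b hχ) ?_ (h.dg_ne_one (b.irrN hχ) h1)
    fun c => ?_
  · rw [h.pred_eq, mul_assoc]
    exact Dvd.dvd.mul_left (by exact_mod_cast h.dvdN b hχ) _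
  · have h2 := h.dg_lt hV (b.irrN hχ)
    have h3 := h.t_pos
    rw [h.pred_eq] at c
    have : dg χ = t * (e * (1 + r * p)) := by zify; linear_combination c
    nlinarith

theorem tyE (hV : 𝐨(V) ≤ r) {θ : G → ℂ} (hθ : θ ∈ EX) :
    Ty p r (t * dg θ) δ0 (t * ell P θ) := by
  refine ty_of h.hp.two_le h.rp b.sg0 ?_ ?_ (fun c => h.dg_ne_one (b.irrE hθ) (b.ne_one hθ)
    (Nat.eq_one_of_mul_eq_one_left c)) fun c => ?_
  · rw [h.pred_eq]
    push_cast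
    linear_combination t * h.ellE b hθ
  · rw [h.pred_eq, mul_assoc, Nat.cast_mul]
    exact mul_dvd_mul_left _ (by exact_mod_cast h.dvdE b hθ)
  · rw [h.pred_eq] at c
    have : t * dg θ = t * (e * (1 + r * p)) := by zify at c ⊢; linear_combination c
    exact (h.dg_lt hV (b.irrE hθ)).ne (Nat.eq_of_mul_eq_mul_left h.t_pos this)

end HV

end Cfsg.Agent.P12
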