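/-
P12, chapter GEO, part 1: the abstract setting, points and lines.
-/
import Cfsg.Agent.P12.Defs

set_option autoImplicit false

namespace Cfsg.Agent.P12.Geo

open Subgroup Cfsg Cfsg.Agent Cfsg.Agent.FT
open scoped Pointwise

universe u v

theorem modEq_fix {G : Type u} {α : Type v} [Group G] [MulAction G α] [Finite α] {l : ℕ}
    (hl : l.Prime) {y : G} (hy : y ^ l = 1) (X : Set α) (inv : ∀ x ∈ X, y • x ∈ X) :
    X.ncard ≡ {x | x ∈ X ∧ y • x = x}.ncard [MOD l] := by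
  classical
  have := Fact.mk hl
  have := Fintype.ofFinite X
  let f : Function.End X := fun x => ⟨y • x.1, inv _ x.2⟩
  have hf : ∀ (n : ℕ) (x : X), ((f ^ n) x).1 = y ^ n • x.1 := by
    intro n
    induction n with
    | zero => intro x; simp [Function.End.one_def]
    | succ n ih =>
      intro x
      rw [pow_succ', pow_succ', mul_smul, ← ih]
      rfl
  have h1 := Equiv.Perm.card_fixedPoints_modEq (f := f) (p := l) (n := 1) (by
    funext x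
    apply Subtype.ext
    rw [hf, pow_one, hy, one_smul]
    rfl)
  have e1 : X.ncard = Fintype.card X := by
    rw [← Nat.card_coe_set_eq, Nat.card_eq_fintype_card]
  have e2 : {x | x ∈ X ∧ y • x = x}.ncard = Fintype.card f.fixedPoints := by
    rw [← Nat.card_coe_set_eq, ← Nat.card_eq_fintype_card]
    refine Nat.card_congr ⟨fun x => ⟨⟨x.1, x.2.1⟩, Subtype.ext x.2.2⟩,
      fun x => ⟨x.1.1, x.1.2, congrArg Subtype.val x.2⟩, fun _ => rfl, fun _ => rfl⟩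
  rw [e1, e2]
  exact h1

theorem dvd_of_free {G : Type u} {α : Type v} [Group G] [MulAction G α] [Finite α] {l : ℕ}
    (hl : l.Prime) {y : G} (hy : y ^ l = 1) (X : Set α) (inv : ∀ x ∈ X, y • x ∈ X)
    (fr : ∀ x ∈ X, y • x ≠ x) : l ∣ X.ncard := by
  have h := modEq_fix hl hy X inv
  have : {x | x ∈ X ∧ y • x = x} = ∅ :=
    Set.eq_empty_of_forall_notMem fun x hx => fr x hx.1 hx.2
  rw [this, Set.ncard_empty] at h
  exact (Nat.modEq_zero_iff_dvd).1 h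

/-- The abstract setting: `S ω` is the Sylow subgroup attached to the point `ω`. -/
structure GS {G : Type u} {Ω : Type v} [Group G] [MulAction G Ω] (S : Ω → Subgroup G)
    (p r : ℕ) : Prop where
  hp : p.Prime
  cS : ∀ ω, 𝐨(S ω) = p
  eqv : ∀ (g : G) (ω : Ω) (x : G), x ∈ S (g • ω) ↔ g⁻¹ * x * g ∈ S ω
  fixS : ∀ ω, ∀ c ∈ 𝐂(S ω), c • ω = ω
  free : ∀ ω ω' : Ω, ∀ y ∈ S ω, y ≠ 1 → y • ω' = ω' → ω' = ω
  syl : ∀ ω, ∀ w ∈ 𝐂(S ω), orderOf w = p → w ∈ S ω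
  card : Nat.card Ω = 1 + r * p
  rp : r < p
  tr : ∀ ω ω' : Ω, ∃ g : G, g • ω = ω'
  faith : ∀ z : G, (∀ ω, z ∈ 𝐂(S ω)) → z = 1

variable {G : Type u} {Ω : Type v} [Group G] [MulAction G Ω] [Finite G] [Finite Ω]
  {S : Ω → Subgroup G} {p r : ℕ}

namespace GS

omit [Finite G] [Finite Ω] in
theorem cen_eqv (h : GS S p r) (g : G) (ω : Ω) (c : G) :
    c ∈ 𝐂(S (g • ω)) ↔ g⁻¹ * c * g ∈ 𝐂(S ω) := by
  simp only [mem_centralizer_iff, SetLike.mem_coe]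
  constructor
  · intro H x hx
    have := H (g * x * g⁻¹) ((h.eqv _ _ _).2 (by simpa [mul_assoc] using hx))
    calc x * (g⁻¹ * c * g) = g⁻¹ * (g * x * g⁻¹ * c) * g := by group
      _ = g⁻¹ * (c * (g * x * g⁻¹)) * g := by rw [this]
      _ = _ := by group
  · intro H x hx
    have := H _ ((h.eqv _ _ _).1 hx)
    calc x * c = g * (g⁻¹ * x * g * (g⁻¹ * c * g)) * g⁻¹ := by group
      _ = g * (g⁻¹ * c * g * (g⁻¹ * x * g)) * g⁻¹ := by rw [this]
      _ = _ := by group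

omit [Finite Ω] in
theorem zp (h : GS S p r) {ω : Ω} {y : G} (hy : y ∈ S ω) (y1 : y ≠ 1) : zpowers y = S ω := by
  have h1 : zpowers y ≤ S ω := zpowers_le.2 hy
  have h2 : 𝐨(zpowers y) ∣ p := h.cS ω ▸ Subgroup.card_dvd_of_le h1
  rcases (Nat.dvd_prime h.hp).1 h2 with e | e
  · exact absurd (by simpa using e) y1
  · exact eq_of_le_of_card_ge h1 (by rw [e, h.cS])

omit [Finite Ω] in
theorem gen (h : GS S p r) {ω : Ω} {y k : G} (hy : y ∈ S ω) (y1 : y ≠ 1) (hc : y * k = k * y) :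
    k ∈ 𝐂(S ω) := by
  rw [← h.zp hy y1, mem_centralizer_iff]
  rintro _ ⟨n, rfl⟩
  exact (Commute.zpow_left (show Commute y k from hc) n).eq

omit [Finite G] [Finite Ω] in
theorem ex_ne (h : GS S p r) (ω : Ω) : ∃ y ∈ S ω, y ≠ 1 := by
  by_contra hc
  push Not at hc
  have : S ω = ⊥ := (eq_bot_iff_forall _).2 hc
  have h1 := h.cS ω
  rw [this, card_bot] at h1
  exact h.hp.one_lt.ne h1

omit [Finite Ω] in
theorem ab (h : GS S p r) (ω : Ω) : S ω ≤ 𝐂(S ω) := by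
  intro k hk
  obtain ⟨y, hy, y1⟩ := h.ex_ne ω
  refine h.gen hy y1 ?_
  rw [← h.zp hy y1] at hk
  obtain ⟨n, rfl⟩ := hk
  exact (Commute.zpow_right (Commute.refl y) n).eq

omit [Finite G] [Finite Ω] in
theorem pow_p (h : GS S p r) {ω : Ω} {y : G} (hy : y ∈ S ω) : y ^ p = 1 := by
  have := pow_card_eq_one' (x := (⟨y, hy⟩ : S ω))
  rw [h.cS] at this
  exact congrArg Subtype.val this

theorem inj (h : GS S p r) {R : Ω} {A : Set Ω} (hR : R ∉ A)
    (hA : ∀ y ∈ S R, ∀ a ∈ A, y • a ∈ A → y = 1) : A.ncard ≤ r := by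
  let f : S R × A → ({R}ᶜ : Set Ω) := fun z => ⟨z.1.1 • z.2.1, fun e => hR (by
    have e' : z.1.1 • z.2.1 = R := e
    have : z.2.1 = R := by
      exact smul_left_cancel _ (e'.trans (h.fixS R _ (h.ab R z.1.2)).symm)
    exact this ▸ z.2.2)⟩
  have hf : Function.Injective f := by
    rintro ⟨y, a⟩ ⟨y', a'⟩ e
    have e' : y.1 • a.1 = y'.1 • a'.1 := congrArg Subtype.val e
    have e2 : (y'.1⁻¹ * y.1) • a.1 = a'.1 := by rw [mul_smul, e', inv_smul_smul]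
    have e3 := hA _ (mul_mem (inv_mem y'.2) y.2) a.1 a.2 (e2 ▸ a'.2)
    have e4 : y = y' := Subtype.ext (inv_mul_eq_one.1 e3).symm
    rw [e3, one_smul] at e2
    rw [e4, Subtype.ext e2]
  have h1 := Nat.card_le_card_of_injective f hf
  rw [Nat.card_prod, h.cS, Nat.card_coe_set_eq, Nat.card_coe_set_eq] at h1
  have h2 := Set.ncard_add_ncard_compl ({R} : Set Ω)
  rw [Set.ncard_singleton, h.card] at h2
  have h3 : p * A.ncard ≤ p * r := by rw [mul_comm p r]; omega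
  exact Nat.le_of_mul_le_mul_left h3 h.hp.pos

/-- A0: an element centralizing one Sylow subgroup centralizes every one it normalizes. -/
theorem a0 (h : GS S p r) {a b : Ω} {c : G} (hc : c ∈ 𝐂(S a)) (hb : c • b = b) :
    c ∈ 𝐂(S b) := by
  by_contra hn
  have hab : a ≠ b := fun e => hn (e ▸ hc)
  have h1 : ({ω | c • ω = ω} \ {b}).ncard ≤ r := by
    refine h.inj (R := b) (fun e => e.2 rfl) fun y hy ω hω hyω => ?_
    by_contra y1
    have m : c * y * c⁻¹ ∈ S b := by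
      rw [← hb, h.eqv]; simpa [mul_assoc] using hy
    have e1 : c⁻¹ • ω = ω := by rw [inv_smul_eq_iff]; exact hω.1.symm
    have e2 : (y⁻¹ * (c * y * c⁻¹)) • ω = ω := by
      rw [mul_smul, mul_smul, e1, mul_smul, show c • y • ω = y • ω from hyω.1, inv_smul_smul]
    by_cases e3 : y⁻¹ * (c * y * c⁻¹) = 1
    · refine hn (h.gen hy y1 ?_)
      rw [inv_mul_eq_one] at e3
      calc y * c = c * y * c⁻¹ * c := by rw [← e3]
        _ = _ := by group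
    · exact hω.2 (h.free b ω _ (mul_mem (inv_mem hy) m) e3 e2)
  obtain ⟨x, hx, x1⟩ := h.ex_ne a
  have h2 : p ∣ ({ω | c • ω = ω} \ {a}).ncard := by
    refine dvd_of_free h.hp (h.pow_p hx) _ (fun ω hω => ⟨?_, fun e => hω.2 ?_⟩)
      fun ω hω e => hω.2 (h.free a ω x hx x1 e)
    · show c • x • ω = x • ω
      rw [← mul_smul, ← hc x hx, mul_smul, show c • ω = ω from hω.1]
    · have e' : x • ω = a := e
      rw [← h.fixS a x (h.ab a hx)] at e'
      exact smul_left_cancel _ e'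
  have h3 := Set.ncard_sdiff_singleton_add_one (s := {ω | c • ω = ω}) (a := a) (h.fixS a c hc)
  have h4 := Set.ncard_sdiff_singleton_add_one (s := {ω | c • ω = ω}) (a := b) hb
  have h5 : 0 < ({ω | c • ω = ω} \ {a}).ncard :=
    (Set.ncard_pos).2 ⟨b, hb, fun e => hab (Set.mem_singleton_iff.1 e).symm⟩
  have := Nat.le_of_dvd h5 h2
  have := h.rp
  omega

end GS

/-- Lines: fixed point sets of the intersections `C(a) ∩ C(b)` of maximal order `M`. -/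
def IsL (S : Ω → Subgroup G) (M : ℕ) (F : Set Ω) : Prop :=
  ∃ a b : Ω, a ≠ b ∧ 𝐨(𝐂(S a) ⊓ 𝐂(S b)) = M ∧ F = {υ | 𝐂(S a) ⊓ 𝐂(S b) ≤ 𝐂(S υ)}

/-- `M` is an upper bound of the orders of the intersections. -/
def Mx (S : Ω → Subgroup G) (M : ℕ) : Prop := ∀ a b : Ω, a ≠ b → 𝐨(𝐂(S a) ⊓ 𝐂(S b)) ≤ M

variable {M : ℕ}

omit [MulAction G Ω] [Finite Ω] in
theorem IsL.two (hM : Mx S M) {F : Set Ω} (hF : IsL S M F) {a b : Ω} (ha : a ∈ F) (hb : b ∈ F)
    (hab : a ≠ b) : 𝐨(𝐂(S a) ⊓ 𝐂(S b)) = M ∧ F = {υ | 𝐂(S a) ⊓ 𝐂(S b) ≤ 𝐂(S υ)} := by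
  obtain ⟨a', b', -, h1, rfl⟩ := hF
  have e : 𝐂(S a') ⊓ 𝐂(S b') = 𝐂(S a) ⊓ 𝐂(S b) :=
    eq_of_le_of_card_ge (le_inf ha hb) (h1 ▸ hM a b hab)
  rw [← e]
  exact ⟨h1, rfl⟩

omit [MulAction G Ω] [Finite Ω] in
theorem IsL.eq (hM : Mx S M) {F F' : Set Ω} (hF : IsL S M F) (hF' : IsL S M F') {a b : Ω}
    (ha : a ∈ F) (hb : b ∈ F) (ha' : a ∈ F') (hb' : b ∈ F') (hab : a ≠ b) : F = F' :=
  (hF.two hM ha hb hab).2.trans (hF'.two hM ha' hb' hab).2.symm

omit [MulAction G Ω] [Finite Ω] in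
theorem IsL.cen (hM : Mx S M) {F : Set Ω} (hF : IsL S M F) {a b : Ω} (ha : a ∈ F) (hb : b ∈ F)
    (hab : a ≠ b) {c : G} (ca : c ∈ 𝐂(S a)) (cb : c ∈ 𝐂(S b)) {υ : Ω} (hυ : υ ∈ F) :
    c ∈ 𝐂(S υ) := by
  rw [(hF.two hM ha hb hab).2] at hυ
  exact hυ ⟨ca, cb⟩

omit [Finite G] [Finite Ω] in
theorem IsL.smul (h : GS S p r) {F : Set Ω} (hF : IsL S M F) (g : G) : IsL S M (g • F) := by
  obtain ⟨a, b, hab, h1, rfl⟩ := hF
  have key : ∀ c : G, c ∈ 𝐂(S (g • a)) ⊓ 𝐂(S (g • b)) ↔ g⁻¹ * c * g ∈ 𝐂(S a) ⊓ 𝐂(S b) := by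
    intro c
    simp only [mem_inf, h.cen_eqv]
  refine ⟨g • a, g • b, fun e => hab (smul_left_cancel _ e), ?_, ?_⟩
  · rw [← h1]
    exact Nat.card_congr ⟨fun c => ⟨g⁻¹ * c.1 * g, (key _).1 c.2⟩,
      fun c => ⟨g * c.1 * g⁻¹, (key _).2 (by simp [mul_assoc])⟩,
      fun c => Subtype.ext (by simp [mul_assoc]), fun c => Subtype.ext (by simp [mul_assoc])⟩
  · ext υ
    rw [Set.mem_smul_set_iff_inv_smul_mem]
    simp only [Set.mem_ofPred_eq]
    constructor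
    · intro H c hc
      have := H ((key c).1 hc)
      rw [h.cen_eqv] at this
      simpa [mul_assoc] using this
    · intro H c hc
      rw [h.cen_eqv]
      exact H ((key _).2 (by simpa [mul_assoc] using hc))

omit [Finite G] [Finite Ω] in
theorem IsL.mem_smul (h : GS S p r) {F : Set Ω} (hF : IsL S M F) {R : Ω} (hR : R ∈ F) {y : G}
    (hy : y ∈ S R) {υ : Ω} (hυ : υ ∈ F) : y • υ ∈ F := by
  obtain ⟨a, b, -, -, rfl⟩ := hF
  intro w hw
  rw [h.cen_eqv, mul_assoc, ← hR hw y hy, inv_mul_cancel_left]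
  exact hυ hw

omit [Finite G] [Finite Ω] in
theorem IsL.fix (h : GS S p r) {F : Set Ω} (hF : IsL S M F) {R : Ω} (hR : R ∈ F) {y : G}
    (hy : y ∈ S R) : y • F = F := by
  ext υ
  rw [Set.mem_smul_set_iff_inv_smul_mem]
  refine ⟨fun H => ?_, hF.mem_smul h hR (inv_mem hy)⟩
  simpa using hF.mem_smul h hR hy H

omit [Finite Ω] in
theorem ex_elt (h : GS S p r) (M1 : M ≠ 1) (hex : ∃ F, IsL S M F) :
    ∃ l : ℕ, l.Prime ∧ l ≠ p ∧ ∀ F, IsL S M F → ∃ c : G, orderOf c = l ∧ ∀ υ ∈ F, c ∈ 𝐂(S υ) := by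
  obtain ⟨l, hl, hd⟩ := Nat.exists_prime_and_dvd M1
  have := Fact.mk hl
  have key : ∀ F, IsL S M F → ∃ c : G, orderOf c = l ∧ ∀ υ ∈ F, c ∈ 𝐂(S υ) := by
    rintro F ⟨a, b, -, h1, rfl⟩
    obtain ⟨c, hc⟩ := exists_prime_orderOf_dvd_card' (G := ↥(𝐂(S a) ⊓ 𝐂(S b))) l (h1 ▸ hd)
    exact ⟨c.1, by rw [orderOf_coe, hc], fun υ hυ => hυ c.2⟩
  refine ⟨l, hl, fun e => ?_, key⟩
  obtain ⟨F, hF⟩ := hex
  obtain ⟨c, hc, H⟩ := key F hF
  obtain ⟨a, b, hab, -, rfl⟩ := hF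
  have c1 : c ≠ 1 := fun e' => hl.one_lt.ne' (by rw [← hc, e', orderOf_one])
  exact hab (h.free a b c (h.syl a c (H a fun _ hx => hx.1) (hc.trans e)) c1
    (h.fixS b c (H b fun _ hx => hx.2))).symm

omit [Finite Ω] in
theorem IsL.ex_notMem (h : GS S p r) (M1 : M ≠ 1) {F : Set Ω} (hF : IsL S M F) : ∃ R, R ∉ F := by
  by_contra hc
  push Not at hc
  obtain ⟨l, hl, -, H⟩ := ex_elt h M1 ⟨F, hF⟩
  obtain ⟨c, hc1, hc2⟩ := H F hF
  have := h.faith c fun ω => hc2 ω (hc ω)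
  exact hl.one_lt.ne' (by rw [← hc1, this, orderOf_one])

theorem IsL.dvd (h : GS S p r) {F : Set Ω} (hF : IsL S M F) :
    ∃ j, F.ncard = (j + 1) * p + 1 := by
  have hF' := hF
  obtain ⟨a, b, hab, -, e⟩ := hF'
  have ha : a ∈ F := by rw [e]; exact fun _ hx => hx.1
  have hb : b ∈ F := by rw [e]; exact fun _ hx => hx.2
  obtain ⟨x, hx, x1⟩ := h.ex_ne a
  have h2 : p ∣ (F \ {a}).ncard := by
    refine dvd_of_free h.hp (h.pow_p hx) _ (fun ω hω => ⟨hF.mem_smul h ha hx hω.1, fun e => hω.2 ?_⟩)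
      fun ω hω e => hω.2 (h.free a ω x hx x1 e)
    have e' : x • ω = a := e
    rw [← h.fixS a x (h.ab a hx)] at e'
    exact smul_left_cancel _ e'
  have h3 := Set.ncard_sdiff_singleton_add_one (s := F) ha
  have h5 : 0 < (F \ {a}).ncard :=
    (Set.ncard_pos).2 ⟨b, hb, fun e => hab (Set.mem_singleton_iff.1 e).symm⟩
  obtain ⟨j, hj⟩ := h2
  rcases j with _ | j
  · omega
  · exact ⟨j, by rw [← h3, hj, mul_comm]⟩

theorem IsL.smul_ne (h : GS S p r) {F : Set Ω} (hF : IsL S M F) {R : Ω} (hR : R ∉ F) {y : G}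
    (hy : y ∈ S R) (y1 : y ≠ 1) : y • F ≠ F := by
  intro e
  have h1 : p ∣ F.ncard := dvd_of_free h.hp (h.pow_p hy) F
    (fun x hx => e ▸ Set.smul_mem_smul_set hx) fun x hx e' => hR (h.free R x y hy y1 e' ▸ hx)
  obtain ⟨j, hj⟩ := hF.dvd h
  rw [hj] at h1
  exact h.hp.one_lt.ne' (Nat.dvd_one.1 ((Nat.dvd_add_right (dvd_mul_left p _)).1 h1))

theorem IsL.card (h : GS S p r) (hM : Mx S M) (M1 : M ≠ 1) {F : Set Ω} (hF : IsL S M F) :
    F.ncard = p + 1 := by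
  obtain ⟨R, hR⟩ := hF.ex_notMem h M1
  let A : Set Ω := {a | a ∈ F ∧ ∀ y ∈ S R, y • a ∈ F → y = 1}
  have h1 : A.ncard ≤ r :=
    h.inj (R := R) (fun e => hR e.1) fun y hy a ha hya => ha.2 y hy hya.1
  have h2 : (F \ A).ncard ≤ ((S R : Set G) \ {1}).ncard := by
    have hex : ∀ a : Ω, ∃ y : G, a ∈ F \ A → y ∈ (S R : Set G) \ {1} ∧ y • a ∈ F := by
      intro a
      by_cases ha : a ∈ F \ A
      · by_contra hc
        push Not at hc
        refine ha.2 ⟨ha.1, fun y hy hya => ?_⟩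
        by_contra y1
        exact (hc y).2 ⟨hy, y1⟩ hya
      · exact ⟨1, fun e => absurd e ha⟩
    choose f hf using hex
    refine Set.ncard_le_ncard_of_injOn f (fun a ha => (hf a ha).1) fun a ha b hb e => ?_
    by_contra hab
    refine hF.smul_ne h hR (hf a ha).1.1 (hf a ha).1.2 ?_
    refine (hF.smul h _).eq hM hF (a := f a • a) (b := f a • b) (Set.smul_mem_smul_set ha.1)
      (Set.smul_mem_smul_set hb.1) (hf a ha).2 (e ▸ (hf b hb).2)
      fun e' => hab (smul_left_cancel _ e')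
  have h3 := Set.ncard_sdiff_singleton_add_one (s := (S R : Set G)) (a := 1) (S R).one_mem
  have h4 : (S R : Set G).ncard = p := by rw [← h.cS R, ← Nat.card_coe_set_eq]; rfl
  have h5 := Set.ncard_sdiff_add_ncard_of_subset (show A ⊆ F from fun a ha => ha.1)
  obtain ⟨j, hj⟩ := hF.dvd h
  have := h.rp
  rcases j with _ | j
  · simpa using hj
  · nlinarith

end Cfsg.Agent.P12.Geo
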