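/-
P12, chapter GEO, part 2: counting lines, the contradiction, and `geoStmt`.
-/
import Cfsg.Agent.P12.Geo1

set_option autoImplicit false

namespace Cfsg.Agent.P12.Geo

open Subgroup Cfsg Cfsg.Agent Cfsg.Agent.FT
open scoped Pointwise

universe u v

variable {G : Type u} {Ω : Type v} [Group G] [MulAction G Ω] [Finite G] [Finite Ω]
  {S : Ω → Subgroup G} {p r M : ℕ}

omit [Finite G] [Finite Ω] in
theorem thru_eq (h : GS S p r) (a b : Ω) :
    {F | IsL S M F ∧ a ∈ F}.ncard = {F | IsL S M F ∧ b ∈ F}.ncard := by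
  obtain ⟨g, rfl⟩ := h.tr a b
  refine Set.ncard_congr (fun F _ => g • F) (fun F hF => ⟨hF.1.smul h g,
    Set.smul_mem_smul_set hF.2⟩) (fun F F' _ _ e => smul_left_cancel _ e) fun F hF => ?_
  exact ⟨g⁻¹ • F, ⟨hF.1.smul h _, by
    rw [Set.mem_smul_set_iff_inv_smul_mem, inv_inv]; exact hF.2⟩, smul_inv_smul _ _⟩

theorem dcount (h : GS S p r) (hM : Mx S M) (M1 : M ≠ 1) (a : Ω) :
    {F | IsL S M F}.ncard * (p + 1) = (1 + r * p) * {F | IsL S M F ∧ a ∈ F}.ncard := by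
  classical
  have := Fintype.ofFinite Ω
  have key := Finset.card_mul_eq_card_mul (s := (Finset.univ.filter fun F : Set Ω => IsL S M F))
    (t := (Finset.univ : Finset Ω)) (fun F υ => υ ∈ F) (m := p + 1)
    (n := {F | IsL S M F ∧ a ∈ F}.ncard) (fun F hF => by
      rw [← (Finset.mem_filter.1 hF).2.card h hM M1, ← Set.ncard_coe_finset]
      congr 1
      ext υ
      simp [Finset.bipartiteAbove]) (fun b _ => by
      rw [thru_eq h a b, ← Set.ncard_coe_finset]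
      congr 1
      ext F
      simp [Finset.bipartiteBelow])
  rw [Finset.card_univ, ← Nat.card_eq_fintype_card, h.card, ← Set.ncard_coe_finset] at key
  rw [← key]
  congr 2
  ext F
  simp

theorem meet_count (h : GS S p r) (hM : Mx S M) (M1 : M ≠ 1) (a : Ω) {F : Set Ω}
    (hF : IsL S M F) :
    {F' | IsL S M F' ∧ F' ≠ F ∧ ∃ υ ∈ F, υ ∈ F'}.ncard =
      (p + 1) * ({F | IsL S M F ∧ a ∈ F}.ncard - 1) := by
  classical
  have := Fintype.ofFinite Ω
  have e : {F' | IsL S M F' ∧ F' ≠ F ∧ ∃ υ ∈ F, υ ∈ F'} = ↑((Finset.univ.filter (· ∈ F)).biUnion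
      fun υ => Finset.univ.filter fun F' : Set Ω => IsL S M F' ∧ υ ∈ F' ∧ F' ≠ F) := by
    ext F'
    simp only [Set.mem_ofPred_eq, Finset.coe_biUnion, Finset.coe_filter, Finset.mem_univ,
      true_and, Set.mem_iUnion, exists_prop]
    tauto
  rw [e, Set.ncard_coe_finset, Finset.card_biUnion, Finset.sum_const_nat
    (m := {F | IsL S M F ∧ a ∈ F}.ncard - 1)]
  · congr 1
    rw [← hF.card h hM M1, ← Set.ncard_coe_finset]
    congr 1
    ext υ
    simp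
  · intro υ hυ
    have hυ' : υ ∈ F := (Finset.mem_filter.1 hυ).2
    have h3 := Set.ncard_sdiff_singleton_add_one (s := {F | IsL S M F ∧ υ ∈ F}) (a := F)
      ⟨hF, hυ'⟩
    rw [thru_eq h a υ, ← h3, Nat.add_sub_cancel, ← Set.ncard_coe_finset]
    congr 1
    ext F'
    simp [and_assoc]
  · intro x hx y hy hxy
    rw [Function.onFun, Finset.disjoint_left]
    intro F' h1 h2
    have h1' := (Finset.mem_filter.1 h1).2
    have h2' := (Finset.mem_filter.1 h2).2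
    exact h1'.2.2 (h1'.1.eq hM hF h1'.2.1 h2'.2.1 (Finset.mem_filter.1 hx).2
      (Finset.mem_filter.1 hy).2 hxy)

/-- The numerical facts and the intersection property. -/
theorem numer (h : GS S p r) (hM : Mx S M) (M1 : M ≠ 1) (hex : ∃ F, IsL S M F) (a : Ω) :
    ∃ k, 1 ≤ k ∧ {F | IsL S M F ∧ a ∈ F}.ncard = k + 1 ∧ {F | IsL S M F ∧ a ∉ F}.ncard = k * p ∧
      ¬ p ∣ k + 1 ∧ ∀ F F', IsL S M F → IsL S M F' → ∃ υ ∈ F, υ ∈ F' := by
  have hp := h.hp
  obtain ⟨x, hx, x1⟩ := h.ex_ne a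
  have h1 : p ∣ {F | IsL S M F ∧ a ∉ F}.ncard := by
    refine dvd_of_free hp (h.pow_p hx) _ (fun F hF => ⟨hF.1.smul h x, fun e => hF.2 ?_⟩)
      fun F hF => hF.1.smul_ne h hF.2 hx x1
    rwa [Set.mem_smul_set_iff_inv_smul_mem, h.fixS a _ (h.ab a (inv_mem hx))] at e
  obtain ⟨k, hk⟩ := h1
  have h2 : 0 < {F | IsL S M F ∧ a ∉ F}.ncard := by
    obtain ⟨F, hF⟩ := hex
    obtain ⟨R, hR⟩ := hF.ex_notMem h M1
    obtain ⟨g, rfl⟩ := h.tr R a
    exact (Set.ncard_pos).2 ⟨g • F, hF.smul h g, fun e => hR (Set.smul_mem_smul_set_iff.1 e)⟩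
  have h3 : {F | IsL S M F}.ncard =
      {F | IsL S M F ∧ a ∈ F}.ncard + {F | IsL S M F ∧ a ∉ F}.ncard := by
    rw [← Set.ncard_union_eq (Set.disjoint_left.2 fun F h1 h2 => h2.2 h1.2)]
    congr 1
    ext F
    simp only [Set.mem_ofPred_eq, Set.mem_union]
    tauto
  have h4 := dcount h hM M1 a
  set s := {F | IsL S M F ∧ a ∈ F}.ncard with hs
  set L := {F | IsL S M F}.ncard with hL
  have k1 : 1 ≤ k := by
    rcases k with _ | k
    · omega
    · omega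
  have h5 : s + k * (p + 1) = r * s := by
    refine Nat.eq_of_mul_eq_mul_left hp.pos ?_
    rw [h3, hk] at h4
    nlinarith
  have rp := h.rp
  have h6 : k < s := by
    by_contra hc
    push Not at hc
    have : r * s ≤ p * k := Nat.mul_le_mul rp.le hc
    nlinarith
  have low : ∀ F, IsL S M F → ∀ T : Set (Set Ω), T ⊆ {F | IsL S M F} →
      (∀ F' ∈ T, ¬ ∃ υ ∈ F, υ ∈ F') → (p + 1) * (s - 1) + 1 + T.ncard ≤ L := by
    intro F hF T hT hT'
    rw [← meet_count h hM M1 a hF, ← Set.ncard_insert_of_notMem (a := F) (fun e => e.2.1 rfl),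
      ← Set.ncard_union_eq]
    · refine Set.ncard_le_ncard ?_
      rintro F' ((rfl | h') | h')
      exacts [hF, h'.1, hT h']
    · rw [Set.disjoint_left]
      rintro F' (rfl | h') h''
      · obtain ⟨b, b', -, -, e⟩ := hF
        have : b ∈ F' := by rw [e]; exact fun _ hx => hx.1
        exact hT' _ h'' ⟨b, this, this⟩
      · exact hT' _ h'' h'.2.2
  obtain ⟨s', hs'⟩ : ∃ s', s = s' + 1 := ⟨s - 1, by omega⟩
  have h7 : k = s' := by
    obtain ⟨F, hF⟩ := hex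
    have := low F hF ∅ (Set.empty_subset _) (by simp)
    rw [Set.ncard_empty, h3, hk, hs', Nat.add_sub_cancel] at this
    have : p * s' ≤ p * k := by nlinarith
    have := Nat.le_of_mul_le_mul_left this hp.pos
    omega
  refine ⟨k, k1, by omega, by rw [hk, mul_comm], fun hd => ?_, fun F F' hF hF' => ?_⟩
  · rw [hs', ← h7] at h5
    have d1 : p ∣ k * (p + 1) :=
      (Nat.dvd_add_right hd).1 (h5 ▸ dvd_mul_of_dvd_right hd r)
    rcases (Nat.Prime.dvd_mul hp).1 d1 with d | d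
    · exact hp.one_lt.ne' (Nat.dvd_one.1 ((Nat.dvd_add_right d).1 hd))
    · exact hp.one_lt.ne' (Nat.dvd_one.1 ((Nat.dvd_add_right dvd_rfl).1 d))
  · by_contra hc
    have := low F hF {F'} (by simpa using hF') (by simpa using hc)
    rw [Set.ncard_singleton, h3, hk, hs', Nat.add_sub_cancel, h7] at this
    nlinarith

theorem ww (h : GS S p r) (hM : Mx S M) (M1 : M ≠ 1) {F F' : Set Ω} (hF : IsL S M F)
    (hF' : IsL S M F') (ne : F ≠ F') {z : G} (h1 : ∀ υ ∈ F, z ∈ 𝐂(S υ))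
    (h2 : ∀ υ ∈ F', z ∈ 𝐂(S υ)) : z = 1 := by
  refine h.faith z fun U => ?_
  obtain ⟨k, k1, hs, -, -, mt⟩ := numer h hM M1 ⟨F, hF⟩ U
  obtain ⟨T, hT, hT'⟩ := mt F F' hF hF'
  by_cases hU : U = T
  · exact h1 U (hU ▸ hT)
  obtain ⟨A, B, hA, hB, hAB⟩ := (Set.one_lt_ncard_iff (s := {F | IsL S M F ∧ U ∈ F})).1 (by omega)
  obtain ⟨E, hE, hTE⟩ : ∃ E, (IsL S M E ∧ U ∈ E) ∧ T ∉ E := by
    by_cases hTA : T ∈ A
    · exact ⟨B, hB, fun hTB => hAB (hA.1.eq hM hB.1 hA.2 hTA hB.2 hTB hU)⟩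
    · exact ⟨A, hA, hTA⟩
  obtain ⟨a, ha, ha'⟩ := mt F E hF hE.1
  obtain ⟨b, hb, hb'⟩ := mt F' E hF' hE.1
  refine hE.1.cen hM ha' hb' (fun e => ne ?_) (h1 a ha) (h2 b hb) hE.2
  exact hF.eq hM hF' ha hT (e ▸ hb) hT' fun e' => hTE (e' ▸ ha')

theorem pw (h : GS S p r) (hM : Mx S M) (M1 : M ≠ 1) {F : Set Ω} (hF : IsL S M F) {R : Ω}
    (hR : R ∈ F) {c : G} (hc : c ∈ 𝐂(S R)) {l : ℕ} (hl : l.Prime) (lp : l ≠ p) (cl : c ^ l = 1)
    (hcF : c • F = F) : ∀ υ ∈ F, c ∈ 𝐂(S υ) := by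
  have h3 := Set.ncard_sdiff_singleton_add_one (s := F) hR
  rw [hF.card h hM M1] at h3
  have : ∃ a ∈ F \ {R}, c • a = a := by
    by_contra hn
    push Not at hn
    have := dvd_of_free hl cl (F \ {R}) (fun x hx => ⟨hcF ▸ Set.smul_mem_smul_set hx.1,
      fun e => hx.2 (smul_left_cancel c ((Set.mem_singleton_iff.1 e).trans
        (h.fixS R c hc).symm))⟩) hn
    rw [show (F \ {R}).ncard = p by omega] at this
    exact lp ((Nat.prime_dvd_prime_iff_eq hl h.hp).1 this)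
  obtain ⟨a, ha, hca⟩ := this
  exact fun υ hυ => hF.cen hM hR ha.1 (fun e => ha.2 e.symm) hc (h.a0 hc hca) hυ

theorem semi (h : GS S p r) (hM : Mx S M) (M1 : M ≠ 1) {F : Set Ω} (hF : IsL S M F) {P : Ω}
    (hP : P ∉ F) {c : G} (hc : c ∈ 𝐂(S P)) {l : ℕ} (hl : l.Prime) (lp : l ≠ p) (cl : c ^ l = 1)
    (hcF : c • F = F) : c = 1 := by
  obtain ⟨x, hx, x1⟩ := h.ex_ne P
  have ne := hF.smul_ne h hP hx x1
  have hF' := hF.smul h x
  have e : c • x • F = x • F := by rw [← mul_smul, ← hc x hx, mul_smul, hcF]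
  obtain ⟨k, -, -, -, -, mt⟩ := numer h hM M1 ⟨F, hF⟩ P
  obtain ⟨R, hR, hR'⟩ := mt F _ hF hF'
  have hcR : c • R = R := by
    by_contra hn
    exact ne (hF'.eq hM hF (e ▸ Set.smul_mem_smul_set hR') hR' (hcF ▸ Set.smul_mem_smul_set hR)
      hR hn)
  have cR := h.a0 hc hcR
  exact ww h hM M1 hF hF' ne.symm (pw h hM M1 hF hR cR hl lp cl hcF)
    (pw h hM M1 hF' hR' cR hl lp cl e)

theorem absurd_line (h : GS S p r) (hM : Mx S M) (M1 : M ≠ 1) (hex : ∃ F, IsL S M F) : False := by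
  obtain ⟨F0, hF0⟩ := hex
  obtain ⟨P, hP⟩ : ∃ P, P ∈ F0 := by
    obtain ⟨b, b', -, -, e⟩ := hF0
    exact ⟨b, by rw [e]; exact fun _ hx => hx.1⟩
  obtain ⟨k, k1, hs, hk, pk, -⟩ := numer h hM M1 ⟨F0, hF0⟩ P
  obtain ⟨l, hl, lp, H⟩ := ex_elt h M1 ⟨F0, hF0⟩
  have sub : MulAction.orbit 𝐂(S P) F0 ⊆ {F | IsL S M F ∧ P ∈ F} := by
    rintro _ ⟨c, rfl⟩
    refine ⟨hF0.smul h c.1, ?_⟩
    show P ∈ c.1 • F0
    have := Set.smul_mem_smul_set (a := c.1) hP
    rwa [h.fixS P c.1 c.2] at this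
  have inv : ∀ c ∈ 𝐂(S P), ∀ F ∈ MulAction.orbit 𝐂(S P) F0, c • F ∈ MulAction.orbit 𝐂(S P) F0 :=
    fun c hc F hF => MulAction.mem_orbit_of_mem_orbit (⟨c, hc⟩ : 𝐂(S P)) hF
  have only : ∀ F, IsL S M F → P ∈ F → ∃ c ∈ 𝐂(S P), c ^ l = 1 ∧ c • F = F ∧
      ∀ F' ∈ MulAction.orbit 𝐂(S P) F0, c • F' = F' → F' = F := by
    intro F hF hPF
    obtain ⟨c, co, hc⟩ := H F hF
    have cl : c ^ l = 1 := co ▸ pow_orderOf_eq_one c
    refine ⟨c, hc P hPF, cl, ?_, fun F' hF' e => ?_⟩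
    · ext υ
      rw [Set.mem_smul_set_iff_inv_smul_mem]
      refine ⟨fun e => ?_, fun e => by rwa [h.fixS υ _ (inv_mem (hc υ e))]⟩
      have := h.fixS _ _ (hc _ e)
      rw [smul_inv_smul] at this
      exact this ▸ e
    · by_contra hn
      have := ww h hM M1 (sub hF').1 hF hn
        (pw h hM M1 (sub hF').1 (sub hF').2 (hc P hPF) hl lp cl e) hc
      exact hl.one_lt.ne' (by rw [← co, this, orderOf_one])
  have nd : ¬ l ∣ (MulAction.orbit 𝐂(S P) F0).ncard := by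
    obtain ⟨c, hc, cl, e, hu⟩ := only F0 hF0 hP
    have h1 := modEq_fix hl cl _ (inv c hc)
    have : {x | x ∈ MulAction.orbit 𝐂(S P) F0 ∧ c • x = x} = {F0} := by
      ext F
      exact ⟨fun hF => hu F hF.1 hF.2, fun hF => by
        rw [Set.mem_singleton_iff.1 hF]; exact ⟨MulAction.mem_orbit_self _, e⟩⟩
    rw [this, Set.ncard_singleton] at h1
    intro hd
    exact hl.one_lt.ne' (Nat.dvd_one.1 ((h1.dvd_iff dvd_rfl).1 hd))
  have eq : MulAction.orbit 𝐂(S P) F0 = {F | IsL S M F ∧ P ∈ F} := by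
    refine sub.antisymm fun F hF => ?_
    by_contra hn
    obtain ⟨c, hc, cl, -, hu⟩ := only F hF.1 hF.2
    exact nd (dvd_of_free hl cl _ (inv c hc) fun F' hF' e => hn (hu F' hF' e ▸ hF'))
  have d1 : k + 1 ∣ 𝐨(𝐂(S P)) := by
    rw [← hs, ← eq, ← MulAction.index_stabilizer]
    exact index_dvd_card _
  obtain ⟨q, hq, qd⟩ := Nat.exists_prime_and_dvd (show k + 1 ≠ 1 by omega)
  have := Fact.mk hq
  obtain ⟨c, hc⟩ := exists_prime_orderOf_dvd_card' (G := 𝐂(S P)) q (qd.trans d1)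
  have qp : q ≠ p := fun e => pk (e ▸ qd)
  have co : orderOf c.1 = q := by rw [orderOf_coe, hc]
  have cl : c.1 ^ q = 1 := co ▸ pow_orderOf_eq_one c.1
  have d2 : q ∣ k * p := by
    rw [← hk]
    refine dvd_of_free hq cl _ (fun F hF => ⟨hF.1.smul h _, fun e => hF.2 ?_⟩) fun F hF e => ?_
    · rwa [Set.mem_smul_set_iff_inv_smul_mem, h.fixS P _ (inv_mem c.2)] at e
    · have := semi h hM M1 hF.1 hF.2 c.2 hq qp cl e
      exact hq.one_lt.ne' (by rw [← co, this, orderOf_one])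
  rcases (Nat.Prime.dvd_mul hq).1 d2 with d | d
  · exact hq.one_lt.ne' (Nat.dvd_one.1 ((Nat.dvd_add_right d).1 qd))
  · exact qp ((Nat.prime_dvd_prime_iff_eq hq h.hp).1 d)

theorem GS.main (h : GS S p r) {a b : Ω} (hab : a ≠ b) {c : G} (hc : c ∈ 𝐂(S a))
    (hb : c • b = b) : c = 1 := by
  by_contra c1
  obtain ⟨z, hz, hmax⟩ := Set.exists_max_image {z : Ω × Ω | z.1 ≠ z.2}
    (fun z => 𝐨(𝐂(S z.1) ⊓ 𝐂(S z.2))) (Set.toFinite _) ⟨(a, b), hab⟩
  refine absurd_line (M := 𝐨(𝐂(S z.1) ⊓ 𝐂(S z.2))) h (fun x y hxy => hmax (x, y) hxy)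
    (fun e => ?_) ⟨_, z.1, z.2, hz, rfl, rfl⟩
  have h1 := hmax (a, b) hab
  simp only [e] at h1
  have h2 : 𝐂(S a) ⊓ 𝐂(S b) = ⊥ := (card_le_one_iff_eq_bot _).1 h1
  exact c1 (mem_bot.1 (h2 ▸ (⟨hc, h.a0 hc hb⟩ : c ∈ 𝐂(S a) ⊓ 𝐂(S b))))

end Cfsg.Agent.P12.Geo

namespace Cfsg.Agent.P12

open Subgroup Cfsg Cfsg.Agent Cfsg.Agent.FT
open scoped Pointwise

universe u

/-- **Chapter GEO.** -/
theorem geoStmt : GeoStmt.{u} := by
  intro G _ _ P p r e t h g hg c hc hN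
  have hp := h.hp
  have := Fact.mk hp
  have hP : IsPGroup p P := IsPGroup.of_card (n := 1) (by rw [h.hP, pow_one])
  let P0 : Sylow p G := hP.toSylow h.syl
  have cS : ∀ ω : Sylow p G, 𝐨((ω : Subgroup G)) = p := fun ω =>
    (Nat.card_congr (Sylow.equiv ω P0).toEquiv).trans h.hP
  have eqv : ∀ (g : G) (ω : Sylow p G) (x : G),
      x ∈ ((g • ω : Sylow p G) : Subgroup G) ↔ g⁻¹ * x * g ∈ (ω : Subgroup G) := by
    intro g ω x
    rw [Sylow.coe_subgroup_smul, mem_pointwise_smul_iff_inv_smul_mem]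
    simp
  have mem : ∀ (ω : Sylow p G) (y : G), y ^ p = 1 → y • ω = ω → y ∈ (ω : Subgroup G) := by
    intro ω y hy e
    have h1 : IsPGroup p (zpowers y) := by
      refine IsPGroup.of_card_dvd_pow (n := 1) ?_
      rw [Nat.card_zpowers, pow_one]
      exact orderOf_dvd_of_pow_eq_one hy
    have h2 := h1.inf_normalizer_sylow ω
    have h3 : y ∈ zpowers y ⊓ normalizer (ω : Set G) :=
      ⟨mem_zpowers y, Sylow.smul_eq_iff_mem_normalizer.1 e⟩
    exact (h2 ▸ h3).2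
  have fixS : ∀ ω : Sylow p G, ∀ c ∈ 𝐂((ω : Subgroup G)), c • ω = ω := fun ω c hc =>
    Sylow.smul_eq_iff_mem_normalizer.2 (centralizer_le_normalizer _ hc)
  have zp : ∀ (ω : Sylow p G) (y : G), y ∈ (ω : Subgroup G) → y ≠ 1 → zpowers y = ω := by
    intro ω y hy y1
    have h1 : zpowers y ≤ ω := zpowers_le.2 hy
    have h2 : 𝐨(zpowers y) ∣ p := cS ω ▸ Subgroup.card_dvd_of_le h1
    rcases (Nat.dvd_prime hp).1 h2 with e | e
    · exact absurd (by simpa using e) y1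
    · exact eq_of_le_of_card_ge h1 (by rw [e, cS])
  have H : Geo.GS (fun ω : Sylow p G => (ω : Subgroup G)) p r := by
    refine ⟨hp, cS, eqv, fixS, fun ω ω' y hy y1 e => ?_, fun ω w hw ho => ?_, ?_, h.rp,
      fun ω ω' => MulAction.exists_smul_eq G ω ω', fun z hz => ?_⟩
    · have yp : y ^ p = 1 := by
        have := pow_card_eq_one' (x := (⟨y, hy⟩ : (ω : Subgroup G)))
        rw [cS] at this
        exact congrArg Subtype.val this
      exact Sylow.ext ((zp ω' y (mem ω' y yp e) y1).symm.trans (zp ω y hy y1))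
    · exact mem ω w (ho ▸ pow_orderOf_eq_one w) (fixS ω w hw)
    · rw [Sylow.card_eq_index_normalizer P0, ← h.hn]
      rfl
    · have := h.simple
      let K : Subgroup G := (MulAction.toPermHom G (Sylow p G)).ker
      rcases IsSimpleGroup.eq_bot_or_eq_top_of_normal K inferInstance with e | e
      · have : z ∈ K := by
          rw [MonoidHom.mem_ker]
          ext ω : 1
          exact fixS ω z (hz ω)
        exact mem_bot.1 (e ▸ this)
      · have : g ∈ K := e ▸ mem_top g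
        rw [MonoidHom.mem_ker] at this
        exact absurd (Sylow.smul_eq_iff_mem_normalizer.1 (DFunLike.congr_fun this P0)) hg
  refine H.main (a := P0) (b := g • P0)
    (fun e => hg (Sylow.smul_eq_iff_mem_normalizer.1 e.symm)) hc ?_
  have : (g⁻¹ * c * g) • P0 = P0 := Sylow.smul_eq_iff_mem_normalizer.2 hN
  rw [mul_smul, mul_smul, inv_smul_eq_iff] at this
  exact this

end Cfsg.Agent.P12
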