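/-
P12, chapter LAT, part 1: idempotent matrices over `ℤ_[p]`.
-/
import Mathlib

set_option autoImplicit false

namespace Cfsg.Agent.P12.Lat

open Matrix

section PID

variable {R : Type*} [CommRing R] [IsDomain R] [IsPrincipalIdealRing R] {n : Type*} [Fintype n]
  [DecidableEq n]

/-- Every square matrix over a PID is `α β` with `α` left cancellable, `β` right invertible. -/
theorem exists_factor (a : Matrix n n R) : ∃ (k : ℕ) (α : Matrix n (Fin k) R)
    (β : Matrix (Fin k) n R) (β' : Matrix n (Fin k) R), α * β = a ∧ β * β' = 1 ∧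
      ∀ u v : Matrix (Fin k) (Fin k) R, α * u = α * v → u = v := by
  let f := toLin' a
  let W := LinearMap.range f
  let b := Module.finBasis R W
  let g : (n → R) →ₗ[R] (Fin (Module.finrank R W) → R) := b.equivFun.toLinearMap ∘ₗ f.rangeRestrict
  let i : (Fin (Module.finrank R W) → R) →ₗ[R] (n → R) :=
    W.subtype ∘ₗ b.equivFun.symm.toLinearMap
  have hg : LinearMap.range g = ⊤ := LinearMap.range_eq_top.2
    (b.equivFun.surjective.comp f.surjective_rangeRestrict)
  obtain ⟨g', hg'⟩ := g.exists_rightInverse_of_surjective hg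
  have hi : Function.Injective i := W.subtype_injective.comp b.equivFun.symm.injective
  refine ⟨_, LinearMap.toMatrix' i, LinearMap.toMatrix' g, LinearMap.toMatrix' g', ?_, ?_,
    fun u v h => ?_⟩
  · rw [← LinearMap.toMatrix'_comp, ← LinearMap.toMatrix'_toLin' a]
    congr 1
    exact LinearMap.ext fun x => by simp [i, g, f]
  · rw [← LinearMap.toMatrix'_comp, hg', LinearMap.toMatrix'_id]
  · apply toLin'.injective
    have := congrArg toLin' h
    rw [toLin'_mul, toLin'_mul, toLin'_toMatrix'] at this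
    exact LinearMap.ext fun x => hi (LinearMap.congr_fun this x)

theorem exists_split {ε : Matrix n n R} (h : ε * ε = ε) : ∃ (k : ℕ) (α : Matrix n (Fin k) R)
    (β : Matrix (Fin k) n R), α * β = ε ∧ β * α = 1 := by
  obtain ⟨k, α, β, β', h1, h2, h3⟩ := exists_factor ε
  refine ⟨k, α, β, h1, h3 _ _ ?_⟩
  calc α * (β * α) = α * β * (α * β) * β' := by
        rw [Matrix.mul_assoc (α * β), Matrix.mul_assoc α β β', h2, Matrix.mul_one, Matrix.mul_assoc]
    _ = α * (1 : Matrix (Fin k) (Fin k) R) := by rw [h1, h, ← h1, Matrix.mul_assoc, h2]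

theorem trace_idem {ε : Matrix n n R} (h : ε * ε = ε) :
    ∃ k : ℕ, ε.trace = k ∧ (k = 0 → ε = 0) := by
  obtain ⟨k, α, β, h1, h2⟩ := exists_split h
  refine ⟨k, by rw [← h1, trace_mul_comm, h2, trace_one, Fintype.card_fin], ?_⟩
  rintro rfl
  rw [← h1]; ext i j; simp [mul_apply]

end PID

variable {p : ℕ} [hp : Fact p.Prime] {n : Type*} [Fintype n] [DecidableEq n]

/-- Reduction modulo `p`. -/
noncomputable def red (p : ℕ) [Fact p.Prime] (n : Type*) [Fintype n] [DecidableEq n] :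
    Matrix n n ℤ_[p] →+* Matrix n n (ZMod p) := (PadicInt.toZMod (p := p)).mapMatrix

theorem isUnit_iff {a : ℤ_[p]} : IsUnit a ↔ PadicInt.toZMod a ≠ 0 := by
  rw [Ne, ← RingHom.mem_ker, PadicInt.ker_toZMod, IsLocalRing.mem_maximalIdeal, mem_nonunits_iff,
    not_not]

theorem exists_eq_mul {a : ℤ_[p]} (h : ¬ IsUnit a) : ∃ b, a = p * b := by
  have : a ∈ IsLocalRing.maximalIdeal ℤ_[p] := h
  rw [PadicInt.maximalIdeal_eq_span_p, Ideal.mem_span_singleton] at this
  exact this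

theorem unit_or_smul (W : Matrix n n ℤ_[p]) :
    (∃ i j, IsUnit (W i j)) ∨ ∃ W' : Matrix n n ℤ_[p], W = (p : ℤ_[p]) • W' := by
  by_cases h : ∃ i j, IsUnit (W i j)
  · exact Or.inl h
  push Not at h
  choose W' hW' using fun i j => exists_eq_mul (h i j)
  exact Or.inr ⟨of W', by ext i j; simp [hW' i j]⟩

theorem red_smul (W : Matrix n n ℤ_[p]) : red p n ((p : ℤ_[p]) • W) = 0 := by
  ext i j; simp [red]

theorem isUnit_of_red {W : Matrix n n ℤ_[p]} (h : IsUnit (red p n W)) : IsUnit W := by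
  rw [isUnit_iff_isUnit_det] at h ⊢
  rw [isUnit_iff, RingHom.map_det]
  exact h.ne_zero

theorem idem_eq_zero {ε : Matrix n n ℤ_[p]} (h : ε * ε = ε) (h0 : red p n ε = 0) : ε = 0 := by
  have h1 : IsUnit (1 - ε) := isUnit_of_red (by rw [map_sub, h0, map_one, sub_zero]; exact isUnit_one)
  exact h1.mul_left_cancel (by rw [sub_mul, one_mul, h, sub_self, mul_zero])

theorem smul_cancel {W W' : Matrix n n ℤ_[p]} (h : (p : ℤ_[p]) • W = (p : ℤ_[p]) • W') : W = W' :=
  smul_right_injective _ (Nat.cast_ne_zero.2 hp.1.ne_zero) h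

theorem exists_primitiveRoot (p : ℕ) [hp : Fact p.Prime] :
    ∃ ζ : ℤ_[p], IsPrimitiveRoot ζ (p - 1) := by
  obtain ⟨g, hg⟩ := IsCyclic.exists_ofOrder_eq_natCard (α := (ZMod p)ˣ)
  let τ : ZMod p →* ℤ_[p] := (WittVector.equiv p).toMonoidHom.comp (WittVector.teichmuller p)
  have hτ : Function.Injective τ := (WittVector.equiv p).injective.comp fun a b h => by
    simpa using congrArg (fun w => w.coeff 0) h
  refine ⟨τ g, IsPrimitiveRoot.map_of_injective ?_ hτ⟩
  rw [IsPrimitiveRoot.coe_units_iff]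
  rw [Nat.card_eq_fintype_card, ZMod.card_units] at hg
  exact hg ▸ IsPrimitiveRoot.orderOf g

theorem isUnit_pred : IsUnit ((p - 1 : ℕ) : ℤ_[p]) := by
  rw [isUnit_iff, map_natCast, Nat.cast_sub hp.1.one_le]
  simp

/-- Eigenvectors of an operator of order dividing `p - 1`. -/
theorem exists_eigen {γ η W : Matrix n n ℤ_[p]} (hη : η * η = η) (hc : Commute γ η)
    (he : γ ^ (p - 1) * η = η) {i j : n} (h : IsUnit ((W * η) i j)) :
    ∃ (m : n → ℤ_[p]) (c : ℤ_[p]), η *ᵥ m = m ∧ γ *ᵥ m = c • m ∧ IsUnit ((W *ᵥ m) i) := by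
  obtain ⟨ζ, hζ⟩ := exists_primitiveRoot p
  set e := p - 1 with hedef
  have he0 : 0 < e := Nat.sub_pos_of_lt hp.1.one_lt
  let f : ℕ → Matrix n n ℤ_[p] := fun a => ∑ k ∈ Finset.range e, (ζ ^ a • γ) ^ k
  have h1 : ∑ a ∈ Finset.range e, f a = (e : ℤ_[p]) • (1 : Matrix n n ℤ_[p]) := by
    simp only [f]
    rw [Finset.sum_comm, Finset.sum_eq_single_of_mem 0 (Finset.mem_range.2 he0)]
    · simp [← Nat.cast_smul_eq_nsmul ℤ_[p]]
    · intro k hk hk0
      simp only [smul_pow, ← Finset.sum_smul, pow_right_comm ζ _ k]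
      have h2 : ζ ^ k - 1 ≠ 0 := sub_ne_zero.2
        (hζ.pow_ne_one_of_pos_of_lt hk0 (Finset.mem_range.1 hk))
      have h3 := mul_geom_sum (ζ ^ k) e
      rw [← pow_mul, mul_comm k, pow_mul, hζ.pow_eq_one, one_pow, sub_self] at h3
      rw [(mul_eq_zero.1 h3).resolve_left h2, zero_smul]
  have h2 : IsUnit (∑ a ∈ Finset.range e, (W * (f a * η)) i j) := by
    rw [← Matrix.sum_apply, ← Finset.mul_sum, ← Finset.sum_mul, h1, smul_mul_assoc, one_mul,
      mul_smul_comm, Matrix.smul_apply, smul_eq_mul]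
    exact isUnit_pred.mul h
  obtain ⟨a, -, ha⟩ := IsLocalRing.exists_of_isUnit_sum h2
  have h3 : Commute η (f a) := Commute.sum_right _ _ _ fun k _ => (hc.symm.smul_right _).pow_right k
  have h4 : (ζ ^ a • γ) * (f a * η) = f a * η := by
    have h5 := mul_geom_sum (ζ ^ a • γ) e
    rw [← sub_eq_zero, ← one_mul (f a * η), ← mul_assoc, mul_one, ← mul_assoc, one_mul, ← sub_mul,
      ← sub_one_mul]
    simp only [f]
    rw [h5, sub_mul, smul_pow, ← pow_mul, mul_comm a, pow_mul, hζ.pow_eq_one, one_pow, one_smul, he,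
      one_mul, sub_self]
  refine ⟨(f a * η) *ᵥ Pi.single j 1, (ζ ^ a) ^ (e - 1), ?_, ?_, ?_⟩
  · rw [mulVec_mulVec, ← mul_assoc, h3.eq, mul_assoc, hη]
  · conv_rhs => rw [← h4]
    rw [← mulVec_mulVec _ (ζ ^ a • γ), smul_mulVec, smul_smul, ← pow_succ, Nat.sub_add_cancel he0, ← pow_mul,
      mul_comm a, pow_mul, hζ.pow_eq_one, one_pow, one_smul]
  · rwa [mulVec_mulVec, mulVec_single_one]

end Cfsg.Agent.P12.Lat
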