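/-
P12, chapter LAT, part 2: summands of lattices for the normalizer of a group of order `p`.
-/
import Cfsg.Agent.P12.Lat1

set_option autoImplicit false

namespace Cfsg.Agent.P12.Lat

open Matrix

variable {p : ℕ} [hp : Fact p.Prime] {n : Type*} [Fintype n] [DecidableEq n]

local notation "Mat" => Matrix n n ℤ_[p]
local notation "Cyc" => Matrix (ZMod p) (ZMod p) ℤ_[p]

/-- `X` represents a group of order `p`, normalized by `γ`. -/
structure Data (X : ZMod p → Mat) (γ : Mat) (κ : ZMod p ≃ ZMod p) : Prop where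
  zero : X 0 = 1
  add : ∀ i j, X (i + j) = X i * X j
  conj : ∀ j, X j * γ = γ * X (κ j)

/-- Invariant idempotents on whose image `γ ^ (p - 1)` is trivial. -/
structure Good (X : ZMod p → Mat) (γ η : Mat) : Prop where
  idem : η * η = η
  comm : ∀ j, Commute (X j) η
  commγ : Commute γ η
  pow : γ ^ (p - 1) * η = η

variable {X : ZMod p → Matrix n n ℤ_[p]} {γ η : Matrix n n ℤ_[p]} {κ : ZMod p ≃ ZMod p}

theorem Data.commute (h : Data X γ κ) (i j : ZMod p) : Commute (X i) (X j) := by
  rw [Commute, SemiconjBy, ← h.add, ← h.add, add_comm]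

theorem Data.conj_pow (h : Data X γ κ) (k : ℕ) (j : ZMod p) :
    X j * γ ^ k = γ ^ k * X (κ^[k] j) := by
  induction k with
  | zero => simp
  | succ k ih =>
    rw [pow_succ, ← mul_assoc, ih, mul_assoc, h.conj, Function.iterate_succ_apply', mul_assoc]

theorem Data.average (h : Data X γ κ) (hη : Good X γ η) {ε₀ : Mat} (h1 : ε₀ * ε₀ = ε₀)
    (h2 : ε₀ * η = ε₀) (h3 : η * ε₀ = ε₀) (h4 : ∀ j, Commute (X j) ε₀)
    (h5 : ε₀ * γ * ε₀ = γ * ε₀) : ∃ ε, Good X γ ε ∧ ε * η = ε ∧ η * ε = ε ∧
      ∀ j, (X j * ε).trace = (X j * ε₀).trace := by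
  set e := p - 1 with hedef
  obtain ⟨u, hu⟩ := (isUnit_pred (p := p)).exists_left_inv
  have hpow : ∀ k, ε₀ * (γ ^ k * ε₀) = γ ^ k * ε₀ := fun k => by
    induction k with
    | zero => simpa using h1
    | succ k ih => rw [pow_succ', mul_assoc, ← ih, ← mul_assoc, ← mul_assoc, h5, mul_assoc]
  have hl : γ ^ e * ε₀ = ε₀ := by rw [← h3, ← mul_assoc, hη.pow]
  have hηr : η * γ ^ e = η := by rw [← (hη.commγ.pow_left e).eq, hη.pow]
  have hr : ε₀ * γ ^ e = ε₀ := by rw [← h2, mul_assoc, hηr]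
  let t : ℕ → Mat := fun i => γ ^ i * ε₀ * γ ^ (e - i)
  have ht1 : ∀ i, ε₀ * t i = t i := fun i => by simp only [t]; rw [← mul_assoc, hpow]
  have ht2 : ∀ i ∈ Finset.range e, t i * ε₀ = ε₀ := fun i hi => by
    simp only [t]
    rw [mul_assoc, mul_assoc, hpow, ← mul_assoc, ← pow_add,
      Nat.add_sub_cancel' (Finset.mem_range.1 hi).le, hl]
  have ht3 : ∀ i, t i * η = t i := fun i => by
    simp only [t]; rw [mul_assoc, (hη.commγ.pow_left _).eq, ← mul_assoc, mul_assoc _ ε₀, h2]
  have ht4 : ∀ i ∈ Finset.range e, ∀ j, X j * t i = t i * X j := fun i hi j => by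
    have e1 : η * X (κ^[e] j) = η * X j := by
      conv_lhs => rw [← hηr]
      rw [mul_assoc, ← h.conj_pow, ← mul_assoc, ← (hη.comm j).eq, mul_assoc, hηr]
    rw [← ht3 i, mul_assoc (t i), ← e1, ← mul_assoc (t i), ht3 i]
    simp only [t]
    rw [← mul_assoc, ← mul_assoc, h.conj_pow, mul_assoc _ (X _), (h4 _).eq, ← mul_assoc,
      mul_assoc _ (X _), h.conj_pow, ← Function.iterate_add_apply,
      Nat.sub_add_cancel (Finset.mem_range.1 hi).le, ← mul_assoc]
  let ε : Mat := u • ∑ i ∈ Finset.range e, t i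
  have a1 : ε₀ * ε = ε := by simp only [ε, mul_smul_comm, Finset.mul_sum, ht1]
  have a2 : ε * ε₀ = ε₀ := by
    simp only [ε, smul_mul_assoc, Finset.sum_mul]
    rw [Finset.sum_congr rfl ht2, Finset.sum_const, Finset.card_range, ← Nat.cast_smul_eq_nsmul ℤ_[p],
      smul_smul, hu, one_smul]
  have a3 : ∀ j, Commute (X j) ε := fun j =>
    (Commute.sum_right _ _ _ fun i hi => ht4 i hi j).smul_right u
  have a4 : η * ε = ε := by rw [← a1, ← mul_assoc, h3]
  refine ⟨ε, ⟨by nth_rewrite 2 [← a1]; rw [← mul_assoc, a2, a1], a3, Commute.smul_right ?_ u,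
    by rw [← a4, ← mul_assoc, hη.pow]⟩, by simp only [ε, smul_mul_assoc, Finset.sum_mul, ht3], a4,
    fun j => ?_⟩
  · have b1 : ∀ i ∈ Finset.range e, γ * t i = t (i + 1) * γ := fun i hi => by
      simp only [t]
      rw [mul_assoc _ (γ ^ (e - (i + 1))), ← pow_succ, pow_succ', ← mul_assoc, ← mul_assoc,
        show e - (i + 1) + 1 = e - i by have := Finset.mem_range.1 hi; omega]
    have b2 := (Finset.sum_range_succ t e).symm.trans (Finset.sum_range_succ' t e)
    rw [show t e = t 0 by simp only [t]; simp [hl, hr], add_left_inj] at b2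
    rw [Commute, SemiconjBy, Finset.mul_sum, Finset.sum_congr rfl b1, ← Finset.sum_mul, ← b2]
  · rw [← a1, ← mul_assoc, trace_mul_comm, ← mul_assoc, ← (a3 j).eq, mul_assoc, a2]

/-- The regular representation of `ZMod p`. -/
noncomputable def sh (k : ZMod p) : Cyc := circulant (Pi.single k 1)

theorem sh_mulVec (k : ZMod p) (v : ZMod p → ℤ_[p]) : sh k *ᵥ v = fun i => v (i - k) := by
  ext i
  rw [mulVec, dotProduct, Finset.sum_eq_single (i - k)]
  · simp [sh]
  · intro j _ hj
    rw [sh, circulant_apply, Pi.single_eq_of_ne fun e => hj (by rw [← e]; ring), zero_mul]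
  · simp

theorem sh_add (i j : ZMod p) : sh (i + j) = sh i * sh j := by
  have := sh_mulVec i (Pi.single j 1)
  rw [sh] at this
  rw [sh, sh, sh, circulant_mul, this]
  congr 1
  ext k
  simp [Pi.single_apply, sub_eq_iff_eq_add, add_comm]

theorem sh_zero : sh (0 : ZMod p) = 1 := circulant_single_one _ _

theorem trace_sh {k : ZMod p} (hk : k ≠ 0) : (sh k).trace = 0 := by
  simp [sh, trace, Pi.single_eq_of_ne hk.symm]

theorem pow_eq {A : Type*} [Monoid A] {Y : ZMod p → A} (h0 : Y 0 = 1)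
    (h : ∀ i j, Y (i + j) = Y i * Y j) (j : ZMod p) (k : ℕ) : Y j ^ k = Y (k * j) := by
  induction k with
  | zero => simp [h0]
  | succ k ih => rw [pow_succ, ih, ← h]; push_cast; ring_nf

theorem pow_p {A : Type*} [Monoid A] {Y : ZMod p → A} (h0 : Y 0 = 1)
    (h : ∀ i j, Y (i + j) = Y i * Y j) (j : ZMod p) : Y j ^ p = 1 := by
  rw [pow_eq h0 h, ZMod.natCast_self, zero_mul, h0]

theorem red_sub_one_pow {Y : Mat} (h : Y ^ p = 1) : (red p n Y - 1) ^ p = 0 := by
  cases isEmpty_or_nonempty n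
  · exact Subsingleton.elim _ _
  · rw [sub_pow_char_of_commute _ (Commute.one_right _), ← map_pow, h, map_one, one_pow, sub_self]

theorem isUnit_circulant {u : ZMod p → ℤ_[p]} (h : IsUnit (∑ j, u j)) : IsUnit (circulant u) := by
  have h1 : circulant u = ∑ j, u j • (sh j - 1) + (∑ j, u j) • (1 : Cyc) := by
    simp only [smul_sub, Finset.sum_sub_distrib, Finset.sum_smul, sub_add_cancel]
    ext i j
    simp [sh, Matrix.sum_apply, Pi.single_apply]
  have hc : ∀ i j : ZMod p, Commute (sh i) (sh j) := fun i j => circulant_mul_comm _ _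
  apply isUnit_of_red
  rw [h1, map_add]
  have h2 : IsUnit ((∑ j, u j) • (1 : Cyc)) := by
    rw [← Algebra.algebraMap_eq_smul_one]; exact h.map _
  have h3 : Commute (∑ j, u j • (sh j - 1)) ((∑ j, u j) • (1 : Cyc)) :=
    (Commute.one_right _).smul_right _
  have h4 : IsNilpotent (red p (ZMod p) (∑ j, u j • (sh j - 1))) := by
    rw [map_sum]
    refine Commute.isNilpotent_sum (fun j _ => ⟨p, ?_⟩) fun i j _ _ => Commute.map ?_ _
    · rw [← map_pow, smul_pow, Algebra.smul_def, map_mul, map_pow _ (sh j - 1), map_sub, map_one,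
        red_sub_one_pow (pow_p sh_zero sh_add j), mul_zero]
    · exact ((((hc i j).sub_right (Commute.one_right _)).sub_left
        (Commute.one_left _)).smul_left _).smul_right _
  exact h4.isUnit_add_right_of_commute (h2.map _) (h3.map _)

/-- The columns `X j m`. -/
noncomputable def col (X : ZMod p → Mat) (m : n → ℤ_[p]) : Matrix n (ZMod p) ℤ_[p] :=
  of fun i j => (X j *ᵥ m) i

/-- The `i`-th rows of the `X (-j) η`. -/
noncomputable def row (X : ZMod p → Mat) (η : Mat) (i : n) : Matrix (ZMod p) n ℤ_[p] :=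
  of fun j k => (X (-j) * η) i k

theorem mul_col (W : Mat) (m : n → ℤ_[p]) (i : n) (j : ZMod p) :
    (W * col X m) i j = ((W * X j) *ᵥ m) i := by
  rw [← mulVec_mulVec]; rfl

theorem row_mul (W : Mat) (i : n) (j : ZMod p) (k : n) :
    (row X η i * W) j k = (X (-j) * η * W) i k := rfl

theorem Data.build (h : Data X γ κ) (hη : Good X γ η) {m : n → ℤ_[p]} {c : ℤ_[p]}
    (hm : η *ᵥ m = m) (hc : γ *ᵥ m = c • m) (i : n) {B : Cyc}
    (h1 : col X m * B * circulant (fun j => (X (-j) *ᵥ m) i) = col X m)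
    (h2 : col X m * (sh 1 * B :) * row X η i = col X m * (B * sh 1 :) * row X η i) :
    ∃ ε, Good X γ ε ∧ ε * η = ε ∧ η * ε = ε ∧
      ∀ k, (X k * ε).trace = (sh k * B * circulant fun j => (X (-j) *ᵥ m) i).trace := by
  have a1 : ∀ k, X k * col X m = col X m * sh k := fun k => by
    ext a j
    rw [mul_col, ← h.add, mul_apply, Finset.sum_eq_single (k + j)]
    · simp [sh, col]
    · intro b _ hb
      rw [sh, circulant_apply, Pi.single_eq_of_ne fun e => hb (by rw [← e]; ring), mul_zero]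
    · simp
  have a2 : ∀ k, row X η i * X k = sh k * row X η i := fun k => by
    ext j a
    have := congrFun (sh_mulVec k fun b => row X η i b a) j
    rw [row_mul, mul_assoc, ← (hη.comm k).eq, ← mul_assoc, ← h.add]
    refine Eq.trans ?_ this.symm
    rw [row, of_apply, neg_sub, neg_add_eq_sub]
  have a3 : row X η i * col X m = circulant fun j => (X (-j) *ᵥ m) i := by
    ext j k
    have : (row X η i * col X m) j k = (X (-j) * η * col X m) i k := rfl
    rw [this, mul_col, mul_assoc, ← (hη.comm k).eq, ← mul_assoc, ← h.add, ← mulVec_mulVec, hm,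
      circulant_apply, neg_sub, neg_add_eq_sub]
  have a4 : η * col X m = col X m := by
    ext a j; rw [mul_col, ← (hη.comm j).eq, ← mulVec_mulVec, hm]; rfl
  have a5 : row X η i * η = row X η i := by
    ext j a; rw [row_mul, mul_assoc, hη.idem]; rfl
  have a6 : col X m * B * row X η i * col X m = col X m := by rw [Matrix.mul_assoc, a3, h1]
  have a7 : ∃ Q : Cyc, γ * col X m = col X m * Q := by
    refine ⟨of fun a j => if a = κ.symm j then c else 0, ?_⟩
    ext a j
    have := h.conj (κ.symm j)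
    rw [Equiv.apply_symm_apply] at this
    rw [mul_col, ← this, ← mulVec_mulVec, hc, mulVec_smul]
    simp [mul_apply, col, mul_comm]
  obtain ⟨Q, hQ⟩ := a7
  obtain ⟨ε, b1, b2, b3, b4⟩ := h.average hη (ε₀ := col X m * B * row X η i)
    (by rw [← Matrix.mul_assoc, ← Matrix.mul_assoc, a6]) (by rw [Matrix.mul_assoc, a5])
    (by rw [← Matrix.mul_assoc, ← Matrix.mul_assoc, a4]) (fun k => by
      rw [show X k = X 1 ^ k.val by rw [pow_eq h.zero h.add, ZMod.natCast_zmod_val, mul_one]]
      refine Commute.pow_left ?_ _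
      rw [Commute, SemiconjBy, ← Matrix.mul_assoc, ← Matrix.mul_assoc, a1,
        Matrix.mul_assoc _ (sh 1) B, h2, Matrix.mul_assoc _ (row X η i), a2]
      simp only [Matrix.mul_assoc])
    (by rw [Matrix.mul_assoc _ γ, ← Matrix.mul_assoc γ, ← Matrix.mul_assoc γ, hQ,
      ← Matrix.mul_assoc, ← Matrix.mul_assoc, ← Matrix.mul_assoc, a6])
  refine ⟨ε, b1, b2, b3, fun k => ?_⟩
  rw [b4, ← Matrix.mul_assoc, ← Matrix.mul_assoc, a1, Matrix.mul_assoc (col X m),
    Matrix.mul_assoc (col X m), trace_mul_comm, Matrix.mul_assoc _ (row X η i), a3]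

end Cfsg.Agent.P12.Lat
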