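/-
P12, chapter LAT, part 3: the three types of summands.
-/
import Cfsg.Agent.P12.Lat2

set_option autoImplicit false

namespace Cfsg.Agent.P12.Lat

open Matrix

variable {p : ℕ} [hp : Fact p.Prime] {n : Type*} [Fintype n] [DecidableEq n]

local notation "Mat" => Matrix n n ℤ_[p]
local notation "Cyc" => Matrix (ZMod p) (ZMod p) ℤ_[p]

variable {X : ZMod p → Matrix n n ℤ_[p]} {γ η : Matrix n n ℤ_[p]} {κ : ZMod p ≃ ZMod p}

theorem sum_neg' {M : Type*} [AddCommMonoid M] (f : ZMod p → M) : ∑ j, f (-j) = ∑ j, f j :=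
  Equiv.sum_comp (Equiv.neg _) f

theorem Data.mul_hat (h : Data X γ κ) (k : ZMod p) : X k * ∑ j, X j = ∑ j, X j := by
  simp only [Finset.mul_sum, ← h.add]
  exact Equiv.sum_comp (Equiv.addLeft k) X

theorem Data.typeA (h : Data X γ κ) (hη : Good X γ η) {i j : n}
    (hu : IsUnit (((∑ k, X k) * η) i j)) : ∃ ε, Good X γ ε ∧ ε * η = ε ∧ η * ε = ε ∧
      ∀ k, (X k * ε).trace = (sh k).trace := by
  obtain ⟨m, c, hm, hc, hu⟩ := exists_eigen hη.idem hη.commγ hη.pow hu
  obtain ⟨U, hU⟩ := isUnit_circulant (u := fun j => (X (-j) *ᵥ m) i) (by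
    rwa [← sum_neg' X, sum_mulVec, Finset.sum_apply] at hu)
  have h1 : Commute (sh (1 : ZMod p)) (U : Cyc) := hU ▸ circulant_mul_comm _ _
  obtain ⟨ε, b1, b2, b3, b4⟩ := h.build hη hm hc i (B := ↑U⁻¹)
    (by rw [← hU, Matrix.mul_assoc, Units.inv_mul, Matrix.mul_one]) (by rw [h1.units_inv_right.eq])
  exact ⟨ε, b1, b2, b3, fun k => by rw [b4, ← hU, Units.inv_mul_cancel_right]⟩

theorem Data.typeB (h : Data X γ κ) (hη : Good X γ η) (h0 : η ≠ 0) (hX : ∀ k, X k * η = η) :
    ∃ ε, Good X γ ε ∧ ε * η = ε ∧ η * ε = ε ∧ ∀ k, (X k * ε).trace = 1 := by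
  obtain ⟨i, j, hu⟩ := (unit_or_smul η).resolve_right fun ⟨W, hW⟩ =>
    h0 (idem_eq_zero hη.idem (hW ▸ red_smul W))
  obtain ⟨m, c, hm, hc, hu⟩ := exists_eigen (W := 1) hη.idem hη.commγ hη.pow (by rwa [one_mul])
  rw [one_mulVec] at hu
  obtain ⟨a, ha⟩ := hu.exists_left_inv
  let l : n → ℤ_[p] := Pi.single i a ᵥ* η
  have h1 : l ᵥ* η = l := by simp only [l]; rw [vecMul_vecMul, hη.idem]
  have h2 : l ⬝ᵥ m = 1 := by
    simp only [l]; rw [← dotProduct_mulVec, hm, single_dotProduct, ha]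
  have h3 : ∀ k, X k *ᵥ m = m := fun k => by rw [← hm, mulVec_mulVec, hX]
  have h4 : ∀ k, l ᵥ* X k = l := fun k => by rw [← h1, vecMul_vecMul, ← (hη.comm k).eq, hX]
  obtain ⟨ε, b1, b2, b3, b4⟩ := h.average hη (ε₀ := vecMulVec m l)
    (by rw [vecMulVec_mul_vecMulVec, h2, one_smul]) (by rw [vecMulVec_mul, h1])
    (by rw [mul_vecMulVec, hm])
    (fun k => by rw [Commute, SemiconjBy, mul_vecMulVec, vecMulVec_mul, h3, h4])
    (by rw [mul_assoc, mul_vecMulVec γ, hc, smul_vecMulVec, mul_smul_comm,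
      vecMulVec_mul_vecMulVec, h2, one_smul])
  exact ⟨ε, b1, b2, b3, fun k => by
    rw [b4, mul_vecMulVec, h3, trace_vecMulVec, dotProduct_comm, h2]⟩

theorem val_pred (j : ZMod p) : (j - 1).val + 1 = if j = 0 then p else j.val := by
  have h1 := hp.1.one_lt
  split_ifs with h
  · rw [h, zero_sub, ZMod.neg_val, if_neg one_ne_zero, ZMod.val_one]; omega
  · have := ZMod.val_pos.2 h
    rw [ZMod.val_sub (by rw [ZMod.val_one]; omega), ZMod.val_one]; omega

/-- Division by `x - 1`. -/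
noncomputable def del (p : ℕ) [Fact p.Prime] : Matrix (ZMod p) (ZMod p) ℤ_[p] :=
  of fun i j => if i.val < j.val then 1 else 0

theorem sh_mul_del : (sh 1 - 1) * del p = 1 - vecMulVec (Pi.single 0 1) 1 := by
  ext i j
  have h1 : (sh 1 * del p : Cyc) i j = del p (i - 1) j :=
    congrFun (sh_mulVec 1 fun b => del p b j) i
  have h2 := val_pred i
  have h3 := ZMod.val_lt j
  have h4 : i = j ↔ i.val = j.val := (ZMod.val_injective p).eq_iff.symm
  rw [sub_mul, one_mul, Matrix.sub_apply, h1]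
  simp only [del, of_apply, Matrix.sub_apply, one_apply, vecMulVec_apply, Pi.single_apply, h4,
    Pi.one_apply, mul_one]
  by_cases h : i = 0
  · subst h
    simp only [if_true, ZMod.val_zero] at h2 ⊢
    split_ifs <;> first | omega | simp
  · simp only [if_neg h] at h2 ⊢
    split_ifs <;> first | omega | simp

theorem del_mul_sh : del p * (sh 1 - 1) = 1 - vecMulVec 1 (Pi.single (-1) 1) := by
  ext i j
  have h1 : (del p * sh 1 : Cyc) i j = del p i (j + 1) := by
    rw [mul_apply, Finset.sum_eq_single (j + 1)]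
    · simp [sh]
    · intro b _ hb
      rw [sh, circulant_apply, Pi.single_eq_of_ne fun e => hb (by rw [← e]; ring), mul_zero]
    · simp
  have h2 := val_pred (j + 1)
  have h3 := ZMod.val_lt i
  have h4 : i = j ↔ i.val = j.val := (ZMod.val_injective p).eq_iff.symm
  rw [mul_sub, mul_one, Matrix.sub_apply, h1]
  simp only [del, of_apply, Matrix.sub_apply, one_apply, vecMulVec_apply, Pi.single_apply, h4,
    Pi.one_apply, one_mul, ← add_eq_zero_iff_eq_neg]
  rw [add_sub_cancel_right] at h2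
  by_cases h : j + 1 = 0
  · simp only [h, if_true, ZMod.val_zero] at h2 ⊢
    split_ifs <;> first | omega | simp
  · simp only [if_neg h] at h2 ⊢
    split_ifs <;> first | omega | simp

theorem sum_del (j : ZMod p) : ∑ i, del p i j = j.val := by
  simp only [del, of_apply, Finset.sum_boole]
  congr 1
  refine (Finset.card_nbij ZMod.val (fun i hi => by simpa using hi)
    (ZMod.val_injective p).injOn fun k hk => ?_).trans (Finset.card_range _)
  have h1 : k < j.val := by simpa using hk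
  have h2 := ZMod.val_cast_of_lt (h1.trans (ZMod.val_lt j))
  exact ⟨k, by simpa [h2] using h1, h2⟩

theorem Data.typeC (h : Data X γ κ) (hη : Good X γ η) (h0 : η ≠ 0) (hX : (∑ k, X k) * η = 0) :
    ∃ ε, Good X γ ε ∧ ε * η = ε ∧ η * ε = ε ∧ ∀ k, (X k * ε).trace = (sh k).trace - 1 := by
  let D : Mat := ∑ j : ZMod p, (j.val : ℤ_[p]) • X (-j)
  have hD : (X (-1) - 1) * D = (p : ℤ_[p]) • (1 : Mat) - ∑ k, X k := by
    have e1 : X (-1) * D = ∑ j : ZMod p, ((j - 1).val : ℤ_[p]) • X (-j) := by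
      simp only [D, Finset.mul_sum, mul_smul_comm, ← h.add]
      rw [← Equiv.sum_comp (Equiv.subRight (1 : ZMod p))]
      exact Finset.sum_congr rfl fun j _ => by
        rw [Equiv.subRight_apply, show -1 + -(j - 1) = -j by ring]
    rw [sub_mul, one_mul, e1, ← Finset.sum_sub_distrib, ← sum_neg' X,
      show (p : ℤ_[p]) • (1 : Mat) = ∑ j : ZMod p, (if j = 0 then (p : ℤ_[p]) else 0) • X (-j) by
        simp [h.zero], ← Finset.sum_sub_distrib]
    refine Finset.sum_congr rfl fun j _ => ?_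
    have := congrArg (Nat.cast : ℕ → ℤ_[p]) (val_pred j)
    rw [← sub_smul, ← sub_eq_zero, ← sub_add, ← sub_smul]
    nth_rewrite 2 [← one_smul ℤ_[p] (X (-j))]
    rw [← add_smul]
    split_ifs at this ⊢ with hj
    · subst hj; push_cast at this; rw [← this]; simp
    · push_cast at this; rw [← this]; simp
  obtain ⟨i, j, hu⟩ := (unit_or_smul (D * η)).resolve_right fun ⟨W, hW⟩ => h0 (by
    have e1 : (X (-1) - 1) * W = η := smul_cancel (by
      rw [← mul_smul_comm, ← hW, ← mul_assoc, hD, sub_mul, hX, sub_zero, smul_mul_assoc, one_mul])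
    have e2 : Commute (X (-1)) W := smul_cancel (by
      rw [← mul_smul_comm, ← smul_mul_assoc, ← hW]
      exact (Commute.sum_right _ _ _ fun j _ => (h.commute _ _).smul_right _).mul_right (hη.comm _))
    refine idem_eq_zero hη.idem ?_
    rw [← (show IsIdempotentElem η from hη.idem).pow_eq hp.1.ne_zero, ← e1,
      (e2.sub_left (Commute.one_left W)).mul_pow, map_mul, map_pow, map_sub, map_one,
      red_sub_one_pow (pow_p h.zero h.add _), zero_mul])
  obtain ⟨m, c, hm, hc, hu⟩ := exists_eigen hη.idem hη.commγ hη.pow hu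
  set θ : ZMod p → ℤ_[p] := fun j => (X (-j) *ᵥ m) i with hθ
  have hm0 : (∑ k, X k) *ᵥ m = 0 := by rw [← hm, mulVec_mulVec, hX, zero_mulVec]
  have hs : IsUnit (∑ j, (del p *ᵥ θ) j) := by
    convert hu using 1
    simp only [mulVec, dotProduct]
    rw [Finset.sum_comm]
    simp only [← Finset.sum_mul, sum_del]
    have : (D *ᵥ m) i = ∑ j : ZMod p, (j.val : ℤ_[p]) * θ j := by
      simp only [D, sum_mulVec, Finset.sum_apply, smul_mulVec, Pi.smul_apply, smul_eq_mul, hθ]
    exact this.symm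
  obtain ⟨U, hU⟩ := isUnit_circulant hs
  obtain ⟨s, hs⟩ := hs.exists_left_inv
  have a1 : (U : Cyc) *ᵥ 1 = (∑ j, (del p *ᵥ θ) j) • 1 := by
    ext k
    simp only [hU, mulVec, dotProduct, circulant_apply, Pi.one_apply, mul_one, Pi.smul_apply,
      smul_eq_mul]
    exact Equiv.sum_comp (Equiv.subLeft k) fun j => ∑ x, del p j x * θ x
  have a2 : (↑U⁻¹ : Cyc) *ᵥ 1 = s • 1 := by
    conv_lhs => rw [← one_smul ℤ_[p] (1 : ZMod p → ℤ_[p]), ← hs, mul_smul, ← a1, mulVec_smul,
      mulVec_mulVec, Units.inv_mul, one_mulVec]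
  have a3 : circulant θ = (sh 1 - 1) * (U : Cyc) := by
    have : (sh 1 - 1) *ᵥ (del p *ᵥ θ) = θ := by
      have e1 : (1 : ZMod p → ℤ_[p]) ⬝ᵥ θ = 0 := by
        have := congrFun hm0 i
        rw [← sum_neg' X, sum_mulVec, Finset.sum_apply] at this
        simpa [dotProduct] using this
      rw [mulVec_mulVec, sh_mul_del, sub_mulVec, one_mulVec, vecMulVec_mulVec, e1]; simp
    rw [← this, hU, sub_mul, one_mul, sub_mulVec, one_mulVec, circulant_sub, sh, circulant_mul]
  have a4 : (↑U⁻¹ : Cyc) * del p * circulant θ =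
      1 - vecMulVec (s • 1) (Pi.single (-1) 1 ᵥ* (U : Cyc)) := by
    rw [a3, mul_assoc, ← mul_assoc (del p), del_mul_sh, sub_mul, one_mul, mul_sub, Units.inv_mul,
      vecMulVec_mul, mul_vecMulVec, a2]
  have a5 : col X m *ᵥ 1 = 0 := by
    rw [← hm0, sum_mulVec]; ext a; simp [col, mulVec, dotProduct]
  have a6 : 1 ᵥ* row X η i = 0 := by
    ext a
    have := congrFun (congrFun hX i) a
    rw [← sum_neg' X, Finset.sum_mul, Matrix.sum_apply] at this
    simpa [row, vecMul, dotProduct] using this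
  have h1 : Commute (sh (1 : ZMod p)) (U : Cyc) := hU ▸ circulant_mul_comm _ _
  obtain ⟨ε, b1, b2, b3, b4⟩ := h.build hη hm hc i (B := (↑U⁻¹ : Cyc) * del p)
    (by rw [Matrix.mul_assoc, a4, Matrix.mul_sub, Matrix.mul_one, mul_vecMulVec, mulVec_smul, a5,
      smul_zero, zero_vecMulVec, sub_zero]) (by
    have e1 : sh 1 * del p = del p * sh 1 + vecMulVec 1 (Pi.single (-1) 1) -
        vecMulVec (Pi.single 0 1) 1 := by
      have e2 := sh_mul_del (p := p)
      have e3 := del_mul_sh (p := p)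
      rw [sub_mul, one_mul, sub_eq_iff_eq_add] at e2
      rw [mul_sub, mul_one, sub_eq_iff_eq_add] at e3
      rw [e2, e3]; abel
    rw [← mul_assoc, h1.units_inv_right.eq, mul_assoc, e1, mul_sub, mul_add, Matrix.mul_sub,
      Matrix.mul_add, Matrix.sub_mul, Matrix.add_mul, mul_vecMulVec, mul_vecMulVec, a2,
      mulVec_smul, a5, smul_zero, zero_vecMulVec, Matrix.zero_mul, add_zero, mul_vecMulVec,
      mul_vecMulVec, vecMulVec_mul, a6, mul_assoc]
    ext; simp [vecMulVec_apply])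
  refine ⟨ε, b1, b2, b3, fun k => ?_⟩
  rw [b4, mul_assoc, a4, mul_sub, mul_one, trace_sub, mul_vecMulVec, trace_vecMulVec, mulVec_smul,
    sh_mulVec, dotProduct_comm, dotProduct_smul]
  have : (fun i : ZMod p => (1 : ZMod p → ℤ_[p]) (i - k)) = 1 := rfl
  rw [this, ← dotProduct_mulVec, a1, single_dotProduct]
  simp [hs]

end Cfsg.Agent.P12.Lat
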