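/-
P12, chapter LAT, part 4: relatively projective endomorphisms.
-/
import Cfsg.Agent.P12.Lat3

set_option autoImplicit false

namespace Cfsg.Agent.P12.Lat

open Matrix

variable {p : ℕ} [hp : Fact p.Prime] {n : Type*} [Fintype n] [DecidableEq n]

local notation "Mat" => Matrix n n ℤ_[p]

variable {X : ZMod p → Matrix n n ℤ_[p]} {γ η : Matrix n n ℤ_[p]} {κ : ZMod p ≃ ZMod p}

theorem Data.exists_summand (h : Data X γ κ) (hη : Good X γ η) (h0 : η ≠ 0) :
    ∃ ε, Good X γ ε ∧ ε * η = ε ∧ η * ε = ε ∧ ε.trace ≠ 0 ∧ ((∀ k, k ≠ 0 → (X k * ε).trace = 0) ∨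
      (IsUnit ε.trace ∧ ∃ c : ℤ, (c = 1 ∨ c = -1) ∧ ∀ k, k ≠ 0 → (X k * ε).trace = c)) := by
  have hp0 : (p : ℤ_[p]) ≠ 0 := Nat.cast_ne_zero.2 hp.1.ne_zero
  have ht : (sh (0 : ZMod p)).trace = p := by rw [sh_zero, trace_one, ZMod.card]
  rcases unit_or_smul ((∑ k, X k) * η) with ⟨i, j, hu⟩ | ⟨π, hπ⟩
  · obtain ⟨ε, b1, b2, b3, b4⟩ := h.typeA hη hu
    refine ⟨ε, b1, b2, b3, ?_, Or.inl fun k hk => by rw [b4, trace_sh hk]⟩
    have := b4 0
    rw [h.zero, one_mul, ht] at this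
    rwa [this]
  by_cases h1 : π = 0
  · obtain ⟨ε, b1, b2, b3, b4⟩ := h.typeC hη h0 (by rw [hπ, h1, smul_zero])
    have h2 : IsUnit ε.trace := by
      have := b4 0
      rw [h.zero, one_mul, ht] at this
      rw [this, isUnit_iff]; simp
    exact ⟨ε, b1, b2, b3, h2.ne_zero, Or.inr ⟨h2, -1, Or.inr rfl, fun k hk => by
      rw [b4, trace_sh hk]; simp⟩⟩
  have c1 : Commute (∑ k, X k) η := Commute.sum_left _ _ _ fun k _ => hη.comm k
  have c2 : Commute γ (∑ k, X k) := by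
    rw [Commute, SemiconjBy, Finset.sum_mul, Finset.sum_congr rfl fun k _ => h.conj k,
      ← Finset.mul_sum, Equiv.sum_comp κ X]
  have a1 : ∀ k, X k * π = π := fun k => smul_cancel (by
    rw [← mul_smul_comm, ← hπ, ← mul_assoc, h.mul_hat])
  have a2 : η * π = π := smul_cancel (by
    rw [← mul_smul_comm, ← hπ, ← mul_assoc, ← c1.eq, mul_assoc, hη.idem])
  have a3 : π * η = π := smul_cancel (by rw [← smul_mul_assoc, ← hπ, mul_assoc, hη.idem])
  have a4 : ∀ W : Mat, Commute W (∑ k, X k) → Commute W η → Commute W π := fun W h1 h2 =>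
    smul_cancel (by rw [← mul_smul_comm, ← smul_mul_assoc, ← hπ]; exact h1.mul_right h2)
  have hg : Good X γ π := ⟨smul_cancel (by
      rw [← smul_mul_assoc, ← hπ, mul_assoc, a2, Finset.sum_mul, hπ]
      simp [a1, ← Nat.cast_smul_eq_nsmul ℤ_[p]]),
    fun k => a4 _ (Commute.sum_right _ _ _ fun j _ => h.commute k j) (hη.comm k),
    a4 _ c2 hη.commγ, by rw [← a2, ← mul_assoc, hη.pow]⟩
  obtain ⟨ε, b1, b2, b3, b4⟩ := h.typeB hg h1 a1
  have h2 : ε.trace = 1 := by simpa [h.zero] using b4 0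
  exact ⟨ε, b1, by rw [← b2, mul_assoc, a3], by rw [← b3, ← mul_assoc, a2], by simp [h2],
    Or.inr ⟨by simp [h2], 1, Or.inl rfl, fun k _ => by rw [b4]; simp⟩⟩

/-- Relative traces from the trivial subgroup. -/
def InT (X : ZMod p → Mat) (φ : Mat) : Prop := ∃ ξ : Mat, ∑ j, X j * ξ * X (-j) = φ

theorem InT.zero : InT X 0 := ⟨0, by simp⟩

theorem InT.add {φ ψ : Mat} (h : InT X φ) (h' : InT X ψ) : InT X (φ + ψ) := by
  obtain ⟨⟨a, rfl⟩, b, rfl⟩ := And.intro h h'
  exact ⟨a + b, by simp [mul_add, add_mul, Finset.sum_add_distrib]⟩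

theorem InT.mul_left {φ c : Mat} (h : InT X φ) (hc : ∀ j, Commute (X j) c) : InT X (c * φ) := by
  obtain ⟨a, rfl⟩ := h
  exact ⟨c * a, by simp only [Finset.mul_sum, ← mul_assoc, (hc _).eq]⟩

theorem InT.mul_right {φ c : Mat} (h : InT X φ) (hc : ∀ j, Commute (X j) c) : InT X (φ * c) := by
  obtain ⟨a, rfl⟩ := h
  exact ⟨a * c, by simp only [Finset.sum_mul, mul_assoc, (hc _).eq]⟩

theorem InT.not_isUnit (h : Data X γ κ) {φ : Mat} (hφ : InT X φ) : ¬ IsUnit φ.trace := by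
  obtain ⟨a, rfl⟩ := hφ
  have : ∀ j, (X j * a * X (-j)).trace = a.trace := fun j => by
    rw [trace_mul_comm, ← mul_assoc, ← h.add, neg_add_cancel, h.zero, one_mul]
  simp [isUnit_iff, trace_sum, this]

theorem Data.main (h : Data X γ κ) {η₀ : Mat}
    (hT : ∀ ε, Good X γ ε → ε * η₀ = ε → η₀ * ε = ε → InT X ε ∨ InT X (1 - ε)) (r : ℕ) :
    ∀ η, Good X γ η → η * η₀ = η → η₀ * η = η → η.trace = r →
      (∀ k, k ≠ 0 → (X k * η).trace = 0) ∨
      (¬ InT X η ∧ ∃ c : ℤ, (c = 1 ∨ c = -1) ∧ ∀ k, k ≠ 0 → (X k * η).trace = c) := by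
  induction r using Nat.strong_induction_on with
  | _ r ih =>
  intro η hη h1 h2 hr
  by_cases h0 : η = 0
  · exact Or.inl fun k _ => by simp [h0]
  obtain ⟨ε, b1, b2, b3, b4, b5⟩ := h.exists_summand hη h0
  have c1 : ε * η₀ = ε := by rw [← b2, mul_assoc, h1]
  have c2 : η₀ * ε = ε := by rw [← b3, ← mul_assoc, h2]
  have hg : Good X γ (η - ε) := ⟨by rw [sub_mul, mul_sub, mul_sub, hη.idem, b1.idem, b2, b3]; simp,
    fun k => (hη.comm k).sub_right (b1.comm k), hη.commγ.sub_right b1.commγ,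
    by rw [mul_sub, hη.pow, b1.pow]⟩
  obtain ⟨r', hr', -⟩ := trace_idem hg.idem
  obtain ⟨s, hs, -⟩ := trace_idem b1.idem
  have hlt : r' < r := by
    rw [trace_sub, hr, hs, sub_eq_iff_eq_add] at hr'
    have : s ≠ 0 := by rintro rfl; exact b4 (by simpa using hs)
    have : r = r' + s := by exact_mod_cast hr'
    omega
  have hsum : ∀ k, (X k * η).trace = (X k * (η - ε)).trace + (X k * ε).trace := fun k => by
    rw [mul_sub, trace_sub, sub_add_cancel]
  have ih' := ih r' hlt _ hg (by rw [sub_mul, h1, c1]) (by rw [mul_sub, h2, c2]) hr'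
  rcases b5 with b5 | ⟨b5, c, hc, b6⟩
  · refine ih'.imp (fun a k hk => by rw [hsum, a k hk, b5 k hk, add_zero])
      fun ⟨a, c, hc, a'⟩ => ⟨fun e => a ?_, c, hc, fun k hk => by rw [hsum, a' k hk, b5 k hk, add_zero]⟩
    have := e.mul_right hg.comm
    rwa [mul_sub, hη.idem, b3] at this
  · have d1 : ¬ InT X ε := fun e => e.not_isUnit h b5
    have d2 := ((hT ε b1 c1 c2).resolve_left d1).mul_right hη.comm
    rw [sub_mul, one_mul, b2] at d2
    have d3 := ih'.resolve_right fun a => a.1 d2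
    exact Or.inr ⟨fun e => d1 (b2 ▸ e.mul_left b1.comm), c, hc, fun k hk => by
      rw [hsum, d3 k hk, b6 k hk, zero_add]⟩

/-- The idempotent lifting step. -/
theorem inT_or {G : Type*} (ρ : G → Mat) (hX : ∀ j, ∃ g, X j = ρ g)
    (hind : ∀ e : Mat, e * e = e → (∀ g, Commute (ρ g) e) → e = 0 ∨ e = 1) {ε b : Mat}
    (h1 : ε * ε = ε) (h2 : ∀ j, Commute (X j) ε) (h3 : ∀ g, Commute (ρ g) b)
    (h4 : InT X (b - ε)) : InT X ε ∨ InT X (1 - ε) := by
  have : CompactSpace Mat := inferInstanceAs (CompactSpace (n → n → ℤ_[p]))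
  let S : Set Mat := {b | (∀ g, Commute (ρ g) b) ∧ InT X (b - ε)}
  have hT : IsClosed {φ : Mat | InT X φ} :=
    (isCompact_range (f := fun ξ : Mat => ∑ j, X j * ξ * X (-j)) (by fun_prop)).isClosed
  have hS : IsClosed S := by
    refine IsClosed.inter (s₁ := {b | ∀ g, Commute (ρ g) b}) ?_
      (hT.preimage (f := fun b => b - ε) (by fun_prop))
    rw [Set.setOf_forall]
    exact isClosed_iInter fun g => isClosed_eq (f := fun b : Mat => ρ g * b) (g := fun b => b * ρ g)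
      (by fun_prop) (by fun_prop)
  obtain ⟨e, he, hee⟩ := exists_idempotent_in_compact_subsemigroup (M := Mat)
    (fun r => by fun_prop) S ⟨b, h3, h4⟩ hS.isCompact fun x hx y hy => ⟨fun g =>
      (hx.1 g).mul_right (hy.1 g), by
        have := (hy.2.mul_left (c := x) fun j => by obtain ⟨g, hg⟩ := hX j; exact hg ▸ hx.1 g).add
          (hx.2.mul_right h2)
        rwa [mul_sub, sub_mul, h1, sub_add_sub_cancel] at this⟩
  rcases hind e hee he.1 with rfl | rfl
  · have := he.2.mul_left (c := -1) fun j => (Commute.one_right _).neg_right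
    exact Or.inl (by simpa using this)
  · exact Or.inr he.2

end Cfsg.Agent.P12.Lat
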