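/-
P12, chapter LAT, part 5: indecomposable lattices.
-/
import Cfsg.Agent.P12.Lat4
import Cfsg.Agent.P12.Defs

set_option autoImplicit false

namespace Cfsg.Agent.P12.Lat

open Subgroup Cfsg Cfsg.Agent Cfsg.Agent.FT

universe u

variable {p : ℕ} [hp : Fact p.Prime] {n : Type*} [Fintype n] [DecidableEq n]

local notation "Mat" => Matrix n n ℤ_[p]

theorem inT_sum {X : ZMod p → Mat} {Ω : Type*} (a : ZMod p → Ω → Ω) (a0 : ∀ q, a 0 q = q)
    (aa : ∀ i j q, a (i + j) q = a i (a j q)) (f : Ω → Mat)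
    (hf : ∀ j q, f (a j q) = X j * f q * X (-j)) (s : Finset Ω) :
    (∀ q ∈ s, ∀ j, a j q ∈ s) → (∀ q ∈ s, ∀ j, a j q = q → j = 0) → InT X (∑ q ∈ s, f q) := by
  classical
  induction s using Finset.strongInduction with
  | H s ih =>
  intro h1 h2
  rcases s.eq_empty_or_nonempty with rfl | ⟨q, hq⟩
  · simpa using InT.zero
  let o := Finset.univ.image fun j => a j q
  have ho : o ⊆ s := Finset.image_subset_iff.2 fun j _ => h1 q hq j
  have hinj : Function.Injective fun j => a j q := fun i j (e : a i q = a j q) => by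
    have := h2 q hq (-j + i) (by rw [aa, e, ← aa, neg_add_cancel, a0])
    rwa [neg_add_eq_zero, eq_comm] at this
  rw [← Finset.sum_sdiff ho]
  refine (ih _ (Finset.sdiff_ssubset ho ⟨a 0 q, Finset.mem_image_of_mem _ (Finset.mem_univ _)⟩)
    (fun r hr j => ?_) fun r hr => h2 r (Finset.mem_sdiff.1 hr).1).add
    ⟨f q, by rw [Finset.sum_image hinj.injOn]; simp only [hf]⟩
  rw [Finset.mem_sdiff] at hr ⊢
  refine ⟨h1 r hr.1 j, fun h => hr.2 ?_⟩
  obtain ⟨i, -, hi⟩ := Finset.mem_image.1 h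
  exact Finset.mem_image.2 ⟨-j + i, Finset.mem_univ _, by rw [aa, hi, ← aa, neg_add_cancel, a0]⟩

variable {G : Type u} [Group G]

theorem mem_of_pows {H : Subgroup G} {y : G} {m k : ℕ} (h : m.Coprime k)
    (h1 : y ^ m ∈ H) (h2 : y ^ k ∈ H) : y ∈ H := by
  have h3 := Nat.gcd_eq_gcd_ab m k
  rw [h.gcd_eq_one] at h3
  have h4 := mul_mem (zpow_mem h1 (m.gcdA k)) (zpow_mem h2 (m.gcdB k))
  rwa [← zpow_natCast, ← zpow_natCast, ← zpow_mul, ← zpow_mul, ← zpow_add, ← h3, Nat.cast_one,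
    zpow_one] at h4

/-- The elements commuting with `ε`. -/
def comSub {A : Type*} [Monoid A] (ρ : G →* A) (ε : A) : Subgroup G where
  carrier := {g | Commute (ρ g) ε}
  one_mem' := by simp
  mul_mem' := fun {a b} (ha : Commute _ _) (hb : Commute _ _) => by
    show Commute _ _
    rw [map_mul]; exact ha.mul_left hb
  inv_mem' := fun {a} (ha : Commute _ _) => by
    show ρ a⁻¹ * ε = ε * ρ a⁻¹
    calc ρ a⁻¹ * ε = ρ a⁻¹ * (ε * ρ a) * ρ a⁻¹ := by
          rw [mul_assoc, mul_assoc, ← map_mul, mul_inv_cancel, map_one, mul_one]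
      _ = ε * ρ a⁻¹ := by rw [← ha.eq, ← mul_assoc, ← map_mul, inv_mul_cancel, map_one, one_mul]

variable [Finite G]

theorem exists_gen {P : Subgroup G} (hP : 𝐨(P) = p) : ∃ g ∈ 𝐍(P), g ^ (p - 1) ∈ 𝐂(P) ∧
    ∀ a ∈ 𝐍(P), ∃ k : ℤ, (g ^ k)⁻¹ * a ∈ 𝐂(P) := by
  have hc : IsCyclic P := isCyclic_of_prime_card hP
  have h1 : IsCyclic (MulAut P) := by
    have : Fact (Nat.card P).Prime := hP ▸ hp
    exact isCyclic_of_injective (IsCyclic.mulAutMulEquiv P).toMonoidHom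
      (IsCyclic.mulAutMulEquiv P).injective
  let f := normalizerMonoidHom P
  have hk : ∀ a : 𝐍(P), f a = 1 → (a : G) ∈ 𝐂(P) := fun a ha => by
    have : a ∈ f.ker := ha
    rwa [normalizerMonoidHom_ker] at this
  obtain ⟨⟨_, g, rfl⟩, hg⟩ := IsCyclic.exists_generator (α := f.range)
  refine ⟨g, g.2, hk (g ^ (p - 1)) ?_, fun a ha => ?_⟩
  · rw [map_pow, ← Nat.totient_prime hp.1, ← hP, ← IsCyclic.card_mulAut, pow_card_eq_one']
  · obtain ⟨k, e⟩ := hg ⟨_, ⟨a, ha⟩, rfl⟩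
    refine ⟨k, hk ((g ^ k)⁻¹ * ⟨a, ha⟩) ?_⟩
    rw [map_mul, map_inv, map_zpow, inv_mul_eq_one]
    exact congrArg Subtype.val e

theorem indec {P V : Subgroup G} (hP : 𝐨(P) = p) (hi : ¬ p ∣ P.index) (hV : V ⊲ 𝐂(P))
    (hc : (𝐨(V)).Coprime p) (hk : V.relIndex 𝐂(P) = p) (ρ : G →* Mat)
    (hind : ∀ e : Mat, e * e = e → (∀ g, Commute (ρ g) e) → e = 0 ∨ e = 1) :
    ∃ c : ℤ, (c = 0 ∨ c = 1 ∨ c = -1) ∧ ∀ y ∈ P, y ≠ 1 →
      ∑ v ∈ fs (V : Set G), (ρ (v * y)).trace = 𝐨(V) * c := by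
  classical
  obtain ⟨x, hx, hxp⟩ := exists_mem_orderOf_eq_prime hp.1 (H := P) hP.symm.dvd
  have hx1 : x ≠ 1 := fun e => hp.1.ne_one (by rw [← hxp, e, orderOf_one])
  let φ : ZMod p → G := fun j => x ^ j.val
  have φ0 : φ 0 = 1 := by simp [φ]
  have φa : ∀ i j, φ (i + j) = φ i * φ j := fun i j => by
    have := pow_mod_orderOf x (i.val + j.val)
    rw [hxp] at this
    simp only [φ, ZMod.val_add, this, pow_add]
  have φn : ∀ j, φ (-j) = (φ j)⁻¹ := fun j =>
    eq_inv_of_mul_eq_one_left (by rw [← φa, neg_add_cancel, φ0])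
  have φP : ∀ j, φ j ∈ P := fun j => pow_mem hx _
  have φi : Function.Injective φ := fun i j e => ZMod.val_injective p
    (pow_injOn_Iio_orderOf (by rw [hxp]; exact ZMod.val_lt i) (by rw [hxp]; exact ZMod.val_lt j) e)
  have φs : ∀ y ∈ P, ∃ j, φ j = y := fun y hy => by
    rw [← H7.PCl.zpowers_eq_of_mem hp.1 hP hx hx1] at hy
    obtain ⟨k, hk, rfl⟩ := Finset.mem_image.1 (mem_zpowers_iff_mem_range_orderOf.1 hy)
    rw [Finset.mem_range, hxp] at hk
    exact ⟨k, by simp only [φ, ZMod.val_cast_of_lt hk]⟩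
  have hS : IsSyl p P ⊤ := ⟨le_top, IsPGroup.of_card (n := 1) (by rw [hP, pow_one]),
    by rwa [relIndex_top_right]⟩
  have hmem : ∀ w ∈ 𝐍(P), w ^ p = 1 → w ∈ P := fun w hw hwp =>
    hS.le_of_norm hp.1 (Q := zpowers w) (IsPGroup.of_card_dvd_pow (n := 1) (by
      rw [Nat.card_zpowers, pow_one]; exact orderOf_dvd_of_pow_eq_one hwp)) le_top
      (zpowers_le_of_mem hw) (mem_zpowers w)
  have hCV : ∀ c ∈ 𝐂(P), c ^ p ∈ V := fun c hc' => by
    have := (normal_subgroupOf_iff_le_normalizer hV.1).2 hV.2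
    exact hk ▸ pow_index_mem (H := V.subgroupOf 𝐂(P)) ⟨c, hc'⟩
  have hNV : 𝐍(P) ≤ 𝐍(V) := fun a ha => mem_normalizer_fintype fun v hv => mem_of_pows hc
    (by rw [conj_pow, show v ^ 𝐨(V) = 1 from orderOf_dvd_iff_pow_eq_one.1
      (orderOf_dvd_card_of_mem hv)]; simp)
    (hCV _ ((mem_normalizer_iff.1 (H1.normalizer_le_normalizer_centralizer P ha) v).1 (hV.1 hv)))
  obtain ⟨g₀, hg₀, hg₁, hg₂⟩ := exists_gen hP
  set g := g₀ ^ p with hgdef
  have hg : g ∈ 𝐍(P) := pow_mem hg₀ _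
  have hgV : g ^ (p - 1) ∈ V := by rw [hgdef, pow_right_comm]; exact hCV _ hg₁
  choose κ₀ hκ₀ using fun j => φs (g⁻¹ * φ j * g) ((mem_normalizer_iff''.1 hg _).1 (φP j))
  have hκ : Function.Bijective κ₀ := Finite.injective_iff_bijective.1 fun i j e => φi (by
    have := (hκ₀ i).symm.trans (e ▸ hκ₀ j)
    simpa using this)
  have hD : Data (fun j => ρ (φ j)) (ρ g) (Equiv.ofBijective κ₀ hκ) :=
    ⟨by rw [φ0, map_one], fun i j => by rw [φa, map_mul], fun j => by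
      rw [Equiv.ofBijective_apply, hκ₀, ← map_mul, ← map_mul]; congr 1; group⟩
  obtain ⟨u, hu⟩ : ∃ u : ℤ_[p], u * 𝐨(V) = 1 := IsUnit.exists_left_inv (by
    rw [isUnit_iff, map_natCast, Ne, ZMod.natCast_eq_zero_iff]
    exact hp.1.coprime_iff_not_dvd.1 hc.symm)
  let η : Mat := u • ∑ v ∈ fs (V : Set G), ρ v
  have e1 : ∀ v ∈ V, ρ v * η = η := fun v hv => by
    simp only [η, mul_smul_comm, Finset.mul_sum, ← map_mul]; rw [sum_fs_mul_left hv fun w => ρ w]
  have e2 : ∀ a ∈ 𝐍(V), Commute (ρ a) η := fun a ha => Commute.smul_right (by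
    rw [Commute, SemiconjBy, Finset.mul_sum, Finset.sum_mul, ← sum_fs_conj ha fun w => ρ w * ρ a]
    exact sum_fs_congr fun w _ => by rw [← map_mul, ← map_mul]; congr 1; group) u
  have hη : Good (fun j => ρ (φ j)) (ρ g) η := ⟨by
      nth_rewrite 1 [show η = u • ∑ v ∈ fs (V : Set G), ρ v from rfl]
      rw [smul_mul_assoc, Finset.sum_mul, sum_fs_congr e1, sum_fs_const,
        ← Nat.cast_smul_eq_nsmul ℤ_[p], smul_smul, hu, one_smul],
    fun j => e2 _ (hNV (le_normalizer (φP j))), e2 _ (hNV hg), by rw [← map_pow, e1 _ hgV]⟩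
  have hT : ∀ ε, Good (fun j => ρ (φ j)) (ρ g) ε → ε * η = ε → η * ε = ε →
      InT (fun j => ρ (φ j)) ε ∨ InT (fun j => ρ (φ j)) (1 - ε) := by
    intro ε hε h1 h2
    have c1 : V ≤ comSub ρ ε := fun v hv => show ρ v * ε = ε * ρ v by
      rw [← h2, ← mul_assoc, e1 v hv, h2]
      conv_rhs => rw [← h1, mul_assoc, ← (e2 v (le_normalizer hv)).eq, e1 v hv, h1]
    have c2 : P ≤ comSub ρ ε := fun y hy => by obtain ⟨j, rfl⟩ := φs y hy; exact hε.comm j
    have c3 : 𝐂(P) ≤ comSub ρ ε := fun c hc' => mem_of_pows hc (c2 (hmem _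
      (cent_le_norm P (pow_mem hc' _)) (by
        rw [pow_right_comm]
        exact orderOf_dvd_iff_pow_eq_one.1 (orderOf_dvd_card_of_mem (hCV c hc'))))) (c1 (hCV c hc'))
    have c4 : g₀ ∈ comSub ρ ε := mem_of_pows (m := p) (k := p - 1) (by
      have := hp.1.one_le
      conv_lhs => rw [← Nat.sub_add_cancel this]
      simp) hε.commγ (c3 hg₁)
    have c5 : 𝐍(P) ≤ comSub ρ ε := fun a ha => by
      obtain ⟨k, hk⟩ := hg₂ a ha
      simpa using mul_mem (zpow_mem c4 k) (c3 hk)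
    have := Fintype.ofFinite (G ⧸ 𝐍(P))
    let f : G ⧸ 𝐍(P) → Mat := fun q => ρ q.out * ε * ρ q.out⁻¹
    have f1 : ∀ a : G, f a = ρ a * ε * ρ a⁻¹ := fun a => by
      obtain ⟨b, hb⟩ := QuotientGroup.mk_out_eq_mul 𝐍(P) a
      simp only [f]
      rw [hb, mul_inv_rev, map_mul, map_mul, mul_assoc (ρ a), (show Commute _ ε from c5 b.2).eq,
        mul_assoc, mul_assoc, ← mul_assoc (ρ b), ← map_mul, mul_inv_cancel, map_one, one_mul,
        mul_assoc]
    have f2 : ∀ (a : G) (q : G ⧸ 𝐍(P)), f (a • q) = ρ a * f q * ρ a⁻¹ := fun a q => by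
      induction q using QuotientGroup.induction_on with
      | H b =>
        rw [MulAction.Quotient.smul_mk, smul_eq_mul, f1, f1, mul_inv_rev, map_mul, map_mul]
        simp only [mul_assoc]
    have f3 : ∀ (j : ZMod p) (q : G ⧸ 𝐍(P)), q ≠ (1 : G) → φ j • q = q → j = 0 := fun j q => by
      induction q using QuotientGroup.induction_on with
      | H b =>
        intro hq e
        by_contra hj
        rw [MulAction.Quotient.smul_mk, smul_eq_mul, eq_comm, QuotientGroup.eq] at e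
        refine hq (QuotientGroup.eq.2 ?_)
        rw [mul_one]
        refine inv_mem (H7.PCl.mem_norm_of_conj hp.1 hP (φP j) (hmem _ e ?_)
          (fun e => hj (φi (e.trans φ0.symm))) (by group))
        rw [show b⁻¹ * (φ j * b) = b⁻¹ * φ j * b⁻¹⁻¹ by group, conj_pow, pow_p φ0 φa]; group
    refine inT_or ρ (fun j => ⟨_, rfl⟩) hind (b := ∑ q, f q) hε.idem hε.comm (fun a => ?_) ?_
    · rw [Commute, SemiconjBy, Finset.mul_sum, ← Equiv.sum_comp (MulAction.toPerm a) f,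
        Finset.sum_mul]
      exact Finset.sum_congr rfl fun q _ => by
        rw [MulAction.toPerm_apply, f2, mul_assoc _ (ρ a⁻¹), ← map_mul, inv_mul_cancel, map_one,
          mul_one]
    · rw [← Finset.add_sum_erase _ _ (Finset.mem_univ ((1 : G) : G ⧸ 𝐍(P))), f1, inv_one, map_one,
        one_mul, mul_one, add_sub_cancel_left]
      refine inT_sum (fun j q => φ j • q) (fun q => by rw [φ0, one_smul])
        (fun i j q => by rw [φa, mul_smul]) f (fun j q => by rw [f2, φn]) _ (fun q hq j => ?_)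
        fun q hq j => f3 j q (Finset.ne_of_mem_erase hq)
      refine Finset.mem_erase.2 ⟨fun e => Finset.ne_of_mem_erase hq ?_, Finset.mem_univ _⟩
      rw [← inv_smul_smul (φ j) q, e, MulAction.Quotient.smul_mk, QuotientGroup.eq]
      simpa using le_normalizer (φP j)
  obtain ⟨r, hr, -⟩ := trace_idem hη.idem
  have key : ∀ c : ℤ, (∀ k, k ≠ 0 → (ρ (φ k) * η).trace = c) → ∀ y ∈ P, y ≠ 1 →
      ∑ v ∈ fs (V : Set G), (ρ (v * y)).trace = 𝐨(V) * c := fun c h y hy hy1 => by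
    obtain ⟨k, rfl⟩ := φs y hy
    rw [← h k fun e => hy1 (by rw [e, φ0]), Matrix.trace_mul_comm]
    simp only [η, smul_mul_assoc, Matrix.trace_smul, Finset.sum_mul, Matrix.trace_sum, map_mul,
      smul_eq_mul]
    rw [← mul_assoc, mul_comm _ u, hu, one_mul]
  rcases hD.main hT r η hη hη.idem hη.idem hr with h | ⟨-, c, hc, h⟩
  · exact ⟨0, Or.inl rfl, key 0 (by simpa using h)⟩
  · exact ⟨c, Or.inr hc, key c h⟩

end Cfsg.Agent.P12.Lat
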