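/-
P12, chapter LAT: Brauer's `±1` through `ℤ_[p]`-lattices.
-/
import Cfsg.Agent.P12.Lat5

set_option autoImplicit false

namespace Cfsg.Agent.P12

open Subgroup Cfsg Cfsg.Agent Cfsg.Agent.FT Cfsg.Agent.P1 Cardinal

universe u

namespace Lat

variable {p : ℕ} [hp : Fact p.Prime]

theorem exists_hom (p : ℕ) [Fact p.Prime] : Nonempty (ℤ_[p] →+* ℂ) := by
  let K := AlgebraicClosure ℚ_[p]
  have h1 : 𝔠 ≤ #K := (continuum_le_cardinal_of_nontriviallyNormedField ℚ_[p]).trans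
    (mk_le_of_injective (algebraMap ℚ_[p] K).injective)
  have h2 : #ℤ_[p] ≤ 𝔠 := by
    have : Function.Injective fun (x : ℤ_[p]) (k : ℕ) => (PadicInt.toZModPow k x).val :=
      fun x y h => PadicInt.ext_of_toZModPow.1 fun k => ZMod.val_injective _ (congrFun h k)
    simpa using mk_le_of_injective this
  have h3 : #K ≤ 𝔠 := (Algebra.IsAlgebraic.cardinalMk_le_max ℚ_[p] K).trans (max_le
    ((IsLocalization.cardinalMk_le (nonZeroDivisors ℤ_[p])).trans h2) aleph0_le_continuum)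
  obtain ⟨e⟩ := IsAlgClosed.ringEquiv_of_equiv_of_charZero (K := K) (L := ℂ)
    (aleph0_lt_continuum.trans_le h1) (Cardinal.eq.1 (by rw [mk_complex]; exact h3.antisymm h1))
  exact ⟨e.toRingHom.comp ((algebraMap ℚ_[p] K).comp (algebraMap ℤ_[p] ℚ_[p]))⟩

variable {G : Type u} [Group G] [Fintype G]

theorem exists_sub {n : Type*} [Fintype n] [DecidableEq n] (ρ : G →* Matrix n n ℤ_[p])
    {a : Matrix n n ℤ_[p]} (ha : ∀ g, Commute (ρ g) a) {w : G → ℤ_[p]} {c : ℤ_[p]}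
    (hw : (∑ g, w g • ρ g) * a = c • a) :
    ∃ (k : ℕ) (ρ' : G →* Matrix (Fin k) (Fin k) ℤ_[p]), (a ≠ 0 → k ≠ 0) ∧
      (a * a = a → a.trace = k) ∧ ∑ g, w g • ρ' g = c • 1 := by
  obtain ⟨k, α, β, β', h1, h2, h3⟩ := exists_factor a
  have h4 : a * β' = α := by rw [← h1, Matrix.mul_assoc, h2, Matrix.mul_one]
  have h5 : ∀ g, α * (β * ρ g * β') = ρ g * α := fun g => by
    rw [← Matrix.mul_assoc, ← Matrix.mul_assoc, h1, ← (ha g).eq, Matrix.mul_assoc, h4]
  refine ⟨k, ⟨⟨fun g => β * ρ g * β', by rw [map_one, Matrix.mul_one, h2]⟩, fun g h => h3 _ _ ?_⟩,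
    ?_, fun h => ?_, h3 _ _ ?_⟩
  · rw [h5, ← Matrix.mul_assoc, h5, Matrix.mul_assoc, h5, map_mul, Matrix.mul_assoc]
  · rintro h rfl
    exact h (by rw [← h1]; ext i j; simp [Matrix.mul_apply])
  · have : β * α = 1 := h3 _ _ (by
      rw [← Matrix.mul_assoc, h1, Matrix.mul_one, ← h4, ← Matrix.mul_assoc, h])
    rw [← h1, Matrix.trace_mul_comm, this, Matrix.trace_one, Fintype.card_fin]
  · simp only [MonoidHom.coe_mk, OneHom.coe_mk, Matrix.mul_sum, Matrix.mul_smul, h5, Matrix.mul_one]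
    rw [← h4, ← Matrix.smul_mul, ← hw, Matrix.mul_assoc, Matrix.sum_mul]
    simp only [Matrix.smul_mul]

theorem exists_indec {w : G → ℤ_[p]} {c : ℤ_[p]} (k : ℕ) :
    ∀ ρ : G →* Matrix (Fin k) (Fin k) ℤ_[p], k ≠ 0 → ∑ g, w g • ρ g = c • 1 →
    ∃ (k : ℕ) (ρ : G →* Matrix (Fin k) (Fin k) ℤ_[p]), k ≠ 0 ∧ ∑ g, w g • ρ g = c • 1 ∧
      ∀ e, e * e = e → (∀ g, Commute (ρ g) e) → e = 0 ∨ e = 1 := by
  induction k using Nat.strong_induction_on with
  | _ k ih =>
  intro ρ hk hw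
  by_cases h : ∀ e, e * e = e → (∀ g, Commute (ρ g) e) → e = 0 ∨ e = 1
  · exact ⟨k, ρ, hk, hw, h⟩
  push Not at h
  obtain ⟨e, h1, h2, h3, h4⟩ := h
  obtain ⟨k', ρ', b1, b2, b3⟩ := exists_sub ρ h2 (w := w) (c := c) (by
    rw [hw, smul_mul_assoc, one_mul])
  obtain ⟨s, c1, c2⟩ := trace_idem (ε := 1 - e) (by simp [mul_sub, sub_mul, h1])
  refine ih k' ?_ ρ' (b1 h3) b3
  rw [Matrix.trace_sub, b2 h1, Matrix.trace_one, Fintype.card_fin, sub_eq_iff_eq_add] at c1
  have : s ≠ 0 := fun e => h4 (sub_eq_zero.1 (c2 e)).symm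
  have : k = s + k' := by exact_mod_cast c1
  omega

theorem sum_proj {S : Finset (G → ℂ)} (hS : S ⊆ Irr ⊤) {χ : G → ℂ} (hχ : χ ∈ Irr ⊤) (g : G) :
    ∑ h, (∑ ψ ∈ S, ψ 1 * ψ h⁻¹) * χ (h * g) = if χ ∈ S then Nat.card G * χ g else 0 := by
  have h1 := sum_mul_apply_mul hχ (f := fun h => ∑ ψ ∈ S, ψ 1 * ψ h⁻¹)
    (mem_CF.2 ⟨fun x hx => absurd (mem_top x) hx, fun a ha x => Finset.sum_congr rfl fun ψ hψ => by
      rw [conj_inv, CF_conj (irr_mem_CF (hS hψ)) ha]⟩) g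
  rw [sum_fs_top, sum_fs_top] at h1
  have h2 : ∑ h, (∑ ψ ∈ S, ψ 1 * ψ h⁻¹) * χ h = ∑ ψ ∈ S, ψ 1 * (Nat.card G * ip ⊤ χ ψ) := by
    simp only [Finset.sum_mul]
    rw [Finset.sum_comm]
    refine Finset.sum_congr rfl fun ψ hψ => ?_
    rw [ip_def, sum_fs_top, card_top, mul_inv_cancel_left₀ (Nat.cast_ne_zero.2 Nat.card_pos.ne'),
      Finset.mul_sum]
    exact Finset.sum_congr rfl fun h _ => by rw [(irr_isChar (hS hψ)).apply_inv]; ring
  rw [h1, h2, Finset.sum_congr rfl fun ψ hψ => by rw [ip_irr hχ (hS hψ)]]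
  simp only [mul_ite, mul_one, mul_zero, Finset.sum_ite_eq]
  split_ifs
  · field_simp [irr_one_ne_zero hχ]
  · simp

end Lat

open Lat in
theorem latStmt : LatStmt.{u} := by
  intro G _ _ p P hp hP hi S hS hne hz
  classical
  have := Fact.mk hp
  have := Fintype.ofFinite G
  have hS' : S ⊆ Irr ⊤ := hS.trans (B0_subset p ⊤)
  have hG : (Nat.card G : ℂ) ≠ 0 := Nat.cast_ne_zero.2 Nat.card_pos.ne'
  choose z hz using hz
  obtain ⟨ι⟩ := exists_hom p
  let lam : G →* Matrix G G ℤ_[p] := ⟨⟨fun g => Matrix.of fun a b => if a = g * b then 1 else 0, by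
    ext a b; simp [Matrix.one_apply]⟩, fun g h => by
    ext a b; simp [Matrix.mul_apply, mul_assoc]⟩
  let w : G → ℤ_[p] := fun g => z g⁻¹
  have z1 : ∀ g h, z (h * g) = z (g * h) := fun g h => by
    rw [← Int.cast_inj (α := ℂ), ← hz, ← hz]
    exact Finset.sum_congr rfl fun χ hχ => by rw [CF_mul_comm (irr_mem_CF (hS' hχ)) (mem_top h)]
  have z2 : ∀ g, ∑ h, z h⁻¹ * z (h * g) = Nat.card G * z g := fun g => by
    rw [← Int.cast_inj (α := ℂ)]
    push_cast
    simp only [← hz]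
    rw [Finset.sum_congr rfl fun h _ => Finset.mul_sum S (fun χ => χ 1 * χ (h * g)) _,
      Finset.sum_comm, Finset.mul_sum]
    refine Finset.sum_congr rfl fun χ hχ => ?_
    simp only [mul_left_comm _ (χ 1), ← Finset.mul_sum]
    rw [sum_proj hS' (hS' hχ), if_pos hχ]
  obtain ⟨k, ρ, hk, -, hρ⟩ := exists_sub lam (a := ∑ g, w g • lam g) (w := w) (c := Nat.card G)
    (fun h => by
      rw [Commute, SemiconjBy, Finset.mul_sum, Finset.sum_mul,
        ← Equiv.sum_comp (MulAut.conj h).toEquiv fun g => w g • lam g * lam h]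
      refine Finset.sum_congr rfl fun g _ => ?_
      simp only [mul_smul_comm, smul_mul_assoc, ← map_mul, MulEquiv.toEquiv_eq_coe,
        EquivLike.coe_coe, MulAut.conj_apply, inv_mul_cancel_right, w]
      rw [conj_inv, z1 h⁻¹, inv_mul_cancel_left])
    (by
      simp only [Finset.sum_mul, Finset.mul_sum, mul_smul_comm, smul_mul_assoc, ← map_mul,
        smul_smul, Finset.smul_sum]
      rw [Finset.sum_comm, Finset.sum_congr rfl fun g _ =>
        (Equiv.sum_comp (Equiv.mulLeft g⁻¹) fun h => (w h * w g) • lam (g * h)).symm,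
        Finset.sum_comm]
      refine Finset.sum_congr rfl fun h _ => ?_
      simp only [Equiv.coe_mulLeft, mul_inv_cancel_left, ← Finset.sum_smul, w, mul_inv_rev, inv_inv]
      congr 1
      have := congrArg (Int.cast : ℤ → ℤ_[p]) (z2 h⁻¹)
      push_cast at this
      rw [← this]
      exact Finset.sum_congr rfl fun g _ => by rw [z1 g, mul_comm])
  have hk0 : k ≠ 0 := hk fun e => by
    have h1 := congrFun (congrFun e 1) 1
    simp only [Matrix.sum_apply, lam, w, MonoidHom.coe_mk, OneHom.coe_mk, Matrix.smul_apply,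
      Matrix.of_apply, mul_one, smul_eq_mul, mul_ite, mul_zero, Finset.sum_ite_eq, Finset.mem_univ,
      if_true, inv_one, Matrix.zero_apply, Int.cast_eq_zero] at h1
    have h2 := hz 1
    rw [h1, Finset.sum_congr rfl fun χ hχ => by rw [irr_one_eq (hS' hχ)]] at h2
    obtain ⟨χ, hχ⟩ := hne
    have h3 : ∑ χ ∈ S, dg χ * dg χ = 0 := by exact_mod_cast h2
    simpa [(irr_dg_pos (hS' hχ)).ne'] using Finset.sum_eq_zero_iff.1 h3 χ hχ
  clear hk
  obtain ⟨k, ρ, hk, hρ, hind⟩ := exists_indec k ρ hk0 hρ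
  obtain ⟨V, hV, hc, hr⟩ := H7.PCl.exists_compl hp hP hi
  obtain ⟨c, hc', hy⟩ := indec hP hi hV hc hr ρ hind
  let ψ : G → ℂ := fun g => ι (ρ g).trace
  have hψ : IsChar ⊤ ψ := isChar_top_iff.2 ⟨k, (Matrix.toLinAlgEquiv' (R := ℂ) (n := Fin k)).toMonoidHom.comp
    (ι.mapMatrix.toMonoidHom.comp ρ), funext fun g => by
      refine (Matrix.trace_toLin'_eq (ι.mapMatrix (ρ g))).trans ?_
      simp [ψ, Matrix.trace]⟩
  choose! m hm using fun χ (hχ : χ ∈ Irr (⊤ : Subgroup G)) => hψ.ip_nat (irr_isChar hχ)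
  have h1 : ∀ g, ψ g = ∑ χ ∈ S, m χ * χ g := fun g => by
    have h2 : Nat.card G * ψ g = ∑ h, (∑ χ ∈ S, χ 1 * χ h⁻¹) * ψ (h * g) := by
      have := congrArg (fun a => ι (a * ρ g).trace) hρ
      simp only [Finset.sum_mul, smul_mul_assoc, one_mul, Matrix.trace_sum, Matrix.trace_smul,
        ← map_mul ρ, smul_eq_mul, map_sum, map_mul ι, map_natCast, w, map_intCast] at this
      simp only [hz]
      exact this.symm
    apply mul_left_cancel₀ hG
    rw [h2, Finset.sum_congr rfl fun h _ => by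
      rw [apply_eq_sum_irr hψ.mem_CF (h * g), Finset.mul_sum], Finset.sum_comm,
      Finset.sum_congr rfl fun χ hχ => by
        rw [hm χ hχ, Finset.sum_congr rfl fun h _ => mul_left_comm _ _ _, ← Finset.mul_sum,
          sum_proj hS' hχ], ← Finset.sum_subset hS' fun χ _ h => by rw [if_neg h, mul_zero],
      Finset.mul_sum]
    exact Finset.sum_congr rfl fun χ hχ => by rw [if_pos hχ]; ring
  refine ⟨m, c, ?_, hc', fun y hyP hy1 => ?_⟩
  · by_contra! h
    have := h1 1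
    rw [Finset.sum_eq_zero fun χ hχ => by rw [h χ hχ]; simp] at this
    simp [ψ, hk] at this
  · have h2 := congrArg ι (hy y hyP hy1)
    rw [map_sum, map_mul, map_natCast, map_intCast] at h2
    apply mul_left_cancel₀ (card_ne_zero_C V)
    rw [← h2, sum_fs_congr fun v _ => h1 (v * y), Finset.sum_comm, Finset.mul_sum]
    refine Finset.sum_congr rfl fun χ hχ => ?_
    rw [← Finset.mul_sum, H7.PCl.sum_coset_B0 hp (k := 1) (by
        rw [← H7.PCl.orderOf_eq_of_mem hp hP hyP hy1, pow_orderOf_eq_one])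
      (H7.PCl.cent_eq_of_mem hp hP hyP hy1 ▸ hV) hc
      (by rw [H7.PCl.cent_eq_of_mem hp hP hyP hy1, hr, pow_one]) (hS' hχ), if_pos (hS hχ)]
    ring

end Cfsg.Agent.P12
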