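/-
P12, `C(P) = P`: the Frobenius group `N(P)`.
-/
import Cfsg.Agent.P12.B3

set_option autoImplicit false

namespace Cfsg.Agent.P12

open Subgroup Cfsg Cfsg.Agent Cfsg.Agent.FT Cfsg.Agent.P1 Cfsg.Agent.H7.PCl
open scoped ComplexConjugate

universe u

variable {G : Type u} [Group G] [Finite G]

/-- The elements conjugating `g` into `L`. -/
def into (L : Subgroup G) (g : G) : Set G := {a | a⁻¹ * g * a ∈ L}

omit [Finite G] in
theorem into_pow {L : Subgroup G} (g : G) (i : ℕ) : into L g ⊆ into L (g ^ i) := fun a ha => by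
  have := pow_mem (show a⁻¹ * g * a⁻¹⁻¹ ∈ L by rwa [inv_inv]) i
  rwa [conj_pow, inv_inv] at this

omit [Finite G] in
theorem orderOf_conj' (a g : G) : orderOf (a⁻¹ * g * a) = orderOf g :=
  SemiconjBy.orderOf_eq a (by simp [SemiconjBy, mul_assoc])

theorem mem_norm_zpowers {a k : G} (h : a * k * a⁻¹ ∈ zpowers k) : a ∈ 𝐍(zpowers k) :=
  mem_norm_of_conj_le (zpowers_conj k a ▸ zpowers_le.2 h)

theorem ncard_into_conj (L : Subgroup G) (g a : G) :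
    (into L (a⁻¹ * g * a)).ncard = (into L g).ncard :=
  Set.ncard_congr (fun x _ => a * x) (fun x hx => by simpa [into, mul_assoc] using hx)
    (fun _ _ _ _ => mul_left_cancel) fun x hx => ⟨a⁻¹ * x, by simpa [into, mul_assoc] using hx,
      by simp⟩

namespace HV

variable {P : Subgroup G} {p r e t : ℕ} (h : HV P ⊥ p r e t)
include h

theorem hC : 𝐂(P) = P :=
  (eq_of_le_of_card_ge h.le_cent (by rw [h.cardC, h.hP, card_bot, one_mul])).symm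

theorem hV : 𝐨((⊥ : Subgroup G)) ≤ r := by rw [card_bot]; exact h.r1

theorem cN' : 𝐨(𝐍(P)) = e * p := h.card_N h.hC

theorem cG : Nat.card G = e * p * (1 + r * p) := h.card_G h.hC

theorem le_N : P ≤ 𝐍(P) := le_normalizer

theorem relN : P.relIndex 𝐍(P) = e := by rw [← h.he, h.hC]

theorem cent' {y : G} (hy : y ∈ P) (h1 : y ≠ 1) : 𝐂[y] = P := (h.cent hy h1).trans h.hC

theorem reg {k : G} (hk : k ∈ 𝐍(P)) (hk' : k ∉ P) : ¬ p ∣ orderOf k := fun ⟨m, hm⟩ => by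
  have h0 : m ≠ 0 := fun c => (orderOf_pos k).ne' (by rw [hm, c, mul_zero])
  refine hk' (h.cent' (h.mem_of_pow (pow_mem hk m) (by
    rw [← _root_.pow_mul, mul_comm, ← hm, pow_orderOf_eq_one])) (pow_ne_one_of_lt_orderOf
      h0 (hm ▸ lt_mul_of_one_lt_left (Nat.pos_of_ne_zero h0) h.hp.one_lt)) ▸ mem_cent1.2 ?_)
  exact Commute.pow_left (Commute.refl k) m

theorem notMem {k : G} (h1 : k ≠ 1) (hk : ¬ p ∣ orderOf k) : k ∉ P := fun c =>
  hk (h.ord c h1).symm.dvd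

theorem eq_one {k y : G} (hk : k ∉ P) (hy : y ∈ P) (hc : Commute y k) : y = 1 := by
  by_contra c
  exact hk (h.cent' hy c ▸ mem_cent1.2 hc)

theorem inf_cent {k : G} (hk : k ∉ P) : P ⊓ 𝐂[k] = ⊥ :=
  eq_bot_iff.2 fun _ hy => h.eq_one hk hy.1 (mem_cent1.1 hy.2).symm

theorem ord_dvd {k : G} (hk : k ∈ 𝐍(P)) (hk' : k ∉ P) : orderOf k ∣ e :=
  (h.hp.coprime_iff_not_dvd.2 (h.reg hk hk')).symm.dvd_of_dvd_mul_right
    (h.cN' ▸ orderOf_dvd_card_of_mem hk)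

theorem pow_eq_one {k : G} (hk : k ∈ 𝐍(P)) (hk' : k ∉ P) {i : ℕ} (hi : k ^ i ∈ P) : k ^ i = 1 := by
  by_contra c
  exact h.notMem c (fun d => h.reg hk hk' (d.trans (orderOf_pow_dvd i))) hi

theorem exists_conj {k y : G} (hk : k ∈ 𝐍(P)) (hk' : k ∉ P) (hy : y ∈ P) :
    ∃ z ∈ P, z * k * z⁻¹ = y * k := by
  let f : P → P := fun z => ⟨z * (k * (z : G)⁻¹ * k⁻¹),
    mul_mem z.2 ((mem_normalizer_iff.1 hk _).1 (inv_mem z.2))⟩
  have hf : Function.Injective f := fun z w e => by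
    have e' : (z : G) * (k * (z : G)⁻¹ * k⁻¹) = w * (k * (w : G)⁻¹ * k⁻¹) := congrArg Subtype.val e
    refine Subtype.ext (inv_mul_eq_one.1 (h.eq_one hk' (mul_mem (inv_mem w.2) z.2) ?_)).symm
    calc (w : G)⁻¹ * z * k = (w : G)⁻¹ * (z * (k * (z : G)⁻¹ * k⁻¹)) * k * z := by group
      _ = _ := by rw [e']; group
  obtain ⟨z, hz⟩ := Finite.surjective_of_injective hf ⟨y, hy⟩
  refine ⟨z, z.2, ?_⟩
  rw [← show (z : G) * (k * (z : G)⁻¹ * k⁻¹) = y from congrArg Subtype.val hz]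
  group

theorem exists_tau : ∃ τ : 𝐍(P) →* (ZMod 𝐨(P))ˣ, (∀ g, τ g = 1 ↔ (g : G) ∈ P) ∧
    ∀ g : 𝐍(P), (g : G) ∉ P → orderOf (τ g) = orderOf (g : G) := by
  have := isCyclic_of_card_prime (h.hP ▸ h.hp : (𝐨(P)).Prime)
  have h1 : ∀ g, ((IsCyclic.mulAutMulEquiv P).toMonoidHom.comp (normalizerMonoidHom P)) g = 1 ↔
      (g : G) ∈ P := fun g => by
    rw [MonoidHom.comp_apply, MulEquiv.coe_toMonoidHom, MulEquiv.map_eq_one_iff,
      ← MonoidHom.mem_ker, normalizerMonoidHom_ker, mem_subgroupOf, h.hC]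
  refine ⟨_, h1, fun g hg => orderOf_eq_orderOf_iff.2 fun n => ?_⟩
  rw [← map_pow, h1]
  exact ⟨h.pow_eq_one g.2 hg, fun e => by rw [coe_pow, e]; exact one_mem _⟩

theorem exists_k : ∃ k ∈ 𝐍(P), k ∉ P ∧ orderOf k = e := by
  obtain ⟨τ, h1, h2⟩ := h.exists_tau
  have := Fact.mk (h.hP ▸ h.hp : (𝐨(P)).Prime)
  obtain ⟨⟨_, k, rfl⟩, hk⟩ := IsCyclic.exists_ofOrder_eq_natCard (α := τ.range)
  rw [← index_ker, show τ.ker = P.subgroupOf 𝐍(P) from Subgroup.ext h1, ← orderOf_coe] at hk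
  have h3 : orderOf (τ k) = e := hk.trans h.relN
  have h4 : (k : G) ∉ P := fun c => by
    have := h.e2
    rw [(h1 k).2 c, orderOf_one] at h3
    omega
  exact ⟨k, k.2, h4, (h2 k h4).symm.trans h3⟩

theorem exists_ord {m : ℕ} (hm : m ∣ e) (h1 : m ≠ 1) : ∃ k ∈ 𝐍(P), k ∉ P ∧ orderOf k = m := by
  obtain ⟨k, hk, hk', ho⟩ := h.exists_k
  have := orderOf_pow_orderOf_div (orderOf_pos k).ne' (ho ▸ hm)
  exact ⟨_, pow_mem hk _, fun c => h1 (by rw [← this, h.pow_eq_one hk hk' c, orderOf_one]), this⟩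

theorem conj_zpowers {k k' : G} (hk : k ∈ 𝐍(P)) (hP : k ∉ P) (hk' : k' ∈ 𝐍(P)) (hP' : k' ∉ P)
    (ho : orderOf k' ∣ orderOf k) : ∃ y ∈ P, y * k' * y⁻¹ ∈ zpowers k := by
  obtain ⟨τ, h1, h2⟩ := h.exists_tau
  have := Fact.mk (h.hP ▸ h.hp : (𝐨(P)).Prime)
  have : NeZero (orderOf (τ ⟨k, hk⟩)) := ⟨(orderOf_pos _).ne'⟩
  obtain ⟨i, -, hi⟩ := (IsPrimitiveRoot.orderOf (τ ⟨k, hk⟩)).eq_pow_of_mem_rootsOfUnity
    (ξ := τ ⟨k', hk'⟩) (by
      rw [mem_rootsOfUnity, ← orderOf_dvd_iff_pow_eq_one, h2 ⟨k, hk⟩ hP, h2 ⟨k', hk'⟩ hP']; exact ho)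
  obtain ⟨z, hz, e⟩ := h.exists_conj hk' hP' (y := k ^ i * k'⁻¹) ((h1 (⟨k, hk⟩ ^ i * ⟨k', hk'⟩⁻¹)).1
    (by rw [map_mul, map_pow, hi, map_inv, mul_inv_cancel]))
  exact ⟨z, hz, by rw [e, inv_mul_cancel_right]; exact npow_mem_zpowers k i⟩

theorem ncard_into {k : G} (hk : k ∈ 𝐍(P)) (hP : k ∉ P) :
    (into 𝐍(P) k).ncard = 𝐨(𝐍(zpowers k)) * p := by
  rw [← h.hP, ← Nat.card_prod, ← Nat.card_coe_set_eq]
  refine (Nat.card_eq_of_bijective (fun c : 𝐍(zpowers k) × P => (⟨c.1 * c.2, ?_⟩ : into 𝐍(P) k))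
    ⟨fun c d e => ?_, fun ⟨a, ha⟩ => ?_⟩).symm
  · have := (mem_normalizer_iff.1 (inv_mem c.1.2) k).1 (mem_zpowers k)
    have := mul_mem (mul_mem (inv_mem (h.le_N c.2.2)) (zpowers_le.2 hk this)) (h.le_N c.2.2)
    simpa [into, mul_assoc] using this
  · have e' : (c.1 : G) * c.2 = d.1 * d.2 := congrArg Subtype.val e
    have h1 : (d.2 : G) * (c.2 : G)⁻¹ = (d.1 : G)⁻¹ * c.1 := by
      rw [eq_inv_mul_iff_mul_eq, ← mul_assoc, ← e', mul_inv_cancel_right]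
    have h2 : (d.2 : G) * (c.2 : G)⁻¹ ∈ P := mul_mem d.2.2 (inv_mem c.2.2)
    have h3 : (d.2 : G) * (c.2 : G)⁻¹ ∈ 𝐍(zpowers k) := h1 ▸ mul_mem (inv_mem d.1.2) c.1.2
    have h4 : ∀ y ∈ P, y ∈ 𝐍(zpowers k) → y = 1 := fun y hy hy' => by
      obtain ⟨i, hi⟩ := (mem_powers_iff_mem_zpowers (x := k)).2 (mul_mem
        ((mem_normalizer_iff.1 hy' k).1 (mem_zpowers k)) (inv_mem (mem_zpowers k)))
      have h5 := h.pow_eq_one hk hP (i := i) (by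
        rw [show k ^ i = y * (k * y⁻¹ * k⁻¹) from hi.trans (by group)]
        exact mul_mem hy ((mem_normalizer_iff.1 hk _).1 (inv_mem hy)))
      exact h.eq_one hP hy (by
        rw [Commute, SemiconjBy, ← mul_inv_eq_iff_eq_mul, ← mul_inv_eq_one]
        exact hi.symm.trans h5)
    have h5 := h4 _ h2 h3
    exact Prod.ext (Subtype.ext (inv_mul_eq_one.1 (h1 ▸ h5)).symm)
      (Subtype.ext (mul_inv_eq_one.1 h5).symm)
  · have h1 : a⁻¹ * k * a ∉ P := h.notMem (fun c => hP (by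
      rw [← orderOf_eq_one_iff, orderOf_conj', orderOf_eq_one_iff] at c
      exact c ▸ one_mem _)) (orderOf_conj' a k ▸ h.reg hk hP)
    obtain ⟨y, hy, h2⟩ := h.conj_zpowers hk hP ha h1 (orderOf_conj' a k).dvd
    refine ⟨(⟨a * y⁻¹, ?_⟩, ⟨y, hy⟩), Subtype.ext (by simp)⟩
    exact inv_mem_iff.1 (mem_norm_zpowers (by simpa [mul_assoc] using h2))

end HV

end Cfsg.Agent.P12
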