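/-
P12, `C(P) = P`: restriction to `N(P)` and induction from `N(P)`.
-/
import Cfsg.Agent.P12.M1

set_option autoImplicit false

namespace Cfsg.Agent.P12

open Subgroup Cfsg Cfsg.Agent Cfsg.Agent.FT Cfsg.Agent.P1 Cfsg.Agent.H7.PCl
open scoped ComplexConjugate

universe u

variable {G : Type u} [Group G] [Finite G]

/-- The multiplicity of `l` in the restriction of `χ` to `L`. -/
noncomputable def mu (L : Subgroup G) (χ l : G → ℂ) : ℕ := ⌊(ip L χ l).re⌋₊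

theorem mu_eq {L : Subgroup G} {χ l : G → ℂ} (hχ : IsChar ⊤ χ) (hl : l ∈ Irr L) :
    ip L χ l = mu L χ l := by
  obtain ⟨n, hn⟩ := (hχ.res le_top).ip_nat (irr_isChar hl)
  rw [ip_res_left] at hn
  simp [mu, hn]

theorem ind_eq {L : Subgroup G} {l : G → ℂ} (hl : l ∈ Irr L) (g : G) :
    ind ⊤ L l g = ∑ χ ∈ Irr (⊤ : Subgroup G), mu L χ l * χ g := by
  rw [apply_eq_sum_irr (ind_mem_CF ⊤ L l)]
  refine Finset.sum_congr rfl fun χ hχ => ?_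
  rw [ip_ind_left le_top _ (irr_mem_CF hχ), ← conj_ip, mu_eq (irr_isChar hχ) hl, map_natCast]

theorem mu_one {L : Subgroup G} {l : G → ℂ} (hl : l ∈ Irr L) [Decidable (l = cf1 L)] :
    mu L (cf1 ⊤) l = if l = cf1 L then 1 else 0 := by
  have := mu_eq (isChar_cf1 ⊤) hl
  rw [← ip_res_left, res_cf1 le_top] at this
  split_ifs with c
  · rw [← c, ip_irr_self hl] at this; exact_mod_cast this.symm
  · rw [ip_irr_of_ne (cf1_mem_Irr L) hl (Ne.symm c)] at this; exact_mod_cast this.symm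

namespace HV

variable {P : Subgroup G} {p r e t : ℕ} {NE EX : Finset (G → ℂ)} {δ : (G → ℂ) → ℤ} {δ0 : ℤ}
  (h : HV P ⊥ p r e t)
include h

theorem der_le : ⁅𝐍(P), 𝐍(P)⁆ ≤ P := commutator_le.2 fun x hx y hy => by
  have := comm_mem_cent (isCyclic_of_card_prime (h.hP ▸ h.hp)) (inv_mem hx) (inv_mem hy)
  rwa [inv_inv, inv_inv, h.hC] at this

theorem linN {l : G → ℂ} (hl : l ∈ irrKer 𝐍(P) P) : IsLin 𝐍(P) l := isLin_of_mem_irrKer h.der_le hl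

theorem card_lin : (irrKer 𝐍(P) P).card = e := (card_irrKer_of_der_le h.der_le h.le_N).trans h.relN

theorem one_lin : cf1 𝐍(P) ∈ irrKer 𝐍(P) P := cf1_mem_irrKer h.le_N

theorem lin_P {l : G → ℂ} (hl : l ∈ irrKer 𝐍(P) P) {y : G} (hy : y ∈ P) : l y = 1 :=
  (h.linN hl).mem_cfKer_iff.1 ((mem_irrKer.1 hl).2 hy)

theorem val_off {χ : G → ℂ} (hχ : IsChar ⊤ χ) {k : G} (hk : k ∈ 𝐍(P)) (hk' : k ∉ P) :
    χ k = ∑ l ∈ irrKer 𝐍(P) P, mu 𝐍(P) χ l * l k := by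
  rw [← res_of_mem χ hk, apply_eq_sum_irr (res_mem_CF le_top hχ.mem_CF),
    ← Finset.sum_subset (irrKer_subset _ P) fun l hl c => by
      rw [irr_reg_off_ker ⟨h.le_N, le_rfl⟩ hl (fun d => c (mem_irrKer.2 ⟨hl, d⟩)) (h.inf_cent hk'),
        mul_zero]]
  exact Finset.sum_congr rfl fun l hl => by rw [ip_res_left, mu_eq hχ (irrKer_subset _ _ hl)]

theorem sum_mu {χ : G → ℂ} (hχ : IsChar ⊤ χ) : ∑ l ∈ irrKer 𝐍(P) P, mu 𝐍(P) χ l = ell P χ := by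
  classical
  have h1 := ell_eq P hχ
  rw [ip_cf1_right, sum_fs_congr fun y hy => by
    rw [← res_of_mem χ (h.le_N hy), apply_eq_sum_irr (res_mem_CF le_top hχ.mem_CF)],
    Finset.sum_comm, ← Finset.sum_subset (irrKer_subset _ P) fun l hl c => by
      have := sum_coset ⟨h.le_N, le_rfl⟩ hl 1
      rw [if_neg fun d => c (mem_irrKer.2 ⟨hl, d⟩)] at this
      simp only [mul_one] at this
      rw [← Finset.mul_sum, this, mul_zero], Finset.sum_congr rfl fun l hl => by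
      rw [sum_fs_congr fun y hy => by
        rw [h.lin_P hl hy, ip_res_left, mu_eq hχ (irrKer_subset _ _ hl), mul_one], sum_fs_const,
        nsmul_eq_mul], ← Finset.mul_sum, inv_mul_cancel_left₀ (card_ne_zero_C P)] at h1
  exact_mod_cast h1

theorem mu_mul {χ : G → ℂ} (hχ : IsChar ⊤ χ) {l : G → ℂ} (hl : l ∈ irrKer 𝐍(P) P) :
    (e * p * mu 𝐍(P) χ l : ℂ) =
      ell P χ * p + ∑ k ∈ fs ((𝐍(P) : Set G) \ P), χ k * conj (l k) := by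
  rw [← mu_eq hχ (irrKer_subset _ _ hl), ip_def, ← Nat.cast_mul, ← h.cN',
    mul_inv_cancel_left₀ (card_ne_zero_C _), sum_fs_diff (A := (P : Set G)) h.le_N, ← h.hP,
    ← ell_mul P hχ, sum_fs_congr fun y hy => by rw [h.lin_P hl hy, map_one, mul_one],
    sum_fs_sharp, hχ.one_eq]

theorem ep_ne : (e * p : ℂ) ≠ 0 := by
  have := h.e2
  exact mul_ne_zero (Nat.cast_ne_zero.2 (by omega)) (Nat.cast_ne_zero.2 h.hp.ne_zero)

theorem deg_ind {l : G → ℂ} (hl : l ∈ irrKer 𝐍(P) P) :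
    ∑ χ ∈ Irr (⊤ : Subgroup G), mu 𝐍(P) χ l * dg χ = 1 + r * p := by
  have := ind_eq (irrKer_subset _ _ hl) 1
  rw [ind_one le_top, (h.linN hl).2.1, relIndex_top_right, h.hn, mul_one,
    Finset.sum_congr rfl fun χ hχ => by rw [irr_one_eq hχ]] at this
  exact_mod_cast this.symm

theorem off_B0 {χ : G → ℂ} (hχ : χ ∈ Irr ⊤) (h0 : χ ∉ B0 p ⊤) {y : G} (hy : y ∈ P) (h1 : y ≠ 1) :
    χ y = 0 := by
  have := h.avg hχ hy h1
  rwa [if_neg h0, coe_bot, sum_fs_singleton, one_mul] at this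

theorem dg_off {χ : G → ℂ} (hχ : χ ∈ Irr ⊤) (h0 : χ ∉ B0 p ⊤) : dg χ = ell P χ * p := by
  have := ell_mul P (irr_isChar hχ)
  rw [sum_fs_congr fun y hy => h.off_B0 hχ h0 hy.1 hy.2, Finset.sum_const_zero, add_zero,
    h.hP] at this
  exact_mod_cast this

theorem ind_of_deg {l : G → ℂ} (hl : l ∈ irrKer 𝐍(P) P) {S : Finset (G → ℂ)} (hS : S ⊆ Irr ⊤)
    (hd : ∑ χ ∈ S, dg χ = 1 + r * p) (hm : ∀ χ ∈ S, mu 𝐍(P) χ l ≠ 0) :
    (∀ χ ∈ S, mu 𝐍(P) χ l = 1) ∧ (∀ χ ∈ Irr (⊤ : Subgroup G), χ ∉ S → mu 𝐍(P) χ l = 0) ∧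
      ∀ g, ind ⊤ 𝐍(P) l g = ∑ χ ∈ S, χ g := by
  classical
  have h1 := h.deg_ind hl
  have h2 : ∀ χ ∈ S, dg χ ≤ mu 𝐍(P) χ l * dg χ := fun χ hχ =>
    Nat.le_mul_of_pos_left _ (Nat.pos_of_ne_zero (hm χ hχ))
  have h3 := Finset.sum_le_sum h2
  rw [← Finset.sum_sdiff hS] at h1
  have h4 : ∀ χ ∈ S, mu 𝐍(P) χ l = 1 := fun χ hχ => Nat.eq_of_mul_eq_mul_right (irr_dg_pos (hS hχ))
    (((Finset.sum_eq_sum_iff_of_le h2).1 (by omega) χ hχ).symm.trans (one_mul _).symm)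
  have h5 : ∀ χ ∈ Irr (⊤ : Subgroup G), χ ∉ S → mu 𝐍(P) χ l = 0 := fun χ hχ c =>
    (mul_eq_zero.1 (Finset.sum_eq_zero_iff.1 (show ∑ χ ∈ Irr ⊤ \ S, mu 𝐍(P) χ l * dg χ = 0 by omega)
      χ (Finset.mem_sdiff.2 ⟨hχ, c⟩))).resolve_right (irr_dg_pos hχ).ne'
  refine ⟨h4, h5, fun g => ?_⟩
  rw [ind_eq (irrKer_subset _ _ hl), ← Finset.sum_subset hS fun χ hχ c => by simp [h5 χ hχ c]]
  exact Finset.sum_congr rfl fun χ hχ => by simp [h4 χ hχ]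

theorem sum_ind {χ : G → ℂ} (hχ : IsChar ⊤ χ) {g : G} (h1 : g ≠ 1) (hg : ¬ p ∣ orderOf g) :
    e * p * ∑ l ∈ irrKer 𝐍(P) P, mu 𝐍(P) χ l * ind ⊤ 𝐍(P) l g = (into 𝐍(P) g).ncard * χ g := by
  rw [Finset.sum_congr rfl fun l _ => by
      rw [ind_of_mem _ _ (mem_top g), mul_left_comm, Finset.mul_sum], ← Finset.mul_sum,
    ← Nat.cast_mul, ← h.cN', mul_inv_cancel_left₀ (card_ne_zero_C _), Finset.sum_comm,
    ← sum_fs_subset (A := into 𝐍(P) g) (fun _ _ => mem_top _) fun a _ ha => by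
      simp [res_of_notMem (H := 𝐍(P)) (x := a⁻¹ * g * a) _ ha], sum_fs_congr (g := fun _ => χ g) fun a ha => by
      rw [← CF_conj' hχ.mem_CF (mem_top a), h.val_off hχ ha (h.notMem (fun c => h1 (by
        rwa [← orderOf_eq_one_iff, orderOf_conj', orderOf_eq_one_iff] at c))
        (orderOf_conj' a g ▸ hg))]
      exact Finset.sum_congr rfl fun l _ => by rw [res_of_mem _ ha]]
  simp [card_fs]

variable (b : Blk P p e t NE EX δ δ0)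
include b

theorem ell_ex {θ θ' : G → ℂ} (hθ : θ ∈ EX) (hθ' : θ' ∈ EX) : ell P θ = ell P θ' := by
  have h1 := h.ellE b hθ
  rw [h.dg_ex b hθ hθ', h.ellE b hθ'] at h1
  exact Nat.eq_of_mul_eq_mul_right h.hp.pos (by exact_mod_cast h1.symm)

theorem mu_ex {θ θ' : G → ℂ} (hθ : θ ∈ EX) (hθ' : θ' ∈ EX) {l : G → ℂ} (hl : l ∈ irrKer 𝐍(P) P) :
    mu 𝐍(P) θ l = mu 𝐍(P) θ' l := by
  have h1 := h.mu_mul (irr_isChar (b.irrE hθ)) hl
  rw [h.ell_ex b hθ hθ', sum_fs_congr fun k hk => by rw [b.reg _ hθ _ hθ' k (h.reg hk.1 hk.2)],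
    ← h.mu_mul (irr_isChar (b.irrE hθ')) hl] at h1
  exact_mod_cast mul_left_cancel₀ h.ep_ne h1

theorem rel_ell {θ : G → ℂ} (hθ : θ ∈ EX) : ∑ χ ∈ NE, δ χ * ell P χ + δ0 * ell P θ = e := by
  refine mul_right_cancel₀ (Int.natCast_ne_zero.2 h.hp.ne_zero) ?_
  have h1 : ∀ χ ∈ NE, δ χ * δ χ = 1 := fun χ hχ => by exact_mod_cast b.sq hχ
  have h2 : δ0 * δ0 = 1 := by exact_mod_cast b.sq0
  rw [add_mul, Finset.sum_mul, Finset.sum_congr rfl fun χ hχ => by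
    rw [mul_assoc, ← h.ellN b hχ, mul_add, mul_left_comm, h1 χ hχ], mul_assoc, ← h.ellE b hθ,
    Finset.sum_add_distrib, Finset.sum_const, b.cN, nsmul_eq_mul]
  linear_combination h.deg_eq b hθ + e * h2

theorem rel {θ : G → ℂ} (hθ : θ ∈ EX) {l : G → ℂ} (hl : l ∈ irrKer 𝐍(P) P) :
    ∑ χ ∈ NE, δ χ * mu 𝐍(P) χ l + δ0 * mu 𝐍(P) θ l = 1 := by
  have h1 : ∑ χ ∈ NE, (δ χ * ell P χ : ℂ) + δ0 * ell P θ = e := by exact_mod_cast h.rel_ell b hθ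
  have h2 : ∑ k ∈ fs ((𝐍(P) : Set G) \ P), (∑ χ ∈ NE, δ χ * χ k + δ0 * θ k) * conj (l k) = 0 :=
    Finset.sum_eq_zero fun k hk => by
      rw [h.orth b hθ (h.reg (mem_fs.1 hk).1 (mem_fs.1 hk).2), zero_mul]
  simp only [add_mul, Finset.sum_add_distrib, Finset.sum_mul, mul_assoc] at h2
  rw [Finset.sum_comm, ← Finset.mul_sum] at h2
  have h3 : e * p * (∑ χ ∈ NE, (δ χ * mu 𝐍(P) χ l : ℂ) + δ0 * mu 𝐍(P) θ l) = e * p * 1 := by
    rw [mul_add, Finset.mul_sum, Finset.sum_congr rfl fun χ hχ => by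
      rw [mul_left_comm, h.mu_mul (irr_isChar (b.irrN hχ)) hl, mul_add, Finset.mul_sum,
        ← mul_assoc], mul_left_comm, h.mu_mul (irr_isChar (b.irrE hθ)) hl, Finset.sum_add_distrib,
      ← Finset.sum_mul]
    linear_combination h2 + p * h1
  exact_mod_cast mul_left_cancel₀ h.ep_ne h3

theorem deg_rel {θ : G → ℂ} (hθ : θ ∈ EX) {l : G → ℂ} (hl : l ∈ irrKer 𝐍(P) P) : ∃ ρ : ℕ,
    ∑ χ ∈ NE, mu 𝐍(P) χ l * dg χ + mu 𝐍(P) θ l * (t * dg θ) + ρ * p = 1 + r * p := by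
  classical
  refine ⟨∑ χ ∈ Irr ⊤ \ B0 p ⊤, mu 𝐍(P) χ l * ell P χ, ?_⟩
  rw [← h.deg_ind hl, ← Finset.sum_sdiff (B0_subset p ⊤), b.sum_B0, add_comm, Finset.sum_mul,
    Finset.sum_congr (s₁ := EX) rfl fun θ' h' => by rw [h.mu_ex b h' hθ hl, h.dg_ex b h' hθ],
    Finset.sum_const, b.cE, smul_eq_mul, mul_left_comm]
  congr 1
  exact Finset.sum_congr rfl fun χ hχ => by
    rw [h.dg_off (Finset.mem_sdiff.1 hχ).1 (Finset.mem_sdiff.1 hχ).2, mul_assoc]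

end HV

end Cfsg.Agent.P12
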