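/-
P12, `C(P) = P`: exceptional characters of degree `e`.
-/
import Cfsg.Agent.P12.M2

set_option autoImplicit false

namespace Cfsg.Agent.P12

open Subgroup Cfsg Cfsg.Agent Cfsg.Agent.FT Cfsg.Agent.P1 Cfsg.Agent.H7.PCl
open scoped ComplexConjugate

universe u

namespace AB

variable {p r v v' e F : ℕ} (h : AB p r v v')
include h

theorem n_eq : (1 + r * p : ℤ) = (p - v') * (p + v) := by
  have h1 := h.hp
  have h2 := h.hr
  zify at h1 h2
  linear_combination (p : ℤ) * h2 + (1 + p : ℤ) * h1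

theorem lt : (v' : ℤ) < p := by have := h.hp; have := h.v2; nlinarith

theorem dvd_a (hF : F + v * v' = v * p) (hd : F ∣ e * (1 + r * p)) : v ∣ e := by
  zify at hF hd
  rw [h.n_eq, show (F : ℤ) = v * (p - v') by linear_combination hF, mul_left_comm, mul_comm (v : ℤ),
    mul_dvd_mul_iff_left (sub_pos.2 h.lt).ne', mul_add, dvd_add_left (Dvd.intro_left _ rfl)] at hd
  exact (show v.Coprime p by rw [← h.hp]; simp).dvd_of_dvd_mul_right (by exact_mod_cast hd)

theorem dvd_b (hF : F = v' * (p + v)) (hd : F ∣ e * (1 + r * p)) : v' ∣ e := by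
  have := h.v2
  zify at hF hd
  rw [h.n_eq, hF, ← mul_assoc, mul_dvd_mul_iff_right (by positivity), mul_sub,
    dvd_sub_left (Dvd.intro_left _ rfl)] at hd
  exact (show v'.Coprime p by rw [← h.hp]; simp).dvd_of_dvd_mul_right (by exact_mod_cast hd)

end AB

variable {G : Type u} [Group G] [Finite G]

theorem dg_eq_sum {φ : G → ℂ} (hφ : IsChar ⊤ φ) :
    dg φ = ∑ χ ∈ Irr (⊤ : Subgroup G), mu ⊤ φ χ * dg χ := by
  have := apply_eq_sum_irr hφ.mem_CF 1
  rw [hφ.one_eq, Finset.sum_congr rfl fun χ hχ => by rw [mu_eq hφ hχ, irr_one_eq hχ]] at this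
  exact_mod_cast this

theorem ell_eq_sum (P : Subgroup G) {φ : G → ℂ} (hφ : IsChar ⊤ φ) :
    ell P φ = ∑ χ ∈ Irr (⊤ : Subgroup G), mu ⊤ φ χ * ell P χ := by
  have := ell_eq P hφ
  rw [eq_sum_irr hφ.mem_CF, ip_sum_left, Finset.sum_congr rfl fun χ hχ => by
    rw [ip_smul_left, mu_eq hφ hχ, ell_eq P (irr_isChar hχ)], ← eq_sum_irr hφ.mem_CF] at this
  exact_mod_cast this.symm

theorem ell_one (P : Subgroup G) : ell P (cf1 ⊤) = 1 := by
  have := ell_eq P (isChar_cf1 ⊤)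
  rw [← ip_res_left, res_cf1 le_top, ip_irr_self (cf1_mem_Irr P)] at this
  exact_mod_cast this.symm

namespace HV

variable {P : Subgroup G} {p r e t : ℕ} {NE EX : Finset (G → ℂ)} {δ : (G → ℂ) → ℤ} {δ0 : ℤ}
  (h : HV P ⊥ p r e t)
include h

theorem mu_zero {χ : G → ℂ} (hχ : IsChar ⊤ χ) (h0 : ell P χ = 0) {l : G → ℂ}
    (hl : l ∈ irrKer 𝐍(P) P) : mu 𝐍(P) χ l = 0 :=
  Finset.sum_eq_zero_iff.1 ((h.sum_mu hχ).trans h0) l hl

theorem val_zero {χ : G → ℂ} (hχ : IsChar ⊤ χ) (h0 : ell P χ = 0) {k : G} (hk : k ∈ 𝐍(P))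
    (hk' : k ∉ P) : χ k = 0 := by
  rw [h.val_off hχ hk hk']
  exact Finset.sum_eq_zero fun l hl => by simp [h.mu_zero hχ h0 hl]

theorem perfect (x : G) : x ∈ commutator G := perfect_of_simple h.simple h.not_comm x

theorem det_zero {χ : G → ℂ} (hχ : IsChar ⊤ χ) (h0 : ell P χ = 0) {A : ℕ} (hA : dg χ = A * e) :
    Even ((e + 1) * A) := by
  obtain ⟨k, hk, hk', ho⟩ := h.exists_k
  have := det_eq h.perfect hχ (g := k) (ζ := 1) (v := 0) (A := A) (one_pow _)
    (by rw [hχ.one_eq, hA, ho]; simp) fun i hi => by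
      rw [h.val_zero hχ h0 (pow_mem hk i) fun c => hi (h.pow_eq_one hk hk' c)]; simp
  rwa [pow_zero, one_mul, ← _root_.pow_mul, ho, neg_one_pow_eq_one_iff_even (by norm_num)] at this

theorem even_te : Even (t * e) := by
  have := h.odd
  rwa [← h.ht, Nat.odd_add_one, Nat.not_odd_iff_even] at this

variable (b : Blk P p e t NE EX δ δ0)
include b

theorem even_of_m {χ : G → ℂ} (hχ : χ ∈ NE) (h1 : dg χ + 1 = p) (h0 : ell P χ = 0) : Even t := by
  have := h.det_zero (irr_isChar (b.irrN hχ)) h0 (A := t) (by have := h.ht; omega)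
  have h2 := h.even_te
  rw [add_mul, one_mul, mul_comm, Nat.even_add] at this
  exact this.1 h2

theorem dvd_of_m {χ : G → ℂ} (hχ : χ ∈ NE) (h1 : dg χ + 1 = p) : t ∣ r + 1 := by
  have := h.dvdN b hχ
  rw [show dg χ = e * t by have := h.ht; rw [mul_comm]; omega,
    mul_dvd_mul_iff_left (by have := h.e2; omega), ← h.ht,
    show 1 + r * (t * e + 1) = t * (r * e) + (r + 1) by ring] at this
  exact (Nat.dvd_add_right (Dvd.intro _ rfl)).1 this

theorem caseA {θ : G → ℂ} (hθ : θ ∈ EX) (h1 : t * dg θ + 1 = p) (h0 : t * ell P θ = 0) :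
    r = 1 ∧ t = 2 := by
  classical
  have t1 := h.t_pos
  have e2 := h.e2
  have r1 := h.r1
  have ht := h.ht
  have hd : dg θ = e := Nat.eq_of_mul_eq_mul_left t1 (by omega)
  replace h0 : ell P θ = 0 := (mul_eq_zero.1 h0).resolve_left (by omega)
  have hc := irr_isChar (b.irrE hθ)
  have ho : Odd e := by simpa [Nat.even_add_one] using h.det_zero hc h0 (A := 1) (by omega)
  obtain ⟨s, rfl⟩ : ∃ s, t = s + 2 := by
    obtain ⟨s, hs⟩ := (Nat.even_mul.1 h.even_te).resolve_right (Nat.not_even_iff_odd.2 ho)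
    exact ⟨t - 2, by omega⟩
  have hφ := hc.mul hc.star
  have h2 : dg (θ * star θ) = e * e := by
    rw [hc.dg_mul hc.star, ← cfAut_conj, hc.dg_cfAut, hd]
  have h3 : ell P (θ * star θ) = e := by
    have := ell_mul P hφ
    rw [h2, show ∑ y ∈ fs (sharp P), (θ * star θ) y = _ from h.sum_sharp_sq b hθ, h.hP] at this
    have h4 : (e * p : ℂ) = ell P (θ * star θ) * p := by push_cast at this; linear_combination this
    exact_mod_cast (mul_right_cancel₀ (Nat.cast_ne_zero.2 h.hp.ne_zero) h4).symm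
  have h4 : mu ⊤ (θ * star θ) (cf1 ⊤) = 1 := by
    have := mu_eq hφ (cf1_mem_Irr ⊤)
    rw [ip_mul_left, star_star, mul_cf1 hc.mem_CF, ip_irr_self (b.irrE hθ)] at this
    exact_mod_cast this.symm
  rw [dg_eq_sum hφ, ← Finset.add_sum_erase _ _ (cf1_mem_Irr ⊤), h4, (isLin_cf1 ⊤).dg] at h2
  rw [ell_eq_sum P hφ, ← Finset.add_sum_erase _ _ (cf1_mem_Irr ⊤), h4, ell_one] at h3
  by_contra c
  have key : ∀ χ ∈ (Irr (⊤ : Subgroup G)).erase (cf1 ⊤), (e + 1) * ell P χ < dg χ := fun χ hχ => by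
    obtain ⟨n1, hχ⟩ := Finset.mem_erase.1 hχ
    by_cases c0 : χ ∈ B0 p ⊤
    · rcases (b.mem χ).1 c0 with c1 | c1
      · rcases h.tyN b h.hV c1 n1 with ⟨-, e1, e2⟩ | ⟨-, e1, e2⟩ |
          ⟨v, v', ab, ⟨-, e1, e2⟩ | ⟨-, e1, e2⟩⟩
        · rw [e1, e2, ← ht]
          have : 2 ≤ r * (s + 1) := by
            rcases Nat.eq_zero_or_pos s with rfl | _
            · omega
            · nlinarith
          nlinarith
        · rw [e2]; exact irr_dg_pos hχ
        · have d := ab.dvd_a e1 (h.dvdN b c1)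
          obtain ⟨w, rfl⟩ : ∃ w, v = w + 3 := ⟨v - 3, by
            have := ab.v2
            rcases (show v = 2 ∨ 3 ≤ v by omega) with rfl | _
            · exact absurd (even_iff_two_dvd.2 d) (Nat.not_even_iff_odd.2 ho)
            · omega⟩
          have := ab.hp
          rw [e2]
          nlinarith [Nat.zero_le (w * s * e), Nat.zero_le (w * e), Nat.zero_le (s * e)]
        · have := ab.v2
          have := ab.le
          rw [e1, e2]
          nlinarith [Nat.zero_le (v' * s * e)]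
      · rw [h.ell_ex b c1 hθ, h.dg_ex b c1 hθ, h0]; omega
    · have h5 := irr_dg_pos hχ
      rw [h.dg_off hχ c0] at h5 ⊢
      rw [mul_comm]
      exact Nat.mul_lt_mul_of_pos_left (by nlinarith) (Nat.pos_of_mul_pos_right h5)
  have h5 : ∑ χ ∈ (Irr (⊤ : Subgroup G)).erase (cf1 ⊤), (e + 1) * (mu ⊤ (θ * star θ) χ * ell P χ) <
      ∑ χ ∈ (Irr (⊤ : Subgroup G)).erase (cf1 ⊤), mu ⊤ (θ * star θ) χ * dg χ := by
    refine Finset.sum_lt_sum (fun χ hχ => ?_) ?_
    · rw [mul_left_comm]; exact Nat.mul_le_mul_left _ (key χ hχ).le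
    · obtain ⟨χ, hχ, h6⟩ := Finset.exists_ne_zero_of_sum_ne_zero
        (show ∑ χ ∈ (Irr (⊤ : Subgroup G)).erase (cf1 ⊤), mu ⊤ (θ * star θ) χ * dg χ ≠ 0 by
          nlinarith)
      exact ⟨χ, hχ, by
        rw [mul_left_comm]
        exact Nat.mul_lt_mul_of_pos_left (key χ hχ) (Nat.pos_of_ne_zero (left_ne_zero_of_mul h6))⟩
  rw [← Finset.mul_sum] at h5
  nlinarith

end HV

end Cfsg.Agent.P12
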