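/-
P12, `C(P) = P`: a vertex of degree `1 + r p`.
-/
import Cfsg.Agent.P12.MA

set_option autoImplicit false

namespace Cfsg.Agent.P12

open Subgroup Cfsg Cfsg.Agent Cfsg.Agent.FT Cfsg.Agent.P1 Cfsg.Agent.H7.PCl
open scoped ComplexConjugate

universe u

variable {G : Type u} [Group G] [Finite G]

omit [Finite G] in
theorem zpowers_invol {u z : G} (hu : u * u = 1) (h : z ∈ zpowers u) : z = 1 ∨ z = u := by
  obtain ⟨i, rfl⟩ := h
  have h1 : u ^ (2 : ℤ) = 1 := by rw [zpow_two, hu]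
  rcases Int.even_or_odd' i with ⟨k, rfl | rfl⟩ <;> simp [zpow_add, zpow_mul, h1]

theorem norm_invol {z : G} (hz : z * z = 1) : 𝐍(zpowers z) = 𝐂[z] := by
  refine le_antisymm (fun a ha => mem_cent1_iff_conj.2 ?_) fun a ha =>
    mem_norm_zpowers (by rw [mem_cent1_iff_conj.1 ha]; exact mem_zpowers z)
  rcases zpowers_invol hz ((mem_normalizer_iff.1 ha z).1 (mem_zpowers z)) with e | e
  · rw [e, conj_eq_one_iff.1 e]
  · exact e

omit [Finite G] in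
theorem eac_of {z : G} (hz : ∀ x ∈ 𝐂[z], x * x = 1)
    (hc : ∀ w : G, w ≠ 1 → w * w = 1 → ∃ c, c * w * c⁻¹ = z) : L.EAC G := fun w x h1 h2 h3 => by
  obtain ⟨c, rfl⟩ := hc w h1 h2
  have := hz (c * x * c⁻¹) (mem_cent1.2 (by rw [conj_mul, conj_mul, h3.eq]))
  rwa [conj_mul, conj_eq_one_iff] at this

theorem sq_eq_one_of {E H : Subgroup G} (hE : E ≤ H) (hc : 2 * 𝐨(E) < 𝐨(H))
    (h : ∀ x ∈ H, x ∉ E → x * x = 1) : ∀ x ∈ H, x * x = 1 := fun x hx => by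
  by_contra c
  have xE : x ∈ E := by_contra fun d => c (h x hx d)
  have h1 : ∀ a ∈ H, a ∉ E → a * x = x⁻¹ * a := fun a ha ha' => by
    have := h (a * x) (mul_mem ha hx) fun d => ha' ((mul_mem_cancel_right xE).1 d)
    calc a * x = (a * x * (a * x)) * x⁻¹ * a * (a * a)⁻¹ := by group
      _ = _ := by rw [this, h a ha ha']; simp
  obtain ⟨a, ha, ha'⟩ : ∃ a ∈ H, a ∉ E := by
    by_contra! d
    have := card_le_of_le d
    omega
  obtain ⟨a', h2, h3⟩ : ∃ a' ∈ H, a' ∉ (E : Set G) ∪ (a⁻¹ * ·) '' E := by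
    by_contra! d
    have := (Set.ncard_le_ncard (s := (H : Set G)) d).trans (Set.ncard_union_le _ _)
    rw [Set.ncard_image_of_injective _ (mul_right_injective _), ← Nat.card_coe_set_eq,
      ← Nat.card_coe_set_eq] at this
    exact absurd (show 𝐨(H) ≤ 𝐨(E) + 𝐨(E) from this) (by omega)
  have h4 := h1 (a * a') (mul_mem ha h2) fun d => h3 (.inr ⟨_, d, by simp⟩)
  rw [mul_assoc, h1 a' h2 fun d => h3 (.inl d), ← mul_assoc, ← mul_assoc, mul_left_inj,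
    ← h1 a ha ha', mul_right_inj] at h4
  exact c (mul_eq_one_iff_eq_inv.2 h4.symm)

theorem exists_one {ι : Type*} {s : Finset ι} {f : ι → ℕ} (h : ∑ i ∈ s, f i = 1) :
    ∃ i ∈ s, f i = 1 ∧ ∀ g : ι → ℂ, ∑ j ∈ s, f j * g j = g i := by
  classical
  obtain ⟨i, hi, h1⟩ := Finset.exists_ne_zero_of_sum_ne_zero (h ▸ one_ne_zero)
  rw [← Finset.add_sum_erase _ _ hi] at h
  refine ⟨i, hi, by omega, fun g => ?_⟩
  rw [← Finset.add_sum_erase _ _ hi, show f i = 1 by omega, Finset.sum_eq_zero fun j hj => by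
    simp [Finset.sum_eq_zero_iff.1 (show ∑ j ∈ s.erase i, f j = 0 by omega) j hj]]
  simp

theorem AB.not_dvd {p r v v' : ℕ} (h : AB p r v v') (hd : r + 1 ∣ v * v') (hl : r + 1 < v * v') :
    False := by
  obtain ⟨c, hc⟩ := hd
  have := h.hr
  have := h.v2
  have : 2 ≤ c := by
    rcases c with _ | _ | c <;> omega
  nlinarith

namespace HV

variable {P : Subgroup G} {p r e t : ℕ} {NE EX : Finset (G → ℂ)} {δ : (G → ℂ) → ℤ} {δ0 : ℤ}
  (h : HV P ⊥ p r e t)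
include h

theorem conj_off {g a : G} (h1 : g ≠ 1) (hg : ¬ p ∣ orderOf g) : a⁻¹ * g * a ∉ P :=
  h.notMem (fun c => h1 (by rwa [← orderOf_eq_one_iff, orderOf_conj', orderOf_eq_one_iff] at c))
    (orderOf_conj' a g ▸ hg)

theorem conj_invol {z w a : G} (hz : z ∈ 𝐍(P)) (hz' : z ∉ P) (ho : orderOf z = 2) (w1 : w ≠ 1)
    (hw : w * w = 1) (ha : a ∈ into 𝐍(P) w) : ∃ c, c * w * c⁻¹ = z := by
  have h1 : orderOf w = 2 := orderOf_eq_prime (by rw [pow_two, hw]) w1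
  obtain ⟨y, -, h2⟩ := h.conj_zpowers hz hz' ha (h.conj_off w1 fun c => by
    have := h.three_le
    have := Nat.le_of_dvd two_pos (h1 ▸ c)
    omega) (by rw [orderOf_conj', h1, ho])
  refine ⟨y * a⁻¹, ?_⟩
  rcases zpowers_invol (by rw [← pow_two, ← ho, pow_orderOf_eq_one]) h2 with e | e
  · rw [conj_eq_one_iff, ← orderOf_eq_one_iff, orderOf_conj', h1] at e; omega
  · rw [← e]; group

theorem vertex_n {S : Finset (G → ℂ)} (hS : S ⊆ Irr ⊤) {χ : G → ℂ} (hχ : χ ∈ S) (h1 : cf1 ⊤ ∉ S)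
    (hv : ∀ χ' ∈ S, ∀ g, ¬ p ∣ orderOf g → χ' g = χ g)
    (hm : ∀ χ' ∈ S, ∀ l ∈ irrKer 𝐍(P) P, mu 𝐍(P) χ' l = mu 𝐍(P) χ l)
    (hd : ∑ χ ∈ S, dg χ = 1 + r * p) (hl : S.card * ell P χ = r + 1) (hc : S.card ≤ t) :
    r + 1 < t * e ∧ r + 1 ∣ t * e ∧ ∀ g, g ≠ 1 → ¬ p ∣ orderOf g → χ g ≠ 0 →
      (into 𝐍(P) g).ncard = e * (r + 1) * p := by
  classical
  have hc' := irr_isChar (hS hχ)
  have h2 : ∀ l ∈ irrKer 𝐍(P) P, mu 𝐍(P) χ l ≠ 0 → _ := fun l hl' c =>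
    h.ind_of_deg hl' hS hd fun χ' h' => hm χ' h' l hl' ▸ c
  have h3 : mu 𝐍(P) χ (cf1 𝐍(P)) = 0 := by_contra fun c => by
    have := (h2 _ h.one_lin c).2.1 _ (cf1_mem_Irr ⊤) h1
    rw [mu_one (cf1_mem_Irr _), if_pos rfl] at this
    exact one_ne_zero this
  have h4 : ell P χ < e := by
    rw [← h.sum_mu hc', ← h.card_lin, Finset.card_eq_sum_ones]
    refine Finset.sum_lt_sum (fun l hl' => ?_) ⟨_, h.one_lin, by omega⟩
    by_cases c : mu 𝐍(P) χ l = 0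
    · omega
    · exact ((h2 l hl' c).1 χ hχ).le
  have h5 : r + 1 < t * e := hl ▸ (Nat.mul_le_mul_right _ hc).trans_lt
    (Nat.mul_lt_mul_of_pos_left h4 h.t_pos)
  have h6 : ∀ g, g ≠ 1 → ¬ p ∣ orderOf g → χ g ≠ 0 →
      (into 𝐍(P) g).ncard = e * (r + 1) * p := fun g g1 hg c => by
    have := h.sum_ind hc' g1 hg
    rw [Finset.sum_congr rfl (g := fun l => mu 𝐍(P) χ l * (S.card * χ g)) fun l hl' => by
      by_cases c : mu 𝐍(P) χ l = 0
      · simp [c]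
      · rw [(h2 l hl' c).2.2, Finset.sum_congr rfl fun χ' h' => hv χ' h' g hg]; simp,
      ← Finset.sum_mul, ← Nat.cast_sum, h.sum_mu hc', ← mul_assoc, ← mul_assoc] at this
    have := mul_right_cancel₀ c this
    rw [← hl, mul_right_comm e, mul_comm S.card, ← mul_assoc]
    exact_mod_cast this.symm
  refine ⟨h5, ?_, h6⟩
  obtain ⟨k, hk, h7⟩ : ∃ k ∈ fs ((𝐍(P) : Set G) \ P), χ k * conj (cf1 𝐍(P) k) ≠ 0 := by
    refine Finset.exists_ne_zero_of_sum_ne_zero fun c => ?_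
    have := h.mu_mul hc' h.one_lin
    rw [h3, c, Nat.cast_zero, mul_zero, add_zero, eq_comm, mul_eq_zero, Nat.cast_eq_zero,
      Nat.cast_eq_zero, or_iff_left h.hp.ne_zero] at this
    simp [this] at hl
  rw [mem_fs] at hk
  have h8 := h6 k (fun c => hk.2 (c ▸ one_mem P)) (h.reg hk.1 hk.2) (left_ne_zero_of_mul h7)
  rw [h.ncard_into hk.1 hk.2, mul_left_inj' h.hp.ne_zero] at h8
  have h9 := card_subgroup_dvd_card 𝐍(zpowers k)
  have ht := h.ht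
  rw [h8, h.cG, mul_assoc, mul_dvd_mul_iff_left (by have := h.e2; omega)] at h9
  have h10 := ((Nat.coprime_of_lt_prime r.succ_ne_zero (by omega) h.hp).symm).dvd_of_dvd_mul_left h9
  have : (r + 1) * p = (1 + r * p) + t * e := by rw [add_mul, one_mul]; omega
  exact (Nat.dvd_add_right h10).1 (this ▸ Dvd.intro _ rfl)

variable (b : Blk P p e t NE EX δ δ0)
include b

theorem vertex_ex {θ : G → ℂ} (hθ : θ ∈ EX) (hd : t * dg θ = 1 + r * p) (hl : t * ell P θ = r + 1) :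
    r + 1 < t * e ∧ r + 1 ∣ t * e ∧ ∀ g, g ≠ 1 → ¬ p ∣ orderOf g → θ g ≠ 0 →
      (into 𝐍(P) g).ncard = e * (r + 1) * p :=
  h.vertex_n (fun _ => b.irrE) hθ (fun c => b.ne_one c rfl) (fun _ h' => b.reg _ h' _ hθ)
    (fun _ h' _ => h.mu_ex b h' hθ) (by
      rw [Finset.sum_congr rfl fun _ h' => h.dg_ex b h' hθ, Finset.sum_const, b.cE, ← hd]; rfl)
    (b.cE ▸ hl) b.cE.le

theorem no_ab {θ : G → ℂ} (hθ : θ ∈ EX) (hn : (∃ χ ∈ NE, dg χ = 1 + r * p ∧ ell P χ = r + 1) ∨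
    (t * dg θ = 1 + r * p ∧ t * ell P θ = r + 1)) {v v' : ℕ} (ab : AB p r v v') : False := by
  have h1 : v * v' = t * e := by have := ab.hp; have := h.ht; omega
  suffices r + 1 < t * e ∧ r + 1 ∣ t * e from ab.not_dvd (h1 ▸ this.2) (h1 ▸ this.1)
  rcases hn with ⟨χ, hχ, e1, e2⟩ | ⟨e1, e2⟩
  · have := h.vertex_n (S := {χ}) (by simpa using b.irrN hχ) (Finset.mem_singleton_self χ)
      (fun c => by
        rw [← Finset.mem_singleton.1 c, ell_one] at e2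
        have := h.r1
        omega) (by simp) (by simp) (by simpa) (by simpa) h.t_pos
    exact ⟨this.1, this.2.1⟩
  · exact ⟨(h.vertex_ex b hθ e1 e2).1, (h.vertex_ex b hθ e1 e2).2.1⟩

theorem norm_one {θ : G → ℂ} (hθ : θ ∈ EX) (hl : ell P θ = 1) {k : G} (hk : k ∈ 𝐍(P))
    (hk' : k ∉ P) : θ k * conj (θ k) = 1 := by
  have hc := irr_isChar (b.irrE hθ)
  obtain ⟨l, hl', -, h1⟩ := exists_one ((h.sum_mu hc).trans hl)
  rw [h.val_off hc hk hk', h1, (h.linN hl').mul_conj hk]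

theorem caseB {θ : G → ℂ} (hθ : θ ∈ EX) (hab : ∀ v v', ¬ AB p r v v') (hδ : δ0 = 1)
    (hd : t * dg θ = 1 + r * p) (hl : t * ell P θ = r + 1) :
    (r = 1 ∧ t = 2) ∨ (e = 2 ∧ 2 * r + 3 = p ∧ L.EAC G) := by
  classical
  obtain ⟨-, h1, h2⟩ := h.vertex_ex b hθ hd hl
  have t1 := h.t_pos
  have r1 := h.r1
  have ht := h.ht
  have hc := irr_isChar (b.irrE hθ)
  have h3 := h.rel_ell b hθ
  obtain ⟨j, hj⟩ : ((r + 1 : ℕ) : ℤ) ∣ ∑ χ ∈ NE.erase (cf1 ⊤), δ χ * ell P χ :=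
    Finset.dvd_sum fun χ hχ => by
      rcases h.tyN b h.hV (Finset.mem_erase.1 hχ).2 (Finset.mem_erase.1 hχ).1 with
        ⟨-, -, e2⟩ | ⟨-, -, e2⟩ | ⟨v, v', ab, -⟩
      exacts [e2 ▸ Dvd.intro_left _ rfl, by simp [e2], (hab v v' ab).elim]
  rw [← Finset.add_sum_erase _ _ b.one, h.δ_one b, ell_one, hj, hδ, ← hl] at h3
  rw [← hl, mul_dvd_mul_iff_left (by omega)] at h1
  have h4 : ell P θ = 1 := by
    obtain ⟨c, hc⟩ := h1
    refine Nat.dvd_one.1 (Int.natCast_dvd_natCast.1 ⟨c - t * j - 1, ?_⟩)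
    rw [hc] at h3
    push_cast at h3 ⊢
    linear_combination h3
  rw [h4] at hl h3
  obtain rfl : t = r + 1 := by omega
  replace h3 : (e : ℤ) = 2 + (r + 1) * j := by push_cast at h3; linear_combination -h3
  have h5 := h.ellE b hθ
  rw [h4, hδ, ← ht] at h5
  have hr : ∀ g : G, orderOf g ∣ e * (r + 1) → ¬ p ∣ orderOf g := fun g hg c => h.hp.one_lt.ne'
    (Nat.dvd_one.1 ((Nat.dvd_add_right (mul_comm e _ ▸ c.trans hg)).1 (ht ▸ dvd_rfl)))
  have F : ∀ g : G, g ≠ 1 → orderOf g ∣ e * (r + 1) → (into 𝐍(P) g).ncard = e * (r + 1) * p :=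
    fun g g1 hg => h2 g g1 (hr g hg) (left_ne_zero_of_mul (ne_zero_of_val (hc.mul hc.star).mem_VChar
      (f := dg θ * dg θ) (by simp [hc.one_eq]) (mul_self_ne_zero.2 (irr_dg_pos (b.irrE hθ)).ne')
      (Nat.Coprime.mul_right ?_ ?_) (fun g g1 hg => ?_) g hg))
  rotate_left
  iterate 2
    refine Nat.Coprime.mul_left (Nat.isCoprime_iff_coprime.1 ⟨-r, 1, ?_⟩)
      (Nat.isCoprime_iff_coprime.1 ⟨e - j, -1, ?_⟩)
    · push_cast at h5; linear_combination h5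
    · push_cast at h5 ⊢; linear_combination -h5 + h3
  · by_cases c : θ g = 0
    · exact .inl (by simp [c])
    · obtain ⟨a, ha⟩ := Set.nonempty_of_ncard_ne_zero (h2 g g1 (hr g hg) c ▸
        mul_ne_zero (mul_ne_zero (by have := h.e2; omega) r.succ_ne_zero) h.hp.ne_zero)
      have := h.norm_one b hθ h4 ha (h.conj_off g1 (hr g hg))
      exact .inr (by rwa [CF_conj' hc.mem_CF (mem_top a)] at this)
  have F1 : ∀ g : G, g ≠ 1 → orderOf g ∣ e * (r + 1) → ∃ a, a ∈ into 𝐍(P) g := fun g g1 hg =>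
    Set.nonempty_of_ncard_ne_zero (F g g1 hg ▸
      mul_ne_zero (mul_ne_zero (by have := h.e2; omega) r.succ_ne_zero) h.hp.ne_zero)
  have F2 : ∀ g : G, orderOf g ∣ e * (r + 1) → orderOf g ∣ e := fun g hg => by
    by_cases g1 : g = 1
    · simp [g1]
    · obtain ⟨a, ha⟩ := F1 g g1 hg
      exact orderOf_conj' a g ▸ h.ord_dvd ha (h.conj_off g1 (hr g hg))
  have F3 : ∀ (g : G) (i : ℕ), g ^ i ≠ 1 → orderOf g ∣ e * (r + 1) →
      into 𝐍(P) g = into 𝐍(P) (g ^ i) := fun g i hi hg => Set.eq_of_subset_of_ncard_le (into_pow g i)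
    (by rw [F g (fun c => hi (by rw [c, one_pow])) hg, F _ hi ((orderOf_pow_dvd i).trans hg)])
  have F4 : ∀ q, q.Prime → q ∣ r + 1 → q = 2 := fun q hq d => by
    have := Fact.mk hq
    obtain ⟨g, hg⟩ := exists_prime_orderOf_dvd_card' (G := G) q (by
      rw [h.cG, ← hd]; exact (d.mul_right _).mul_left _)
    have d' : (q : ℤ) ∣ e := Int.natCast_dvd_natCast.2 (hg ▸ F2 g (hg ▸ d.mul_left e))
    rw [h3, dvd_add_left (Dvd.dvd.mul_right (by exact_mod_cast d) j)] at d'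
    exact (Nat.prime_dvd_prime_iff_eq hq Nat.prime_two).1 (by exact_mod_cast d')
  by_cases c : r = 1
  · exact .inl ⟨c, by omega⟩
  obtain ⟨s, hs⟩ : 2 ∣ r + 1 := F4 _ (Nat.minFac_prime (by omega)) (Nat.minFac_dvd _) ▸ Nat.minFac_dvd _
  obtain ⟨s, rfl⟩ : 2 ∣ s := F4 _ (Nat.minFac_prime (by omega))
    (hs ▸ (Nat.minFac_dvd s).mul_left 2) ▸ Nat.minFac_dvd _
  obtain ⟨m, rfl, hm⟩ : ∃ m, e = 2 * m ∧ Odd m := by
    have : (e : ℤ) = 2 + 4 * (s * j) := by rw [h3]; zify at hs; linear_combination j * hs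
    exact ⟨e / 2, by omega, Nat.odd_iff.2 (by omega)⟩
  obtain ⟨k, hk, hk', ho⟩ := h.exists_k
  have hz : orderOf (k ^ m) = 2 := by
    rw [orderOf_pow, ho, Nat.gcd_mul_left_left, Nat.mul_div_cancel _ hm.pos]
  have z1 : k ^ m ≠ 1 := fun c => by simp [c] at hz
  have zP : k ^ m ∉ P := fun c => z1 (h.pow_eq_one hk hk' c)
  have zz : k ^ m * k ^ m = 1 := by rw [← pow_two, ← hz, pow_orderOf_eq_one]
  have kz : k ∈ 𝐂[k ^ m] := mem_cent1.2 (Commute.pow_left (Commute.refl k) m)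
  have zN := pow_mem hk m
  generalize k ^ m = z at hz z1 zP zz kz zN
  have hH := F z z1 (hz ▸ (Dvd.intro m rfl).mul_right _)
  rw [h.ncard_into zN zP, mul_left_inj' h.hp.ne_zero, norm_invol zz] at hH
  have key := sq_eq_one_of (E := 𝐂[z] ⊓ 𝐍(P)) (H := 𝐂[z]) inf_le_left (by
    have d1 : 𝐨((𝐂[z] ⊓ 𝐍(P) : Subgroup G)) ∣ 2 * m * p := h.cN' ▸ FT.card_dvd_of_le inf_le_right
    have d2 : 𝐨((𝐂[z] ⊓ 𝐍(P) : Subgroup G)) ∣ (r + 1) * (2 * m) :=
      mul_comm (r + 1) _ ▸ hH ▸ FT.card_dvd_of_le inf_le_left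
    have := Nat.le_of_dvd (by have := hm.pos; omega) (Nat.Coprime.dvd_of_dvd_mul_right
      (Nat.Coprime.coprime_dvd_left d2 (by rw [← ht]; simp)) d1)
    rw [hH]
    nlinarith [Nat.mul_le_mul_left m (show 3 ≤ r + 1 by omega), hm.pos]) fun x hx hx' => by
      by_contra c
      have o1 : orderOf x ∣ 2 * m * (r + 1) := hH ▸ orderOf_dvd_card_of_mem hx
      have o2 : (x ^ 2) ^ m = 1 := by rw [← _root_.pow_mul, ← orderOf_dvd_iff_pow_eq_one]; exact F2 x o1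
      have o3 : Commute z (x ^ 2) := Commute.pow_right (mem_cent1.1 hx) 2
      have o4 : orderOf (z * x ^ 2) ∣ 2 * m * (r + 1) :=
        hH ▸ orderOf_dvd_card_of_mem (mul_mem (mem_cent1.2 rfl) (pow_mem hx 2))
      have o5 : (z * x ^ 2) ^ m = z := by
        obtain ⟨i, rfl⟩ := hm
        rw [o3.mul_pow, o2, mul_one, pow_succ, _root_.pow_mul, pow_two, zz, one_pow, one_mul]
      have o6 : (z * x ^ 2) ^ 2 = x ^ 4 := by rw [o3.mul_pow, pow_two z, zz, one_mul, ← _root_.pow_mul]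
      have o7 : x ^ 4 ≠ 1 := fun d => c (by
        rw [← pow_two, ← orderOf_eq_one_iff]
        exact Nat.eq_one_of_dvd_coprimes hm.coprime_two_right (orderOf_dvd_of_pow_eq_one o2)
          (orderOf_dvd_of_pow_eq_one (by rw [← _root_.pow_mul, d])))
      have : (1 : G) ∈ into 𝐍(P) x := by
        rw [F3 x 4 o7 o1, ← o6, ← F3 _ 2 (o6 ▸ o7) o4, F3 _ m (o5.symm ▸ z1) o4, o5]
        simpa [into] using zN
      exact hx' ⟨hx, by simpa [into] using this⟩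
  have : 2 * m ∣ 2 := ho ▸ orderOf_dvd_of_pow_eq_one (by rw [pow_two, key k kz])
  obtain rfl : m = 1 := by have := Nat.le_of_dvd two_pos this; have := hm.pos; omega
  refine .inr ⟨rfl, by omega, eac_of key fun w w1 hw => ?_⟩
  obtain ⟨a, ha⟩ := F1 w w1 ((orderOf_dvd_of_pow_eq_one (by rw [pow_two, hw])).mul_right _)
  exact h.conj_invol zN zP hz w1 hw ha

end HV

end Cfsg.Agent.P12
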