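/-
P12, `C(P) = P`: no vertex of degree `1 + r p`, the cases that do not occur.
-/
import Cfsg.Agent.P12.MB

set_option autoImplicit false

namespace Cfsg.Agent.P12

open Subgroup Cfsg Cfsg.Agent Cfsg.Agent.FT Cfsg.Agent.P1 Cfsg.Agent.H7.PCl
open scoped ComplexConjugate

universe u

theorem num_c1 {a b t e y y1 Y ρ k : ℤ} (a1 : 1 ≤ a) (ab : a ≤ b) (t1 : 1 ≤ t) (v2 : 2 ≤ t * a)
    (he : e = t * a * b) (h1 : Y * (t * a + t * b) = t * b * (e - 1) * (t * a - 1) + e)
    (h2 : k * (a + b) = (e - 1) * (t * a - 1) + a) (h3 : Y ≤ (e - 1) * y + y1)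
    (h4 : (t * a + t * b) * y + ρ = t * b * (t * a - 1) + 1) (ρ0 : 0 ≤ ρ)
    (h5 : (t * a + t * b) * y1 ≤ t * b * (t * a - 1) + t * a) : a = 1 ∧ b = 1 ∧ Even t := by
  have e2 : 2 ≤ e := by nlinarith
  have h6 : (e - 1) * ρ ≤ (t * a - 1) * (t * b + 1) := by
    have := mul_le_mul_of_nonneg_right h3 (show 0 ≤ t * a + t * b by nlinarith)
    nlinarith
  obtain ⟨j, hj⟩ : ∃ j, j * (a + b) = a * ρ - (t * a - 1) :=
    ⟨k - t * a * y, by rw [he] at h2; linear_combination h2 - a * h4⟩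
  rcases le_or_gt j 0 with c | c
  · have h7 : ρ < t := by nlinarith
    obtain ⟨c, hc⟩ : ∃ c, ρ = 1 + t * c := ⟨b * (t * a - 1) - (a + b) * y, by linear_combination h4⟩
    rcases (show c = 0 ∨ c ≤ -1 ∨ 1 ≤ c by omega) with rfl | c1 | c1
    · have h8 : (a + b) * y = b * (t * a - 1) :=
        mul_left_cancel₀ (show t ≠ 0 by omega) (by linear_combination h4 - hc)
      have h9 : a + b ∣ 1 := ⟨(t - 1) ^ 2 * (t * a - 1 - y + a * j) + 2 * (t - 1) * a * j +
        j ^ 2 * (a + b), by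
          rw [hc] at hj
          linear_combination (t - 1) ^ 2 * h8 - ((t - 1) ^ 2 * a + (t - 1) * a + 1 +
            j * (a + b)) * hj⟩
      have := Int.le_of_dvd one_pos h9
      omega
    · obtain rfl : t = 1 := by nlinarith
      obtain rfl : ρ = 0 := by omega
      rcases (show j = 0 ∨ j ≤ -1 by omega) with rfl | c1 <;> nlinarith
    · nlinarith
  · have h7 : a + b + (t * a - 1) ≤ a * ρ := by nlinarith
    have h8 : (e - 1) * (a + b) ≤ (t * a - 1) * (a + 1) := by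
      have := mul_le_mul_of_nonneg_left h7 (show 0 ≤ e - 1 by omega)
      have := mul_le_mul_of_nonneg_left h6 (show 0 ≤ a by omega)
      nlinarith
    obtain rfl : b = 1 := by
      by_contra d
      have h9 : t * a ≤ e - 1 := by nlinarith [show 2 ≤ b by omega]
      nlinarith [mul_le_mul h9 (show a + 1 ≤ a + b by omega) (by omega) (by omega)]
    obtain rfl : a = 1 := by omega
    simp only [mul_one, one_mul] at *
    subst he
    obtain rfl : ρ = e + 1 := by nlinarith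
    exact ⟨trivial, trivial, y + 1, mul_left_cancel₀ (show e ≠ 0 by omega) (by linear_combination -h4)⟩

/-- The types `p - 1`, `a`, `b`. -/
def TyC (p v v' F : ℕ) (d : ℤ) (l : ℕ) : Prop := (d = -1 ∧ F + 1 = p ∧ l = 0) ∨
  (d = 1 ∧ F + v * v' = v * p ∧ l = v) ∨ (d = -1 ∧ F = v' * (p + v) ∧ l = v')

variable {G : Type u} [Group G] [Finite G]

namespace HV

variable {P : Subgroup G} {p r e t : ℕ} {NE EX : Finset (G → ℂ)} {δ : (G → ℂ) → ℤ} {δ0 : ℤ}
  (h : HV P ⊥ p r e t)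
include h

theorem not_even (he : Even e) (hr : Even r) : False := by
  obtain ⟨k, -, -, ho⟩ := h.exists_k
  have := det_eq h.perfect ((isChar_cf1 ⊥).ind le_top) (g := k) (ζ := 1) (v := 0)
    (A := p * (1 + r * p)) (one_pow _) (by
      rw [ind_one le_top, relIndex_bot_left, card_top, h.cG, ho, (isLin_cf1 ⊥).2.1]; push_cast; ring)
    fun i hi => by
      rw [ind_apply_eq_zero fun x _ hx => (hi (by
        rwa [mem_bot, ← orderOf_eq_one_iff, orderOf_conj', orderOf_eq_one_iff] at hx)).elim]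
      simp
  rw [pow_zero, one_mul, ← _root_.pow_mul, ho, neg_one_pow_eq_one_iff_even (by norm_num)] at this
  exact Nat.not_even_iff_odd.2 (he.add_one.mul (h.odd.mul (hr.mul_right p).one_add)) this

theorem te {v v' : ℕ} (ab : AB p r v v') : t * e = v * v' := by have := ab.hp; have := h.ht; omega

variable (b : Blk P p e t NE EX δ δ0) {v v' : ℕ} (ab : AB p r v v') {θ : G → ℂ} (hθ : θ ∈ EX)
  (hN : ∀ χ ∈ NE.erase (cf1 ⊤), TyC p v v' (dg χ) (δ χ) (ell P χ))
include b ab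

theorem dvd_of_a {χ : G → ℂ} (hχ : χ ∈ NE) (h1 : dg χ + v * v' = v * p) : t ∣ v' := by
  obtain ⟨c, hc⟩ := ab.dvd_a h1 (h.dvdN b hχ)
  have := h.te ab
  have := ab.v2
  exact ⟨c, Nat.eq_of_mul_eq_mul_left (show 0 < v by omega) (by rw [← h.te ab, hc]; ring)⟩

theorem dvd_of_b {χ : G → ℂ} (hχ : χ ∈ NE) (h1 : dg χ = v' * (p + v)) : t ∣ v := by
  obtain ⟨c, hc⟩ := ab.dvd_b h1 (h.dvdN b hχ)
  have := ab.le
  have := ab.v2
  exact ⟨c, Nat.eq_of_mul_eq_mul_right (show 0 < v' by omega) (by rw [← h.te ab, hc]; ring)⟩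

include hθ hN

theorem caseC2 (hδ : δ0 = 1) (hl : t * ell P θ = v) : t ∣ v' := by
  classical
  by_contra c
  have h1 := h.rel_ell b hθ
  have h2 : ∑ χ ∈ NE.erase (cf1 ⊤), δ χ * ell P χ ≤ 0 := Finset.sum_nonpos fun χ hχ => by
    rcases hN χ hχ with ⟨e1, -⟩ | ⟨-, e1, -⟩ | ⟨e1, -⟩
    · simp [e1]
    · exact (c (h.dvd_of_a b ab (Finset.mem_erase.1 hχ).2 e1)).elim
    · simp [e1]
  rw [← Finset.add_sum_erase _ _ b.one, h.δ_one b, ell_one, hδ] at h1
  have h3 : t * e ≤ t * (1 + ell P θ) := Nat.mul_le_mul_left _ (by omega)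
  have h4 := ab.v2
  have h5 := ab.le
  have h6 := Nat.le_of_dvd (by omega) (Dvd.intro _ hl)
  rw [h.te ab, mul_add, hl] at h3
  exact c ((show v = v' by nlinarith) ▸ Dvd.intro _ hl)

theorem caseC1 (hE : (δ0 = 1 ∧ t * dg θ + v * v' = v * p ∧ t * ell P θ = v) ∨
    (δ0 = -1 ∧ t * dg θ = v' * (p + v) ∧ t * ell P θ = v')) (h1 : t ∣ v) (h2 : t ∣ v') : False := by
  classical
  have t1 := h.t_pos
  have hp := ab.hp
  have hr := ab.hr
  zify at hp hr
  replace hN : ∀ χ ∈ NE.erase (cf1 ⊤), (δ χ = 1 ∧ dg χ + v * v' = v * p ∧ ell P χ = v) ∨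
      (δ χ = -1 ∧ dg χ = v' * (p + v) ∧ ell P χ = v') := fun χ hχ => (hN χ hχ).resolve_left
    fun ⟨_, e1, e2⟩ => by
      have d := h.dvd_of_m b (Finset.mem_erase.1 hχ).2 e1
      have d1 : t ∣ r + v' := ab.hr ▸ dvd_add (h1.mul_right _) h1
      have := (Nat.dvd_add_right ((Nat.dvd_add_left h2).1 d1)).1 d
      exact Nat.not_even_one (Nat.dvd_one.1 this ▸ h.even_of_m b (Finset.mem_erase.1 hχ).2 e1 e2)
  let β : ℤ → ℤ := fun d => if d = 1 then 0 else 1
  let y : (G → ℂ) → ℤ := fun l =>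
    ∑ χ ∈ NE.erase (cf1 ⊤), β (δ χ) * mu 𝐍(P) χ l + β δ0 * mu 𝐍(P) θ l
  have hy : ∀ l ∈ irrKer 𝐍(P) P, (v + v') * y l + (v - 1) * (1 - mu 𝐍(P) (cf1 ⊤) l) ≤ r :=
    fun l hl => by
      obtain ⟨ρ, h3⟩ := h.deg_rel b hθ hl
      have h4 := h.rel b hθ hl
      rw [← Finset.add_sum_erase _ _ b.one, (isLin_cf1 ⊤).dg] at h3
      rw [← Finset.add_sum_erase _ _ b.one, h.δ_one b] at h4
      have h5 : ∀ (F m : ℕ) (d : ℤ) (l : ℕ), (d = 1 ∧ F + v * v' = v * p ∧ l = v) ∨
          (d = -1 ∧ F = v' * (p + v) ∧ l = v') →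
          (m * F : ℤ) = ((v - 1) * p + 1) * (d * m) + (v + v') * p * (β d * m) := by
        rintro F m d l (⟨rfl, e1, -⟩ | ⟨rfl, e1, -⟩) <;> zify at e1 <;> simp only [β] <;> norm_num
        · linear_combination m * e1 - m * hp
        · linear_combination m * e1 + m * hp
      zify at h3
      rw [Finset.sum_congr rfl fun χ hχ => h5 _ _ _ _ (hN χ hχ), ← Nat.cast_mul, h5 _ _ _ _ hE,
        Finset.sum_add_distrib, ← Finset.mul_sum, ← Finset.mul_sum] at h3
      have h6 : ((v + v') * y l + (v - 1) * (1 - mu 𝐍(P) (cf1 ⊤) l) + ρ) * p = r * p := by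
        simp only [y]
        linear_combination h3 - ((v - 1) * p + 1) * h4
      have := mul_right_cancel₀ (Int.natCast_ne_zero.2 h.hp.ne_zero) h6
      omega
  have hs : (0 : ℤ) < v + v' := by have := ab.v2; omega
  let K : ℤ := ∑ χ ∈ NE.erase (cf1 ⊤), β (δ χ)
  have hY : ∑ l ∈ irrKer 𝐍(P) P, y l = K * v' + β δ0 * ell P θ := by
    rw [Finset.sum_add_distrib, Finset.sum_comm, ← Finset.mul_sum, ← Nat.cast_sum,
      h.sum_mu (irr_isChar (b.irrE hθ)), Finset.sum_mul]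
    congr 1
    refine Finset.sum_congr rfl fun χ hχ => ?_
    rw [← Finset.mul_sum, ← Nat.cast_sum, h.sum_mu (irr_isChar (b.irrN (Finset.mem_erase.1 hχ).2))]
    rcases hN χ hχ with ⟨e1, -, e2⟩ | ⟨e1, -, e2⟩ <;> simp [β, e1, e2]
  have hK := h.rel_ell b hθ
  rw [← Finset.add_sum_erase _ _ b.one, h.δ_one b, ell_one, Finset.sum_congr rfl
    (g := fun χ => v - (v + v') * β (δ χ)) fun χ hχ => by
      rcases hN χ hχ with ⟨e1, -, e2⟩ | ⟨e1, -, e2⟩ <;> simp [β, e1, e2], Finset.sum_sub_distrib,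
    Finset.sum_const, Finset.card_erase_of_mem b.one, b.cN, ← Finset.mul_sum, nsmul_eq_mul,
    Nat.cast_pred (by have := h.e2; omega)] at hK
  have h3 : ∑ l ∈ irrKer 𝐍(P) P, y l ≤ (e - 1) * ((r + 1 - v) / (v + v')) + y (cf1 𝐍(P)) := by
    rw [← Finset.sum_erase_add _ _ h.one_lin, ← Nat.cast_pred (by have := h.e2; omega),
      ← h.card_lin, ← Finset.card_erase_of_mem h.one_lin, ← nsmul_eq_mul]
    refine add_le_add_left (Finset.sum_le_card_nsmul _ _ _ fun l hl => ?_) _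
    have := hy l (Finset.mem_erase.1 hl).2
    rw [mu_one (irrKer_subset _ _ (Finset.mem_erase.1 hl).2), if_neg (Finset.mem_erase.1 hl).1] at this
    exact Int.le_ediv_of_mul_le hs (by push_cast at this; linarith)
  have h4 := hy _ h.one_lin
  rw [mu_one (cf1_mem_Irr _), if_pos rfl] at h4
  obtain ⟨a, rfl⟩ := h1
  obtain ⟨c, rfl⟩ := h2
  have he : e = t * a * c := Nat.eq_of_mul_eq_mul_left t1 (by rw [h.te ab]; ring)
  have v2 := ab.v2
  have hle := Nat.le_of_mul_le_mul_left ab.le t1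
  have hE' : β δ0 * ell P θ * (t * a + t * c) + t * c * δ0 * ell P θ = e ∧
      δ0 * ell P θ + β δ0 * (a + c) = a := by
    rcases hE with ⟨e1, -, e2⟩ | ⟨e1, -, e2⟩ <;>
      rw [Nat.eq_of_mul_eq_mul_left t1 e2, e1, he] <;> simp only [β] <;> norm_num <;> ring
  push_cast at *
  obtain ⟨e1, e2, e3⟩ := num_c1 (a := a) (b := c) (t := t) (e := e) (y1 := y (cf1 𝐍(P)))
    (k := K * t + β δ0) (ρ := (r + 1 - t * a) % (t * a + t * c))
    (by exact_mod_cast Nat.pos_of_ne_zero fun c => by simp [c] at v2) (by exact_mod_cast hle)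
    (by exact_mod_cast t1) (by exact_mod_cast v2) (by exact_mod_cast he)
    (by rw [hY]; linear_combination hE'.1 - t * c * hK) (by linear_combination hE'.2 - hK) h3
    (by rw [Int.mul_ediv_add_emod]; linear_combination hr) (Int.emod_nonneg _ hs.ne') (by linarith)
  obtain rfl : a = 1 := by exact_mod_cast e1
  obtain rfl : c = 1 := by exact_mod_cast e2
  have e4 : Even t := by exact_mod_cast e3
  have := ab.hr
  exact h.not_even (by simpa [he] using e4) ((show r = t * t by simpa using this) ▸ e4.mul_right t)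

end HV

end Cfsg.Agent.P12
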