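/-
P12, `C(P) = P`: exceptional characters of type `b`.
-/
import Cfsg.Agent.P12.MC1
import Cfsg.Agent.P7.J5B

set_option autoImplicit false

namespace Cfsg.Agent.P12

open Subgroup Cfsg Cfsg.Agent Cfsg.Agent.FT Cfsg.Agent.P1 Cfsg.Agent.H7.PCl
open scoped ComplexConjugate

universe u

variable {G : Type u} [Group G] [Finite G]

theorem vanish_of {χ : G → ℂ} (hχ : χ ∈ Irr (⊤ : Subgroup G)) {m v : ℕ} (hm : Nat.card G = dg χ * m)
    (hc : m.Coprime v) {g : G} (hg : ¬ (orderOf g).Coprime v) : χ g = 0 := by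
  obtain ⟨q, hq, h1, h2⟩ := Nat.Prime.not_coprime_iff_dvd.1 hg
  exact P7.J5.vanish_of_defect_zero hq hχ ⟨m, card_top.trans hm, hc.coprime_dvd_right h2⟩ h1

namespace HV

variable {P : Subgroup G} {p r e t : ℕ} {NE EX : Finset (G → ℂ)} {δ : (G → ℂ) → ℤ} {δ0 : ℤ}
  (h : HV P ⊥ p r e t)
include h

theorem norm_off {χ : G → ℂ} (hχ : IsChar ⊤ χ) {k : G} (hk : k ∈ 𝐍(P)) (hk' : k ∉ P) :
    ‖χ k‖ ≤ ell P χ := by
  rw [h.val_off hχ hk hk', ← h.sum_mu hχ, Nat.cast_sum]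
  refine norm_sum_le_of_le _ fun l hl => ?_
  rw [norm_mul, (h.linN hl).norm_eq hk, mul_one, Complex.norm_natCast]

theorem ncard_into_eq {g : G} (h1 : g ≠ 1) (hg : ¬ p ∣ orderOf g) :
    ((into 𝐍(P) g).ncard : ℂ) = e * p * ind ⊤ 𝐍(P) (cf1 𝐍(P)) g := by
  classical
  have := h.sum_ind (isChar_cf1 ⊤) h1 hg
  rw [cf1_of_mem (mem_top g), mul_one, Finset.sum_congr rfl fun l hl => by
    rw [mu_one (irrKer_subset _ _ hl), Nat.cast_ite, ite_mul, Nat.cast_zero, zero_mul],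
    Finset.sum_ite_eq', if_pos h.one_lin, Nat.cast_one, one_mul] at this
  exact this.symm

/-- A character vanishing on the elements of order not prime to `v`. -/
theorem val_of_vanish {χ : G → ℂ} (hχ : IsChar ⊤ χ) {v y : ℕ} (hl : ell P χ = v) (v0 : v ≠ 0)
    (he : e = v * y) (h0 : ∀ g, ¬ (orderOf g).Coprime v → χ g = 0) {k : G} (hk : k ∈ 𝐍(P))
    (hk' : k ∉ P) (ho : orderOf k = y) :
    ∃ l ∈ irrKer 𝐍(P) P, ∀ i, k ^ i ≠ 1 → y.Coprime v → χ (k ^ i) = v * l k ^ i := by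
  obtain ⟨l, hl', h1⟩ := Finset.exists_ne_zero_of_sum_ne_zero ((h.sum_mu hχ).trans hl ▸ v0)
  refine ⟨l, hl', fun i hi hc => ?_⟩
  let K : Set G := {g | (g ∈ 𝐍(P) ∧ g ∉ P) ∧ (orderOf g).Coprime v}
  have h2 : K.ncard ≤ p * (y - 1) := by
    have : K ⊆ Set.image2 (fun z w => z⁻¹ * w * z) P (sharp (zpowers k)) := fun g hg => by
      obtain ⟨z, hz, e1⟩ := h.conj_zpowers hk hk' hg.1.1 hg.1.2
        (ho ▸ hg.2.dvd_of_dvd_mul_left (he ▸ h.ord_dvd hg.1.1 hg.1.2))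
      exact ⟨z, hz, _, ⟨e1, fun c => hg.1.2 (conj_eq_one_iff.1 c ▸ one_mem P)⟩, by simp [mul_assoc]⟩
    refine (Set.ncard_le_ncard this).trans ?_
    rw [← Set.image_prod]
    refine (Set.ncard_image_le (Set.toFinite _)).trans ?_
    rw [Set.ncard_prod, show sharp (zpowers k) = (zpowers k : Set G) \ {1} from rfl,
      Set.ncard_diff_singleton_of_mem (one_mem _), ← Nat.card_coe_set_eq, ← Nat.card_coe_set_eq,
      ← ho, ← Nat.card_zpowers, ← h.hP]
    rfl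
  have h3 : ∀ g ∈ K, ‖χ g * conj (l g)‖ ≤ v := fun g hg => by
    rw [norm_mul, Complex.norm_conj, (h.linN hl').norm_eq hg.1.1, mul_one, ← hl]
    exact h.norm_off hχ hg.1.1 hg.1.2
  have h4 := congrArg Complex.re (h.mu_mul hχ hl')
  rw [← sum_fs_subset (A := K) (B := (𝐍(P) : Set G) \ P) (fun _ hg => hg.1) fun g hg c => by
    rw [h0 g fun d => c ⟨hg, d⟩, zero_mul], hl, he] at h4
  norm_cast at h4
  rw [Complex.add_re, Complex.natCast_re, Complex.re_sum] at h4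
  have h5 : ∑ g ∈ fs K, ((v : ℝ) - (χ g * conj (l g)).re) = 0 := by
    refine le_antisymm ?_ (Finset.sum_nonneg fun g hg =>
      sub_nonneg.2 ((Complex.re_le_norm _).trans (h3 g (mem_fs.1 hg))))
    rw [Finset.sum_sub_distrib, Finset.sum_const, card_fs, nsmul_eq_mul, sub_nonpos,
      ← add_le_add_iff_left ((v * p : ℕ) : ℝ), ← h4]
    norm_cast
    obtain ⟨y, rfl⟩ : ∃ y', y = y' + 1 := ⟨y - 1, by have := orderOf_pos k; omega⟩
    have := Nat.mul_le_mul_left (v * (y + 1) * p) (Nat.pos_of_ne_zero h1)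
    have := Nat.mul_le_mul_right v h2
    simp only [Nat.add_sub_cancel] at this
    nlinarith
  have h6 : k ^ i ∈ K := ⟨⟨pow_mem hk i, fun c => hi (h.pow_eq_one hk hk' c)⟩,
    (ho ▸ hc).coprime_dvd_left (orderOf_pow_dvd i)⟩
  have h7 := (sub_eq_zero.1 ((Finset.sum_eq_zero_iff_of_nonneg fun g hg => sub_nonneg.2
    ((Complex.re_le_norm _).trans (h3 g (mem_fs.1 hg)))).1 h5 _ (mem_fs.2 h6))).symm
  have h8 : χ (k ^ i) * conj (l (k ^ i)) = v := by
    have h8 := h3 _ h6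
    generalize χ (k ^ i) * conj (l (k ^ i)) = w at h7 h8
    rw [Complex.eq_coe_norm_of_nonneg (z := w) (Complex.re_eq_norm.1 (le_antisymm
      (Complex.re_le_norm _) (h7 ▸ h8))), le_antisymm h8 (h7 ▸ Complex.re_le_norm _)]
    rfl
  rw [← (h.linN hl').pow_apply hk, ← h8, mul_assoc, mul_comm (conj _),
    (h.linN hl').mul_conj (pow_mem hk i), mul_one]

variable (b : Blk P p e t NE EX δ δ0) {v v' : ℕ} (ab : AB p r v v') {θ : G → ℂ} (hθ : θ ∈ EX)
  (hδ : δ0 = -1) (hd : t * dg θ = v' * (p + v)) (hl : t * ell P θ = v')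
include b ab hθ hδ hd hl

theorem e_eq : e = v * ell P θ :=
  Nat.eq_of_mul_eq_mul_left h.t_pos (by rw [h.te ab, ← hl]; ring)

theorem caseC3a (hN : ∀ χ ∈ NE.erase (cf1 ⊤), δ χ = 1 ∧ dg χ + v * v' = v * p ∧ ell P χ = v) :
    e = 2 ∧ 2 * r = p + 3 ∧ 3 < p ∧ L.EAC G := by
  classical
  have he := h.e_eq b ab hθ hδ hd hl
  have e2 := h.e2
  have v2 := ab.v2
  have hc := irr_isChar (b.irrE hθ)
  have h1 := h.rel_ell b hθ
  rw [← Finset.add_sum_erase _ _ b.one, h.δ_one b, ell_one, hδ, Finset.sum_congr rfl fun χ hχ => by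
    rw [(hN χ hχ).1, (hN χ hχ).2.2], Finset.sum_const, Finset.card_erase_of_mem b.one, b.cN,
    nsmul_eq_mul, Nat.cast_pred (by omega), he] at h1
  have h2 : 1 ≤ ell P θ := Nat.pos_of_ne_zero fun c => by simp [c] at he; omega
  obtain rfl : v = 2 := by
    by_contra c
    push_cast at h1
    nlinarith [show (3 : ℤ) ≤ v by omega, mul_le_mul_of_nonneg_left (show (1 : ℤ) ≤ ell P θ by omega)
      (show (0 : ℤ) ≤ v * v - v - 1 by nlinarith [show (3 : ℤ) ≤ v by omega])]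
  have h3 : ell P θ = 1 := by omega
  rw [h3, mul_one] at hl he
  subst hl he
  have hp := ab.hp
  have hr := ab.hr
  have hle := ab.le
  replace hd := Nat.eq_of_mul_eq_mul_left h.t_pos hd
  obtain ⟨χ, hχ⟩ := Finset.card_eq_one.1 (show (NE.erase (cf1 ⊤)).card = 1 by
    rw [Finset.card_erase_of_mem b.one, b.cN])
  have hS : ∀ {M : Type} [AddCommMonoid M] (F : (G → ℂ) → M), ∑ ψ ∈ NE, F ψ = F (cf1 ⊤) + F χ :=
    fun F => by rw [← Finset.add_sum_erase _ _ b.one, hχ, Finset.sum_singleton]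
  obtain ⟨c1, c2, -⟩ := hN χ (hχ ▸ Finset.mem_singleton_self χ)
  have h4 : mu 𝐍(P) θ (cf1 𝐍(P)) = 1 ∧ ∀ k ∈ 𝐍(P), k ∉ P → θ k = 1 := by
    obtain ⟨l, hl, h4, h5⟩ := exists_one ((h.sum_mu hc).trans h3)
    obtain rfl : l = cf1 𝐍(P) := by_contra fun c => by
      obtain ⟨ρ, h6⟩ := h.deg_rel b hθ hl
      have h7 := h.rel b hθ hl
      rw [hS, mu_one (irrKer_subset _ _ hl), if_neg c, h4] at h6 h7
      rw [c1, hδ] at h7
      rw [show mu 𝐍(P) χ l = 2 by omega, hd, show r = t + 2 by omega, show p = 2 * t + 1 by omega]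
        at h6
      nlinarith
    exact ⟨h4, fun k hk hk' => by rw [h.val_off hc hk hk', h5, cf1_of_mem hk]⟩
  have h5 := h.rel b hθ h.one_lin
  rw [hS, mu_one (cf1_mem_Irr _), if_pos rfl, h4.1, c1, hδ, h.δ_one b] at h5
  have h6 := (h.ind_of_deg h.one_lin (B0_subset p ⊤) (by
    rw [b.sum_B0, hS, (isLin_cf1 ⊤).dg, Finset.sum_congr rfl fun θ' h' => h.dg_ex b h' hθ,
      Finset.sum_const, b.cE, smul_eq_mul, hd, show r = t + 2 by omega]
    nlinarith) fun ψ hψ => by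
      rcases (b.mem ψ).1 hψ with c | c
      · by_cases d : ψ = cf1 ⊤
        · rw [d, mu_one (cf1_mem_Irr _), if_pos rfl]; omega
        · rw [show ψ = χ from Finset.mem_singleton.1 (hχ ▸ Finset.mem_erase.2 ⟨d, c⟩)]; omega
      · rw [h.mu_ex b c hθ h.one_lin]; omega).2.2
  have h7 : ∀ g, g ≠ 1 → ¬ p ∣ orderOf g →
      ((into 𝐍(P) g).ncard : ℂ) = ((p + 1) * p : ℕ) * θ g := fun g g1 hg => by
    have := h.orth b hθ hg
    rw [hS, c1, hδ, h.δ_one b] at this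
    rw [h.ncard_into_eq g1 hg, h6, b.sum_B0, hS, show ∑ χ ∈ EX, χ g = t * θ g from
      b.sum_reg hθ hg id, show p + 1 = 2 * (t + 1) by omega]
    push_cast at this ⊢
    linear_combination 2 * p * this
  have h8 : ∀ g : G, orderOf g ∣ p + 1 → ¬ p ∣ orderOf g := fun g hg c =>
    h.hp.one_lt.ne' (Nat.dvd_one.1 ((Nat.dvd_add_right dvd_rfl).1 (c.trans hg)))
  have h9 : ∀ g : G, g ≠ 1 → orderOf g ∣ p + 1 → θ g ≠ 0 → ∃ a, a ∈ into 𝐍(P) g :=
    fun g g1 hg c => Set.nonempty_of_ncard_ne_zero (Nat.cast_ne_zero.1 (h7 g g1 (h8 g hg) ▸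
      mul_ne_zero (Nat.cast_ne_zero.2 (mul_ne_zero p.succ_ne_zero h.hp.ne_zero)) c))
  have F : ∀ g : G, g ≠ 1 → orderOf g ∣ p + 1 → ∃ a, a ∈ into 𝐍(P) g := fun g g1 hg =>
    h9 g g1 hg (ne_zero_of_val hc.mem_VChar (f := p + 2) (by rw [hc.one_eq, hd]) (by omega)
      ((Nat.coprime_self_add_right (m := p + 1) (n := 1)).2 (Nat.coprime_one_right _)) (fun g g1 hg => or_iff_not_imp_left.2 fun c => by
        obtain ⟨a, ha⟩ := h9 g g1 hg c
        rw [← CF_conj' hc.mem_CF (mem_top a), h4.2 _ ha (h.conj_off g1 (h8 g hg))]) g hg)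
  obtain ⟨z, zN, zP, hz⟩ := h.exists_k
  have zz : z * z = 1 := by rw [← pow_two, ← hz, pow_orderOf_eq_one]
  have hH := h7 z (fun c => zP (c ▸ one_mem P)) (h.reg zN zP)
  rw [h4.2 z zN zP, mul_one, Nat.cast_inj, h.ncard_into zN zP, mul_left_inj' h.hp.ne_zero,
    norm_invol zz] at hH
  refine ⟨rfl, by omega, by omega, eac_of (z := z) (fun x hx => ?_) fun w w1 hw => ?_⟩
  · by_cases x1 : x = 1
    · simp [x1]
    have o1 : orderOf x ∣ p + 1 := hH ▸ orderOf_dvd_card_of_mem hx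
    obtain ⟨a, ha⟩ := F x x1 o1
    rw [← pow_two, ← orderOf_dvd_iff_pow_eq_one, ← orderOf_conj' a]
    exact h.ord_dvd ha (h.conj_off x1 (h8 x o1))
  · obtain ⟨a, ha⟩ := F w w1 ((orderOf_dvd_of_pow_eq_one (n := 2) (by rw [pow_two, hw])).trans
      (by omega))
    exact h.conj_invol zN zP hz w1 hw ha

theorem caseC3b (hN : ∀ χ ∈ NE.erase (cf1 ⊤), (δ χ = -1 ∧ dg χ + 1 = p ∧ ell P χ = 0) ∨
    (δ χ = 1 ∧ dg χ + v * v' = v * p ∧ ell P χ = v)) (h2 : Even t) (h3 : t ∣ r + 1) :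
    e = v ∧ t = v + 1 ∧ v' = v + 1 ∧ ∃ St ∈ NE.erase (cf1 ⊤), δ St = 1 ∧ dg St = v ^ 3 ∧
      ∀ χ ∈ (NE.erase (cf1 ⊤)).erase St, δ χ = -1 ∧ dg χ + 1 = p ∧ ell P χ = 0 := by
  classical
  have he := h.e_eq b ab hθ hδ hd hl
  have v2 := ab.v2
  have hp := ab.hp
  have hc := irr_isChar (b.irrE hθ)
  generalize hy : ell P θ = y at he hl
  have h1 := h.rel_ell b hθ
  have hS : ∀ F : (G → ℂ) → ℂ, (∀ χ ∈ NE.erase (cf1 ⊤), δ χ = -1 → F χ = 0) →
      (∀ χ ∈ NE.erase (cf1 ⊤), δ χ = 1 → F χ = v) → ∑ χ ∈ NE, δ χ * F χ =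
        F (cf1 ⊤) + ((NE.erase (cf1 ⊤)).filter fun χ => δ χ = 1).card * v := fun F f1 f2 => by
    rw [← Finset.add_sum_erase _ _ b.one, h.δ_one b, Int.cast_one, one_mul, ← nsmul_eq_mul,
      ← Finset.sum_const, Finset.sum_filter]
    congr 1
    refine Finset.sum_congr rfl fun χ hχ => ?_
    rcases b.sg χ (Finset.mem_erase.1 hχ).2 with c | c
    · simp [c, f2 χ hχ c]
    · simp [c, f1 χ hχ c]
  have hm : ∀ χ ∈ NE.erase (cf1 ⊤), δ χ = -1 → dg χ + 1 = p ∧ ell P χ = 0 := fun χ hχ c =>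
    ((hN χ hχ).resolve_right fun d => by omega).2
  have ha : ∀ χ ∈ NE.erase (cf1 ⊤), δ χ = 1 → dg χ + v * v' = v * p ∧ ell P χ = v := fun χ hχ c =>
    ((hN χ hχ).resolve_left fun d => by omega).2
  have h4 := hS (fun χ => ell P χ) (fun χ hχ c => by simp [(hm χ hχ c).2])
    fun χ hχ c => by simp [(ha χ hχ c).2]
  generalize hk : ((NE.erase (cf1 ⊤)).filter fun χ => δ χ = 1).card = k at h4 hS
  have h5 : ∑ χ ∈ NE, δ χ * ell P χ = 1 + k * v := by rw [ell_one] at h4; exact_mod_cast h4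
  rw [h5, hδ, hy, he] at h1
  have h6 : 1 + k * v = y + y * v := by zify; push_cast at h1; linear_combination h1
  have hyv : y.Coprime v := by rw [← Nat.coprime_add_mul_right_left y v y, ← h6]; simp
  have hv : ∀ χ ∈ NE.erase (cf1 ⊤), δ χ = 1 → ∀ g, ¬ (orderOf g).Coprime v → χ g = 0 :=
    fun χ hχ c g => vanish_of (b.irrN (Finset.mem_erase.1 hχ).2) (m := p * y * (p + v)) (by
      have := (ha χ hχ c).1
      rw [h.cG, he]
      zify at this ⊢
      rw [ab.n_eq]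
      linear_combination -(p * y * (p + v) : ℤ) * this)
      (((show p.Coprime v by rw [← hp]; simp).mul_left hyv).mul_left (by rw [← hp]; simp))
  obtain rfl : y = 1 := by_contra fun c => by
    obtain ⟨g, hg, hg', ho⟩ := h.exists_ord (he ▸ Dvd.intro_left v rfl : y ∣ e) c
    have h7 := h.orth b hθ (h.reg hg hg')
    rw [hS (fun χ => χ g) (fun χ hχ c => h.val_zero
      (irr_isChar (b.irrN (Finset.mem_erase.1 hχ).2)) (hm χ hχ c).2 hg hg') fun χ hχ c => ?_,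
      cf1_of_mem (mem_top g), hδ] at h7
    · have h8 := h.norm_off hc hg hg'
      rw [show θ g = (y + y * v : ℕ) by rw [← h6]; push_cast at h7 ⊢; linear_combination -h7, hy,
        Complex.norm_natCast, Nat.cast_le] at h8
      nlinarith [ho ▸ orderOf_pos g]
    · have hχ' := irr_isChar (b.irrN (Finset.mem_erase.1 hχ).2)
      obtain ⟨l, hl', h8⟩ := h.val_of_vanish hχ' (ha χ hχ c).2 (by omega) he (hv χ hχ c) hg hg' ho
      have h9 := (h.linN hl').pow_card hg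
      have h10 := det_eq h.perfect hχ' (v := v) (A := t * (v * (v - 1))) h9 (by
        have := (ha χ hχ c).1
        rw [hχ'.one_eq, ho]
        norm_cast
        zify [show 1 ≤ v by omega] at this hp hl ⊢
        linear_combination this - (v : ℤ) * hp - v * (v - 1 : ℤ) * hl) fun i hi => h8 i hi hyv
      rw [← _root_.pow_mul, ((h2.mul_right _).mul_left _).neg_one_pow, mul_one] at h10
      have h11 := h8 1 (by rw [pow_one]; exact fun c => hg' (c ▸ one_mem P)) hyv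
      rw [ho] at h9
      rwa [pow_one, pow_one, (pow_eq_one_iff_of_coprime hyv).1 ⟨h9, h10⟩, mul_one] at h11
  obtain rfl : k = 1 := Nat.eq_of_mul_eq_mul_right (show 0 < v by omega) (by omega)
  rw [mul_one] at he hl
  subst hl
  have h7 : t = v + 1 := by
    have hr := ab.hr
    have h7 : t ∣ v + 1 := (Nat.dvd_add_right (Dvd.intro_left v rfl)).1
      ((show r + 1 + t = v * t + (v + 1) by omega) ▸ dvd_add h3 dvd_rfl)
    have := Nat.le_of_dvd v.succ_pos h7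
    rcases ab.le.eq_or_lt with rfl | c
    · have := Nat.dvd_one.1 ((Nat.dvd_add_right dvd_rfl).1 h7); omega
    · omega
  obtain ⟨St, hSt⟩ := Finset.card_eq_one.1 hk
  obtain ⟨s1, s2⟩ := Finset.mem_filter.1 (hSt ▸ Finset.mem_singleton_self St)
  refine ⟨he, h7, h7, St, s1, s2, ?_, fun χ hχ => (hN χ (Finset.mem_erase.1 hχ).2).resolve_right
    fun c => (Finset.mem_erase.1 hχ).1 (Finset.mem_singleton.1 (hSt ▸ Finset.mem_filter.2
      ⟨(Finset.mem_erase.1 hχ).2, c.1⟩))⟩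
  have := (ha St s1 s2).1
  rw [← hp, h7] at this
  nlinarith

end HV

end Cfsg.Agent.P12
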