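/-
P12, `C(P) = P`: the case `p = v ^ 2 + v + 1`.
-/
import Cfsg.Agent.P12.MC3

set_option autoImplicit false

namespace Cfsg.Agent.P12

open Subgroup Cfsg Cfsg.Agent Cfsg.Agent.FT Cfsg.Agent.P1 Cfsg.Agent.H7.PCl
open scoped ComplexConjugate

universe u

variable {G : Type u} [Group G] [Finite G]

omit [Finite G] in
theorem card_dvd_ncard {H : Subgroup G} {U : Set G} (hU : ∀ s ∈ U, ∀ c ∈ H, s * c ∈ U) :
    𝐨(H) ∣ U.ncard := by
  have : U = QuotientGroup.mk ⁻¹' (QuotientGroup.mk (s := H) '' U) := Set.ext fun s =>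
    ⟨fun hs => ⟨s, hs, rfl⟩, fun ⟨s', hs', e⟩ => by simpa using hU s' hs' _ (QuotientGroup.eq.1 e)⟩
  rw [this, ← Nat.card_coe_set_eq, QuotientGroup.card_preimage_mk]
  exact Dvd.intro _ rfl

theorem struct_const (x w g : G) : ∃ U : ℕ, 𝐨(𝐂[w]) ∣ U ∧ (𝐨(𝐂[g]) * U : ℂ) =
    Nat.card G * ∑ χ ∈ Irr (⊤ : Subgroup G), χ x * χ w * conj (χ g) / dg χ := by
  classical
  let U : Set G := {s | ∃ c ∈ (⊤ : Subgroup G), c * g * c⁻¹ = s⁻¹ * x * s⁻¹⁻¹ * w}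
  refine ⟨U.ncard, card_dvd_ncard fun s ⟨c, _, hs⟩ a ha => ⟨a⁻¹ * c, mem_top _, ?_⟩, ?_⟩
  · calc a⁻¹ * c * g * (a⁻¹ * c)⁻¹ = a⁻¹ * (c * g * c⁻¹) * a := by group
      _ = a⁻¹ * s⁻¹ * x * s * (w * a) := by rw [hs]; group
      _ = _ := by rw [mem_cent1.1 ha]; group
  · rw [Finset.mul_sum, Finset.sum_congr rfl (g := fun χ => ∑ s ∈ fs ((⊤ : Subgroup G) : Set G),
      χ (s⁻¹ * x * s⁻¹⁻¹ * w) * conj (χ g)) fun χ hχ => by
        rw [← Finset.sum_mul, sum_fs_inv ⊤ fun s => χ (s * x * s⁻¹ * w), ← irr_one_eq hχ, ← card_top,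
          ← mul_div_assoc, ← mul_assoc, ← sum_conj_mul hχ (mem_top x), mul_assoc,
          mul_div_cancel_left₀ _ (irr_one_ne_zero hχ)], Finset.sum_comm,
      ← sum_fs_subset (A := U) (fun _ _ => mem_top _) fun s _ hs =>
        (sum_irr_mul_conj (mem_top _) (mem_top _)).trans (if_neg hs),
      sum_fs_congr (A := U) fun s hs => (sum_irr_mul_conj (mem_top _) (mem_top _)).trans (if_pos hs),
      Finset.sum_const, card_fs, top_inf_eq, nsmul_eq_mul, mul_comm]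

namespace HV

variable {P : Subgroup G} {p r e t : ℕ} (h : HV P ⊥ p r e t)
include h

theorem struct {x : G} (hx : x ∈ P) (x1 : x ≠ 1) (w g : G) : ∃ U : ℕ, 𝐨(𝐂[w]) ∣ U ∧
    (𝐨(𝐂[g]) * U : ℂ) = Nat.card G * ∑ χ ∈ B0 p ⊤, χ x * χ w * conj (χ g) / dg χ := by
  rw [Finset.sum_subset (B0_subset p ⊤) fun χ hχ c => by simp [h.off_B0 hχ c hx x1]]
  exact struct_const x w g

theorem sum_R {f : G → ℂ} (hf : f ∈ CF ⊤) : ∑ g ∈ fs ((⊤ : Subgroup G) : Set G), f g =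
    f 1 + ∑ g ∈ fs (regSet p ⊤ \ {1}), f g + (1 + r * p) * ∑ y ∈ fs (sharp P), f y := by
  rw [h.sum_sing hf fun y _ _ v hv => by rw [mem_bot.1 hv, mul_one], card_bot, Nat.cast_one, mul_one,
    sum_fs_diff (A := {1}) (Set.singleton_subset_iff.2 (one_mem_regSet p ⊤)), sum_fs_singleton]

theorem mem_R {g : G} : g ∈ regSet p ⊤ \ {1} ↔ g ≠ 1 ∧ ¬ p ∣ orderOf g :=
  ⟨fun c => ⟨c.2, h.hp.coprime_iff_not_dvd.1 c.1.2.symm⟩,
    fun c => ⟨⟨mem_top _, (h.hp.coprime_iff_not_dvd.2 c.2).symm⟩, c.1⟩⟩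

theorem not_dvd_cent {w : G} (h1 : w ≠ 1) (hw : ¬ p ∣ orderOf w) : ¬ p ∣ 𝐨(𝐂[w]) := fun c => by
  obtain ⟨y, hy, ho⟩ := exists_mem_orderOf_eq_prime h.hp c
  obtain ⟨a, ha⟩ := h.exists_conj_mem (y := y) (ho ▸ pow_orderOf_eq_one y)
  have := h.eq_one (h.conj_off (a := a⁻¹) h1 hw) ha (by
    rw [inv_inv, Commute, SemiconjBy, conj_mul, conj_mul, mem_cent1.1 hy])
  rw [conj_eq_one_iff.1 this, orderOf_one] at ho
  exact h.hp.one_lt.ne ho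

end HV

/-- The last configuration. -/
structure Star (P : Subgroup G) (p r v : ℕ) (NE EX : Finset (G → ℂ)) (δ : (G → ℂ) → ℤ)
    (θ St : G → ℂ) : Prop where
  h : HV P ⊥ p r v (v + 1)
  b : Blk P p v (v + 1) NE EX δ (-1)
  hr : r + 1 = v * v + v
  hθ : θ ∈ EX
  dθ : dg θ = (v + 1) ^ 2
  hS : St ∈ NE.erase (cf1 ⊤)
  δS : δ St = 1
  dS : dg St = v ^ 3
  hM : ∀ χ ∈ (NE.erase (cf1 ⊤)).erase St, δ χ = -1 ∧ dg χ + 1 = p ∧ ell P χ = 0

/-- The integer value of a function. -/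
noncomputable def iv (θ : G → ℂ) (g : G) : ℤ := ⌊(θ g).re⌋

namespace Star

variable {P : Subgroup G} {p r v : ℕ} {NE EX : Finset (G → ℂ)} {δ : (G → ℂ) → ℤ} {θ St : G → ℂ}
  (s : Star P p r v NE EX δ θ St)
include s

theorem p_eq : p = v ^ 2 + v + 1 := by rw [← s.h.ht]; ring

theorem n_eq : 1 + r * p = v ^ 2 * (v + 1) ^ 2 := by
  have := s.hr
  rw [s.p_eq]
  zify at this ⊢
  linear_combination (v ^ 2 + v + 1 : ℤ) * this

theorem cG : Nat.card G = p * v ^ 3 * (v + 1) ^ 2 := by rw [s.h.cG, s.n_eq]; ring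

theorem irrθ : θ ∈ Irr ⊤ := s.b.irrE s.hθ

theorem memS : St ∈ NE := (Finset.mem_erase.1 s.hS).2

theorem memM {χ : G → ℂ} (hχ : χ ∈ (NE.erase (cf1 ⊤)).erase St) : χ ∈ NE :=
  (Finset.mem_erase.1 (Finset.mem_erase.1 hχ).2).2

theorem St_zero {g : G} (hg : ¬ (orderOf g).Coprime v) : St g = 0 :=
  vanish_of (s.b.irrN s.memS) (m := p * (v + 1) ^ 2) (by rw [s.cG, s.dS]; ring)
    ((show p.Coprime v by rw [← s.h.ht]; simp).mul_left (by simp)) hg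

theorem θ_zero {g : G} (hg : ¬ (orderOf g).Coprime (v + 1)) : θ g = 0 :=
  vanish_of s.irrθ (m := p * v ^ 3) (by rw [s.cG, s.dθ]; ring)
    ((show p.Coprime (v + 1) by rw [← s.h.ht]; simp).mul_left (by simp)) hg

theorem ord_dvd {g : G} (hg : ¬ p ∣ orderOf g) (h0 : θ g ≠ 0) : orderOf g ∣ v ^ 3 :=
  (s.h.hp.coprime_iff_not_dvd.2 hg).symm.dvd_of_dvd_mul_left
    (((by_contra fun c => h0 (s.θ_zero c) : (orderOf g).Coprime (v + 1)).pow_right 2).dvd_of_dvd_mul_right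
      (s.cG ▸ orderOf_dvd_natCard g))

theorem St_of {g : G} (h1 : g ≠ 1) (hg : ¬ p ∣ orderOf g) (h0 : θ g ≠ 0) : St g = 0 :=
  s.St_zero fun c => h1 (orderOf_eq_one_iff.1 ((c.pow_right 3).eq_one_of_dvd (s.ord_dvd hg h0)))

theorem sumN {M : Type} [AddCommMonoid M] (F : (G → ℂ) → M) :
    ∑ χ ∈ NE, F χ = F (cf1 ⊤) + (F St + ∑ χ ∈ (NE.erase (cf1 ⊤)).erase St, F χ) := by
  rw [← Finset.add_sum_erase _ _ s.b.one, ← Finset.add_sum_erase _ _ s.hS]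

theorem cardM : ((NE.erase (cf1 ⊤)).erase St).card + 2 = v := by
  have := s.sumN fun _ => 1
  simp only [← Finset.card_eq_sum_ones, s.b.cN] at this
  omega

theorem psi {g : G} (hg : ¬ p ∣ orderOf g) :
    ∑ χ ∈ (NE.erase (cf1 ⊤)).erase St, χ g = 1 + St g - θ g := by
  have := s.h.orth s.b s.hθ hg
  rw [s.sumN, s.h.δ_one s.b, s.δS, cf1_of_mem (mem_top g), Finset.sum_congr rfl fun χ hχ => by
    rw [(s.hM χ hχ).1], ← Finset.mul_sum] at this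
  push_cast at this
  linear_combination -this

theorem dgM {χ : G → ℂ} (hχ : χ ∈ (NE.erase (cf1 ⊤)).erase St) : (dg χ : ℂ) = v * (v + 1) := by
  have := (s.hM χ hχ).2.1
  rw [s.p_eq] at this
  exact_mod_cast (show dg χ = v * (v + 1) by nlinarith)

theorem v_ne : (v : ℂ) ≠ 0 := Nat.cast_ne_zero.2 (by have := s.h.e2; omega)

theorem val_k {k : G} (hk : k ∈ 𝐍(P)) (hk' : k ∉ P) : θ k = 1 ∧ St k = 0 := by
  have h1 := s.St_zero (g := k) fun c => hk' (orderOf_eq_one_iff.1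
    (c.eq_one_of_dvd (s.h.ord_dvd hk hk')) ▸ one_mem P)
  have h2 := s.psi (s.h.reg hk hk')
  rw [Finset.sum_eq_zero fun χ hχ => s.h.val_zero (irr_isChar (s.b.irrN (s.memM hχ)))
    (s.hM χ hχ).2.2 hk hk', h1] at h2
  exact ⟨by linear_combination h2, h1⟩

theorem int_val {g : G} (hg : g ∈ regSet p ⊤ \ {1}) :
    θ g = iv θ g ∧ 0 ≤ (v + 1) + (v - 1) * iv θ g := by
  obtain ⟨h1, hg⟩ := s.h.mem_R.1 hg
  by_cases h0 : θ g = 0
  · simp [iv, h0]; positivity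
  obtain ⟨x, hx, x1⟩ := s.h.exists_gen
  obtain ⟨U, -, hU⟩ := s.h.struct hx x1 g x
  have h2 := s.h.sum_ex_sq s.b hx x1
  have v0 := s.v_ne
  have v1 : (v + 1 : ℂ) ≠ 0 := by exact_mod_cast v.succ_ne_zero
  rw [s.h.cent' hx x1, s.h.hP, s.b.sum_B0, s.sumN, s.St_of h1 hg h0, cf1_of_mem (mem_top x),
    cf1_of_mem (mem_top g), (isLin_cf1 ⊤).dg, Finset.sum_congr rfl fun χ hχ => by
      rw [s.b.val χ (s.memM hχ) x hx x1, (s.hM χ hχ).1, s.dgM hχ], ← Finset.sum_div,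
    ← Finset.sum_mul, ← Finset.mul_sum, s.psi hg, s.St_of h1 hg h0,
    Finset.sum_congr (s₁ := EX) rfl fun θ' h' => by
      rw [s.b.reg _ h' _ s.hθ g hg, s.h.dg_ex s.b h' s.hθ, mul_right_comm], ← Finset.sum_div,
    ← Finset.sum_mul, h2, s.cG, s.dθ] at hU
  have p0 : (p : ℂ) ≠ 0 := Nat.cast_ne_zero.2 s.h.hp.ne_zero
  have h3 : (U : ℂ) = p * v ^ 2 * (v + 1) + p * v ^ 2 * (v - 1) * θ g := by
    refine mul_left_cancel₀ p0 (hU.trans ?_)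
    rw [s.p_eq]
    simp only [Int.reduceNeg, Int.cast_neg, Int.cast_one, map_neg, map_one]
    push_cast
    field_simp
    ring
  have v2 : (v - 1 : ℂ) ≠ 0 := sub_ne_zero.2 (by have := s.h.e2; norm_cast; omega)
  obtain ⟨T, hT⟩ := ((irr_isChar s.irrθ).isIntegral g).exists_int_iff_exists_rat.1
    ⟨(U - p * v ^ 2 * (v + 1)) / (p * v ^ 2 * (v - 1)), by push_cast; rw [h3]; field_simp; ring⟩
  rw [hT] at h3
  have h4 : (U : ℤ) = p * v ^ 2 * ((v + 1) + (v - 1) * T) := by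
    rw [mul_add, ← mul_assoc]; exact_mod_cast h3
  rw [show iv θ g = T by simp [iv, hT]]
  exact ⟨hT, nonneg_of_mul_nonneg_right (h4 ▸ Int.natCast_nonneg U) (by
    have := s.h.e2; have := s.h.hp.pos; positivity)⟩

theorem sum_iv : ∑ g ∈ fs (regSet p ⊤ \ {1}), iv θ g = (v + 1) ^ 2 * (v ^ 3 - 1) := by
  have := s.h.sum_R (irr_mem_CF s.irrθ)
  rw [sum_top_eq_zero s.irrθ (s.b.ne_one s.hθ), s.h.sum_sharp_ex s.b s.hθ, irr_one_eq s.irrθ, s.dθ,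
    sum_fs_congr fun g hg => (s.int_val hg).1, ← Nat.cast_mul, ← Nat.cast_one_add, s.n_eq] at this
  have h1 : (0 : ℤ) = (v + 1) ^ 2 + ∑ g ∈ fs (regSet p ⊤ \ {1}), iv θ g +
    v ^ 2 * (v + 1) ^ 2 * (v * -1) := by exact_mod_cast this
  linear_combination -h1

theorem sum_sq : ∑ g ∈ fs (regSet p ⊤ \ {1}), iv θ g ^ 2 =
    (v ^ 2 + v + 1) * (v + 1) ^ 2 * (v ^ 2 - v - 1) := by
  have := s.h.sum_R (mul_mem_CF (irr_mem_CF s.irrθ) (star_mem_CF (irr_mem_CF s.irrθ)))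
  simp only [Pi.mul_apply, star_apply'] at this
  rw [sum_top_norm s.irrθ, s.h.sum_sharp_sq s.b s.hθ, irr_one_eq s.irrθ, s.dθ, map_natCast,
    sum_fs_congr fun g hg => by rw [(s.int_val hg).1, map_intCast, ← sq], ← Nat.cast_mul r,
    ← Nat.cast_one_add, s.n_eq, s.cG] at this
  have h1 : (p * v ^ 3 * (v + 1) ^ 2 : ℤ) = (v + 1) ^ 2 * (v + 1) ^ 2 +
    ∑ g ∈ fs (regSet p ⊤ \ {1}), iv θ g ^ 2 + v ^ 2 * (v + 1) ^ 2 * (v * (p - v)) := by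
    exact_mod_cast this
  have h2 : (p : ℤ) = v ^ 2 + v + 1 := by exact_mod_cast s.p_eq
  linear_combination -h1 + (v ^ 3 * (v + 1) ^ 2 - v ^ 3 * (v + 1) ^ 2) * h2

theorem le_three : v ≤ 3 := by
  have hc := irr_isChar s.irrθ
  have hΨ : IsChar ⊤ (∑ χ ∈ (NE.erase (cf1 ⊤)).erase St, χ) :=
    IsChar.sum fun χ hχ => irr_isChar (s.b.irrN (s.memM hχ))
  obtain ⟨N, hN⟩ := (hc.mul hc.star).ip_nat hΨ
  rw [ip_def, inv_mul_eq_iff_eq_mul₀ (card_ne_zero_C _)] at hN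
  have := s.h.sum_R (mul_mem_CF (hc.mul hc.star).mem_CF hΨ.star.mem_CF)
  obtain ⟨c, hc'⟩ : ∃ c, ((NE.erase (cf1 ⊤)).erase St).card = c := ⟨_, rfl⟩
  have hv := s.cardM
  simp only [Pi.mul_apply, star_apply', Finset.sum_apply] at this hN
  rw [hN, sum_fs_congr (A := sharp P) fun y hy => by
      rw [Finset.sum_congr rfl fun χ hχ => by rw [s.b.val χ (s.memM hχ) y hy.1 hy.2, (s.hM χ hχ).1],
        Finset.sum_const, hc', nsmul_eq_mul], ← Finset.sum_mul, s.h.sum_sharp_sq s.b s.hθ,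
    Finset.sum_congr rfl fun χ hχ => by rw [irr_one_eq (s.b.irrN (s.memM hχ)), s.dgM hχ],
    Finset.sum_const, hc', irr_one_eq s.irrθ, s.dθ,
    sum_fs_congr (M := ℂ) (A := regSet p ⊤ \ {1})
      (g := fun g => ((iv θ g ^ 2 * (1 - iv θ g) : ℤ) : ℂ)) fun g hg => by
      by_cases h0 : θ g = 0
      · simp [iv, h0]
      · rw [s.psi (s.h.mem_R.1 hg).2, s.St_of hg.2 (s.h.mem_R.1 hg).2 h0, (s.int_val hg).1]
        simp [sq], ← Nat.cast_mul r, ← Nat.cast_one_add, s.n_eq] at this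
  simp only [map_mul, map_natCast, map_intCast, nsmul_eq_mul, map_add, map_one] at this
  have h1 : (𝐨((⊤ : Subgroup G)) * N : ℤ) = (v + 1) ^ 2 * (v + 1) ^ 2 * (c * (v * (v + 1))) +
      ∑ g ∈ fs (regSet p ⊤ \ {1}), iv θ g ^ 2 * (1 - iv θ g) +
      v ^ 2 * (v + 1) ^ 2 * (v * (p - v) * (c * -1)) := by exact_mod_cast this
  have h2 : (v - 1) * ∑ g ∈ fs (regSet p ⊤ \ {1}), iv θ g ^ 2 * (1 - iv θ g) ≤
      2 * v * ∑ g ∈ fs (regSet p ⊤ \ {1}), iv θ g ^ 2 := by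
    rw [Finset.mul_sum, Finset.mul_sum]
    exact Finset.sum_le_sum fun g hg => by
      nlinarith [mul_nonneg (sq_nonneg (iv θ g)) (s.int_val (mem_fs.1 hg)).2]
  have h3 : (p : ℤ) = v ^ 2 + v + 1 := by exact_mod_cast s.p_eq
  rw [s.sum_sq] at h2
  rw [h3, show (c : ℤ) = v - 2 by omega] at h1
  by_contra d
  have h4 : (4 : ℤ) ≤ v := by omega
  have h5 : (0 : ℤ) ≤ (v - 1) * (𝐨((⊤ : Subgroup G)) * N) := mul_nonneg (by omega) (by positivity)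
  have h6 : (0 : ℤ) ≤ v * (v + 1) ^ 2 * (v ^ 2 + v + 1) *
      (2 * (v ^ 2 - v - 1) - (v - 2) * (v ^ 2 - 2 * v - 1) * (v - 1)) := by
    rw [h1] at h5; linarith
  have h7 := nonneg_of_mul_nonneg_right h6 (by positivity)
  nlinarith [mul_nonneg (sub_nonneg.2 h4) (sub_nonneg.2 h4), mul_nonneg (sub_nonneg.2 h4)
    (mul_nonneg (sub_nonneg.2 h4) (sub_nonneg.2 h4)), mul_nonneg (mul_nonneg (sub_nonneg.2 h4)
    (sub_nonneg.2 h4)) (mul_nonneg (sub_nonneg.2 h4) (sub_nonneg.2 h4))]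

end Star

end Cfsg.Agent.P12
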