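/-
P12, chapter V1: `C(P)^#` is a TI-set; the restrictions of the principal block to `C(P)`.
-/
import Cfsg.Agent.P12.B3
import Cfsg.Agent.P12.Geo

set_option autoImplicit false

namespace Cfsg.Agent.P12

open Subgroup Cfsg Cfsg.Agent Cfsg.Agent.FT Cfsg.Agent.P1 Cfsg.Agent.H7.PCl
open scoped ComplexConjugate

universe u

variable {G : Type u} [Group G] [Finite G]
variable {P V : Subgroup G} {p r e t : ℕ} {NE EX : Finset (G → ℂ)} {δ : (G → ℂ) → ℤ} {δ0 : ℤ}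

open Classical in
/-- The weights of the members of the principal block. -/
noncomputable def wt (t : ℕ) (NE : Finset (G → ℂ)) (δ : (G → ℂ) → ℤ) (δ0 : ℤ) (χ : G → ℂ) : ℤ :=
  if χ ∈ NE then t * δ χ else δ0

namespace HV

variable (h : HV P V p r e t)
include h

theorem ti_norm {g c : G} (hc : c ∈ 𝐂(P)) (c1 : c ≠ 1) (hg : g⁻¹ * c * g ∈ 𝐍(P)) : g ∈ 𝐍(P) :=
  by_contra fun hn => c1 (geoStmt G P p r e t h.toHyp g hn c hc hg)

theorem normC : 𝐍(P) ≤ 𝐍(𝐂(P)) := H1.normalizer_le_normalizer_centralizer P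

theorem card_dvd : 𝐨(V) ∣ r := by
  classical
  haveI := Fintype.ofFinite 𝐂(P)
  haveI := Fintype.ofFinite (G ⧸ 𝐍(P))
  haveI := Fintype.ofFinite (Quotient (MulAction.orbitRel 𝐂(P) (G ⧸ 𝐍(P))))
  have h1 := MulAction.sum_card_fixedBy_eq_card_orbits_mul_card_group 𝐂(P) (G ⧸ 𝐍(P))
  rw [← Finset.add_sum_erase _ _ (Finset.mem_univ 1), Finset.sum_congr rfl (g := fun _ => 1),
    Finset.sum_const, Finset.card_erase_of_mem (Finset.mem_univ _), Finset.card_univ] at h1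
  · have h2 : Fintype.card (MulAction.fixedBy (G ⧸ 𝐍(P)) (1 : 𝐂(P))) = 1 + r * p := by
      rw [← h.hn, index, ← Nat.card_eq_fintype_card, MulAction.fixedBy_one_eq_univ]; simp
    have h3 : Fintype.card 𝐂(P) = 𝐨(V) * p := by rw [← Nat.card_eq_fintype_card, h.cardC]
    have h4 : 0 < 𝐨(V) * p := h3 ▸ Fintype.card_pos
    rw [h2, h3, smul_eq_mul, mul_one] at h1
    refine Nat.dvd_of_mul_dvd_mul_right h.hp.pos ((Nat.dvd_add_left (dvd_refl (𝐨(V) * p))).1 ?_)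
    exact ⟨_, by rw [mul_comm (𝐨(V) * p), ← h1]; omega⟩
  · intro c hc
    have c1 : (c : G) ≠ 1 := fun e => (Finset.mem_erase.1 hc).1 (Subtype.ext e)
    rw [← Nat.card_eq_fintype_card, Nat.card_coe_set_eq, Set.ncard_eq_one]
    refine ⟨((1 : G) : G ⧸ 𝐍(P)), Set.ext fun x => ?_⟩
    obtain ⟨g, rfl⟩ := QuotientGroup.mk_surjective x
    change ((c * g : G) : G ⧸ 𝐍(P)) = g ↔ _
    rw [eq_comm, QuotientGroup.eq, Set.mem_singleton_iff, eq_comm, QuotientGroup.eq, ← mul_assoc,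
      inv_one, one_mul]
    exact ⟨h.ti_norm c.2 c1, fun hg => mul_mem (mul_mem (inv_mem hg) (cent_le_norm P c.2)) hg⟩

theorem card_le : 𝐨(V) ≤ r := Nat.le_of_dvd h.r1 h.card_dvd

theorem tiCK : NormedTI (sharp 𝐂(P)) ⊤ 𝐍(P) where
  nonempty := by
    obtain ⟨x, hx, h1⟩ := h.exists_gen
    exact ⟨x, h.le_cent hx, h1⟩
  one_notMem := fun e => e.2 rfl
  subset := fun _ e => cent_le_norm P e.1
  le := le_top
  norm := fun g hg a ha => ⟨(mem_normalizer_iff.1 (h.normC hg) a).1 ha.1, by simpa using ha.2⟩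
  ti := fun g _ a ha hg => h.ti_norm hg.1 hg.2 (by simpa [mul_assoc] using cent_le_norm P ha.1)

theorem ip_ind {α β : G → ℂ} (hα : α ∈ CF 𝐂(P)) (α1 : α 1 = 0) (β1 : β 1 = 0) :
    𝐨(𝐂(P)) * ip ⊤ (ind ⊤ 𝐂(P) α) (ind ⊤ 𝐂(P) β) =
      ∑ g ∈ fs (𝐍(P) : Set G), ip 𝐂(P) (cfConj g α) β := by
  have hm : ∀ {γ : G → ℂ}, γ 1 = 0 → ind 𝐍(P) 𝐂(P) γ ∈ CFon 𝐍(P) (sharp 𝐂(P)) := fun hγ =>
    mem_CFon_sharp (ind_mem_CFon_normal h.normC _) (by rw [ind_one (cent_le_norm P), hγ, mul_zero])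
  rw [← ind_ind le_top (cent_le_norm P) α, ← ind_ind le_top (cent_le_norm P) β,
    h.tiCK.ip_ind (hm α1) (hm β1), ip_ind_right (cent_le_norm P) (ind_mem_CF _ _ _),
    ind_eq_sum_cfConj, ip_smul_left, mul_inv_cancel_left₀ (card_ne_zero_C _), res_of_mem_CF hα,
    ← ip_res_left, res_res (cent_le_norm P), ip_res_left, ip_sum_left]

theorem exists_nuK : ∃ ν ∈ irrKer 𝐂(P) V, ν ≠ cf1 𝐂(P) := by
  refine Finset.exists_mem_ne ?_ _
  rw [h.dprod.symm.sdProd.card_irrKer, card_Irr_of_comm h.comm, h.hP]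
  exact h.hp.one_lt

section nu

variable {ν : G → ℂ} (hν : ν ∈ irrKer 𝐂(P) V) (ν1 : ν ≠ cf1 𝐂(P))
include hν ν1

omit ν1 in
theorem res_nu : res P ν ∈ Irr P := h.dprod.symm.sdProd.res_mem_Irr hν

theorem res_nu_ne : res P ν ≠ cf1 P := fun e => ν1 (h.dprod.symm.sdProd.eq_of_res_eq hν
  (cf1_mem_irrKer h.nV.1) (by rw [e, res_cf1 h.le_cent]))

omit ν1 in
theorem nu_oneK : ν 1 = 1 := by simpa using h.lin (h.res_nu hν)

theorem sum_nuK : ∑ y ∈ fs (sharp P), ν y = -1 := by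
  have := ip_irr_of_ne (h.res_nu hν) (cf1_mem_Irr P) (h.res_nu_ne hν ν1)
  rw [ip_res_left, ip_cf1_right, mul_eq_zero, sum_fs_sharp, h.nu_oneK hν] at this
  linear_combination this.resolve_left (inv_ne_zero (card_ne_zero_C P))

theorem conj_nu {g : G} (hg : g ∈ 𝐍(P)) (e : cfConj g ν = ν) : g ∈ 𝐂(P) := by
  rw [← inf_inertia_eq h.hp h.hP (h.res_nu hν) (h.res_nu_ne hν ν1)]
  exact ⟨hg, inf_inertia_le_inertia_res ν ⟨hg, mem_inertia.2 e⟩⟩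

theorem exists_two {η η' : G → ℂ} (hη : η ∈ irrKer 𝐂(P) P) (hη' : η' ∈ irrKer 𝐂(P) P)
    (ne : η ≠ η') (hd : η 1 = η' 1) : ∃ ψ ∈ Irr ⊤, ∃ ψ' ∈ Irr ⊤, ψ ≠ ψ' ∧ dg ψ = dg ψ' ∧
      ind ⊤ 𝐂(P) (ν * η - ν * η') = ψ - ψ' ∧
        ip 𝐂(P) (η - η') ψ = ip 𝐂(P) (η - η') ψ' := by
  classical
  have i1 := h.dprod.mul_mem_Irr hν hη
  have i2 := h.dprod.mul_mem_Irr hν hη'
  have hv : ν * η - ν * η' ∈ VChar 𝐂(P) := sub_mem (irr_mem_VChar i1) (irr_mem_VChar i2)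
  have α1 : (ν * η - ν * η') 1 = 0 := by simp [hd]
  have cν : ∀ g ∈ 𝐍(P), cfConj g ν ∈ irrKer 𝐂(P) V := fun g hg =>
    cfConj_mem_irrKer hν (h.normC hg) (h.normV hg)
  have cη : ∀ {η}, η ∈ irrKer 𝐂(P) P → ∀ g ∈ 𝐍(P), cfConj g η ∈ irrKer 𝐂(P) P := fun hη g hg =>
    cfConj_mem_irrKer hη (h.normC hg) hg
  have h1 := h.ip_ind (vchar_mem_CF hv) α1 α1
  rw [← sum_fs_subset (A := 𝐂(P)) (cent_le_norm P) fun g hg hg' => by
      have : cfConj g ν ≠ ν := fun e => hg' (h.conj_nu hν ν1 hg e)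
      simp only [map_sub, cfConj_mul, ip_sub_left, ip_sub_right,
        h.dprod.ip_mul_irrKer (cν g hg) hν (cη hη g hg) hη,
        h.dprod.ip_mul_irrKer (cν g hg) hν (cη hη g hg) hη',
        h.dprod.ip_mul_irrKer (cν g hg) hν (cη hη' g hg) hη,
        h.dprod.ip_mul_irrKer (cν g hg) hν (cη hη' g hg) hη', this]
      simp,
    sum_fs_congr (g := fun _ => 2) fun g hg => by
      rw [cfConj_eq_self (vchar_mem_CF hv) hg]
      simp only [ip_sub_left, ip_sub_right, h.dprod.ip_mul_irrKer hν hν hη hη,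
        h.dprod.ip_mul_irrKer hν hν hη hη', h.dprod.ip_mul_irrKer hν hν hη' hη,
        h.dprod.ip_mul_irrKer hν hν hη' hη', ne, ne.symm]
      norm_num,
    sum_fs_const, nsmul_eq_mul, mul_right_inj' (card_ne_zero_C _)] at h1
  have A1 : ind ⊤ 𝐂(P) (ν * η - ν * η') 1 = 0 := by rw [ind_one le_top, α1, mul_zero]
  obtain ⟨ψ, hψ, ψ', hψ', ne', e⟩ := vchar_norm_two (vchar_ind le_top hv)
    (nsq_eq_of_ip (by rw [h1]; simp)) A1
  refine ⟨ψ, hψ, ψ', hψ', ne', dg_congr (sub_eq_zero.1 (by rw [e] at A1; exact A1)), e, ?_⟩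
  have h2 := h.ip_ind (β := η - η') (vchar_mem_CF hv) α1 (by simp [hd])
  rw [sum_fs_congr (g := fun _ => 0) fun g hg => by
      have : cfConj g ν ≠ cf1 𝐂(P) := fun e => ν1 (cfConj_injective g
        (by rw [e, cfConj_cf1_of_norm (h.normC hg)]))
      have c1 := cf1_mem_irrKer h.nV.1
      have k : ∀ {ξ ξ'}, ξ ∈ irrKer 𝐂(P) P → ξ' ∈ irrKer 𝐂(P) P →
          ip 𝐂(P) (cfConj g ν * cfConj g ξ) ξ' = 0 := fun {ξ ξ'} hξ hξ' => by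
        rw [← cf1_mul (irr_mem_CF (irrKer_subset _ _ hξ')),
          h.dprod.ip_mul_irrKer (cν g hg) c1 (cη hξ g hg) hξ', if_neg fun e => this e.1]
      simp only [map_sub, cfConj_mul, ip_sub_left, ip_sub_right, k hη hη, k hη hη', k hη' hη,
        k hη' hη', sub_self],
    Finset.sum_const_zero, mul_eq_zero, e, ip_eq_zero_comm, ip_sub_right,
    ip_ind_left le_top _ (irr_mem_CF hψ), ip_ind_left le_top _ (irr_mem_CF hψ')] at h2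
  exact sub_eq_zero.1 (h2.resolve_left (card_ne_zero_C _))

end nu

theorem ip_prod {a κ f : G → ℂ} (ha : V ≤ cfKer a) (hκ : P ≤ cfKer κ) (ha' : a ∈ CF 𝐂(P))
    (hf : VInv P V f) (h0 : ∀ v ∈ V, a 1 * f v = 0) : ip 𝐂(P) (a * κ) f =
      (𝐨(𝐂(P)) : ℂ)⁻¹ * ((∑ y ∈ fs (sharp P), a y * conj (f y)) * ∑ v ∈ fs (V : Set G), κ v) := by
  rw [ip_def, h.dprod.sum_eq, sum_fs_sharp P, sum_fs_congr (g := fun _ => 0) fun v hv => by
    rw [one_mul, Pi.mul_apply, apply_of_mem_cfKer (ha hv)]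
    rcases mul_eq_zero.1 (h0 v hv) with e | e <;> simp [e], Finset.sum_const_zero, zero_add,
    Finset.sum_mul_sum]
  congr 1
  refine sum_fs_congr fun y hy => sum_fs_congr fun v hv => ?_
  rw [Pi.mul_apply, hf y hy.1 hy.2 v hv, apply_mul_of_mem_cfKer ha' (ha hv),
    mem_cfKer.1 (hκ hy.1)]
  ring

variable (b : Blk P p e t NE EX δ δ0)
include b

omit h in
theorem wtN {χ : G → ℂ} (hχ : χ ∈ NE) : wt t NE δ δ0 χ = t * δ χ := if_pos hχ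

omit h in
theorem wtE {χ : G → ℂ} (hχ : χ ∈ EX) : wt t NE δ δ0 χ = δ0 :=
  if_neg fun e => Finset.disjoint_left.1 b.disj e hχ

theorem wt_ne {χ : G → ℂ} (hχ : χ ∈ B0 p ⊤) : wt t NE δ δ0 χ ≠ 0 := by
  have := h.t_pos
  rcases (b.mem χ).1 hχ with e | e
  · rw [wtN b e]; rcases b.sg χ e with e | e <;> rw [e] <;> omega
  · rw [wtE b e]; rcases b.sg0 with e | e <;> rw [e] <;> omega

theorem wt_mod {χ : G → ℂ} (hχ : χ ∈ B0 p ⊤) : (p : ℤ) ∣ t * dg χ - wt t NE δ δ0 χ := by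
  rcases (b.mem χ).1 hχ with e | e
  · rw [wtN b e]
    exact ⟨t * (ell P χ - δ χ), by linear_combination t * h.ellN b e⟩
  · rw [wtE b e]
    exact ⟨t * ell P χ - δ0, by linear_combination t * h.ellE b e + δ0 * h.pred_eq⟩

theorem sum_wt {ν η η' : G → ℂ} (hν : ν ∈ irrKer 𝐂(P) V) (ν1 : ν ≠ cf1 𝐂(P))
    (hη : η ∈ irrKer 𝐂(P) P) (hη' : η' ∈ irrKer 𝐂(P) P) :
    ∑ χ ∈ B0 p ⊤, wt t NE δ δ0 χ * ip 𝐂(P) (ν * η - ν * η') χ =
      -((𝐨(V) : ℂ)⁻¹ * ∑ v ∈ fs (V : Set G), (η - η') v) := by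
  set D : G → ℂ := ∑ χ ∈ B0 p ⊤, (wt t NE δ δ0 χ : ℂ) • χ with hD
  have D1 : ∀ g, D g = t * ∑ χ ∈ NE, δ χ * χ g + δ0 * ∑ θ ∈ EX, θ g := fun g => by
    rw [hD, Finset.sum_apply, b.sum_B0, Finset.mul_sum, Finset.mul_sum]
    congr 1 <;> refine Finset.sum_congr rfl fun χ hχ => ?_
    · rw [wtN b hχ]; simp [mul_assoc]
    · rw [wtE b hχ]; simp
  have D2 : ∀ y ∈ P, y ≠ 1 → D y = p := fun y hy y1 => by
    rw [D1, b.val0 y hy y1, b.sq0, Finset.sum_congr rfl fun χ hχ => by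
      rw [b.val χ hχ y hy y1, b.sq hχ], Finset.sum_const, b.cN, ← h.ht]
    simp
  obtain ⟨θ, hθ⟩ := h.exists_ex b
  have h1 := h.ip_prod (a := ν) (κ := η - η') (f := D) (mem_irrKer.1 hν).2
    ((le_inf (mem_irrKer.1 hη).2 (mem_irrKer.1 hη').2).trans (inf_cfKer_le_sub _ _))
    (irr_mem_CF (irrKer_subset _ _ hν)) (fun y hy y1 v hv => by
      simp only [hD, Finset.sum_apply, Pi.smul_apply]
      exact Finset.sum_congr rfl fun χ hχ => by rw [h.vinv hχ y hy y1 v hv])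
    fun v hv => by
      have := b.sum_reg hθ (h.not_dvd hv) id
      simp only [id] at this
      rw [D1, this]
      linear_combination ν 1 * t * h.orth b hθ (h.not_dvd hv)
  rw [sum_fs_congr (g := fun y => ν y * p) fun y hy => by rw [D2 y hy.1 hy.2]; simp,
    ← Finset.sum_mul, h.sum_nuK hν ν1, h.cardC, mul_sub, hD, ip_sum_right] at h1
  simp only [ip_smul_right, map_intCast] at h1
  rw [h1]
  have := card_ne_zero_C V
  have : (p : ℂ) ≠ 0 := Nat.cast_ne_zero.2 h.hp.ne_zero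
  push_cast
  field_simp

theorem ip_two {ν η η' ψ ψ' : G → ℂ} (hψ : ψ ∈ Irr ⊤) (hψ' : ψ' ∈ Irr ⊤)
    (e : ind ⊤ 𝐂(P) (ν * η - ν * η') = ψ - ψ') {χ : G → ℂ} (hχ : χ ∈ Irr ⊤) [Decidable (ψ = χ)]
    [Decidable (ψ' = χ)] : ip 𝐂(P) (ν * η - ν * η') χ =
      (if ψ = χ then 1 else 0) - if ψ' = χ then 1 else 0 := by
  rw [← ip_ind_left le_top _ (irr_mem_CF hχ), e, ip_sub_left, ip_irr hψ hχ, ip_irr hψ' hχ]
  congr

open Classical in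
theorem sum_two {ν η η' ψ ψ' : G → ℂ} (hψ : ψ ∈ Irr ⊤) (hψ' : ψ' ∈ Irr ⊤)
    (e : ind ⊤ 𝐂(P) (ν * η - ν * η') = ψ - ψ') :
    ∑ χ ∈ B0 p ⊤, wt t NE δ δ0 χ * ip 𝐂(P) (ν * η - ν * η') χ =
      (((if ψ ∈ B0 p ⊤ then wt t NE δ δ0 ψ else 0) -
        if ψ' ∈ B0 p ⊤ then wt t NE δ δ0 ψ' else 0 : ℤ) : ℂ) := by
  rw [Finset.sum_congr rfl fun χ hχ => by rw [h.ip_two b hψ hψ' e (B0_subset _ _ hχ)]]
  simp only [mul_sub, mul_ite, mul_one, mul_zero, Finset.sum_sub_distrib, Finset.sum_ite_eq]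
  split_ifs <;> simp

/-- K0 -/
theorem k0 {ν η η' : G → ℂ} (hν : ν ∈ irrKer 𝐂(P) V) (ν1 : ν ≠ cf1 𝐂(P))
    (hη : η ∈ irrKer 𝐂(P) P) (hη' : η' ∈ irrKer 𝐂(P) P) (η1 : η ≠ cf1 𝐂(P))
    (η1' : η' ≠ cf1 𝐂(P)) (hd : η 1 = η' 1) {χ : G → ℂ} (hχ : χ ∈ B0 p ⊤) :
    ip 𝐂(P) (ν * η) χ = ip 𝐂(P) (ν * η') χ := by
  classical
  by_cases ne : η = η'
  · rw [ne]
  have s0 : ∀ {ξ}, ξ ∈ irrKer 𝐂(P) P → ξ ≠ cf1 𝐂(P) → ∑ v ∈ fs (V : Set G), ξ v = 0 :=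
    fun {ξ} hξ ξ1 => by
      have := ip_irr_of_ne (h.dprod.sdProd.res_mem_Irr hξ) (cf1_mem_Irr V) fun e =>
        ξ1 (h.dprod.sdProd.eq_of_res_eq hξ (cf1_mem_irrKer h.le_cent) (by rw [e, res_cf1 h.nV.1]))
      rw [ip_res_left, ip_cf1_right, mul_eq_zero] at this
      exact this.resolve_left (inv_ne_zero (card_ne_zero_C V))
  have s1 : ∑ v ∈ fs (V : Set G), (η - η') v = 0 := by
    simp only [Pi.sub_apply, Finset.sum_sub_distrib, s0 hη η1, s0 hη' η1', sub_self]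
  obtain ⟨ψ, hψ, ψ', hψ', ne', -, e, hB⟩ := h.exists_two hν ν1 hη hη' ne hd
  have h1 := h.sum_wt b hν ν1 hη hη'
  rw [h.sum_two b hψ hψ' e, s1, mul_zero, neg_zero, Int.cast_eq_zero] at h1
  have h2 : ∀ χ ∈ B0 p ⊤, ip 𝐂(P) (ν * η - ν * η') χ = ip 𝐂(P) (η - η') χ := fun χ hχ => by
    have c := irr_mem_CF (irrKer_subset _ _ hν)
    have := h.ip_prod (a := ν - cf1 𝐂(P)) (κ := η - η') (f := χ)
      ((le_inf (mem_irrKer.1 hν).2 (h.nV.1.trans (le_cfKer_cf1 _))).trans (inf_cfKer_le_sub _ _))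
      ((le_inf (mem_irrKer.1 hη).2 (mem_irrKer.1 hη').2).trans (inf_cfKer_le_sub _ _))
      (sub_mem c (cf1_mem_CF _)) (h.vinv hχ) fun v _ => by simp [h.nu_oneK hν]
    rw [s1, mul_zero, mul_zero, sub_mul, cf1_mul (sub_mem (irr_mem_CF (irrKer_subset _ _ hη))
      (irr_mem_CF (irrKer_subset _ _ hη'))), ip_sub_left, mul_sub] at this
    exact sub_eq_zero.1 this
  have h3 : ψ ∉ B0 p ⊤ ∧ ψ' ∉ B0 p ⊤ := by
    by_cases c : ψ ∈ B0 p ⊤ <;> by_cases c' : ψ' ∈ B0 p ⊤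
    · rw [← h2 ψ c, ← h2 ψ' c', h.ip_two b hψ hψ' e hψ, h.ip_two b hψ hψ' e hψ'] at hB
      norm_num [ne', ne'.symm] at hB
    · exact (h.wt_ne b c (by simpa [c, c'] using h1)).elim
    · exact (h.wt_ne b c' (by simpa [c, c'] using h1)).elim
    · exact ⟨c, c'⟩
  rw [← sub_eq_zero, ← ip_sub_left, h.ip_two b hψ hψ' e (B0_subset _ _ hχ),
    if_neg fun e : ψ = χ => h3.1 (e ▸ hχ), if_neg fun e : ψ' = χ => h3.2 (e ▸ hχ), sub_self]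

/-- K1 -/
theorem k1 {ν l : G → ℂ} (hν : ν ∈ irrKer 𝐂(P) V) (ν1 : ν ≠ cf1 𝐂(P))
    (hl : l ∈ irrKer 𝐂(P) P) (l1 : l ≠ cf1 𝐂(P)) (hd : l 1 = 1) :
    ∃ χ0, (wt t NE δ δ0 χ0 = 1 ∨ wt t NE δ δ0 χ0 = -1) ∧ ∀ χ ∈ B0 p ⊤, χ ≠ χ0 →
      ip 𝐂(P) (ν * cf1 𝐂(P)) χ = ip 𝐂(P) (ν * l) χ := by
  classical
  have c1 : cf1 𝐂(P) ∈ irrKer 𝐂(P) P := cf1_mem_irrKer h.le_cent
  have s0 : ∑ v ∈ fs (V : Set G), l v = 0 := by
    have := ip_irr_of_ne (h.dprod.sdProd.res_mem_Irr hl) (cf1_mem_Irr V) fun e =>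
      l1 (h.dprod.sdProd.eq_of_res_eq hl c1 (by rw [e, res_cf1 h.nV.1]))
    rw [ip_res_left, ip_cf1_right, mul_eq_zero] at this
    exact this.resolve_left (inv_ne_zero (card_ne_zero_C V))
  obtain ⟨ψ, hψ, ψ', hψ', ne', hdg, e, -⟩ := h.exists_two hν ν1 c1 hl l1.symm (by simp [hd])
  have h1 := h.sum_wt b hν ν1 c1 hl
  simp only [Pi.sub_apply, Finset.sum_sub_distrib] at h1
  rw [h.sum_two b hψ hψ' e, s0, sub_zero, sum_fs_congr (g := fun _ => 1) fun v hv =>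
    cf1_of_mem (h.nV.1 hv), sum_fs_const, nsmul_eq_mul, mul_one,
    inv_mul_cancel₀ (card_ne_zero_C V)] at h1
  have h2 : ((if ψ ∈ B0 p ⊤ then wt t NE δ δ0 ψ else 0) -
    if ψ' ∈ B0 p ⊤ then wt t NE δ δ0 ψ' else 0 : ℤ) = -1 := by exact_mod_cast h1
  have h3 : ∀ χ ∈ B0 p ⊤, ψ ≠ χ → ψ' ≠ χ → ip 𝐂(P) (ν * cf1 𝐂(P)) χ = ip 𝐂(P) (ν * l) χ :=
    fun χ hχ a a' => by
      rw [← sub_eq_zero, ← ip_sub_left, h.ip_two b hψ hψ' e (B0_subset _ _ hχ), if_neg a, if_neg a',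
        sub_self]
  by_cases c : ψ ∈ B0 p ⊤ <;> by_cases c' : ψ' ∈ B0 p ⊤
  · rw [if_pos c, if_pos c'] at h2
    have := dvd_sub (h.wt_mod b c) (h.wt_mod b c')
    rw [hdg, show ∀ a x y : ℤ, a - x - (a - y) = -(x - y) from fun _ _ _ => by ring, h2,
      neg_neg] at this
    exact (h.hp.one_lt.ne' (Nat.dvd_one.1 (by exact_mod_cast this))).elim
  · exact ⟨ψ, .inr (by simpa [c, c'] using h2), fun χ hχ a =>
      h3 χ hχ a.symm fun e => c' (e ▸ hχ)⟩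
  · exact ⟨ψ', .inl (by simpa [c, c'] using h2), fun χ hχ a =>
      h3 χ hχ (fun e => c (e ▸ hχ)) a.symm⟩
  · simp [c, c'] at h2

end HV

end Cfsg.Agent.P12
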