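/-
P12, chapter V1: `C(P) = P`.
-/
import Cfsg.Agent.P12.V1k
import Cfsg.Agent.H8.CentAux

set_option autoImplicit false

namespace Cfsg.Agent.P12

open Subgroup Cfsg Cfsg.Agent Cfsg.Agent.FT Cfsg.Agent.P1 Cfsg.Agent.H7.PCl
open scoped ComplexConjugate

universe u

theorem Ty.of_dvd {p r F l q : ℕ} {d : ℤ} (h : Ty p r F d l) (hp : p.Prime) (r1 : 1 ≤ r)
    (rp : r < p) (hq : q.Prime) (hr : q ∣ r) (hd : (q : ℤ) ∣ d - F) : d = 1 ∧ F = 1 + r * p := by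
  have key : ∀ u w : ℕ, d - F = -(u * p : ℕ) → r = u * w + 1 ∨ u = 1 → False := by
    intro u w e hu
    rw [e, dvd_neg, Int.natCast_dvd_natCast] at hd
    rcases (Nat.Prime.dvd_mul hq).1 hd with c | c
    · rcases hu with hu | rfl
      · exact hq.one_lt.ne' (Nat.dvd_one.1 ((Nat.dvd_add_right (c.mul_right w)).1 (hu ▸ hr)))
      · exact hq.one_lt.ne' (Nat.dvd_one.1 c)
    · rw [(Nat.prime_dvd_prime_iff_eq hq hp).1 c] at hr
      exact absurd (Nat.le_of_dvd r1 hr) (by omega)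
  rcases h with ⟨a, b, -⟩ | ⟨rfl, b, -⟩ | ⟨v, v', ⟨h1, -, h3, h4⟩, ⟨rfl, b, -⟩ | ⟨rfl, b, -⟩⟩
  · exact ⟨a, b⟩
  · exact (key 1 0 (by omega) (.inr rfl)).elim
  · obtain ⟨u, rfl⟩ : ∃ u, v = u + 1 := ⟨v - 1, by omega⟩
    refine (key u (v' + 1) ?_ (.inl (by nlinarith))).elim
    zify at b h3 ⊢
    linear_combination h3 - b
  · obtain ⟨u, rfl⟩ : ∃ u, v = u + 1 := ⟨v - 1, by omega⟩
    refine (key (v' + 1) u ?_ (.inl (by nlinarith))).elim
    zify at b h3 ⊢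
    linear_combination -h3 - b

theorem Ty.lt {p r F l : ℕ} {d : ℤ} (h : Ty p r F d l) (r1 : 1 ≤ r) :
    -(1 + r * p : ℤ) < d * F := by
  have : (0 : ℤ) ≤ r * p := by positivity
  rcases h with ⟨rfl, -⟩ | ⟨rfl, b, -⟩ | ⟨v, v', ⟨h1, h2, h3, h4⟩, ⟨rfl, -⟩ | ⟨rfl, b, -⟩⟩
  · omega
  · nlinarith
  · omega
  · have e : (1 + r * p : ℤ) = (p - v') * (p + v) := by
      zify at h3 h4
      linear_combination p * h4 + (p + 1) * h3
    have : (v' : ℤ) < p - v' := by nlinarith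
    rw [e, b]
    push_cast
    nlinarith

theorem Ty.ge {p r F l v v' : ℕ} {d : ℤ} (h : Ty p r F d l) (ab : AB p r v v') :
    -(v' * (p + v) : ℤ) ≤ d * F := by
  have : (0 : ℤ) ≤ v' * (p + v) := by positivity
  rcases h with ⟨rfl, -⟩ | ⟨rfl, b, -⟩ | ⟨w, w', ab', ⟨rfl, -⟩ | ⟨rfl, b, -⟩⟩
  · omega
  · nlinarith [ab.v2, ab.le]
  · omega
  · obtain ⟨rfl, rfl⟩ := ab.unique ab'
    rw [b]; push_cast; omega

theorem v1_num {p r e t v v' k kn : ℕ} (ab : AB p r v v') (rp : r < p) (ht : t * e + 1 = p)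
    (he : e = 1 + k + kn) (k1 : 1 ≤ k) (h1 : 1 + kn * (1 + r * p) ≤ (k + 1) * (v' * (p + v)))
    (h2 : 3 * (k * (p - 1) ^ 2) ≤ p * e * r) : False := by
  obtain ⟨a1, a2, a3, a4⟩ := ab
  obtain ⟨u, rfl⟩ : ∃ u, v = u + 1 := ⟨v - 1, by omega⟩
  have e1 : 1 + r * p = (u * v' + 1) * (p + (u + 1)) := by
    zify at a3 a4 ⊢
    linear_combination p * a4 - u * a3
  have h3 : kn * u ≤ k := by
    by_contra c
    rw [e1, ← mul_assoc, ← mul_assoc] at h1
    have h4 : (k + 1) * v' ≤ kn * (u * v' + 1) := by nlinarith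
    have := Nat.mul_le_mul_right (p + (u + 1)) h4
    omega
  obtain ⟨m, rfl⟩ : ∃ m, p = m + 1 := ⟨p - 1, by omega⟩
  rw [Nat.add_sub_cancel] at h2
  rcases (show u = 1 ∨ 2 ≤ u by omega) with rfl | u2
  · obtain rfl : m = 2 * v' := by omega
    obtain rfl : r = v' + 2 := by omega
    have h4 : 3 * (k * (2 * v') ^ 2) ≤ (2 * v' + 1) * (3 * k) * (v' + 2) :=
      h2.trans (by gcongr; omega)
    have h5 : v' = 2 := by
      by_contra c
      have : 3 ≤ v' := by omega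
      have : (2 * v' + 1) * (v' + 2) < (2 * v') ^ 2 := by nlinarith
      nlinarith
    subst h5
    have : e ∣ 2 ^ 2 := ⟨t, by rw [mul_comm]; omega⟩
    obtain ⟨i, hi, rfl⟩ := (Nat.dvd_prime_pow Nat.prime_two).1 this
    interval_cases i <;> omega
  · have h4 : 3 * k * m * m ≤ (m + 1) * e * m := by
      have : (m + 1) * e * r ≤ (m + 1) * e * m := Nat.mul_le_mul_left _ (by omega)
      nlinarith
    have h5 : 3 * k * m ≤ (m + 1) * e := Nat.le_of_mul_le_mul_right h4 (by nlinarith)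
    have h6 : 9 ≤ m := by nlinarith
    have h7 : 2 * e ≤ 3 * k + 2 := by nlinarith
    rcases (show e ≤ 2 ∨ 3 ≤ e by omega) with c | c <;> nlinarith

variable {G : Type u} [Group G] [Finite G]
variable {P V : Subgroup G} {p r e t : ℕ} {NE EX : Finset (G → ℂ)} {δ : (G → ℂ) → ℤ} {δ0 : ℤ}

namespace HV

variable (h : HV P V p r e t)
include h

theorem exists_beta {ν : G → ℂ} (hν : ν ∈ irrKer 𝐂(P) V) (ν1 : ν ≠ cf1 𝐂(P)) {X : G → ℂ}
    (hX : IsChar ⊤ X) {d : ℤ} (hd : ∀ y ∈ P, y ≠ 1 → ∀ v ∈ V, X (y * v) = d) :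
    ∃ β, IsChar V β ∧ (∀ v ∈ V, X v = d + p * β v) ∧
      ∀ η ∈ irrKer 𝐂(P) P, ip V η β = ip 𝐂(P) (ν * η) X := by
  have p0 : (p : ℂ) ≠ 0 := Nat.cast_ne_zero.2 h.hp.ne_zero
  set β : G → ℂ := (p : ℂ)⁻¹ • res V (X - (d : ℂ) • cf1 ⊤) with hβ
  have h1 : ∀ v ∈ V, X v = d + p * β v := fun v hv => by
    rw [hβ, Pi.smul_apply, res_of_mem _ hv]; simp [p0]
  have h2 : ∀ η ∈ irrKer 𝐂(P) P, ip V η β = ip 𝐂(P) (ν * η) X := fun η hη => by
    have kν := (mem_irrKer.1 hν).2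
    rw [ip_def, ip_def, h.dprod.sum_eq, sum_fs_sharp P, sum_fs_congr (A := sharp P)
      (g := fun y => ν y * ∑ v ∈ fs (V : Set G), η v * d) fun y hy => by
        rw [Finset.mul_sum]
        refine sum_fs_congr fun v hv => ?_
        rw [Pi.mul_apply, hd y hy.1 hy.2 v hv, apply_mul_of_mem_cfKer
          (irr_mem_CF (irrKer_subset _ _ hν)) (kν hv), mem_cfKer.1 ((mem_irrKer.1 hη).2 hy.1),
          map_intCast, mul_assoc],
      ← Finset.sum_mul, h.sum_nuK hν ν1, neg_one_mul, ← sub_eq_add_neg, ← Finset.sum_sub_distrib,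
      sum_fs_congr (f := fun v => (ν * η) (1 * v) * conj (X (1 * v)) - η v * d)
        (g := fun v => p * (η v * conj (β v))) fun v hv => by
        rw [one_mul, Pi.mul_apply, apply_of_mem_cfKer (kν hv), h.nu_oneK hν, h1 v hv]
        simp only [map_add, map_mul, map_intCast, map_natCast]
        ring,
      ← Finset.mul_sum, h.cardC]
    have := card_ne_zero_C V
    push_cast
    field_simp
  refine ⟨β, isChar_of_ip_nat (Submodule.smul_mem _ _ (res_mem_CF le_top (sub_mem hX.mem_CF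
    (Submodule.smul_mem _ _ (cf1_mem_CF _))))) fun θ hθ => ?_, h1, h2⟩
  obtain ⟨η, hη, rfl⟩ := h.dprod.sdProd.exists_irrKer_res hθ
  obtain ⟨n, hn⟩ := (irr_isChar (h.dprod.mul_mem_Irr hν hη)).ip_nat (hX.res le_top)
  rw [ip_res_right, ← h2 η hη] at hn
  exact ⟨n, by rw [ip_res_right, ← conj_ip, hn, map_natCast]⟩

theorem type_n {X : G → ℂ} (hX : IsChar ⊤ X) {d : ℤ} {F l : ℕ} (hF : X 1 = F) (ty : Ty p r F d l)
    {z : G} (hz : z ∈ V) (z1 : z ≠ 1) {q k : ℕ} (hq : q.Prime) (ho : orderOf z = q ^ k)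
    (e : X z = d) : d = 1 ∧ F = 1 + r * p := by
  refine ty.of_dvd h.hp h.r1 h.rp hq (Dvd.dvd.trans ?_ ((orderOf_dvd_card_of_mem hz).trans
    h.card_dvd)) (dvd_of_val hq hX.mem_VChar (mem_top z) (mem_top 1) (ho ▸ pow_orderOf_eq_one z)
      (Commute.one_right z) (by rw [mul_one, e]) (by rw [hF, Int.cast_natCast]))
  rw [ho]
  exact dvd_pow_self q fun e => z1 (orderOf_eq_one_iff.1 (by rw [ho, e, pow_zero]))

variable (b : Blk P p e t NE EX δ δ0)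
include b

theorem valNK {χ : G → ℂ} (hχ : χ ∈ NE) : ∀ y ∈ P, y ≠ 1 → ∀ v ∈ V, χ (y * v) = δ χ :=
  fun y hy y1 v hv => by rw [h.vinv (b.memN hχ) y hy y1 v hv, b.val χ hχ y hy y1]

theorem valEK : ∀ y ∈ P, y ≠ 1 → ∀ v ∈ V, (∑ θ ∈ EX, θ) (y * v) = δ0 := fun y hy y1 v hv => by
  rw [Finset.sum_apply, ← b.val0 y hy y1]
  exact Finset.sum_congr rfl fun θ hθ => h.vinv (b.memE hθ) y hy y1 v hv

theorem oneE {θ : G → ℂ} (hθ : θ ∈ EX) : (∑ θ ∈ EX, θ) 1 = (t * dg θ : ℕ) := by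
  have := b.sum_reg hθ (h.reg_one b) id
  simp only [id] at this
  rw [Finset.sum_apply, this, irr_one_eq (b.irrE hθ), Nat.cast_mul]

theorem not_all_n : ¬ ∀ χ ∈ NE, χ ≠ cf1 ⊤ → δ χ = 1 ∧ dg χ = 1 + r * p := by
  intro H
  obtain ⟨θ, hθ⟩ := h.exists_ex b
  obtain ⟨χ, hχ, χ1⟩ := Finset.exists_mem_ne (s := NE) (b.cN ▸ h.e2) (cf1 ⊤)
  have h1 := h.deg_eq b hθ
  have h2 := (h.tyE b h.card_le hθ).lt h.r1
  have h3 := Finset.single_le_sum (f := fun χ => δ χ * (dg χ : ℤ)) (fun ψ hψ => by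
    by_cases c : ψ = cf1 ⊤
    · rw [c, h.δ_one b]; positivity
    · rw [(H ψ hψ c).1]; positivity) hχ
  simp only [(H χ hχ χ1).1, (H χ hχ χ1).2] at h3
  have := h.t_pos
  push_cast at h2 h3
  nlinarith [show (0 : ℤ) ≤ r * p by positivity]

theorem perfectK : ⁅V, V⁆ = V := by
  classical
  by_contra hne
  obtain ⟨ν, hν, ν1⟩ := h.exists_nuK
  obtain ⟨x, hx, hx'⟩ := SetLike.exists_of_lt (lt_of_le_of_ne (der_normal V).1 hne)
  obtain ⟨θ, hθ, hxθ⟩ := exists_irrKer_notMem_cfKer (der_normal V) hx'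
  obtain ⟨l, hl, rfl⟩ := h.dprod.sdProd.exists_irrKer_res (irrKer_subset _ _ hθ)
  have l0 : l 1 = 1 := by simpa using (isLin_of_mem_irrKer le_rfl hθ).2.1
  have lin : IsLin 𝐂(P) l := (irr_isChar (irrKer_subset _ _ hl)).isLin l0
  obtain ⟨q, k, z, hq, hz, ho, hz'⟩ := H8.exists_primePow_not_mem hxθ
  replace hz : z ∈ V := zpowers_le.2 hx hz
  have lz : l z ≠ 1 := fun e => hz' ((isLin_of_mem_irrKer le_rfl hθ).mem_cfKer_iff.2
    (by rw [res_of_mem _ hz, e]))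
  have l1 : l ≠ cf1 𝐂(P) := fun e => lz (by rw [e, cf1_of_mem (h.nV.1 hz)])
  have z1 : z ≠ 1 := fun e => lz (e ▸ l0)
  have ml : ∀ η ∈ irrKer 𝐂(P) P, η * l ∈ irrKer 𝐂(P) P := fun η hη => mem_irrKer.2
    ⟨mul_comm l η ▸ lin.mul_mem_Irr (irrKer_subset _ _ hη),
      (le_inf (mem_irrKer.1 hη).2 (mem_irrKer.1 hl).2).trans (inf_cfKer_le_mul _ _)⟩
  obtain ⟨χ0, w0, H0⟩ := h.k1 b hν ν1 hl l1 l0
  have inv : ∀ χ ∈ B0 p ⊤, χ ≠ χ0 → ∀ η ∈ irrKer 𝐂(P) P,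
      ip 𝐂(P) (ν * η) χ = ip 𝐂(P) (ν * (η * l)) χ := fun χ hχ ne η hη => by
    by_cases c : η = cf1 𝐂(P)
    · rw [c, cf1_mul lin.mem_CF, H0 χ hχ ne]
    by_cases c' : η * l = cf1 𝐂(P)
    · rw [c', H0 χ hχ ne]
      exact h.k0 b hν ν1 hη hl c l1 (by simpa [l0] using congrFun c' 1) hχ
    · exact h.k0 b hν ν1 hη (ml η hη) c c' (by simp [l0]) hχ
  have good : ∀ {X : G → ℂ} {d : ℤ}, IsChar ⊤ X → (∀ y ∈ P, y ≠ 1 → ∀ v ∈ V, X (y * v) = d) →
      (∀ η ∈ irrKer 𝐂(P) P, ip 𝐂(P) (ν * η) X = ip 𝐂(P) (ν * (η * l)) X) → X z = d := by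
    intro X d hX hd hi
    obtain ⟨β, hβ, h1, h2⟩ := h.exists_beta hν ν1 hX hd
    have h3 : β = β * star l := CF_ext_irr hβ.mem_CF
      (mul_mem_CF_of_le h.nV.1 hβ.mem_CF lin.star.mem_CF) fun θ hθ => by
        obtain ⟨η, hη, rfl⟩ := h.dprod.sdProd.exists_irrKer_res hθ
        rw [ip_res_right, ip_res_right, ← conj_ip, ← conj_ip V η, mul_comm β, ← ip_mul_left,
          h2 η hη, h2 _ (ml η hη), hi η hη]
    have h4 : β z * (1 - conj (l z)) = 0 := by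
      have := congrFun h3 z
      rw [Pi.mul_apply, star_apply'] at this
      linear_combination this
    rw [h1 z hz, (mul_eq_zero.1 h4).resolve_right fun e => lz (by
      rw [← Complex.conj_conj (l z), ← sub_eq_zero.1 e, map_one]), mul_zero, add_zero]
  have gN : ∀ χ ∈ NE, χ ≠ cf1 ⊤ → χ ≠ χ0 → δ χ = 1 ∧ dg χ = 1 + r * p := fun χ hχ c c' =>
    h.type_n (irr_isChar (b.irrN hχ)) (irr_one_eq (b.irrN hχ)) (h.tyN b h.card_le hχ c) hz z1 hq ho
      (good (irr_isChar (b.irrN hχ)) (h.valNK b hχ) (inv χ (b.memN hχ) c'))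
  by_cases c0 : χ0 ∈ NE
  swap
  · exact h.not_all_n b fun χ hχ c => gN χ hχ c fun e => c0 (e ▸ hχ)
  obtain ⟨θ, hθ⟩ := h.exists_ex b
  obtain ⟨e1, e2⟩ := h.type_n b.charX (h.oneE b hθ) (h.tyE b h.card_le hθ) hz z1 hq ho
    (good b.charX (h.valEK b) fun η hη => by
      rw [ip_sum_right, ip_sum_right]
      exact Finset.sum_congr rfl fun θ hθ => inv θ (b.memE hθ)
        (fun e => Finset.disjoint_left.1 b.disj c0 (e ▸ hθ)) η hη)
  have t1 : t = 1 := by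
    rw [wtN b c0] at w0
    rcases b.sg χ0 c0 with e | e <;> rw [e] at w0 <;> omega
  have h1 := h.deg_eq b hθ
  have h2 : -(1 + r * p : ℤ) < δ χ0 * dg χ0 := by
    by_cases c : χ0 = cf1 ⊤
    · rw [c, h.δ_one b]; nlinarith [show (0 : ℤ) ≤ r * p by positivity]
    · exact (h.tyN b h.card_le c0 c).lt h.r1
  have h3 : 0 ≤ ∑ χ ∈ NE.erase χ0, δ χ * (dg χ : ℤ) := Finset.sum_nonneg fun ψ hψ => by
    by_cases c : ψ = cf1 ⊤
    · rw [c, h.δ_one b]; positivity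
    · rw [(gN ψ (Finset.mem_of_mem_erase hψ) c (Finset.mem_erase.1 hψ).1).1]; positivity
  rw [← Finset.add_sum_erase _ _ c0, e1] at h1
  rw [t1, one_mul] at e2
  rw [e2] at h1
  push_cast at h1
  omega

theorem v_eq_bot : V = ⊥ := by
  classical
  by_contra hne
  have hV := h.perfectK b
  obtain ⟨ν, hν, ν1⟩ := h.exists_nuK
  obtain ⟨x, hx, hx'⟩ : ∃ x ∈ V, x ∉ 𝐂(V) := by
    by_contra! c
    exact hne (hV ▸ commutator_eq_bot_iff_le_centralizer.2 c)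
  obtain ⟨q, j, z, hq, hz, ho, hz'⟩ := H8.exists_primePow_not_mem hx'
  replace hz : z ∈ V := zpowers_le.2 hx hz
  have z1 : z ≠ 1 := fun e => hz' (e ▸ one_mem _)
  have i3 : 3 ≤ (𝐂[z]).relIndex V := by
    have i0 : (𝐂[z]).relIndex V ≠ 0 := index_ne_zero_of_finite
    have i1 : ¬ V ≤ 𝐂[z] := fun c => hz' (mem_cent.2 fun y hy => (mem_cent1.1 (c hy) : Commute z y).symm)
    have i2 : (𝐂[z]).relIndex V ≠ 2 := fun c => i1 (hV ▸ commutator_le.2 fun a ha a' ha' => by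
      have := (mul_mem_iff_of_index_two c (a := ⟨a, ha⟩ * ⟨a', ha'⟩)
        (b := ⟨a, ha⟩⁻¹ * ⟨a', ha'⟩⁻¹)).2 (by
          simp only [mul_mem_iff_of_index_two c, inv_mem_iff])
      rw [mem_subgroupOf] at this
      simpa [commutatorElement_def, mul_assoc] using this)
    have := mt relIndex_eq_one.1 i1
    omega
  have cz : 3 * 𝐨(𝐂[z]) ≤ p * e * r := by
    have h1 : 𝐂[z] ≤ 𝐍(P) := fun g hg => h.ti_norm (h.nV.1 hz) z1 (by
      rw [mul_assoc, show z * g = g * z from mem_cent1.1 hg, inv_mul_cancel_left]; exact cent_le_norm P (h.nV.1 hz))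
    have h2 : V.relIndex 𝐍(P) = p * e := by
      rw [← relIndex_mul_relIndex V _ _ h.nV.1 (cent_le_norm P), h.iV, h.he]
    have h3 := relIndex_le_of_le_right (H := V) h1 index_ne_zero_of_finite
    have h4 := H1.card_mul_relIndex (inf_le_left : V ⊓ 𝐂[z] ≤ V)
    have h5 := H1.card_mul_relIndex (inf_le_right : V ⊓ 𝐂[z] ≤ 𝐂[z])
    rw [inf_relIndex_left] at h4
    rw [inf_relIndex_right] at h5
    have h6 : 𝐨(V ⊓ 𝐂[z]) * 3 ≤ r := (Nat.mul_le_mul_left _ i3).trans (h4.le.trans h.card_le)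
    calc _ = V.relIndex 𝐂[z] * (𝐨(V ⊓ 𝐂[z]) * 3) := by rw [← h5]; ring
      _ ≤ _ := Nat.mul_le_mul (h2 ▸ h3) h6
  set K := NE.filter fun χ => χ ≠ cf1 ⊤ ∧ ¬ (δ χ = 1 ∧ dg χ = 1 + r * p) with hK
  have big : ∀ χ ∈ K, (((p - 1 : ℕ) : ℝ) ^ 2 ≤ ‖χ z‖ ^ 2) ∧ ∃ v v', AB p r v v' := fun χ hχ' => by
    obtain ⟨hχ, c1, c2⟩ := Finset.mem_filter.1 hχ'
    have hi := b.irrN hχ
    have ty := h.tyN b h.card_le hχ c1
    obtain ⟨β, hβ, h1, h2⟩ := h.exists_beta hν ν1 (irr_isChar hi) (h.valNK b hχ)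
    obtain ⟨m, hm⟩ := int_of_aut_fixed (hβ.isIntegral z) fun u => by
      suffices cfAut u β = β from congrFun this z
      refine CF_ext_irr (hβ.cfAut u).mem_CF hβ.mem_CF fun θ hθ => ?_
      rw [← image_cfAut_Irr u V] at hθ
      obtain ⟨θ, hθ', rfl⟩ := Finset.mem_image.1 hθ
      obtain ⟨η, hη, rfl⟩ := h.dprod.sdProd.exists_irrKer_res hθ'
      rw [ip_cfAut_vchar' u hβ.mem_VChar (irr_mem_VChar hθ'), ← res_cfAut, ip_res_right,
        ip_res_right, ← conj_ip, ← conj_ip V (cfAut u η), h2 η hη, h2 _ (cfAut_mem_irrKer u hη)]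
      by_cases c : η = cf1 𝐂(P)
      · rw [c, cfAut_cf1]
      · rw [h.k0 b hν ν1 hη (cfAut_mem_irrKer u hη) c (fun e => c (cfAut_injective u
          (by rw [e, cfAut_cf1]))) ((irr_isChar (irrKer_subset _ _ hη)).cfAut_one u).symm
          (b.memN hχ)]
    have m0 : m ≠ 0 := fun e => c2 (h.type_n (irr_isChar hi) (irr_one_eq hi) ty hz z1 hq ho
      (by rw [h1 z hz, hm, e]; simp))
    refine ⟨?_, ?_⟩
    · have e : χ z = (δ χ + p * m : ℤ) := by rw [h1 z hz, hm]; push_cast; rfl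
      rw [e, Complex.norm_intCast, sq_abs]
      obtain ⟨s, rfl⟩ : ∃ s, p = s + 1 := ⟨p - 1, by have := h.hp.pos; omega⟩
      rw [Nat.add_sub_cancel]
      have : (s : ℤ) ^ 2 ≤ (δ χ + (s + 1 : ℕ) * m) ^ 2 := by
        rw [sq_le_sq, abs_of_nonneg (Int.natCast_nonneg s), le_abs]
        push_cast
        rcases lt_or_gt_of_ne m0 with c | c <;> rcases b.sg χ hχ with e | e <;> rw [e]
        · right; nlinarith
        · right; nlinarith
        · left; nlinarith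
        · left; nlinarith
      exact_mod_cast this
    · rcases ty with ⟨a, a', -⟩ | ⟨a, a', -⟩ | ⟨v, v', ab, -⟩
      · exact (c2 ⟨a, a'⟩).elim
      · have p0 : (p : ℂ) ≠ 0 := Nat.cast_ne_zero.2 h.hp.ne_zero
        have β1 : β 1 = 1 := by
          have := h1 1 (one_mem V)
          rw [irr_one_eq hi, a] at this
          have e : (dg χ : ℂ) + 1 = p := by exact_mod_cast a'
          refine mul_left_cancel₀ p0 ?_
          push_cast at this
          linear_combination e - this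
        have lin := hβ.isLin β1
        refine (z1 (h.faithful hi c1 ?_)).elim
        rw [h1 z hz, h1 1 (one_mem V), β1, lin.mem_cfKer_iff.1 (lin.der_le_cfKer (hV.ge hz))]
      · exact ⟨v, v', ab⟩
  have k1 : K.Nonempty := by
    by_contra c
    exact h.not_all_n b fun χ hχ c1 => by_contra fun c2 => c ⟨χ, Finset.mem_filter.2 ⟨hχ, c1, c2⟩⟩
  obtain ⟨v, v', ab⟩ := (big _ k1.choose_spec).2
  have h1 : K.card * (p - 1) ^ 2 ≤ 𝐨(𝐂[z]) := by
    have h2 := sum_irr_norm_sq (mem_top z)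
    rw [top_inf_eq] at h2
    have h3 := (Finset.card_nsmul_le_sum K _ _ fun χ hχ => (big χ hχ).1).trans
      (Finset.sum_le_sum_of_subset_of_nonneg (fun χ hχ => b.irrN (Finset.mem_filter.1 hχ).1)
        fun _ _ _ => by positivity)
    rw [h2, nsmul_eq_mul] at h3
    exact_mod_cast h3
  set Kn := (NE.erase (cf1 ⊤)).filter fun χ => δ χ = 1 ∧ dg χ = 1 + r * p with hKn
  have eK : K = (NE.erase (cf1 ⊤)).filter fun χ => ¬ (δ χ = 1 ∧ dg χ = 1 + r * p) := by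
    ext χ
    simp only [hK, Finset.mem_filter, Finset.mem_erase]
    tauto
  have he : e = 1 + K.card + Kn.card := by
    rw [← b.cN, ← Finset.card_erase_add_one b.one, eK, hKn,
      ← Finset.card_filter_add_card_filter_not (s := NE.erase (cf1 ⊤))
        fun χ => δ χ = 1 ∧ dg χ = 1 + r * p]
    omega
  obtain ⟨θ, hθ⟩ := h.exists_ex b
  have h2 := h.deg_eq b hθ
  have h3 := (h.tyE b h.card_le hθ).ge ab
  have h4 := Finset.card_nsmul_le_sum K (fun χ => δ χ * (dg χ : ℤ)) _ fun χ hχ =>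
    (h.tyN b h.card_le (Finset.mem_filter.1 hχ).1 (Finset.mem_filter.1 hχ).2.1).ge ab
  rw [← Finset.add_sum_erase _ _ b.one, ← Finset.sum_filter_add_sum_filter_not _
    fun χ => δ χ = 1 ∧ dg χ = 1 + r * p, ← eK, ← hKn, h.δ_one b, dg_cf1,
    Finset.sum_congr (s₁ := Kn) rfl (g := fun _ => (1 + r * p : ℤ)) fun χ hχ => by
      rw [(Finset.mem_filter.1 hχ).2.1, (Finset.mem_filter.1 hχ).2.2]; simp,
    Finset.sum_const, nsmul_eq_mul] at h2
  refine v1_num ab h.rp h.ht he k1.card_pos ?_ ((Nat.mul_le_mul_left 3 h1).trans cz)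
  have := h.t_pos
  rw [nsmul_eq_mul] at h4
  push_cast at h2 h3
  zify
  by_contra c
  have h5 : (v' * (p + v) : ℤ) < -(δ0 * dg θ) := by nlinarith
  nlinarith [show (0 : ℤ) ≤ v' * (p + v) by positivity]

end HV

end Cfsg.Agent.P12
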