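/-
P12: the main theorem.
-/
import Cfsg.Agent.P12.MS
import Cfsg.Agent.P12.V1
import Cfsg.Agent.P12.Lat

set_option autoImplicit false

namespace Cfsg.Agent.P12

open Subgroup Cfsg Cfsg.Agent Cfsg.Agent.FT Cfsg.Agent.P1 Cfsg.Agent.H7.PCl
open scoped ComplexConjugate

universe u

variable {G : Type u} [Group G] [Finite G]

theorem card_cent_of_isConj {a b : G} (h : IsConj a b) : 𝐨(𝐂[b]) = 𝐨(𝐂[a]) := by
  obtain ⟨c, rfl⟩ := isConj_iff.1 h
  rw [cent1_conj, card_conj]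

theorem Star.l33 {P : Subgroup G} {r : ℕ} {NE EX : Finset (G → ℂ)} {δ : (G → ℂ) → ℤ} {θ St : G → ℂ}
    (s : Star P 13 r 3 NE EX δ θ St) : L33 G := by
  classical
  have cG : Nat.card G = 5616 := s.cG
  have hc := irr_isChar s.irrθ
  have θ1 : θ 1 = (16 : ℤ) := by rw [hc.one_eq, s.dθ]; norm_num
  have cj : ∀ {a b : G}, IsConj a b → iv θ b = iv θ a := fun h => by
    obtain ⟨c, rfl⟩ := isConj_iff.1 h
    rw [iv, iv, CF_conj hc.mem_CF (mem_top c)]
  have cR : ∀ {a b : G}, IsConj a b → a ∈ regSet 13 ⊤ \ {1} → b ∈ regSet 13 ⊤ \ {1} := fun h ha => by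
    obtain ⟨c, rfl⟩ := isConj_iff.1 h
    exact ⟨(conj_mem_regSet_iff (le_normalizer (mem_top c)) _).2 ha.1,
      fun e => ha.2 (conj_eq_one_iff.1 e)⟩
  have h3 : ∀ g : G, g ≠ 1 → ∀ k, g ^ 3 ^ k = 1 → g ∈ regSet 13 ⊤ \ {1} ∧ 3 ∣ iv θ g - 16 :=
    fun g g1 k hk => by
      have hg := s.h.mem_R.2 ⟨g1, fun c => absurd ((Nat.Prime.dvd_of_dvd_pow (by norm_num)
        (c.trans (orderOf_dvd_of_pow_eq_one hk)))) (by norm_num)⟩
      exact ⟨hg, dvd_of_val Nat.prime_three hc.mem_VChar (mem_top g) (mem_top 1) hk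
        (Commute.one_right g) (by rw [mul_one, (s.int_val hg).1]) θ1⟩
  have h4 : ∀ g ∈ regSet 13 ⊤ \ {1}, iv θ g ≠ 0 → g ^ 3 ^ 3 = 1 := fun g hg c =>
    orderOf_dvd_iff_pow_eq_one.1 (s.ord_dvd (s.h.mem_R.1 hg).2 fun d => c (by simp [iv, d]))
  obtain ⟨k, hk, hk', ho⟩ := s.h.exists_k
  obtain ⟨k1, k2⟩ := s.val_k hk hk'
  have kR := (s.h.mem_R (g := k)).2 ⟨fun c => hk' (c ▸ one_mem P), s.h.reg hk hk'⟩
  have k3 : iv θ k = 1 := by simp [iv, k1]
  have k4 : 𝐨(𝐂[k]) ≤ 9 := by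
    obtain ⟨x, hx, x1⟩ := s.h.exists_gen
    obtain ⟨_, ⟨m, rfl⟩, hU⟩ := s.h.struct hx x1 k k
    rw [s.b.sum_B0, s.sumN, k2, cf1_of_mem (mem_top x), cf1_of_mem (mem_top k), (isLin_cf1 ⊤).dg,
      Finset.sum_eq_zero fun χ hχ => by
        rw [s.h.val_zero (irr_isChar (s.b.irrN (s.memM hχ))) (s.hM χ hχ).2.2 hk hk']; simp,
      Finset.sum_congr (s₁ := EX) rfl fun θ' h' => by
        rw [s.b.reg _ h' _ s.hθ k (s.h.reg hk hk'), s.h.dg_ex s.b h' s.hθ, k1, map_one, mul_one,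
          mul_one], ← Finset.sum_div, s.b.val0 x hx x1, s.dθ, cG] at hU
    have h5 : 𝐨(𝐂[k]) * (𝐨(𝐂[k]) * m) = 5265 := by
      exact_mod_cast hU.trans (show _ = ((5265 : ℕ) : ℂ) by norm_num)
    generalize 𝐨(𝐂[k]) = c at h5
    have : c ≤ 72 := by
      rcases m with _ | m
      · simp at h5
      · nlinarith [Nat.zero_le (c * (c * m))]
    interval_cases c <;> omega
  have k5 := L.ncard_isConj_mul_card_centralizer k
  have kK : {x | IsConj k x} ⊆ regSet 13 ⊤ \ {1} := fun x hx => cR hx kR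
  have S1 := s.sum_iv
  have S2 := s.sum_sq
  rw [sum_fs_diff kK, sum_fs_congr fun x hx => by rw [cj hx, k3], Finset.sum_const, card_fs,
    nsmul_eq_mul] at S1 S2
  norm_num only at S1 S2
  have h5 : ∀ g ∈ fs ((regSet 13 ⊤ \ {1}) \ {x | IsConj k x}), 0 ≤ iv θ g ^ 2 + 2 * iv θ g :=
    fun g hg => by
      by_cases c : iv θ g = 0
      · simp [c]
      · have := (h3 g (mem_fs.1 hg).1.2 3 (h4 g (mem_fs.1 hg).1 c)).2
        rcases (show iv θ g ≤ -2 ∨ 0 ≤ iv θ g by omega) with d | d <;> nlinarith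
  have h6 := Finset.sum_nonneg h5
  have h7 : {x | IsConj k x}.ncard = 624 := by
    rw [Finset.sum_add_distrib, ← Finset.mul_sum] at h6
    have := Nat.mul_le_mul_left {x | IsConj k x}.ncard k4
    omega
  have h8 := (Finset.sum_eq_zero_iff_of_nonneg h5).1 (by
    rw [Finset.sum_add_distrib, ← Finset.mul_sum]; omega)
  let A : Set G := {g | g ∈ regSet 13 ⊤ \ {1} ∧ iv θ g = -2}
  have h9 : ∀ g ∈ regSet 13 ⊤ \ {1}, iv θ g ≠ 0 → ¬ IsConj k g → g ∈ A := fun g hg c d =>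
    ⟨hg, mul_left_cancel₀ c (by linear_combination h8 g (mem_fs.2 ⟨hg, d⟩))⟩
  have hA : A.ncard = 104 := by
    rw [← sum_fs_subset (A := A) (B := (regSet 13 ⊤ \ {1}) \ {x | IsConj k x}) (fun g hg => ⟨hg.1, fun c => by
      have := hg.2; rw [cj c, k3] at this; omega⟩) fun g hg c => by_contra fun d =>
        c (h9 g hg.1 d hg.2), sum_fs_congr fun g hg => hg.2, Finset.sum_const, card_fs,
      nsmul_eq_mul] at S1
    omega
  obtain ⟨z, hz⟩ := Set.nonempty_of_ncard_ne_zero (hA ▸ by norm_num : A.ncard ≠ 0)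
  have z1 := L.ncard_isConj_mul_card_centralizer z
  have z2 : {x | IsConj z x} ⊆ A := fun x hx => ⟨cR hx hz.1, (cj hx).trans hz.2⟩
  have z3 : {x | IsConj z x}.ncard = 104 := by
    have d1 := irr_central_isIntegral s.irrθ (mem_top z)
    rw [relIndex_top_right, H6.index_centralizer_eq_ncard, (s.int_val hz.1).1, hz.2, θ1] at d1
    have d2 := H6.dvd_of_isIntegral_div (a := {x | IsConj z x}.ncard * -2) (b := 16) (by norm_num)
      (by exact_mod_cast d1)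
    have d3 := ((Nat.Prime.dvd_mul (by norm_num : Nat.Prime 13)).1 (by rw [z1, cG]; norm_num)).resolve_right
      (s.h.not_dvd_cent hz.1.2 (s.h.mem_R.1 hz.1).2)
    have d4 := Set.ncard_le_ncard z2
    have d5 : {x | IsConj z x}.ncard ≠ 0 := fun c => by rw [c] at z1; omega
    omega
  have z4 := Set.eq_of_subset_of_ncard_le z2 (by omega)
  have z5 : 𝐨(𝐂[z]) = 54 := by rw [z3, cG] at z1; omega
  have k6 : 𝐨(𝐂[k]) = 9 := by rw [h7, cG] at k5; omega
  have h10 : ∀ g : G, g ≠ 1 → ∀ i, g ^ 3 ^ i = 1 → IsConj z g ∨ IsConj k g := fun g g1 i hi =>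
    or_iff_not_imp_right.2 fun c => z4.ge (h9 g (h3 g g1 i hi).1 (by
      have := (h3 g g1 i hi).2; omega) c)
  have z6 := h4 z hz.1 (by rw [hz.2]; norm_num)
  have oc : ∀ {a b : G}, IsConj a b → orderOf b = orderOf a := fun h => by
    obtain ⟨c, rfl⟩ := isConj_iff.1 h
    simpa using orderOf_conj' c⁻¹ _
  refine ⟨cG, z, orderOf_eq_prime (by_contra fun c => ?_) hz.1.2, z5, fun g g1 ⟨i, hi⟩ =>
    (h10 g g1 i hi).imp_right fun c => ⟨(oc c).trans ho, (card_cent_of_isConj c).trans k6⟩,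
    fun R hR => ?_⟩
  · rcases h10 _ c 2 (by rw [← pow_mul, ← z6]; rfl) with d | d
    · have := oc d
      obtain ⟨i, -, hi⟩ := (Nat.dvd_prime_pow Nat.prime_three).1 (orderOf_dvd_of_pow_eq_one z6)
      rcases i with _ | i
      · exact hz.1.2 (orderOf_eq_one_iff.1 hi)
      · rw [orderOf_pow, hi, pow_succ, Nat.gcd_mul_left_left, Nat.mul_div_cancel _ three_pos] at this
        have := Nat.pow_pos (n := i) three_pos
        omega
    · have := card_le_of_le (show 𝐂[z] ≤ 𝐂[z ^ 3] from fun x hx =>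
        mem_cent1.2 (Commute.pow_left (mem_cent1.1 hx) 3))
      rw [card_cent_of_isConj d] at this
      omega
  · have hs : {h | h ∈ R ∧ IsConj z h} ⊆ sharp R := fun x hx => ⟨hx.1, (z2 hx.2).1.2⟩
    have r1 := ell_mul R hc
    have r2 := sum_fs_diff hs fun _ => 1
    rw [sum_fs_diff hs, sum_fs_congr fun x hx => by rw [(s.int_val (z2 hx.2).1).1, (z2 hx.2).2],
      sum_fs_congr (A := sharp R \ _) fun x hx => by
        have c := (h10 x hx.1.2 3 (by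
          rw [← orderOf_dvd_iff_pow_eq_one]; exact (orderOf_dvd_card_of_mem hx.1.1).trans hR.dvd)).resolve_left
          fun d => hx.2 ⟨hx.1.1, d⟩
        rw [(s.int_val (kK c)).1, cj c, k3], Finset.sum_const, Finset.sum_const, s.dθ, hR,
      nsmul_eq_mul, nsmul_eq_mul] at r1
    simp only [← Finset.card_eq_sum_ones] at r2
    rw [card_fs, ncard_sharp, hR] at r2
    have r3 : ((fs {h | h ∈ R ∧ IsConj z h}).card : ZMod 2) = 0 := by
      rw [Finset.card_eq_sum_ones, Nat.cast_sum]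
      refine Finset.sum_involution (fun a _ => a⁻¹) (fun _ _ => rfl) (fun a ha _ c => ?_)
        (fun a ha => mem_fs.2 ⟨inv_mem (mem_fs.1 ha).1, z4.ge ⟨⟨(inv_mem_regSet_iff a).2
          (z2 (mem_fs.1 ha).2).1.1, fun c => (z2 (mem_fs.1 ha).2).1.2 (inv_eq_one.1 c)⟩, ?_⟩⟩)
        fun a _ => inv_inv a
      · have a1 := z2 (mem_fs.1 ha).2
        exact a1.1.2 (orderOf_eq_one_iff.1 (Nat.eq_one_of_dvd_coprimes (by norm_num)
          (orderOf_dvd_of_pow_eq_one (h4 a a1.1 (by rw [a1.2]; norm_num)))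
          (orderOf_dvd_of_pow_eq_one (n := 2) (by rw [pow_two, ← mul_inv_cancel a, c]))))
      · have a1 := z2 (mem_fs.1 ha).2
        rw [iv, hc.apply_inv, Complex.conj_re]
        exact a1.2
    rw [ZMod.natCast_eq_zero_iff] at r3
    rw [← card_fs]
    have r4 : (16 + ((fs {h | h ∈ R ∧ IsConj z h}).card * -2 +
      (fs (sharp R \ {h | h ∈ R ∧ IsConj z h})).card * 1) : ℤ) = ell R θ * 27 := by exact_mod_cast r1
    omega

theorem mainStmt : MainStmt.{u} := by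
  intro G _ _ P p r e t h
  classical
  obtain ⟨V, h⟩ := h.exists_hv
  obtain ⟨NE, EX, δ, δ0, b⟩ := h.exists_blk latStmt
  obtain rfl := h.v_eq_bot b
  refine ⟨h.hC, ?_⟩
  obtain ⟨θ, hθ⟩ := h.exists_ex b
  rcases h.tyE b h.hV hθ with ⟨e1, e2, e3⟩ | ⟨-, e2, e3⟩ | ⟨v, v', ab, hE⟩
  · exact (h.caseB b hθ (fun v v' => h.no_ab b hθ (.inr ⟨e2, e3⟩)) e1 e2 e3).imp_right .inl
  · exact .inl (h.caseA b hθ e2 e3)
  have hN : ∀ χ ∈ NE.erase (cf1 ⊤), TyC p v v' (dg χ) (δ χ) (ell P χ) := fun χ hχ => by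
    obtain ⟨c1, c2⟩ := Finset.mem_erase.1 hχ
    rcases h.tyN b h.hV c2 c1 with ⟨-, e2⟩ | e1 | ⟨w, w', ab', e1⟩
    · exact (h.no_ab b hθ (.inl ⟨χ, c2, e2⟩) ab).elim
    · exact .inl e1
    · obtain ⟨rfl, rfl⟩ := ab.unique ab'
      exact .inr e1
  have h1 := h.caseC1 b ab hθ hN hE
  rcases hE with ⟨e1, -, e3⟩ | ⟨e1, e2, e3⟩
  · exact (h1 (Dvd.intro _ e3) (h.caseC2 b ab hθ hN e1 e3)).elim
  replace hN := fun χ hχ => (or_assoc.2 (hN χ hχ)).resolve_right fun c =>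
    h1 (h.dvd_of_b b ab (Finset.mem_erase.1 hχ).2 c.2.1) (Dvd.intro _ e3)
  by_cases c : ∀ χ ∈ NE.erase (cf1 ⊤), δ χ = 1
  · exact .inr (.inr (.inl (h.caseC3a b ab hθ e1 e2 e3 fun χ hχ => (hN χ hχ).resolve_left
      fun d => by have := c χ hχ; omega)))
  push Not at c
  obtain ⟨χ, hχ, c⟩ := c
  obtain ⟨-, c1, c2⟩ := (hN χ hχ).resolve_right fun d => c d.1
  have h2 := h.even_of_m b (Finset.mem_erase.1 hχ).2 c1 c2
  obtain ⟨rfl, rfl, rfl, St, s1, s2, s3, s4⟩ := h.caseC3b b ab hθ e1 e2 e3 hN h2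
    (h.dvd_of_m b (Finset.mem_erase.1 hχ).2 c1)
  subst e1
  have hr := ab.hr
  have s : Star P p r e NE EX δ θ St := ⟨h, b, by nlinarith, hθ, by
    rw [Nat.eq_of_mul_eq_mul_left e.succ_pos e2, ← h.ht]; ring, s1, s2, s3, s4⟩
  obtain rfl : e = 3 := by
    have := s.le_three
    have := h.e2
    rw [Nat.even_iff] at h2
    omega
  obtain rfl : p = 13 := s.p_eq
  exact .inr (.inr (.inr ⟨rfl, by omega, rfl, s.l33⟩))

end Cfsg.Agent.P12
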