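/-
P12, chapter REC, part 1: the projective plane of order three.
-/
import Cfsg.Agent.P12.Fin2

set_option autoImplicit false

namespace Cfsg.Agent.P12.PG

open Subgroup MulAction Matrix

/-- The base line. -/
def D (t : ZMod 13) : Prop := t = 0 ∨ t = 1 ∨ t = 3 ∨ t = 9

instance : DecidablePred D := fun t => inferInstanceAs (Decidable (t = 0 ∨ t = 1 ∨ t = 3 ∨ t = 9))

/-- Collinearity. -/
def col (a b c : ZMod 13) : Prop := ∃ i, D (a - i) ∧ D (b - i) ∧ D (c - i)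

instance (a b c : ZMod 13) : Decidable (col a b c) :=
  inferInstanceAs (Decidable (∃ i, D (a - i) ∧ D (b - i) ∧ D (c - i)))

/-- Collineations. -/
def Aut : Subgroup (Equiv.Perm (ZMod 13)) where
  carrier := {σ | ∀ a b c, col (σ a) (σ b) (σ c) ↔ col a b c}
  one_mem' := fun _ _ _ => Iff.rfl
  mul_mem' := fun {σ τ} h1 h2 a b c => (h1 _ _ _).trans (h2 a b c)
  inv_mem' := fun {σ} h a b c => by
    rw [← h]; simp

/-- Point stabilizers. -/
abbrev st (x : ZMod 13) : Subgroup (Equiv.Perm (ZMod 13)) := stabilizer _ x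

theorem card_mul {K : Subgroup (Equiv.Perm (ZMod 13))} (x : ZMod 13) (T : Finset (ZMod 13))
    (h : ∀ k ∈ K, k x ∈ T) : Nat.card K ≤ Nat.card (K ⊓ st x : Subgroup _) * T.card := by
  have h1 := P10K.index_inf_stab K x (S := {y | ∃ k ∈ K, k • x = y}) fun _ => Iff.rfl
  have h2 : {y | ∃ k ∈ K, k • x = y}.ncard ≤ T.card := by
    rw [← Set.ncard_coe_finset]
    exact Set.ncard_le_ncard (by rintro _ ⟨k, hk, rfl⟩; exact h k hk)
  have h3 := (K ⊓ st x).card_mul_index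
  rw [h1, ← K.card_mul_index, mul_comm K.index, ← mul_assoc] at h3
  rw [← Nat.eq_of_mul_eq_mul_right (Nat.pos_of_ne_zero K.index_ne_zero_of_finite) h3]
  exact Nat.mul_le_mul_left _ h2

theorem fix_step {σ : Equiv.Perm (ZMod 13)} (h : σ ∈ Aut) {a b c d q : ZMod 13} (ha : σ a = a)
    (hb : σ b = b) (hc : σ c = c) (hd : σ d = d) (h1 : ∀ t, col a b t ∧ col c d t ↔ t = q) :
    σ q = q := by
  have h2 := (h1 q).2 rfl
  rw [← h a, ← h c, ha, hb, hc, hd] at h2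
  exact (h1 _).1 h2

theorem card_Aut : Nat.card Aut ≤ 5616 := by
  have a1 := card_mul (K := Aut) 0 Finset.univ (by simp)
  have a2 := card_mul (K := Aut ⊓ st 0) 1 (Finset.univ.filter (· ≠ 0)) (fun k hk => by
    have h0 : k 0 = 0 := hk.2
    simp only [Finset.mem_filter, Finset.mem_univ, true_and]
    rw [← h0]; exact k.injective.ne (by decide))
  have a3 := card_mul (K := Aut ⊓ st 0 ⊓ st 1) 2
    (Finset.univ.filter fun t => ¬ col 0 1 t) (fun k hk => by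
    have h0 : k 0 = 0 := hk.1.2
    have h1 : k 1 = 1 := hk.2
    simp only [Finset.mem_filter, Finset.mem_univ, true_and]
    rw [← h0, ← h1, hk.1.1]; decide)
  have a4 := card_mul (K := Aut ⊓ st 0 ⊓ st 1 ⊓ st 2) 5
    (Finset.univ.filter fun t => ¬ col 0 1 t ∧ ¬ col 0 2 t ∧ ¬ col 1 2 t) (fun k hk => by
    have h0 : k 0 = 0 := hk.1.1.2
    have h1 : k 1 = 1 := hk.1.2
    have h2 : k 2 = 2 := hk.2
    simp only [Finset.mem_filter, Finset.mem_univ, true_and]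
    rw [← h0, ← h1, ← h2, hk.1.1.1, hk.1.1.1, hk.1.1.1]; decide)
  have a5 : Aut ⊓ st 0 ⊓ st 1 ⊓ st 2 ⊓ st 5 = ⊥ := by
    refine eq_bot_iff.2 fun k hk => ?_
    have h := hk.1.1.1.1
    have h0 : k 0 = 0 := hk.1.1.1.2
    have h1 : k 1 = 1 := hk.1.1.2
    have h2 : k 2 = 2 := hk.1.2
    have h5 : k 5 = 5 := hk.2
    have h3 : k 3 = 3 := fix_step h h0 h1 h2 h5 (by decide)
    have h4 : k 4 = 4 := fix_step h h0 h5 h1 h2 (by decide)
    have h6 : k 6 = 6 := fix_step h h1 h5 h3 h4 (by decide)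
    have h7 : k 7 = 7 := fix_step h h0 h5 h2 h6 (by decide)
    have h8 : k 8 = 8 := fix_step h h0 h2 h1 h5 (by decide)
    have h9 : k 9 = 9 := fix_step h h0 h1 h2 h6 (by decide)
    have h10 : k 10 = 10 := fix_step h h0 h6 h1 h2 (by decide)
    have h11 : k 11 = 11 := fix_step h h0 h6 h1 h7 (by decide)
    have h12 : k 12 = 12 := fix_step h h0 h2 h1 h7 (by decide)
    refine Equiv.ext fun t => ?_
    fin_cases t <;> assumption
  rw [a5, card_bot, show (Finset.univ.filter fun t => ¬ col 0 1 t ∧ ¬ col 0 2 t ∧ ¬ col 1 2 t).card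
    = 4 by decide] at a4
  rw [show (Finset.univ.filter fun t => ¬ col 0 1 t).card = 9 by decide] at a3
  rw [show (Finset.univ.filter (· ≠ (0 : ZMod 13))).card = 12 by decide] at a2
  rw [show (Finset.univ : Finset (ZMod 13)).card = 13 by decide] at a1
  omega

theorem range_eq {G : Type*} [Group G] (φ : G →* Equiv.Perm (ZMod 13)) (hφ : Function.Injective φ)
    (hc : Nat.card G = 5616) (h : ∀ g a b c, col a b c → col (φ g a) (φ g b) (φ g c)) :
    φ.range = Aut := by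
  refine Subgroup.eq_of_le_of_card_ge ?_ (by
    rw [← Nat.card_congr (MonoidHom.ofInjective hφ).toEquiv, hc]; exact card_Aut)
  rintro _ ⟨g, rfl⟩ a b c
  exact ⟨fun h1 => by simpa using h g⁻¹ _ _ _ h1, h g a b c⟩

/-- Coordinates of the points. -/
def pt : ZMod 13 → Fin 3 → ZMod 3 :=
  ![![1, 0, 0], ![0, 1, 0], ![0, 0, 1], ![1, 1, 0], ![0, 1, 1], ![1, 1, 1], ![1, 2, 1], ![1, 2, 2],
    ![1, 0, 1], ![1, 2, 0], ![0, 1, 2], ![1, 1, 2], ![1, 0, 2]]

/-- Table of labels. -/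
def tab : ZMod 3 → ZMod 3 → ZMod 3 → ZMod 13 :=
  ![![![0, 2, 2], ![1, 4, 10], ![1, 10, 4]], ![![0, 8, 12], ![3, 5, 11], ![9, 6, 7]],
    ![![0, 12, 8], ![9, 7, 6], ![3, 11, 5]]]

/-- The label of a vector. -/
def idx (v : Fin 3 → ZMod 3) : ZMod 13 := tab (v 0) (v 1) (v 2)

theorem idx_pt : ∀ a, idx (pt a) = a := by decide

theorem pt_ne : ∀ a, pt a ≠ 0 := by decide

theorem idx_neg : ∀ v, idx (-v) = idx v := by decide

theorem pt_idx : ∀ v, v ≠ 0 → pt (idx v) = v ∨ pt (idx v) = -v := by decide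

theorem col_iff : ∀ a b c, col a b c ↔
    ∃ l : Fin 3 → ZMod 3, l ≠ 0 ∧ l ⬝ᵥ pt a = 0 ∧ l ⬝ᵥ pt b = 0 ∧ l ⬝ᵥ pt c = 0 := by
  decide +kernel

/-- The group `SL(3,3)`. -/
abbrev S3 := Matrix.SpecialLinearGroup (Fin 3) (ZMod 3)

theorem inv_mul' (M : S3) : (M⁻¹).1 * M.1 = 1 := congrArg Subtype.val (inv_mul_cancel M)

theorem mulVec_ne (M : S3) {v : Fin 3 → ZMod 3} (hv : v ≠ 0) : M.1 *ᵥ v ≠ 0 := fun h => hv (by
  rw [← one_mulVec v, ← inv_mul' M, ← mulVec_mulVec, h, mulVec_zero])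

/-- The action on the points. -/
@[reducible] def act : MulAction S3 (ZMod 13) where
  smul M a := idx (M.1 *ᵥ pt a)
  one_smul a := by
    change idx (1 *ᵥ pt a) = a
    rw [one_mulVec, idx_pt]
  mul_smul M N a := by
    change idx ((M.1 * N.1) *ᵥ pt a) = idx (M.1 *ᵥ pt (idx (N.1 *ᵥ pt a)))
    rw [← mulVec_mulVec]
    rcases pt_idx _ (mulVec_ne N (pt_ne a)) with h | h <;> rw [h]
    rw [mulVec_neg, idx_neg]

/-- The permutation representation. -/
def ψ : S3 →* Equiv.Perm (ZMod 13) := @MulAction.toPermHom S3 (ZMod 13) _ act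

theorem ψ_apply (M : S3) (a : ZMod 13) : ψ M a = idx (M.1 *ᵥ pt a) := rfl

set_option synthInstance.maxSize 4000 in
set_option synthInstance.maxHeartbeats 200000 in
theorem aux : ∀ a b c d e f g h i : ZMod 3, tab a d g = 0 → tab b e h = 1 → tab c f i = 2 →
    tab (a + b + c) (d + e + f) (g + h + i) = 5 →
    a * e * i - a * f * h - b * d * i + b * f * g + c * d * h - c * e * g = 1 →
    a = 1 ∧ b = 0 ∧ c = 0 ∧ d = 0 ∧ e = 1 ∧ f = 0 ∧ g = 0 ∧ h = 0 ∧ i = 1 := by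
  decide +kernel

theorem ψ_injective : Function.Injective ψ := by
  refine (injective_iff_map_eq_one ψ).2 fun M h => ?_
  have h1 : ∀ a, idx (M.1 *ᵥ pt a) = a := fun a => by rw [← ψ_apply, h]; rfl
  have h0 : pt 0 = ![1, 0, 0] ∧ pt 1 = ![0, 1, 0] ∧ pt 2 = ![0, 0, 1] ∧ pt 5 = ![1, 1, 1] := by
    decide
  obtain ⟨a, b, c, d, e, f, g, k, i⟩ := aux (M.1 0 0) (M.1 0 1) (M.1 0 2) (M.1 1 0) (M.1 1 1)
    (M.1 1 2) (M.1 2 0) (M.1 2 1) (M.1 2 2)
    (by simpa [idx, h0.1, mulVec, dotProduct, Fin.sum_univ_three] using h1 0)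
    (by simpa [idx, h0.2.1, mulVec, dotProduct, Fin.sum_univ_three] using h1 1)
    (by simpa [idx, h0.2.2.1, mulVec, dotProduct, Fin.sum_univ_three] using h1 2)
    (by simpa [idx, h0.2.2.2, mulVec, dotProduct, Fin.sum_univ_three] using h1 5)
    (by rw [← det_fin_three]; exact M.2)
  ext s t
  fin_cases s <;> fin_cases t <;> assumption

theorem ψ_range : ψ.range = Aut := by
  refine range_eq ψ ψ_injective (card_SL3 rfl) fun M a b c h => ?_
  obtain ⟨l, l0, h1, h2, h3⟩ := (col_iff _ _ _).1 h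
  have key : ∀ a, l ⬝ᵥ pt a = 0 → (l ᵥ* (M⁻¹).1) ⬝ᵥ pt (ψ M a) = 0 := fun a ha => by
    have e : (l ᵥ* (M⁻¹).1) ⬝ᵥ (M.1 *ᵥ pt a) = 0 := by
      rw [← dotProduct_mulVec, mulVec_mulVec, inv_mul', one_mulVec, ha]
    rw [ψ_apply]
    rcases pt_idx _ (mulVec_ne M (pt_ne a)) with h | h <;> rw [h]
    · exact e
    · rw [dotProduct_neg, e, neg_zero]
  refine (col_iff _ _ _).2 ⟨l ᵥ* (M⁻¹).1, fun e => l0 ?_, key a h1, key b h2, key c h3⟩
  rw [← vecMul_one l, ← inv_mul' M, ← vecMul_vecMul, e, zero_vecMul]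

theorem center_S3 : center S3 = ⊥ := eq_bot_iff.2 fun M hM => by
  obtain ⟨r, h1, h2⟩ := Matrix.SpecialLinearGroup.mem_center_iff.1 hM
  have : r = 1 := (by decide : ∀ r : ZMod 3, r ^ 3 = 1 → r = 1) r h1
  exact Subtype.ext (by rw [← h2, this]; simp)

theorem equiv {G : Type*} [Group G] (φ : G →* Equiv.Perm (ZMod 13)) (hφ : Function.Injective φ)
    (hc : Nat.card G = 5616) (h : ∀ g a b c, col a b c → col (φ g a) (φ g b) (φ g c)) :
    Nonempty (G ≃* ProjectiveSpecialLinearGroup (Fin 3) (ZMod 3)) :=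
  ⟨((MonoidHom.ofInjective hφ).trans (MulEquiv.subgroupCongr
    ((range_eq φ hφ hc h).trans ψ_range.symm))).trans ((MonoidHom.ofInjective ψ_injective).symm.trans
    ((QuotientGroup.quotientBot.symm).trans (QuotientGroup.quotientMulEquivOfEq center_S3.symm)))⟩

end Cfsg.Agent.P12.PG
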