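/-
P12, chapter REC, part 2: the 3-local structure.
-/
import Cfsg.Agent.P12.Rec1

set_option autoImplicit false
set_option linter.unusedSectionVars false

namespace Cfsg.Agent.P12

open Subgroup Cfsg Cfsg.Agent Cfsg.Agent.FT
open scoped IsMulCommutative commutatorElement

universe u

variable {G : Type u} [Group G] [Finite G]

theorem card_eq_mul_conj (K : Subgroup G) (x : G) {S : Set G}
    (h : ∀ y, y ∈ S ↔ ∃ k ∈ K, k * x * k⁻¹ = y) : 𝐨(K) = 𝐨(K ⊓ 𝐂[x]) * S.ncard := by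
  let i : MulAction G G := MulAction.compHom G (MulAut.conj : G →* MulAut G)
  have h1 := @P10K.index_inf_stab G G _ _ i K x S h
  have h2 : @MulAction.stabilizer G G _ i x = 𝐂[x] := by
    ext g; exact mem_cent1_iff_conj.symm
  have h3 := (K ⊓ 𝐂[x]).card_mul_index
  rw [← h2, h1, h2, ← K.card_mul_index, mul_comm K.index, ← mul_assoc] at h3
  exact (Nat.eq_of_mul_eq_mul_right (Nat.pos_of_ne_zero K.index_ne_zero_of_finite) h3).symm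

theorem mem_three {c y : G} (hc : orderOf c = 3) (hy : y ∈ zpowers c) :
    y = 1 ∨ y = c ∨ y = c⁻¹ := by
  classical
  rw [mem_zpowers_iff_mem_range_orderOf, hc] at hy
  simp only [Finset.mem_image, Finset.mem_range] at hy
  obtain ⟨i, hi, rfl⟩ := hy
  have h3 : c ^ 2 = c⁻¹ := by
    rw [eq_inv_iff_mul_eq_one, ← pow_succ]; have := pow_orderOf_eq_one c; rwa [hc] at this
  interval_cases i <;> simp [h3]

/-- The local configuration at an element with centralizer of order `54`. -/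
structure Loc (z : G) (R : Subgroup G) : Prop where
  ord : orderOf z = 3
  cz : 𝐨(𝐂[z]) = 54
  le : R ≤ 𝐂[z]
  cR : 𝐨(R) = 27
  nab : ∃ h ∈ R, 𝐨(𝐂[h]) = 9
  exp : ∀ h ∈ R, h ≠ 1 → orderOf h = 3

namespace Loc

variable {z a b : G} {R : Subgroup G} (h : Loc z R)
include h

theorem relIndex : R.relIndex 𝐂[z] = 2 := by
  have := H1.card_mul_relIndex h.le
  rw [h.cR, h.cz] at this
  omega

theorem pg : IsPGroup 3 R := isPGroup_of_card_eq (n := 3) h.cR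

theorem norm : 𝐂[z] ≤ 𝐍(R) :=
  (normal_subgroupOf_iff_le_normalizer h.le).1 (normal_of_index_eq_two h.relIndex)

theorem le_of {X : Subgroup G} (hX : IsPGroup 3 X) (hle : X ≤ 𝐂[z]) : X ≤ R :=
  (IsSyl.mk h.le h.pg (by rw [h.relIndex]; decide)).le_of_normal Nat.prime_three h.norm hX hle

theorem cZ : 𝐨(zpowers z) = 3 := (Nat.card_zpowers z).trans h.ord

theorem Z_le : zpowers z ≤ R :=
  h.le_of (isPGroup_of_card_prime h.cZ) (zpowers_le.2 (self_mem_cent1 z))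

theorem comm (ha : a ∈ R) (hb : b ∈ zpowers z) : b * a = a * b :=
  mem_cent1.1 (cent1_le_cent1_of_mem_zpowers hb (h.le ha))

theorem Z_le_A (ha : a ∈ R) : zpowers z ≤ R ⊓ 𝐂[a] :=
  le_inf h.Z_le fun _ hb => mem_cent1.2 (h.comm ha hb).symm

theorem A_eq (ha : a ∈ R) (hZ : a ∉ zpowers z) :
    𝐨(R ⊓ 𝐂[a]) = 9 ∧ zpowers a ⊔ zpowers z = R ⊓ 𝐂[a] := by
  have a1 : 𝐨(zpowers a) = 3 :=
    (Nat.card_zpowers a).trans (h.exp a ha fun e => hZ (e ▸ one_mem _))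
  have a2 : 𝐨(zpowers a ⊔ zpowers z) = 9 := by
    rw [H1.card_sup_of_inf_eq_bot ((zpowers_le.2 (h.le ha)).trans (cent_zpowers z ▸ cent_le_norm _))
      ((inf_eq_bot_or_le_of_card_prime (a1 ▸ Nat.prime_three) _).resolve_right
        fun e => hZ (e (mem_zpowers a))), a1, h.cZ]
  have a3 : zpowers a ⊔ zpowers z ≤ R ⊓ 𝐂[a] :=
    sup_le (zpowers_le.2 ⟨ha, self_mem_cent1 a⟩) (h.Z_le_A ha)
  have a4 : 𝐨(R ⊓ 𝐂[a]) = 9 := by
    have b1 := FT.card_dvd_of_le a3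
    have b2 := FT.card_dvd_of_le (inf_le_left : R ⊓ 𝐂[a] ≤ R)
    have b3 : 𝐨(R ⊓ 𝐂[a]) ≠ 27 := fun e => by
      have c1 : R ≤ 𝐂[a] := inf_eq_left.1 (H1.eq_of_le_of_card_le inf_le_left (by rw [e, h.cR]))
      have c2 : zpowers a ⊔ zpowers z ≤ 𝐂(R) := by
        rw [← cent_comm, cent_sup, cent_zpowers, cent_zpowers]; exact le_inf c1 h.le
      obtain ⟨k, hk, c3⟩ := h.nab
      have c4 := H1.eq_of_le_of_card_le (c2.trans (cent_le_cent1 hk)) (by rw [a2, c3])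
      have c5 := card_le_of_le (mem_cent_iff_cent1.1 (c2 (c4 ▸ self_mem_cent1 k)))
      rw [h.cR, c3] at c5
      omega
    rw [a2] at b1
    rw [h.cR] at b2
    have := Nat.le_of_dvd (by norm_num) b2
    obtain ⟨c, hc⟩ := b1
    rw [hc] at b2 b3 this ⊢
    have : c ≤ 3 := by omega
    interval_cases c <;> simp_all
  exact ⟨a4, H1.eq_of_le_of_card_le a3 (by rw [a2, a4])⟩

theorem A_comm (ha : a ∈ R) (hZ : a ∉ zpowers z) : IsMulCommutative ↥(R ⊓ 𝐂[a]) :=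
  have : Fact (Nat.Prime 3) := ⟨Nat.prime_three⟩
  IsPGroup.isMulCommutative_of_card_eq_prime_sq (p := 3) (h.A_eq ha hZ).1

theorem A_eq_of_le {A : Subgroup G} (hA : 𝐨(A) = 9) (hc : IsMulCommutative A) (hR : A ≤ R)
    (hb : b ∈ A) (hZ : b ∉ zpowers z) : A = R ⊓ 𝐂[b] :=
  H1.eq_of_le_of_card_le (le_inf hR ((isMulComm_iff_le_cent.1 hc).trans (cent_le_cent1 hb)))
    (by rw [hA, (h.A_eq (hR hb) hZ).1])

theorem A_eq_of_mem (ha : a ∈ R) (hZ : a ∉ zpowers z) (hb : b ∈ R ⊓ 𝐂[a]) (hZ' : b ∉ zpowers z) :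
    R ⊓ 𝐂[a] = R ⊓ 𝐂[b] := h.A_eq_of_le (h.A_eq ha hZ).1 (h.A_comm ha hZ) inf_le_left hb hZ'

theorem der_le_A (ha : a ∈ R) (hZ : a ∉ zpowers z) : ⁅R, R⁆ ≤ R ⊓ 𝐂[a] :=
  der_le_of_relIndex Nat.prime_three h.pg (by
    have := H1.card_mul_relIndex (inf_le_left : R ⊓ 𝐂[a] ≤ R)
    rw [(h.A_eq ha hZ).1, h.cR] at this
    omega)

theorem der : ⁅R, R⁆ ≤ zpowers z := fun c hc => by
  by_contra hZ
  have a1 := (h.A_eq (der_le R hc) hZ).1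
  have a2 : R ≤ 𝐂[c] := fun a ha => by
    by_cases e : a ∈ zpowers z
    · exact (h.Z_le_A (der_le R hc) e).2
    · exact mem_cent1_comm.1 (h.der_le_A ha e hc).2
  rw [inf_eq_left.2 a2, h.cR] at a1
  omega

theorem conj_mul (ha : a ∈ R) (hZ : a ∉ zpowers z) (hb : b ∈ zpowers z) :
    ∃ g ∈ R, g * a * g⁻¹ = b * a := by
  obtain ⟨g, hg, h1⟩ : ∃ g ∈ R, g ∉ 𝐂[a] := by
    by_contra c
    push Not at c
    have := (h.A_eq ha hZ).1
    rw [inf_eq_left.2 c, h.cR] at this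
    omega
  have key : ∀ k ∈ R, k * a * k⁻¹ = ⁅k, a⁆ * a := fun k _ => by simp [commutatorElement_def]
  have a1 := h.der (commutator_mem_commutator hg ha)
  have a2 : ⁅g, a⁆ ≠ 1 := fun e => h1 (mem_cent1.2 (commutatorElement_eq_one_iff_mul_comm.1 e).symm)
  rw [← zpowers_eq_of_card_prime (h.cZ ▸ Nat.prime_three) a1 a2] at hb
  rcases mem_three (h.exp _ (h.Z_le a1) a2) hb with rfl | rfl | rfl
  · exact ⟨1, one_mem _, by simp⟩
  · exact ⟨g, hg, key g hg⟩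
  · refine ⟨g⁻¹, inv_mem hg, ?_⟩
    have a3 := h.comm hg a1
    calc g⁻¹ * a * g⁻¹⁻¹ = ⁅g, a⁆⁻¹ * (g⁻¹ * (g * ⁅g, a⁆ * g⁻¹) * a * g) := by group
      _ = ⁅g, a⁆⁻¹ * (g⁻¹ * (⁅g, a⁆ * a) * g) := by rw [← a3]; group
      _ = _ := by rw [← key g hg]; group

theorem conj_A {w : G} (hw : w ∈ 𝐍(R)) : (R ⊓ 𝐂[a]) ^ᵍ w = R ⊓ 𝐂[w * a * w⁻¹] := by
  rw [conj_inf, conj_eq_of_mem_norm hw, cent1_conj]

theorem cent_le (ha : a ∈ R) (hZ : a ∉ zpowers z) : 𝐂[z] ≤ 𝐍(R ⊓ 𝐂[a]) := by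
  obtain ⟨s, hs, s2⟩ := exists_mem_orderOf_eq_prime Nat.prime_two (show 2 ∣ 𝐨(𝐂[z]) by rw [h.cz]; decide)
  have ss : s * s = 1 := by rw [← sq, ← s2, pow_orderOf_eq_one]
  have si : s⁻¹ = s := inv_eq_of_mul_eq_one_right ss
  have a1 : R ⊔ zpowers s = 𝐂[z] := by
    have b1 : R ⊔ zpowers s ≤ 𝐂[z] := sup_le h.le (zpowers_le.2 hs)
    refine H1.eq_of_le_of_card_le b1 (Nat.le_of_dvd Nat.card_pos ?_)
    have b2 := FT.card_dvd_of_le (le_sup_left : R ≤ R ⊔ zpowers s)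
    have b3 := orderOf_dvd_card_of_mem (mem_sup_right (mem_zpowers s) : s ∈ R ⊔ zpowers s)
    rw [h.cR] at b2
    rw [s2] at b3
    rw [h.cz]
    omega
  rw [← a1]
  refine sup_le (le_norm_of_der_le (h.der_le_A ha hZ) inf_le_left) (zpowers_le.2 ?_)
  have b1 : s * a * s⁻¹ ∈ R := (mem_normalizer_iff.1 (h.norm hs) a).1 ha
  have b2 : s * a * s⁻¹ ∉ zpowers z := fun e => by
    have := mem_cent1_iff_conj.1 (cent1_le_cent1_of_mem_zpowers e hs)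
    rw [← this, si] at e
    apply hZ
    simpa [← mul_assoc, ss, mul_assoc _ s s] using e
  have b3 := h.der (commutator_mem_commutator ha b1)
  have b4 : s * ⁅a, s * a * s⁻¹⁆ * s⁻¹ = ⁅a, s * a * s⁻¹⁆⁻¹ := by
    rw [commutatorElement_inv, conjugate_commutatorElement, si]
    simp [← mul_assoc, ss, mul_assoc _ s s]
  rw [mem_cent1_iff_conj.1 (cent1_le_cent1_of_mem_zpowers b3 hs)] at b4
  have b5 : ⁅a, s * a * s⁻¹⁆ = 1 := by
    by_contra c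
    have := orderOf_dvd_of_pow_eq_one (show ⁅a, s * a * s⁻¹⁆ ^ 2 = 1 by
      rw [sq, mul_eq_one_iff_eq_inv]; exact b4)
    rw [h.exp _ (h.Z_le b3) c] at this
    omega
  rw [← conj_eq_self_iff, h.conj_A (h.norm hs)]
  exact (h.A_eq_of_mem ha hZ ⟨b1, mem_cent1.2 (commutatorElement_eq_one_iff_mul_comm.1 b5)⟩ b2).symm

end Loc

/-- The data of `L33` for a fixed element. -/
structure LD (z : G) : Prop where
  ord : orderOf z = 3
  cz : 𝐨(𝐂[z]) = 54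
  cl : ∀ h : G, h ≠ 1 → (∃ k, h ^ 3 ^ k = 1) → IsConj z h ∨ (orderOf h = 3 ∧ 𝐨(𝐂[h]) = 9)
  cnt : ∀ R : Subgroup G, 𝐨(R) = 27 → {h | h ∈ R ∧ IsConj z h}.ncard = 14

namespace LD

variable {z a : G} {R : Subgroup G} (h : LD z)
include h

theorem ord' (ha : IsConj z a) : orderOf a = 3 := by
  obtain ⟨g, rfl⟩ := isConj_iff.1 ha
  exact ((MulAut.conj g).orderOf_eq z).trans h.ord

theorem cz' (ha : IsConj z a) : 𝐨(𝐂[a]) = 54 := by
  obtain ⟨g, rfl⟩ := isConj_iff.1 ha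
  rw [cent1_conj, card_conj, h.cz]

theorem ne (ha : IsConj z a) : a ≠ 1 := by
  rintro rfl
  simpa using h.ord' ha

theorem inv (ha : IsConj z a) : IsConj z a⁻¹ :=
  (h.cl _ (by simpa using h.ne ha) ⟨1, by rw [pow_one, inv_pow, ← h.ord' ha,
    pow_orderOf_eq_one, inv_one]⟩).resolve_right fun c => by
      have := c.2
      rw [cent1_inv, h.cz' ha] at this
      omega

theorem loc (ha : IsConj z a) {X : Subgroup G} (hX : IsPGroup 3 X) (hle : X ≤ 𝐂[a]) :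
    ∃ R, Loc a R ∧ X ≤ R := by
  obtain ⟨R, hR, hXR⟩ := exists_isSyl_ge Nat.prime_three hX hle
  have a1 : 𝐨(R) = 27 := by
    rw [hR.card_eq_pow_factorization Nat.prime_three, h.cz' ha]
    decide +kernel
  have a2 : ∀ k ∈ R, ∃ n, k ^ 3 ^ n = 1 := fun k hk => by
    obtain ⟨n, hn⟩ := hR.pgrp ⟨k, hk⟩
    exact ⟨n, congrArg Subtype.val hn⟩
  refine ⟨R, ⟨h.ord' ha, h.cz' ha, hR.le, a1, ?_, fun k hk k1 => ?_⟩, hXR⟩
  · by_contra c
    push Not at c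
    have b1 : (R : Set G) ⊆ insert 1 {h | h ∈ R ∧ IsConj z h} := fun k hk => by
      by_cases k1 : k = 1
      · exact Or.inl k1
      · exact Or.inr ⟨hk, (h.cl k k1 (a2 k hk)).resolve_right fun d => c k hk d.2⟩
    have b2 := (Set.ncard_le_ncard b1).trans (Set.ncard_insert_le _ _)
    rw [h.cnt R a1] at b2
    change 𝐨(R) ≤ _ at b2
    omega
  · exact (h.cl k k1 (a2 k hk)).elim h.ord' (·.1)

theorem conj_of_mem (hR : Loc z R) (ha : a ∈ R) (hZ : a ∉ zpowers z) (hc : IsConj z a) {u : G}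
    (hu : u ∈ R ⊓ 𝐂[a]) (u1 : u ≠ 1) : IsConj z u := by
  rw [← (hR.A_eq ha hZ).2, sup_comm] at hu
  obtain ⟨q, hq, p, hp, rfl⟩ := (mem_sup_of_norm ((zpowers_le.2 (hR.le ha)).trans
    (cent_zpowers z ▸ cent_le_norm _))).1 hu
  rcases mem_three (h.ord' hc) hp with rfl | rfl | rfl
  · rw [mul_one] at u1 ⊢
    rcases mem_three h.ord hq with rfl | rfl | rfl
    · exact absurd rfl u1
    · exact IsConj.refl _
    · exact h.inv (IsConj.refl _)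
  · obtain ⟨g, -, e⟩ := hR.conj_mul ha hZ hq
    exact hc.trans (isConj_iff.2 ⟨g, e⟩)
  · obtain ⟨g, -, e⟩ := hR.conj_mul (inv_mem ha) (by simpa using hZ) hq
    exact (h.inv hc).trans (isConj_iff.2 ⟨g, e⟩)

theorem orbit {A : Subgroup G} (hA : 𝐨(A) = 9) (hc : ∀ u ∈ A, u ≠ 1 → IsConj z u) {u v : G}
    (hu : u ∈ A) (hv : v ∈ A) (u1 : u ≠ 1) (v1 : v ≠ 1) :
    𝐂[u] ≤ 𝐍(A) ∧ ∃ k ∈ 𝐍(A), k * u * k⁻¹ = v := by
  have : Fact (Nat.Prime 3) := ⟨Nat.prime_three⟩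
  have ab : IsMulCommutative A := IsPGroup.isMulCommutative_of_card_eq_prime_sq (p := 3) hA
  have hz : ∀ w ∈ A, w ≠ 1 → 𝐨(zpowers w) = 3 := fun w hw w1 =>
    (Nat.card_zpowers w).trans (h.ord' (hc w hw w1))
  have hex : ∀ w ∈ A, w ≠ 1 → ∃ t ∈ A, t ∉ zpowers w := fun w hw w1 => by
    by_contra c
    push Not at c
    have := card_le_of_le (show A ≤ zpowers w from c)
    rw [hA, hz w hw w1] at this
    omega
  have hl : ∀ w ∈ A, w ≠ 1 → ∃ R, Loc w R ∧ A ≤ R := fun w hw w1 =>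
    h.loc (hc w hw w1) (isPGroup_of_card_eq (n := 2) hA)
      ((isMulComm_iff_le_cent.1 ab).trans (cent_le_cent1 hw))
  have h1 : ∀ w ∈ A, w ≠ 1 → 𝐂[w] ≤ 𝐍(A) := fun w hw w1 => by
    obtain ⟨R, hR, hAR⟩ := hl w hw w1
    obtain ⟨t, ht, ht'⟩ := hex w hw w1
    rw [hR.A_eq_of_le hA ab hAR ht ht']
    exact hR.cent_le (hAR ht) ht'
  have h2 : ∀ s ∈ A, ∀ t ∈ A, s ≠ 1 → t ∉ zpowers s → ∃ k ∈ 𝐍(A), k * s * k⁻¹ = t := by
    intro s hs t ht s1 ht'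
    have b1 : t * s⁻¹ ∈ A := mul_mem ht (inv_mem hs)
    have b2 : t * s⁻¹ ≠ 1 := fun e => ht' (mul_inv_eq_one.1 e ▸ mem_zpowers s)
    obtain ⟨R, hR, hAR⟩ := hl _ b1 b2
    obtain ⟨g, hg, e⟩ := hR.conj_mul (hAR hs) (fun c => ht' (by
      rw [zpowers_eq_of_card_prime (hR.cZ ▸ Nat.prime_three) c s1]
      simpa using mul_mem (mem_zpowers (t * s⁻¹)) c)) (mem_zpowers _)
    exact ⟨g, h1 _ b1 b2 (hR.le hg), by rw [e]; group⟩
  refine ⟨h1 u hu u1, ?_⟩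
  by_cases c : v ∈ zpowers u
  swap
  · exact h2 u hu v hv u1 c
  obtain ⟨t, ht, ht'⟩ := hex u hu u1
  obtain ⟨k, hk, e1⟩ := h2 u hu t ht u1 ht'
  obtain ⟨l, hl, e2⟩ := h2 v hv t ht v1 (by
    rwa [zpowers_eq_of_card_prime (hz u hu u1 ▸ Nat.prime_three) c v1])
  exact ⟨l⁻¹ * k, mul_mem (inv_mem hl) hk, by
    calc _ = l⁻¹ * (k * u * k⁻¹) * l := by group
      _ = v := by rw [e1, ← e2]; group⟩

omit h in
theorem ncard_sharp (A : Subgroup G) : {u | u ∈ A ∧ u ≠ 1}.ncard + 1 = 𝐨(A) :=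
  Set.ncard_sdiff_singleton_add_one A.one_mem

theorem card_norm {A : Subgroup G} (hA : 𝐨(A) = 9) (hc : ∀ u ∈ A, u ≠ 1 → IsConj z u)
    (hz : z ∈ A) : 𝐨(𝐍(A)) = 432 := by
  have z1 := h.ne (IsConj.refl z)
  have a1 := ncard_sharp A
  rw [card_eq_mul_conj 𝐍(A) z (S := {u | u ∈ A ∧ u ≠ 1}) fun y =>
    ⟨fun hy => (h.orbit hA hc hz hy.1 z1 hy.2).2, by
      rintro ⟨k, hk, rfl⟩
      exact ⟨(mem_normalizer_iff.1 hk z).1 hz, by simpa using z1⟩⟩,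
    inf_eq_right.2 (h.orbit hA hc hz hz z1 z1).1, h.cz]
  omega

theorem exists_pair : ∃ M M' : Subgroup G, 𝐨(M) = 432 ∧ 𝐨(M') = 432 ∧ 𝐨(M' ⊓ M) = 108 := by
  have z0 := IsConj.refl z
  have z1 := h.ne z0
  obtain ⟨R, hR, -⟩ := h.loc z0 (X := ⊥) IsPGroup.of_bot bot_le
  have hS := h.cnt R hR.cR
  have ex : ∀ X : Subgroup G, 𝐨(X) ≤ 9 → ∃ a, (a ∈ R ∧ IsConj z a) ∧ a ∉ X := fun X hX => by
    by_contra c
    push Not at c
    have := Set.ncard_le_ncard (show {h | h ∈ R ∧ IsConj z h} ⊆ (X : Set G) from c)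
    change _ ≤ 𝐨(X) at this
    omega
  obtain ⟨a, ⟨ha, ca⟩, hZ⟩ := ex (zpowers z) (by rw [hR.cZ]; decide)
  obtain ⟨b, ⟨hb, cb⟩, hb'⟩ := ex (R ⊓ 𝐂[a]) (hR.A_eq ha hZ).1.le
  have hZ' : b ∉ zpowers z := fun c => hb' (hR.Z_le_A ha c)
  set A := R ⊓ 𝐂[a] with hA
  set B := R ⊓ 𝐂[b] with hB
  have A9 : 𝐨(A) = 9 := (hR.A_eq ha hZ).1
  have B9 : 𝐨(B) = 9 := (hR.A_eq hb hZ').1
  have Ac : ∀ u ∈ A, u ≠ 1 → IsConj z u := fun u => h.conj_of_mem hR ha hZ ca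
  have Bc : ∀ u ∈ B, u ≠ 1 → IsConj z u := fun u => h.conj_of_mem hR hb hZ' cb
  have zA : z ∈ A := hR.Z_le_A ha (mem_zpowers z)
  have zB : z ∈ B := hR.Z_le_A hb (mem_zpowers z)
  have AB : A ⊓ B = zpowers z := le_antisymm (fun u hu => by
    by_contra c
    apply hb'
    rw [hA, hR.A_eq_of_mem ha hZ hu.1 c, ← hR.A_eq_of_mem hb hZ' hu.2 c]
    exact ⟨hb, self_mem_cent1 b⟩) (le_inf (hR.Z_le_A ha) (hR.Z_le_A hb))
  have cov : {u | u ∈ A ∧ u ≠ 1} ∪ {u | u ∈ B ∧ u ≠ 1} = {h | h ∈ R ∧ IsConj z h} := by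
    refine Set.eq_of_subset_of_ncard_le ?_ ?_
    · rintro u (hu | hu)
      · exact ⟨hu.1.1, Ac u hu.1 hu.2⟩
      · exact ⟨hu.1.1, Bc u hu.1 hu.2⟩
    · have b1 := Set.ncard_inter_add_ncard_union {u | u ∈ A ∧ u ≠ 1} {u | u ∈ B ∧ u ≠ 1}
      have b2 : {u | u ∈ A ∧ u ≠ 1} ∩ {u | u ∈ B ∧ u ≠ 1} = {u | u ∈ A ⊓ B ∧ u ≠ 1} := by
        ext u; simp only [Set.mem_inter_iff, Set.mem_ofPred_eq, mem_inf]; tauto
      have b3 := ncard_sharp A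
      have b4 := ncard_sharp B
      have b5 := ncard_sharp (A ⊓ B)
      rw [← b2, AB, hR.cZ] at b5
      omega
  refine ⟨𝐍(A), 𝐍(B), h.card_norm A9 Ac zA, h.card_norm B9 Bc zB, ?_⟩
  have zi : z ≠ z⁻¹ := fun e => by
    have := orderOf_dvd_of_pow_eq_one (show z ^ 2 = 1 by rw [sq, mul_eq_one_iff_eq_inv]; exact e)
    rw [h.ord] at this
    omega
  rw [card_eq_mul_conj (𝐍(B) ⊓ 𝐍(A)) z (S := {z, z⁻¹}) fun y => ⟨?_, ?_⟩,
    inf_eq_right.2 (le_inf (hR.cent_le hb hZ') (hR.cent_le ha hZ)), h.cz, Set.ncard_pair zi]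
  · rintro (rfl | rfl)
    · exact ⟨1, one_mem _, by simp⟩
    obtain ⟨w, hw, e⟩ := (h.orbit A9 Ac zA (inv_mem zA) z1 (by simpa using z1)).2
    have w1 : w ∈ 𝐍(R) := mem_norm_of_conj_le (hR.le_of ((isPGroup_map_iff (conj_injective w)).2 hR.pg)
      ((conj_mono hR.le w).trans (by rw [← cent1_conj, e, cent1_inv])))
    have w2 : w * b * w⁻¹ ∉ A := fun c => hb' ((mem_normalizer_iff.1 hw b).2 c)
    have w3 : w * b * w⁻¹ ∈ {h | h ∈ R ∧ IsConj z h} :=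
      ⟨(mem_normalizer_iff.1 w1 b).1 hb, cb.trans (isConj_iff.2 ⟨w, rfl⟩)⟩
    rw [← cov] at w3
    refine ⟨w, ⟨?_, hw⟩, e⟩
    change w ∈ 𝐍(B)
    rw [← conj_eq_self_iff, hB, hR.conj_A w1]
    exact (hR.A_eq_of_mem hb hZ' (w3.resolve_left fun c => w2 c.1).1
      fun c => w2 (hR.Z_le_A ha c)).symm
  · rintro ⟨k, hk, rfl⟩
    exact (mem_three h.ord (AB ▸ ⟨(mem_normalizer_iff.1 hk.2 z).1 zA,
      (mem_normalizer_iff.1 hk.1 z).1 zB⟩)).resolve_left (by simpa using z1)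

end LD

end Cfsg.Agent.P12
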