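/-
P12, chapter REC: recognition of `PSL(3,3)`.
-/
import Cfsg.Agent.P12.Rec2
import Cfsg.Agent.H8.PrimeDegree

set_option autoImplicit false
set_option linter.unusedSectionVars false

namespace Cfsg.Agent.P12

open Subgroup Cfsg Cfsg.Agent Cfsg.Agent.FT MulAction

universe u

theorem exists_scale (T : Finset (ZMod 13)) (h4 : T.card = 4) (h : ∀ i ∈ T, 3 * i ∈ T) :
    ∃ c, c ≠ 0 ∧ ∀ i, c * i ∈ T ↔ PG.D i := by
  obtain ⟨c, hc, c0⟩ := Finset.exists_mem_ne (show 1 < T.card by omega) 0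
  obtain ⟨d, h1, rfl⟩ := (Finset.exists_eq_insert_iff (s := {c, 3 * c, 3 * (3 * c)}) (t := T)).2
    ⟨by simp only [Finset.insert_subset_iff, Finset.singleton_subset_iff]
        exact ⟨hc, h c hc, h _ (h c hc)⟩, by
      rw [h4]; revert c0; generalize c = c; revert c; decide⟩
  refine ⟨c, c0, ?_⟩
  have h2 := h d (Finset.mem_insert_self _ _)
  revert c0 h1 h2
  clear h4 h hc
  revert c d
  decide +kernel

theorem cube_root : ∀ r : ZMod 13, r ≠ 1 → r * (r * (r * 1)) = 1 → r = 3 ∨ r = 9 := by decide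

theorem nine_nine : (9 * 9 : ZMod 13) = 3 := by decide

variable {G : Type u} [Group G] [Finite G]

theorem moves {x : G} (hx : orderOf x = 13) {M : Subgroup G} (hM : 𝐨(M) = 432) (a : G ⧸ M) :
    x • a ≠ a := fun h => by
  obtain ⟨g, rfl⟩ := QuotientGroup.mk_surjective a
  have h1 : g⁻¹ * x * g⁻¹⁻¹ ∈ M := by simpa [mul_assoc] using QuotientGroup.eq.1 h.symm
  have h2 := orderOf_dvd_card_of_mem h1
  rw [show orderOf (g⁻¹ * x * g⁻¹⁻¹) = 13 from ((MulAut.conj g⁻¹).orderOf_eq x).trans hx, hM] at h2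
  omega

theorem exists_fixed {k : G} (hk : orderOf k = 3) {Ω : Type*} [MulAction G Ω]
    (h : Nat.card Ω = 13) : ∃ a : Ω, k • a = a := by
  have : Fact (Nat.Prime 3) := ⟨Nat.prime_three⟩
  obtain ⟨a, ha⟩ := (isPGroup_of_card_prime ((Nat.card_zpowers k).trans hk)
    ).nonempty_fixed_point_of_prime_not_dvd_card Ω (by rw [h]; decide)
  exact ⟨a, ha ⟨k, mem_zpowers k⟩⟩

theorem recStmt : RecStmt.{u} := by
  classical
  rintro G _ _ P t h hC ⟨hG, z, z1, z2, z3, z4⟩
  have : Fact (Nat.Prime 13) := ⟨h.hp⟩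
  obtain ⟨M, M', hM, hM', hMM⟩ := LD.exists_pair ⟨z1, z2, z3, z4⟩
  have idx : ∀ K : Subgroup G, 𝐨(K) = 432 → K.index = 13 := fun K hK => by
    have := K.card_mul_index
    rw [hK, hG] at this
    omega
  set B : Set (G ⧸ M) := {y | ∃ k ∈ M', k • ((1 : G) : G ⧸ M) = y}
  have hB : B.ncard = 4 := by
    have a1 := P10K.index_inf_stab M' ((1 : G) : G ⧸ M) (S := B) fun _ => Iff.rfl
    have a2 := (M' ⊓ M).card_mul_index
    rw [stabilizer_quotient, idx M' hM'] at a1
    rw [hMM, hG, a1] at a2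
    omega
  have hBM : ∀ k ∈ M', ∀ y ∈ B, k • y ∈ B := by
    rintro k hk _ ⟨l, hl, rfl⟩
    exact ⟨k * l, mul_mem hk hl, mul_smul _ _ _⟩
  obtain ⟨x, rfl⟩ := isCyclic_iff_zpowers.1 (isCyclic_of_card_prime (h.hP ▸ h.hp))
  have hx : orderOf x = 13 := (Nat.card_zpowers x).symm.trans h.hP
  obtain ⟨k, hk, k3⟩ := exists_mem_orderOf_eq_prime Nat.prime_three
    (show 3 ∣ 𝐨(𝐍(zpowers x)) by rw [h.card_N hC]; decide)
  obtain ⟨m, hm⟩ := mem_powers_iff_mem_zpowers.2 ((mem_normalizer_iff.1 hk x).1 (mem_zpowers x))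
  simp only at hm
  have hpow : ∀ a b : ℕ, x ^ a = x ^ b ↔ (a : ZMod 13) = b := fun a b => by
    rw [pow_eq_pow_iff_modEq, hx, ZMod.natCast_eq_natCast_iff]
  have hkx : ∀ a : ℕ, k * x ^ a = x ^ (m * a) * k := fun a => by
    rw [pow_mul, hm, conj_pow, inv_mul_cancel_right]
  have m1 : (m : ZMod 13) = 3 ∨ (m : ZMod 13) = 9 := by
    have a1 : (m : ZMod 13) ≠ 1 := fun e => by
      have b1 : x ^ m = x ^ 1 := (hpow m 1).2 (by simpa using e)
      have b2 : k ∈ zpowers x := by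
        rw [← hC, cent_zpowers, mem_cent1_iff_conj, ← hm, b1, pow_one]
      have := orderOf_dvd_card_of_mem b2
      rw [k3, h.hP] at this
      omega
    have a2 : x ^ (m * (m * (m * 1))) = x ^ 1 := by
      have b1 : k * (k * k) = 1 := by rw [← pow_three, ← k3, pow_orderOf_eq_one]
      calc _ = x ^ (m * (m * (m * 1))) * k * (k * k) := by rw [mul_assoc _ k, b1, mul_one (x ^ _)]
        _ = k * (k * (k * x ^ 1)) := by
          rw [← hkx, mul_assoc k, ← mul_assoc _ k k, ← hkx, mul_assoc k _ k, ← hkx]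
        _ = k * (k * k) * x ^ 1 := by simp only [mul_assoc]
        _ = _ := by rw [b1, one_mul]
    rw [hpow] at a2
    push_cast at a2
    exact cube_root _ a1 a2
  obtain ⟨o, ho⟩ := exists_fixed k3 (Ω := G ⧸ M) (idx M hM)
  obtain ⟨q, hq⟩ := exists_fixed k3 (Ω := G ⧸ M') (idx M' hM')
  obtain ⟨g, rfl⟩ := QuotientGroup.mk_surjective q
  have key : ∀ a b : G, a • (g : G ⧸ M') = b • (g : G ⧸ M') → ∀ y, (a * g)⁻¹ • y ∈ B →
      (b * g)⁻¹ • y ∈ B := fun a b e y hy => by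
    have := hBM ((b * g)⁻¹ * (a * g)) (QuotientGroup.eq.1 e.symm) _ hy
    rwa [mul_smul, smul_inv_smul] at this
  let f : ZMod 13 → G ⧸ M := fun i => x ^ i.val • o
  have hf : Function.Bijective f := (Nat.bijective_iff_surjective_and_card f).2 ⟨fun y => by
    obtain ⟨i, hi⟩ := H8.exists_pow_smul_eq_of_prime (idx M hM) hx ⟨o, moves hx hM o⟩ o y
    exact ⟨i, by rw [← hi]; exact congrArg (· • o) ((hpow _ _).2 (by simp))⟩,
    by rw [Nat.card_zmod]; exact (idx M hM).symm⟩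
  have f1 : ∀ (a : ℕ) i, x ^ a • f i = f (a + i) := fun a i => by
    simp only [f]
    rw [← mul_smul, ← pow_add, (hpow _ (a + i : ZMod 13).val).2 (by simp)]
  have f2 : ∀ i, k • f i = f (m * i) := fun i => by
    simp only [f]
    rw [← mul_smul, hkx, mul_smul, ho, (hpow _ (m * i : ZMod 13).val).2 (by simp)]
  obtain ⟨c, c0, hc⟩ := exists_scale (Finset.univ.filter fun i => g⁻¹ • f i ∈ B) (by
      rw [← hB, ← Set.ncard_coe_finset]
      refine Set.ncard_congr (fun i _ => g⁻¹ • f i) (by simp) (fun a b _ _ e => hf.1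
        (MulAction.injective _ e)) fun y hy => ?_
      obtain ⟨i, hi⟩ := hf.2 (g • y)
      exact ⟨i, by simpa [hi] using hy, by simp [hi]⟩)
    (by
      have a1 : ∀ i, g⁻¹ • f i ∈ B → g⁻¹ • f (m * i) ∈ B := fun i hi => by
        simpa [f2] using key k 1 (by rw [hq, one_smul]) (k • f i) (by simpa [mul_smul] using hi)
      simp only [Finset.mem_filter, Finset.mem_univ, true_and]
      intro i hi
      rcases m1 with e | e
      · exact e ▸ a1 i hi
      · have := a1 _ (a1 i hi)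
        rwa [e, ← mul_assoc, nine_nine] at this)
  simp only [Finset.mem_filter, Finset.mem_univ, true_and] at hc
  have hD : ∀ (a : ℕ) (i j : ZMod 13), c * j = a → (PG.D (i - j) ↔ (x ^ a * g)⁻¹ • f (c * i) ∈ B) := by
    intro a i j e
    rw [← hc, mul_inv_rev, mul_smul, show c * i = a + c * (i - j) by rw [← e]; ring, ← f1,
      inv_smul_smul]
  let e : ZMod 13 ≃ G ⧸ M := (Equiv.mulLeft₀ c c0).trans (Equiv.ofBijective f hf)
  have e1 : ∀ i, e i = f (c * i) := fun _ => rfl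
  let _ : MulAction G (ZMod 13) := e.mulAction G
  have he : ∀ (s : G) (i : ZMod 13), e (s • i) = s • e i := fun s i => e.apply_symm_apply _
  refine PG.equiv (MulAction.toPermHom G (ZMod 13)) ?_ hG ?_
  · rw [← MonoidHom.ker_eq_bot_iff]
    refine (h.simple.eq_bot_or_eq_top_of_normal _ inferInstance).resolve_right fun c => ?_
    have a1 : MulAction.toPermHom G (ZMod 13) x = 1 := MonoidHom.mem_ker.1 (c ▸ mem_top x)
    refine moves hx hM (e 0) ?_
    rw [← he]
    exact congrArg e (congrArg (· 0) a1)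
  · rintro s a b d ⟨j, h1, h2, h3⟩
    obtain ⟨n, hn⟩ := H8.exists_pow_smul_eq_of_prime (idx M' hM') hx
      ⟨(g : G ⧸ M'), moves hx hM' _⟩ g ((s * x ^ (c * j).val) • (g : G ⧸ M'))
    have a1 : ∀ i, PG.D (i - j) → PG.D (s • i - c⁻¹ * n) := fun i hi => by
      rw [hD n _ _ (mul_inv_cancel_left₀ c0 _), ← e1, he]
      refine key _ _ hn.symm _ ?_
      rw [hD (c * j).val _ _ (by simp), ← e1] at hi
      simpa [mul_smul] using hi
    exact ⟨c⁻¹ * n, a1 a h1, a1 b h2, a1 d h3⟩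

end Cfsg.Agent.P12
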